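import Mathlib
import Cfsg.Agent.Loc.MssSyl
import Cfsg.Agent.Loc.CubicS4
import Cfsg.Agent.GT.PPrimeCore
import Cfsg.Agent.S2772

/-! Extensions of an elementary abelian 2-group by a dihedral group of twice odd order. -/

set_option autoImplicit false

namespace Cfsg.Agent.Loc.DihExt

open Cfsg Subgroup Cfsg.Agent.Loc.Mss Cfsg.Agent.GT
open scoped commutatorElement

variable {L : Type*} [Group L]

structure DQ (Q : Subgroup L) (a τ : L) (n : ℕ) : Prop where
  normal : Q.Normal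
  sq : ∀ q ∈ Q, q * q = 1
  odd : Odd n
  pow : a ^ n ∈ Q
  inv : τ * a * τ⁻¹ * a ∈ Q
  two : τ * τ = 1
  gen : ∀ g, ∃ i : ℕ, ∃ q ∈ Q, g = q * a ^ i ∨ g = q * a ^ i * τ

theorem pow_gcd_mem {C : Subgroup L} {x : L} {m n : ℕ} (h1 : x ^ m ∈ C) (h2 : x ^ n ∈ C) :
    x ^ Nat.gcd m n ∈ C := by
  rw [← zpow_natCast, Nat.gcd_eq_gcd_ab, zpow_add, zpow_mul, zpow_mul, zpow_natCast, zpow_natCast]
  exact mul_mem (zpow_mem h1 _) (zpow_mem h2 _)

variable {Q : Subgroup L} {a τ : L} {n : ℕ}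

theorem DQ.map {K : Type*} [Group K] (h : DQ Q a τ n) (π : L →* K) (hπ : Function.Surjective π) :
    DQ (Q.map π) (π a) (π τ) n where
  normal := h.normal.map π hπ
  sq := by rintro _ ⟨q, hq, rfl⟩; rw [← map_mul, h.sq q hq, map_one]
  odd := h.odd
  pow := ⟨_, h.pow, map_pow _ _ _⟩
  inv := ⟨_, h.inv, by simp⟩
  two := by rw [← map_mul, h.two, map_one]
  gen g := by
    obtain ⟨g, rfl⟩ := hπ g
    obtain ⟨i, q, hq, e⟩ := h.gen g
    exact ⟨i, π q, ⟨q, hq, rfl⟩, e.imp (fun e => by simp [e]) fun e => by simp [e]⟩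

theorem DQ.pg (h : DQ Q a τ n) : IsPGroup 2 Q :=
  pg_iff.2 fun x hx => ⟨1, by rw [pow_one, pow_two, h.sq x hx]⟩

theorem DQ.inv_eq (h : DQ Q a τ n) {q : L} (hq : q ∈ Q) : q⁻¹ = q :=
  inv_eq_of_mul_eq_one_right (h.sq q hq)

theorem DQ.comm (h : DQ Q a τ n) : Q ≤ 𝐂[Q] := fun x hx => mem_cent.2 fun y hy => by
  have := h.inv_eq (mul_mem hx hy)
  rw [mul_inv_rev, h.inv_eq hx, h.inv_eq hy] at this
  exact this

theorem DQ.inv_pow (h : DQ Q a τ n) (j : ℕ) : τ * a ^ j * τ⁻¹ * a ^ j ∈ Q := by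
  have := h.normal
  have e : (QuotientGroup.mk' Q) (τ * a * τ⁻¹) = ((QuotientGroup.mk' Q) a)⁻¹ :=
    eq_inv_of_mul_eq_one_left (by rw [← map_mul]; exact (QuotientGroup.eq_one_iff _).2 h.inv)
  refine (QuotientGroup.eq_one_iff _).1 ?_
  change (QuotientGroup.mk' Q) _ = 1
  rw [← conj_pow, map_mul, map_pow, e, map_pow, _root_.inv_pow, inv_mul_cancel]

/-- a normal subgroup containing `Q` and a reflection contains `a ^ 2` -/
theorem DQ.sq_mem (h : DQ Q a τ n) {N : Subgroup L} (hN : N.Normal) (hQ : Q ≤ N) {i : ℕ}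
    (hi : a ^ i * τ ∈ N) : a ^ 2 ∈ N := by
  have h1 := mul_mem (inv_mem (hN.conj_mem' _ (hN.conj_mem _ (hQ h.inv) (a ^ i)) a))
    (mul_mem (hN.conj_mem' _ hi a) (inv_mem hi))
  rw [← inv_mem_iff]
  convert h1 using 1
  group

theorem DQ.mem_of_cent [Finite L] (h : DQ Q a τ n) (hO : oddCore L = ⊥) {j : ℕ}
    (hj : a ^ j ∈ 𝐂[Q]) : a ^ j ∈ Q := by
  obtain ⟨s, hs⟩ := exists_pow_coprime (p := 2) (a ^ j)
  set e := (a ^ j) ^ 2 ^ (s + 1) with he
  have e1 : τ * e * τ⁻¹ = e⁻¹ := by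
    have k1 := h.inv_pow j
    have k2 : Commute (τ * a ^ j * τ⁻¹ * a ^ j) (a ^ j)⁻¹ := Commute.inv_right (mem_cent.1 hj _ k1)
    rw [he, ← conj_pow, ← mul_inv_cancel_right (τ * a ^ j * τ⁻¹) (a ^ j), k2.mul_pow, pow_succ' 2,
      pow_mul, pow_two, h.sq _ k1, one_pow, one_mul, _root_.inv_pow]
  have n1 : (zpowers e).Normal := normal_of_top fun g _ => by
    obtain ⟨i, q, hq, e2⟩ := h.gen g
    have b1 : q ∈ 𝐍[zpowers e] := cent_le_norm _ (cent_comm (zpowers_le.2 (pow_mem hj _)) hq)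
    have b2 : a ^ i ∈ 𝐍[zpowers e] := pow_mem (cent_le_norm _ (cent_comm (zpowers_le.2
      (pow_mem (pow_mem (mem_cent.2 (by rintro _ ⟨k, rfl⟩; exact (Commute.refl a).zpow_left k)) _)
        _)) (mem_zpowers a))) i
    have b3 : τ ∈ 𝐍[zpowers e] := mem_norm_of_cj_le (by
      rw [MonoidHom.map_zpowers, zpowers_le]
      exact (show τ * e * τ⁻¹ ∈ _ from e1 ▸ inv_mem (mem_zpowers _)))
    rcases e2 with rfl | rfl
    · exact mul_mem b1 b2
    · exact mul_mem (mul_mem b1 b2) b3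
  have e3 : e ∈ Q := by
    have : zpowers e ≤ oddCore L := le_oddCore (by
      rw [Nat.card_zpowers, he, pow_succ, pow_mul]
      exact Odd.of_dvd_nat (Nat.coprime_two_right.1 hs) (orderOf_pow_dvd 2))
    rw [hO] at this
    exact (mem_bot.1 (this (mem_zpowers e))) ▸ one_mem _
  have := pow_gcd_mem e3 (show (a ^ j) ^ n ∈ Q by rw [← pow_mul, mul_comm, pow_mul]; exact pow_mem h.pow j)
  rwa [Nat.Coprime.gcd_eq_one ((Nat.coprime_two_left.2 h.odd).pow_left _), pow_one] at this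

theorem DQ.klein [Finite L] (h : DQ Q a τ n) (hO : oddCore L = ⊥) (hc : Nat.card Q = 2)
    (hZ : Q ≤ center L) (hτ : τ ∉ Q) :
    Nonempty (L ≃* Multiplicative (ZMod 2) × Multiplicative (ZMod 2)) := by
  have ha : a ∈ Q := by
    simpa using h.mem_of_cent hO (j := 1) (mem_cent.2 fun q hq => (mem_center_iff.1 (hZ hq) _).symm)
  have k : ∀ g, g ∈ Q ∨ g * τ ∈ Q := fun g => by
    obtain ⟨i, q, hq, rfl | rfl⟩ := h.gen g
    · exact Or.inl (mul_mem hq (pow_mem ha i))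
    · exact Or.inr (by rw [mul_assoc, h.two, mul_one]; exact mul_mem hq (pow_mem ha i))
  have i2 : Q.index = 2 := index_eq_two_iff.2 ⟨τ, fun g => by
    rcases k g with h1 | h1
    · exact Or.inr ⟨h1, fun h2 => hτ ((mul_mem_cancel_left h1).1 h2)⟩
    · exact Or.inl ⟨h1, fun h2 => hτ ((mul_mem_cancel_left h2).1 h1)⟩⟩
  have c4 : Nat.card L = 4 := by rw [← Q.card_mul_index, hc, i2]
  have : Nontrivial L := Finite.one_lt_card_iff_nontrivial.1 (by omega)
  have : IsKleinFour L := ⟨c4, (Monoid.exponent_eq_prime_iff Nat.prime_two).2 fun g hg =>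
    orderOf_eq_prime (by
      rcases k g with h1 | h1
      · rw [pow_two, h.sq g h1]
      · have := h.sq _ h1
        rwa [mul_assoc, mem_center_iff.1 (hZ h1) τ, mul_assoc g τ τ, h.two, mul_one,
          ← pow_two] at this) hg⟩
  have : IsKleinFour (Multiplicative (ZMod 2) × Multiplicative (ZMod 2)) :=
    ⟨by simp, (Monoid.exponent_eq_prime_iff Nat.prime_two).2 fun g hg =>
      orderOf_eq_prime (by revert g; decide) hg⟩
  exact IsKleinFour.nonempty_mulEquiv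

theorem DQ.four [Finite L] (h : DQ Q a τ n) (hO : oddCore L = ⊥) {W : Subgroup L} (hW : W ≤ Q)
    (hWc : W ≤ center L) (hc : Nat.card Q = 4 * Nat.card W) (hZ : ∀ q ∈ Q, q ∈ center L → q ∈ W)
    (ha : a ∉ 𝐂[Q])
    (hτ : ∀ q ∈ Q, ∀ q' ∈ Q, ¬ Commute q τ → ¬ Commute q' τ → Commute (q * q') τ)
    (cW : Nat.card W = 1 ∨ Nat.card W = 2) :
    Nonempty (L ≃* Equiv.Perm (Fin 4)) ∨
      Nonempty (L ≃* Equiv.Perm (Fin 4) × Multiplicative (ZMod 2)) := by
  have := h.normal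
  have i4 : W.relIndex Q = 4 := by
    have := card_mul_index (W.subgroupOf Q)
    rw [Nat.card_congr (subgroupOfEquivOfLe hW).toEquiv, hc, mul_comm] at this
    exact Nat.eq_of_mul_eq_mul_right Nat.card_pos this
  have a3 : a ^ 3 ∈ 𝐂[Q] := by
    have h1 : a ^ 24 ∈ 𝐂[Q] := mem_cent.2 fun v hv => (S2772.pow_comm_of_index i4.le
      (fun w hw => h.sq w (hW hw)) (le_normalizer_of_normal (mem_top a))
      (fun w hw => mem_center_iff.1 (hWc hw) a) hv).symm
    have h2 := pow_gcd_mem h1 (h.comm h.pow)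
    obtain ⟨m, hm⟩ : Nat.gcd 24 n ∣ 3 := (Nat.Coprime.pow_right 3 (Nat.coprime_two_right.2
      (Odd.of_dvd_nat h.odd (Nat.gcd_dvd_right 24 n)))).dvd_of_dvd_mul_left (Nat.gcd_dvd_left 24 n)
    rw [hm, pow_mul]
    exact pow_mem h2 m
  have a2 : ∀ N : Subgroup L, 𝐂[Q] ≤ N → a ^ 2 ∈ N → a ∈ N := fun N h1 h2 => by
    simpa using pow_gcd_mem h2 (h1 a3)
  have cQ : 𝐂[Q] ≤ Q := fun g hg => by
    obtain ⟨i, q, hq, rfl | rfl⟩ := h.gen g
    · exact mul_mem hq (h.mem_of_cent hO ((mul_mem_cancel_left (h.comm hq)).1 hg))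
    · rw [mul_assoc, mul_mem_cancel_left (h.comm hq)] at hg
      exact absurd (a2 _ le_rfl (h.sq_mem inferInstance h.comm hg)) ha
  have tQ : τ ∉ Q := fun h' => ha (a2 _ le_rfl (h.sq_mem (i := 0) inferInstance h.comm
    (by simpa using h.comm h')))
  have i6 : Q.index = 6 := by
    let π := QuotientGroup.mk' Q
    have o3 : orderOf (π a) = 3 := orderOf_eq_prime (by
      rw [← map_pow]; exact (QuotientGroup.eq_one_iff _).2 (cQ a3))
      fun e => ha (h.comm ((QuotientGroup.eq_one_iff _).1 e))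
    have o2 : orderOf (π τ) = 2 := orderOf_eq_prime (by rw [← map_pow, pow_two, h.two, map_one])
      fun e => tQ ((QuotientGroup.eq_one_iff _).1 e)
    have d : 2 * 3 ∣ Nat.card (L ⧸ Q) := Nat.Coprime.mul_dvd_of_dvd_of_dvd (by decide)
      (o2 ▸ orderOf_dvd_natCard _) (o3 ▸ orderOf_dvd_natCard _)
    have l : Nat.card (L ⧸ Q) ≤ Nat.card (Fin 3 × Fin 2) := by
      refine Nat.card_le_card_of_surjective (fun x => π a ^ (x.1 : ℕ) * π τ ^ (x.2 : ℕ)) fun g => ?_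
      obtain ⟨g, rfl⟩ := QuotientGroup.mk'_surjective Q g
      obtain ⟨i, q, hq, e⟩ := h.gen g
      have e1 : π q = 1 := (QuotientGroup.eq_one_iff _).2 hq
      have e2 : π a ^ (i % 3) = π a ^ i := o3 ▸ pow_mod_orderOf _ _
      rcases e with rfl | rfl
      · exact ⟨(⟨i % 3, by omega⟩, 0), by
          change _ = π _; simp only [map_mul, map_pow, e1, e2]; simp⟩
      · exact ⟨(⟨i % 3, by omega⟩, 1), by
          change _ = π _; simp only [map_mul, map_pow, e1, e2]; simp⟩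
    have l2 : 0 < Nat.card (L ⧸ Q) := Nat.card_pos
    rw [Nat.card_prod, Nat.card_fin, Nat.card_fin] at l
    have := Nat.le_of_dvd l2 d
    rw [index]; omega
  have cL := Q.card_mul_index
  have hZ' : ∀ c ∈ center L, c ∈ W := fun c hc =>
    hZ c (cQ (mem_cent.2 fun q _ => mem_center_iff.1 hc q)) hc
  rcases cW with cW | cW
  · obtain ⟨φ⟩ := Cub.perm_four_of Q h.pg cQ ⊤ (by rw [card_top, ← cL, hc, cW, i6])
      (fun g => ⟨g, mem_top g, by simp⟩)
      fun z _ hz => (eq_bot_iff_forall _).1 (card_eq_one.1 cW) z (hZ' z hz)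
    exact Or.inl ⟨topEquiv.symm.trans φ⟩
  obtain ⟨z, hz1, hz⟩ := (Nat.card_eq_two_iff' (1 : W)).1 cW
  have hz' : ∀ w ∈ W, w = 1 ∨ w = z := fun w hw => (em (w = 1)).imp_right fun e =>
    congrArg Subtype.val (hz ⟨w, hw⟩ fun e' => e (congrArg Subtype.val e'))
  obtain ⟨u, hu, hu'⟩ : ∃ u ∈ Q, ¬ Commute u τ := by
    by_contra hne
    push Not at hne
    exact tQ (cQ (mem_cent.2 hne))
  have et : τ⁻¹ = τ := inv_eq_of_mul_eq_one_right h.two
  have k : ∀ q ∈ Q, q * τ * (q * τ) = 1 ∨ q * τ * (q * τ) = u * τ * (u * τ) := fun q hq => by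
    by_cases hc : Commute q τ
    · exact Or.inl (by rw [mul_assoc, ← mul_assoc τ, ← hc.eq, mul_assoc q τ τ, h.two, mul_one,
        h.sq q hq])
    · have e1 := (hτ q hq u hu hc hu').eq
      have e2 := mem_cent.1 (h.comm hu) _ (h.normal.conj_mem _ hu τ)
      have e3 := mem_cent.1 (h.comm hu) _ hq
      right
      calc q * τ * (q * τ) = q * (τ * (q * u)) * (u⁻¹ * τ) := by group
        _ = (q * q) * (u * τ * (u * τ)) := by rw [← e1, h.inv_eq hu]; group
        _ = _ := by rw [h.sq q hq, one_mul]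
  have mS : ∀ s ∈ Q ⊔ zpowers τ, s ∈ Q ∨ ∃ q ∈ Q, s = q * τ := fun s hs => by
    obtain ⟨q, hq, _, ⟨j, rfl⟩, rfl⟩ := (mem_sup_norm le_normalizer_of_normal).1 hs
    rcases Int.even_or_odd' j with ⟨m, rfl | rfl⟩
    · left; simp only [zpow_mul, zpow_two, h.two, one_zpow, mul_one, hq]
    · right; exact ⟨q, hq, by simp only [zpow_add, zpow_mul, zpow_two, h.two, one_zpow, one_mul,
        zpow_one]⟩
  have iS : (Q ⊔ zpowers τ).index = 3 := by
    have := relIndex_mul_index (le_sup_left : Q ≤ Q ⊔ zpowers τ)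
    rw [Cub.relIndex_eq_two_of (mem_sup_right (mem_zpowers τ)) tQ fun x hx y hy h1 h2 => by
      obtain ⟨q, hq, rfl⟩ := (mS x hx).resolve_left h1
      obtain ⟨q', hq', rfl⟩ := (mS y hy).resolve_left h2
      simpa only [et, mul_assoc] using mul_mem hq (h.normal.conj_mem _ hq' τ)] at this
    omega
  have rQ : u * τ * (u * τ) ∈ Q := by
    simpa only [et, mul_assoc] using mul_mem hu (h.normal.conj_mem _ hu τ)
  obtain ⟨ψ, hψ⟩ := Cub.exists_hom_two (Q ⊔ zpowers τ) (pg_sup' h.pg (pg_iff.2 (by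
      rintro _ ⟨j, rfl⟩
      exact ⟨1, by rw [pow_one, ← zpow_natCast, ← zpow_mul, mul_comm, zpow_mul, zpow_natCast,
        pow_two, h.two, one_zpow]⟩)) le_normalizer_of_normal) iS (z := z) (r := u * τ * (u * τ))
    (hWc z.2) (mem_sup_left (hW z.2)) (h.sq _ (hW z.2)) (fun e => hz1 (Subtype.ext e)) (fun e => by
      have nW : W.Normal := ⟨fun w hw g => by
        rwa [mem_center_iff.1 (hWc hw) g, mul_inv_cancel_right]⟩
      have b1 : 𝐂[Q] ≤ cmod Q W := le_cmod.2 ⟨le_normalizer_of_normal,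
        (comm_eq_bot_iff'.2 le_rfl).le.trans bot_le⟩
      have b2 : τ ∈ cmod Q W := mem_cmod.2 ⟨le_normalizer_of_normal (mem_top _), fun v hv => by
        rw [commutatorElement_def, et, h.inv_eq hv, mul_assoc]
        rcases k v hv with e1 | e1 <;> rw [e1]
        · exact one_mem _
        · exact e ▸ z.2⟩
      have b3 := a2 _ b1 (h.sq_mem (i := 0) (normal_of_top (norm_cmod le_normalizer_of_normal
        le_normalizer_of_normal)) (h.comm.trans b1) (by simpa using b2))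
      refine ha (a2 _ le_rfl (mem_cent.2 fun v hv => ?_))
      have b4 := (mem_cmod.1 b3).2 v hv
      have b5 := mem_center_iff.1 (hWc b4)
      calc v * a ^ 2 = (⁅v, a⁆ * a) * (v * a) * 1 := by
            simp only [commutatorElement_def, pow_two]; group
        _ = a * (⁅v, a⁆ * (⁅v, a⁆ * (a * v))) := by
            rw [← b5 a]; simp only [commutatorElement_def]; group
        _ = _ := by rw [← mul_assoc ⁅v, a⁆, h.sq _ (hW b4), one_mul, pow_two, mul_assoc]) (h.sq _ rQ) fun s hs => by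
      rcases mS s hs with h1 | ⟨q, hq, rfl⟩
      · exact Or.inl (h.sq s h1)
      · exact k q hq
  obtain ⟨φ⟩ := Cub.two_prod_of Q h.pg cQ (by rw [← cL, hc, cW, i6]) (hWc z.2)
    (fun c hc => hz' c (hZ' c hc)) ψ hψ
  exact Or.inr ⟨φ.trans MulEquiv.prodComm⟩

theorem DQ.comm_map [Finite L] (h : DQ Q a τ n) {q g : L} (hq : q ∈ Q)
    (hc : Commute (QuotientGroup.mk' (oddCore L) q) (QuotientGroup.mk' (oddCore L) g)) :
    Commute q g := by
  have h1 : ⁅q, g⁆ ∈ oddCore L := (QuotientGroup.eq_one_iff _).1 (by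
    change QuotientGroup.mk' _ _ = 1
    rw [map_commutatorElement, commutatorElement_eq_one_iff_commute.2 hc])
  have h2 : ⁅q, g⁆ ∈ Q := by
    simpa only [commutatorElement_def, mul_assoc] using mul_mem hq (h.normal.conj_mem _ (inv_mem hq) g)
  refine commutatorElement_eq_one_iff_commute.1 (orderOf_eq_one_iff.1 (Nat.eq_one_of_dvd_coprimes
    (Nat.coprime_two_left.2 odd_card_oddCore) (orderOf_dvd_of_pow_eq_one ?_)
    (orderOf_dvd_natCard _ h1)))
  rw [pow_two, h.sq _ h2]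

theorem DQ.card_map [Finite L] (h : DQ Q a τ n) {W : Subgroup L} (hW : W ≤ Q) :
    Nat.card (W.map (QuotientGroup.mk' (oddCore L))) = Nat.card W := by
  refine (Nat.card_congr (Equiv.ofBijective ((QuotientGroup.mk' _).subgroupMap W)
    ⟨(injective_iff_map_eq_one _).2 fun x hx => Subtype.ext ?_,
      MonoidHom.subgroupMap_surjective _ _⟩)).symm
  refine orderOf_eq_one_iff.1 (Nat.eq_one_of_dvd_coprimes
    (Nat.coprime_two_left.2 odd_card_oddCore) (orderOf_dvd_of_pow_eq_one ?_)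
    (orderOf_dvd_natCard _ ((QuotientGroup.eq_one_iff _).1 (congrArg Subtype.val hx))))
  rw [pow_two, h.sq _ (hW x.2)]

theorem DQ.klein' [Finite L] (h : DQ Q a τ n) (hc : Nat.card Q = 2)
    (hZ : Q ≤ center L) (hτ : τ ∉ Q) :
    Nonempty (L ⧸ oddCore L ≃* Multiplicative (ZMod 2) × Multiplicative (ZMod 2)) := by
  have hπ := QuotientGroup.mk'_surjective (oddCore L)
  refine (h.map _ hπ).klein pPrimeCore_quotient_pPrimeCore ((h.card_map le_rfl).trans hc) ?_ ?_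
  · rintro _ ⟨q, hq, rfl⟩
    refine mem_center_iff.2 fun g => ?_
    obtain ⟨g, rfl⟩ := hπ g
    rw [← map_mul, mem_center_iff.1 (hZ hq) g, map_mul]
  · rintro ⟨q, hq, e⟩
    have h1 : q⁻¹ * τ ∈ oddCore L := QuotientGroup.eq.1 e
    have h2 : q⁻¹ * τ = 1 := orderOf_eq_one_iff.1 (Nat.eq_one_of_dvd_coprimes
      (Nat.coprime_two_left.2 odd_card_oddCore) (orderOf_dvd_of_pow_eq_one (by
        rw [pow_two, mul_assoc, ← mul_assoc τ, mem_center_iff.1 (hZ (inv_mem hq)) τ, mul_assoc, h.two,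
          mul_one, h.sq _ (inv_mem hq)])) (orderOf_dvd_natCard _ h1))
    exact hτ (inv_mul_eq_one.1 h2 ▸ hq)

theorem DQ.four' [Finite L] (h : DQ Q a τ n) {W : Subgroup L} (hW : W ≤ Q)
    (hWc : W ≤ center L) (hc : Nat.card Q = 4 * Nat.card W) (hZ : ∀ q ∈ Q, q ∈ center L → q ∈ W)
    (ha : a ∉ 𝐂[Q])
    (hτ : ∀ q ∈ Q, ∀ q' ∈ Q, ¬ Commute q τ → ¬ Commute q' τ → Commute (q * q') τ)
    (cW : Nat.card W = 1 ∨ Nat.card W = 2) :
    Nonempty (L ⧸ oddCore L ≃* Equiv.Perm (Fin 4)) ∨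
      Nonempty (L ⧸ oddCore L ≃* Equiv.Perm (Fin 4) × Multiplicative (ZMod 2)) := by
  have hπ := QuotientGroup.mk'_surjective (oddCore L)
  refine (h.map _ hπ).four pPrimeCore_quotient_pPrimeCore (map_mono hW) ?_
    (by rw [h.card_map le_rfl, h.card_map hW, hc]) ?_ ?_ ?_ (by rwa [h.card_map hW])
  · rintro _ ⟨q, hq, rfl⟩
    refine mem_center_iff.2 fun g => ?_
    obtain ⟨g, rfl⟩ := hπ g
    rw [← map_mul, mem_center_iff.1 (hWc hq) g, map_mul]
  · rintro _ ⟨q, hq, rfl⟩ hz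
    exact ⟨q, hZ q hq (mem_center_iff.2 fun g =>
      (h.comm_map hq (mem_center_iff.1 hz _).symm).symm), rfl⟩
  · exact fun e => ha (mem_cent.2 fun q hq => h.comm_map hq (mem_cent.1 e _ ⟨q, hq, rfl⟩))
  · rintro _ ⟨q, hq, rfl⟩ _ ⟨q', hq', rfl⟩ h1 h2
    rw [← map_mul]
    exact (hτ q hq q' hq' (fun e => h1 (e.map _)) fun e => h2 (e.map _)).map _

end Cfsg.Agent.Loc.DihExt
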