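import Mathlib
import Cfsg.Agent.Loc.GNPair
import Cfsg.Agent.Loc.PUAm5
import Cfsg.Agent.Loc.PUCL
import Cfsg.Agent.GT.PGroupFrattini
import Cfsg.Agent.GT.PGroupBasic

/-! The Glauberman-Niles pair of characteristic subgroups: assembly. -/

set_option autoImplicit false
set_option linter.unusedSectionVars false

namespace Cfsg.Agent.Loc.PU

open Cfsg Cfsg.Agent.GT Cfsg.Agent.Loc.Mss Subgroup
open scoped commutatorElement MatrixGroups Pointwise

universe u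
variable {p : ℕ}

section Maps

variable {G : Type*} [Group G] {G' : Type*} [Group G'] {f : G →* G'}

theorem map_inf_cent (hf : Function.Injective f) (S X : Subgroup G) :
    (S ⊓ 𝐂[X]).map f = S.map f ⊓ 𝐂[X.map f] := by
  refine le_antisymm (le_inf (map_mono inf_le_left) (map_cent_le f inf_le_right)) ?_
  rintro _ ⟨⟨s, hs, rfl⟩, h⟩
  refine ⟨s, ⟨hs, mem_cent.2 fun x hx => hf ?_⟩, rfl⟩
  rw [map_mul, map_mul]
  exact mem_cent.1 h _ (mem_map_of_mem f hx)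

theorem map_cent_top (hf : Function.Injective f) (X : Subgroup G) :
    (𝐂[X]).map f = (⊤ : Subgroup G).map f ⊓ 𝐂[X.map f] := by
  rw [← map_inf_cent hf, top_inf_eq]

theorem map_le_cent_iff (hf : Function.Injective f) {X Y : Subgroup G} :
    X.map f ≤ 𝐂[Y.map f] ↔ X ≤ 𝐂[Y] :=
  ⟨fun h x hx => mem_cent.2 fun y hy => hf (by
    rw [map_mul, map_mul]
    exact mem_cent.1 (h (mem_map_of_mem f hx)) _ (mem_map_of_mem f hy)), map_cent_le f⟩

theorem map_S0 (hf : Function.Injective f) (S : Subgroup G) :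
    (S0 p S).map f = S0 p (S.map f) := by
  unfold S0
  split_ifs
  · rw [Subgroup.map_sup, Subgroup.map_commutator, map_frat hf, map_frat hf, map_frat hf]
  · rw [Subgroup.map_sup, Subgroup.map_commutator, Subgroup.map_commutator, map_frat hf,
      map_frat hf, map_frat hf]
  · rw [Subgroup.map_sup, Subgroup.map_commutator, map_frat hf, PG.map_powerClosure]

theorem map_mclJ (hf : Function.Injective f) (S : Subgroup G) :
    (sSup {R | MCLin S R}).map f = sSup {R | MCLin (S.map f) R} := by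
  refine le_antisymm (map_le_iff_le_comap.2 (sSup_le fun R hR => map_le_iff_le_comap.1
    (le_sSup ((mclin_map_iff hf).2 hR)))) (sSup_le fun R hR => ?_)
  obtain ⟨E, -, rfl⟩ := exists_map_eq_of_le hR.1.1
  exact map_mono (le_sSup ((mclin_map_iff hf).1 hR))

theorem map_phiJ (hf : Function.Injective f) (S : Subgroup G) :
    (⨆ R : {R // MCLmax p S R}, Φ[R.1]).map f = ⨆ R : {R // MCLmax p (S.map f) R}, Φ[R.1] := by
  refine le_antisymm (map_le_iff_le_comap.2 (iSup_le fun R => map_le_iff_le_comap.1 ?_))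
    (iSup_le fun ⟨R, hR⟩ => ?_)
  · rw [map_frat hf]
    exact le_iSup (fun R : {R // MCLmax p (S.map f) R} => Φ[R.1]) ⟨_, (mclmax_map_iff hf).2 R.2⟩
  · obtain ⟨E, -, rfl⟩ := exists_map_eq_of_le hR.1.1.1
    change Φ[E.map f] ≤ _
    rw [← map_frat hf]
    exact map_mono (le_iSup (fun R : {R // MCLmax p S R} => Φ[R.1]) ⟨_, (mclmax_map_iff hf).1 hR⟩)

theorem char_of_map (c : Subgroup G → Subgroup G)
    (h : ∀ α : G →* G, Function.Injective α → (c ⊤).map α = c ((⊤ : Subgroup G).map α)) :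
    (c ⊤).Characteristic :=
  characteristic_iff_map_eq.2 fun α => by
    rw [h _ α.injective, map_top_of_surjective _ α.surjective]

theorem char_subgroupOf_top {X Y : Subgroup G} (h : X.Characteristic) (hY : Y = ⊤) :
    (X.subgroupOf Y).Characteristic := by
  subst hY
  refine characteristic_iff_map_le.2 fun α => ?_
  rintro _ ⟨x, hx, rfl⟩
  exact characteristic_iff_map_le.1 h (topEquiv.symm.trans (α.trans topEquiv)) ⟨x.1, hx, rfl⟩

theorem frat_top (G : Type*) [Group G] : Φ[(⊤ : Subgroup G)] = frattini G :=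
  map_frattini_of_equiv (topEquiv : (⊤ : Subgroup G) ≃* G)

theorem maxCP_eq [Finite G] {X R : Subgroup G} (h : CLin X R) :
    maxCentralProduct X = clMeasure R := by
  obtain ⟨R', rfl⟩ := lift_sub h.1
  rw [clMeasure_map X.subtype_injective, isCentrallyLarge_iff.1 (clin_sub.1 h)]

theorem SA.map (hf : Function.Injective f) {S A : Subgroup G} (h : SA S A) :
    SA (S.map f) (A.map f) :=
  ⟨(cd_map_iff hf).2 h.cd, by rw [← map_inf_cent hf, h.cent]⟩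

end Maps

/-- `τ` embeds `S` as the Sylow subgroup of a pushing-up vertex `L`. -/
def Emb (p : ℕ) {S H : Type*} [Group S] [Group H] (τ : S →* H) (L : Subgroup H) : Prop :=
  Function.Injective τ ∧ ∃ q M, PUD p q L ((⊤ : Subgroup S).map τ) M

/-- A pair of characteristic subgroups, one of which is always normal. -/
structure Sol (p : ℕ) {S : Type u} [Group S] (S₁ S₂ : Subgroup S) : Prop where
  ne₁ : S₁ ≠ ⊥
  ne₂ : S₂ ≠ ⊥
  ch₁ : S₁.Characteristic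
  ch₂ : S₂.Characteristic
  le₁ : S₁ ≤ center S
  le₂ : S₂ ≤ 𝐂[thZ 0 (⊤ : Subgroup S)]
  ch : (S₂.subgroupOf 𝐂[thZ 0 (⊤ : Subgroup S)]).Characteristic
  pair : ∀ (G : Type u) [Group G] [Finite G] (τ : S →* G), Emb p τ ⊤ →
    ⊤ ≤ 𝐂[S₁.map τ] ∨ ⊤ ≤ 𝐍[S₂.map τ]

variable [Fact p.Prime]

theorem Sol.normal {S : Type u} [Group S] {S₁ S₂ : Subgroup S} (h : Sol p S₁ S₂) (G : Type u)
    [Group G] [Finite G] (P : Subgroup G) (e : S ≃* P) (hP : IsPushingUpSituation p P) :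
    (S₁.map (P.subtype.comp e.toMonoidHom)).Normal ∨
      (S₂.map (P.subtype.comp e.toMonoidHom)).Normal := by
  refine (h.pair G _ ⟨P.subtype_injective.comp e.injective, ?_⟩).imp
    normal_of_top_le_cent normal_of_top
  rw [← map_map, map_top_of_surjective _ e.surjective, map_subtype_top]
  exact pud_of_situation hP

variable {S : Type u} [Group S] [Finite S]

local notation "𝒵" => thZ 0 (⊤ : Subgroup S)

theorem Z_top (S : Type*) [Group S] : 𝐙[(⊤ : Subgroup S)] = center S := by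
  rw [top_inf_eq, cent_top]

theorem sol_of_central {S₁ S₂ : Subgroup S} (hJ : ⁅𝒵, (⊤ : Subgroup S)⁆ = ⊥) (ne₁ : S₁ ≠ ⊥) (ne₂ : S₂ ≠ ⊥)
    (ch₁ : S₁.Characteristic) (ch₂ : S₂.Characteristic) (le₁ : S₁ ≤ center S)
    (pair : ∀ (G : Type u) [Group G] [Finite G] (τ : S →* G), Emb p τ ⊤ →
      ⊤ ≤ 𝐂[S₁.map τ] ∨ ⊤ ≤ 𝐍[S₂.map τ]) : Sol p S₁ S₂ :=
  have e : 𝐂[𝒵] = ⊤ := top_le_iff.1 (comm_eq_bot_iff'.1 hJ)
  ⟨ne₁, ne₂, ch₁, ch₂, le₁, e.ge.trans' le_top, char_subgroupOf_top ch₂ e, pair⟩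

theorem map_baum {G : Type*} [Group G] {τ : S →* G} (h : Function.Injective τ) :
    (𝐂[𝒵]).map τ = (⊤ : Subgroup S).map τ ⊓ 𝐂[thZ 0 ((⊤ : Subgroup S).map τ)] := by
  rw [map_cent_top h, thZ_map_of_injective _ h]

theorem baum_ne_bot [Nontrivial S] (hS : IsPGroup p S) : 𝐂[𝒵] ≠ ⊥ := fun h =>
  thJ_ne_bot (dvd_zero p) (pg_top.2 hS) top_ne_bot
    (le_bot_iff.1 ((thJ_le_centralizer_thZ 0 ⊤).trans h.le))

theorem baum_char : (𝐂[𝒵]).Characteristic :=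
  haveI := thZ_characteristic 0 (⊤ : Subgroup S)
  inferInstance

theorem sol_A [Nontrivial S] (hS : IsPGroup p S) (hJ : ⁅𝒵, (⊤ : Subgroup S)⁆ ≠ ⊥) :
    Sol p (⁅𝒵, (⊤ : Subgroup S)⁆ ⊓ 𝐙[⊤]) 𝐂[𝒵] := by
  haveI := thZ_characteristic 0 (⊤ : Subgroup S)
  haveI := hS.isNilpotent
  refine ⟨?_, baum_ne_bot hS, ?_, baum_char, inf_le_right.trans (Z_top S).le, le_rfl, ?_, ?_⟩
  · rw [Z_top]
    exact PG.inf_center_ne_bot _ hJ
  · refine char_of_map (fun X => ⁅thZ 0 X, X⁆ ⊓ 𝐙[X]) fun α h => ?_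
    rw [Subgroup.map_inf _ _ _ h, Subgroup.map_commutator, map_Z h, thZ_map_of_injective _ h]
  · rw [subgroupOf_self]; infer_instance
  · rintro G _ _ τ ⟨hτ, q, M, h⟩
    rw [map_baum hτ, Subgroup.map_inf _ _ _ hτ, Subgroup.map_commutator, map_Z hτ,
      ← thZ_map_of_injective _ hτ]
    by_cases hZ : ⊤ ≤ 𝐂[𝐙[(⊤ : Subgroup S).map τ]]
    · exact Or.inl (hZ.trans (cent_anti inf_le_right))
    by_cases hJ : thJ 0 ((⊤ : Subgroup S).map τ) ≤ 𝐎[p, ⊤]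
    · exact Or.inr (h.norm_baumann_of_le hZ hJ)
    · exact Or.inl (h.cent_comm_thZ hZ hJ)

theorem sol_B [Nontrivial S] (hS : IsPGroup p S) (hZ : ¬ ∀ z ∈ 𝐙[(⊤ : Subgroup S)], z ^ p = 1) :
    Sol p (powerClosure p 1 𝐙[(⊤ : Subgroup S)]) 𝐂[𝒵] := by
  have hle : ∀ {G : Type u} [Group G] (X : Subgroup G), powerClosure p 1 X ≤ X := fun X =>
    (closure_le _).2 (by rintro _ ⟨x, hx, rfl⟩; exact pow_mem hx _)
  refine ⟨fun h => hZ fun z hz => ?_, baum_ne_bot hS, ?_, baum_char,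
    (hle _).trans (Z_top S).le, le_rfl, ?_, ?_⟩
  · exact mem_bot.1 (h.le (subset_closure ⟨z, hz, by rw [pow_one]⟩))
  · refine char_of_map (fun X => powerClosure p 1 𝐙[X]) fun α h => ?_
    rw [PG.map_powerClosure, map_Z h]
  · rw [subgroupOf_self]; infer_instance
  · rintro G _ _ τ ⟨hτ, q, M, h⟩
    rw [map_baum hτ, PG.map_powerClosure, map_Z hτ]
    by_cases hZ : ⊤ ≤ 𝐂[𝐙[(⊤ : Subgroup S).map τ]]
    · exact Or.inl (hZ.trans (cent_anti (hle _)))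
    by_cases hJ : thJ 0 ((⊤ : Subgroup S).map τ) ≤ 𝐎[p, ⊤]
    · exact Or.inr (h.norm_baumann_of_le hZ hJ)
    · obtain ⟨K, _, ρ, φ, D⟩ := h.exists_ffd hZ hJ
      refine Or.inl (cent_comm ((closure_le _).2 ?_))
      rintro _ ⟨x, hx, rfl⟩
      rw [pow_one]
      exact (D.pow_mem (h.Z_le hx)).2

theorem sol_C (hS : IsPGroup p S) (hJ : ⁅𝒵, (⊤ : Subgroup S)⁆ = ⊥) {Q : Subgroup S} (hQ : MCLin ⊤ Q)
    (h0 : ⁅Q, Q⁆ ≠ ⊥) : Sol p (𝐙[⊤] ⊓ ⁅Q, Q⁆) (sSup {R | MCLin (⊤ : Subgroup S) R}) := by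
  haveI := hS.isNilpotent
  have hc : (⁅Q, Q⁆).Characteristic := characteristic_iff_map_eq.2 fun φ => by
    rw [Subgroup.map_commutator]
    refine MCLin.comm_eq (S := ⊤) ?_ hQ
    have := (mclin_map_iff (f := φ.toMonoidHom) φ.injective).2 hQ
    rwa [map_top_of_surjective _ φ.surjective] at this
  refine sol_of_central hJ ?_ (fun h => h0 ?_) ?_ ?_ (inf_le_left.trans (Z_top S).le) ?_
  · rw [Z_top, inf_comm]
    exact PG.inf_center_ne_bot _ h0
  · rw [le_bot_iff.1 ((le_sSup (s := {R | MCLin (⊤ : Subgroup S) R}) hQ).trans h.le),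
      commutator_bot_left]
  · rw [Z_top]; infer_instance
  · exact char_of_map (fun X => sSup {R | MCLin X R}) fun α h => map_mclJ h ⊤
  · rintro G _ _ τ ⟨hτ, q, M, h⟩
    rw [map_mclJ hτ, Subgroup.map_inf _ _ _ hτ, Subgroup.map_commutator, map_Z hτ]
    exact h.mcl_cases ((mclin_map_iff hτ).2 hQ)

theorem sol_D [Nontrivial S] (hc : IsMulCommutative S) : Sol p (⊤ : Subgroup S) ⊤ := by
  have e : ∀ X Y : Subgroup S, X ≤ 𝐂[Y] := fun X Y x _ => mem_cent.2 fun y _ => hc.1.1 y x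
  refine sol_of_central (comm_eq_bot_iff.2 (e _ _)) top_ne_bot top_ne_bot inferInstance
    inferInstance (cent_top (G := S) ▸ e _ _) ?_
  rintro G _ _ τ ⟨-, q, M, h⟩
  exact absurd ((le_inf le_top ((map_cent_le τ (e _ _)).trans (cent_anti h.core_le))).trans h.chp)
    h.not_le_core

theorem sol_Phi [Nontrivial S] (hS : IsPGroup p S) (hJ : ⁅𝒵, (⊤ : Subgroup S)⁆ = ⊥)
    (h0 : ¬ ∃ A ∈ maxAbelianSubgroups S, IsElementaryAbelian p A) :
    Sol p 𝐙[(⊤ : Subgroup S)] (⨆ R : {R // MCLmax p (⊤ : Subgroup S) R}, Φ[R.1]) := by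
  haveI := hS.isNilpotent
  refine sol_of_central hJ ?_ (fun h => h0 ?_) ?_ ?_ (Z_top S).le ?_
  · rw [Z_top, ← top_inf_eq (center S)]
    exact PG.inf_center_ne_bot _ top_ne_bot
  · obtain ⟨Q, hQ⟩ := exists_mclmax p (⊤ : Subgroup S)
    have hQ' := mclmax_top.1 hQ
    have h1 : Φ[Q] ≤ ⊥ :=
      (le_iSup (fun R : {R // MCLmax p (⊤ : Subgroup S) R} => Φ[R.1]) ⟨Q, hQ⟩).trans h.le
    rw [frat_le_iff (hS.to_subgroup Q)] at h1
    have h2 := le_centralizer_iff_isMulCommutative.1 (comm_eq_bot_iff.1 (le_bot_iff.1 h1.1))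
    exact ⟨Q, (mcl_iff_maxAb_of_comm hQ'.1 h2 Q).1 hQ'.1, h2, h1.2⟩
  · rw [Z_top]; infer_instance
  · exact char_of_map (fun X => ⨆ R : {R // MCLmax p X R}, Φ[R.1]) fun α h => map_phiJ h ⊤
  · rintro G _ _ τ ⟨hτ, q, M, h⟩
    rw [map_phiJ hτ, map_Z hτ]
    exact (em _).imp_right h.norm_phiJoin_syl

/-- the hypotheses of the main case -/
structure GNM (p : ℕ) (S : Type u) [Group S] : Prop where
  pg : IsPGroup p S
  top : CD (⊤ : Subgroup S) ⊤
  sa : ∀ A ∈ abFam 0 (⊤ : Subgroup S), SA ⊤ A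
  J : thJ 0 (⊤ : Subgroup S) = ⊤
  Z : ∀ z ∈ 𝐙[(⊤ : Subgroup S)], z ^ p = 1

theorem gnm_of (hS : IsPGroup p S) (hJ : ⁅𝒵, (⊤ : Subgroup S)⁆ = ⊥) (hZ : ∀ z ∈ 𝐙[(⊤ : Subgroup S)], z ^ p = 1)
    {Q : Subgroup S} (hQ : MCLin ⊤ Q) (h0 : ⁅Q, Q⁆ = ⊥) : GNM p S := by
  have h2 := le_centralizer_iff_isMulCommutative.1 (comm_eq_bot_iff.1 h0)
  have sa : ∀ A ∈ abFam 0 (⊤ : Subgroup S), SA ⊤ A := fun A hA =>
    ⟨cd_top.2 (cl_cd ((mcl_iff_maxAb_of_comm (mclin_top.1 hQ) h2 A).2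
      (maxAbelianSubgroups_eq S ▸ hA)).1), abFam_zero_inf_centralizer hA⟩
  have h3 : CD ⊤ (thJ 0 (⊤ : Subgroup S)) := CD.sSup (abFam_nonempty 0 ⊤) fun A hA => (sa A hA).cd
  have h4 : thJ 0 (⊤ : Subgroup S) = ⊤ :=
    top_le_iff.1 (h3.ge le_rfl ((thZ_zero_eq ⊤).ge.trans (comm_eq_bot_iff.1 hJ)))
  exact ⟨hS, by rwa [h4] at h3, sa, h4, hZ⟩

/-- a vertex not centralizing `S₁` -/
def EB (p : ℕ) {S H : Type*} [Group S] [Group H] (τ : S →* H) (L : Subgroup H) : Prop :=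
  Emb p τ L ∧ ¬ L ≤ 𝐂[(S0 p (⊤ : Subgroup S) ⊓ 𝐙[⊤]).map τ]

theorem EB.map {H H' : Type*} [Group H] [Group H'] [Finite H] [Finite H'] {τ : S →* H}
    {L : Subgroup H} (h : EB p τ L) {f : H →* H'} (hf : Function.Injective f) :
    EB p (f.comp τ) (L.map f) := by
  obtain ⟨⟨h1, q, M, h2⟩, h3⟩ := h
  refine ⟨⟨hf.comp h1, q, M.map f, ?_⟩, ?_⟩
  · rw [← map_map]; exact h2.map hf
  · rw [← map_map, map_le_cent_iff hf]; exact h3

theorem S1_char : (S0 p (⊤ : Subgroup S) ⊓ 𝐙[⊤]).Characteristic :=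
  char_of_map (fun X => S0 p X ⊓ 𝐙[X]) fun α h => by
    rw [Subgroup.map_inf _ _ _ h, map_S0 h, map_Z h]

theorem EB.comp {H : Type*} [Group H] {τ : S →* H} {L : Subgroup H} (h : EB p τ L) (α : S ≃* S) :
    EB p (τ.comp α.toMonoidHom) L := by
  obtain ⟨⟨h1, q, M, h2⟩, h3⟩ := h
  refine ⟨⟨h1.comp α.injective, q, M, ?_⟩, ?_⟩
  · rw [← map_map, map_top_of_surjective _ α.surjective]; exact h2
  · rw [← map_map, characteristic_iff_map_eq.1 S1_char α]; exact h3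

namespace GNM
variable (m : GNM p S)
include m

section
variable {H : Type u} [Group H] [Finite H] {τ : S →* H} {L L' : Subgroup H}

theorem vs (h : EB p τ L) : VS p L ((⊤ : Subgroup S).map τ) := by
  obtain ⟨⟨h1, q, M, h2⟩, h3⟩ := h
  refine ⟨⟨q, M, h2, h2.exists_ffd (fun h => h3 (h.trans (cent_anti ?_))) ?_⟩,
    (cd_map_iff h1).2 m.top⟩
  · rw [← map_Z h1]; exact map_mono inf_le_right
  · rw [thJ_map_of_injective _ h1, m.J]; exact h2.not_le_core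

theorem nS0 (h : EB p τ L) : ¬ S0 p ((⊤ : Subgroup S).map τ) ≤ 𝐂₀[p, L] := fun h0 => h.2 (by
  rw [Subgroup.map_inf _ _ _ h.1.1, map_S0 h.1.1, map_Z h.1.1]
  exact cent_comm (((m.vs h).ZL inf_le_right
    (inf_le_left.trans (h0.trans inf_le_right))).trans inf_le_right))

theorem pair₀ (h : EB p τ L) (h' : EB p τ L') :
    𝐕[p, L'] ≤ 𝐎[p, L] ∧ L ≤ 𝐍[𝐕[p, L] ⊔ 𝐕[p, L']] := by
  obtain ⟨A, hA, hT⟩ : ∃ A ∈ abFam 0 (⊤ : Subgroup S), ¬ A.map τ ≤ 𝐎[p, L] := by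
    by_contra h0
    push Not at h0
    obtain ⟨q, M, P⟩ := h.1.2
    refine P.not_le_core (map_le_iff_le_comap.2 (m.J.ge.trans (thJ_le_iff.2 fun A hA => ?_)))
    exact map_le_iff_le_comap.1 (h0 A hA)
  refine (m.vs h).pair (m.vs h') ?_ ((m.sa A hA).map h.1.1) hT (m.nS0 h) (m.nS0 h')
  rw [← map_Z h.1.1]
  rintro _ ⟨z, hz, rfl⟩
  rw [← map_pow, m.Z z hz, map_one]

theorem map_comap_V (h : EB p τ L) : (𝐕[p, L].comap τ).map τ = 𝐕[p, L] :=
  map_comap_eq_self (by rw [MonoidHom.range_eq_map]; exact (m.vs h).VS')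

end

theorem pair₁ {G G' : Type u} [Group G] [Group G'] [Finite G] [Finite G'] {τ : S →* G}
    {τ' : S →* G'} (h : EB p τ ⊤) (h' : EB p τ' ⊤) :
    (𝐕[p, ⊤].comap τ').map τ ≤ 𝐎[p, ⊤] ∧ ⊤ ≤ 𝐍[𝐕[p, ⊤] ⊔ (𝐕[p, ⊤].comap τ').map τ] := by
  let l := MulAction.toPermHom (G × G') (G × G')
  have hl : Function.Injective l := MulAction.toPerm_injective
  have hi : Function.Injective (MonoidHom.inl G G') := fun a b e => congrArg Prod.fst e
  have hi' : Function.Injective (MonoidHom.inr G G') := fun a b e => congrArg Prod.snd e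
  obtain ⟨σ, hσ⟩ := Fus.RG.exists_perm_conj ((MonoidHom.inl G G').comp τ)
    ((MonoidHom.inr G G').comp τ') (hi.comp h.1.1) (hi'.comp h'.1.1)
  let f : G →* Equiv.Perm (G × G') :=
    (MulAut.conj σ).toMonoidHom.comp (l.comp (MonoidHom.inl G G'))
  let f' : G' →* Equiv.Perm (G × G') := l.comp (MonoidHom.inr G G')
  have hf : Function.Injective f := (MulAut.conj σ).injective.comp (hl.comp hi)
  have hf' : Function.Injective f' := hl.comp hi'
  have e : f'.comp τ' = f.comp τ := MonoidHom.ext fun a => Equiv.ext fun x => by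
    simpa [f, f', l] using (hσ a (σ⁻¹ x)).symm
  have := m.pair₀ (h.map hf) (e ▸ h'.map hf')
  rw [map_V hf', ← m.map_comap_V h', map_map, e, ← map_map, map_V hf, map_core' hf,
    ← Subgroup.map_sup, map_le_map_iff_of_injective hf, map_le_norm_iff hf] at this
  exact this

/-- the pulled back subgroups `Z(O_p(G))` -/
def WW (p : ℕ) (S : Type u) [Group S] : Set (Subgroup S) :=
  {X | ∃ (G : Type u) (_ : Group G) (_ : Finite G) (τ : S →* G), EB p τ ⊤ ∧ 𝐕[p, ⊤].comap τ = X}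

omit m in
theorem ww_char : (sSup (WW p S)).Characteristic := by
  refine characteristic_iff_le_comap.2 fun α => sSup_le ?_
  rintro _ ⟨G, _, _, τ, h, rfl⟩
  have : 𝐕[p, ⊤].comap (τ.comp α.symm.toMonoidHom) ≤ sSup (WW p S) :=
    le_sSup ⟨G, _, ‹_›, _, h.comp α.symm, rfl⟩
  intro x hx
  refine this ?_
  simpa using hx

theorem ww_cd {X : Subgroup S} (hX : X ∈ WW p S) : CD ⊤ X := by
  obtain ⟨G, _, _, τ, h, rfl⟩ := hX
  rw [← cd_map_iff h.1.1, m.map_comap_V h]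
  exact (m.vs h).cdV

theorem ww_ab : sSup (WW p S) ≤ 𝐂[sSup (WW p S)] := by
  refine sSup_le fun X' hX' => cent_comm (sSup_le fun X hX => cent_comm ?_)
  obtain ⟨G, _, _, τ, h, rfl⟩ := hX
  obtain ⟨G', _, _, τ', h', rfl⟩ := hX'
  rw [← map_le_cent_iff h.1.1, m.map_comap_V h]
  exact (m.pair₁ h h').1.trans (core_le_cent_V _)

theorem ww_norm {G : Type u} [Group G] [Finite G] {τ : S →* G} (h : EB p τ ⊤) :
    ⊤ ≤ 𝐍[(𝐂[sSup (WW p S)]).map τ] := by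
  have h1 : 𝐕[p, ⊤] ≤ (sSup (WW p S)).map τ := by
    rw [← m.map_comap_V h]
    exact map_mono (le_sSup ⟨G, _, ‹_›, τ, h, rfl⟩)
  have h2 : ⊤ ≤ 𝐍[(sSup (WW p S)).map τ] := by
    refine norm_of_forall_cj_le fun g hg => cj_le_iff_le_inv.2
      (map_le_iff_le_comap.2 (sSup_le fun X hX => map_le_iff_le_comap.1 ?_))
    rw [← cj_le_iff_le_inv]
    obtain ⟨G', _, _, τ', h', rfl⟩ := id hX
    exact (cj_le_of_norm le_sup_right ((m.pair₁ h h').2 hg)).trans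
      (sup_le h1 (map_mono (le_sSup hX)))
  have h3 : (𝐂[sSup (WW p S)]).map τ = 𝐎[p, ⊤] ⊓ 𝐂[(sSup (WW p S)).map τ] := by
    rw [map_cent_top h.1.1]
    exact le_antisymm (le_inf ((inf_le_inf_left _ (cent_anti h1)).trans (m.vs h).cent_V.le)
      inf_le_right) (inf_le_inf_right _ (m.vs h).TS)
  rw [h3]
  exact norm_inf (le_norm_core _) (norm_cent h2)

theorem central : ⁅𝒵, (⊤ : Subgroup S)⁆ = ⊥ := by
  rw [comm_eq_bot_iff, thZ_zero_eq, m.J]
  exact inf_le_right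

theorem sol (h0 : S0 p (⊤ : Subgroup S) ≠ ⊥) :
    ∃ S₂, Sol p (S0 p (⊤ : Subgroup S) ⊓ 𝐙[⊤]) S₂ ∧ CLin ⊤ S₂ := by
  haveI := m.pg.isNilpotent
  have h1 : S0 p (⊤ : Subgroup S) ⊓ 𝐙[⊤] ≠ ⊥ := by
    haveI := char_of_map (G := S) (S0 p) fun α h => map_S0 h ⊤
    rw [Z_top]
    exact PG.inf_center_ne_bot _ h0
  have h2 : S0 p (⊤ : Subgroup S) ⊓ 𝐙[⊤] ≤ center S := inf_le_right.trans (Z_top S).le
  rcases (WW p S).eq_empty_or_nonempty with e | e
  · refine ⟨⊤, sol_of_central m.central h1 (fun h => h1 (le_bot_iff.1 (le_top.trans h.le)))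
      S1_char inferInstance h2 fun G _ _ τ h => Or.inl (by_contra fun h3 => ?_),
      clin_top.2 (cl_iff.2 ⟨cd_top.1 m.top, le_top⟩)⟩
    exact Set.eq_empty_iff_forall_notMem.1 e _ ⟨G, _, ‹_›, τ, ⟨h, h3⟩, rfl⟩
  · have h3 := CD.sSup e fun X hX => m.ww_cd hX
    have h4 := h3.cent
    have h5 := h3.cent_cent
    rw [top_inf_eq] at h4
    rw [top_inf_eq, top_inf_eq] at h5
    haveI := ww_char (p := p) (S := S)
    refine ⟨𝐂[sSup (WW p S)], sol_of_central m.central h1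
      (fun h => h1 (le_bot_iff.1 (inf_le_right.trans (h4.Z_le.trans h.le)))) S1_char
      inferInstance h2 fun G _ _ τ h => (em _).imp_right fun h3 => m.ww_norm ⟨h, h3⟩,
      clin_top.2 (cl_iff.2 ⟨cd_top.1 h4, h5.le.trans m.ww_ab⟩)⟩

theorem last : ∀ A ∈ maxAbelianSubgroups S, ∀ B ∈ maxAbelianSubgroups S, ∀ Q : Subgroup S,
    Nat.card A ^ 2 = Nat.card S * Nat.card (center S) ∧
      Nat.card Q * Nat.card (center Q) ≤ Nat.card S * Nat.card (center S) ∧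
      ((A ⊔ B : Subgroup S) : Set S) = (A : Set S) * (B : Set S) ∧
      A ⊔ B = centralizer ((A ⊓ B : Subgroup S) : Set S) := by
  intro A hA B hB Q
  have h1 : maxCentralProduct S = Nat.card S * Nat.card (center S) := by
    rw [← isCentrallyLarge_iff.1 (cl_iff.2 ⟨cd_top.1 m.top, le_top⟩), clMeasure, Z_top, card_top]
  have hA' := m.sa A (maxAbelianSubgroups_eq S ▸ hA)
  have hB' := m.sa B (maxAbelianSubgroups_eq S ▸ hB)
  refine ⟨?_, ?_, cd_coe_sup (cd_top.1 hA'.cd) (cd_top.1 hB'.cd), ?_⟩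
  · rw [← h1, ← isCentrallyLarge_iff.1 (cl_iff.2 ⟨cd_top.1 hA'.cd, (maxAb_centralizer hA).le⟩),
      clMeasure_of_comm hA.1, pow_two]
  · rw [← h1, ← clMeasure_eq]; exact clMeasure_le_max Q
  · rw [cd_centralizer_inf (cd_top.1 hA'.cd) (cd_top.1 hB'.cd), maxAb_centralizer hA,
      maxAb_centralizer hB]

theorem ea_center : IsElementaryAbelian p (center S) :=
  ⟨inferInstance, fun z hz => m.Z z ((Z_top S).ge hz)⟩

theorem frat_of_S0 [Nontrivial S] (h0 : S0 p (⊤ : Subgroup S) = ⊥) :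
    IsElementaryAbelian p (frattini S) ∧ (p = 2 → frattini S ≤ center S) ∧
      (p = 3 → frattini S ≤ Subgroup.upperCentralSeries S 2) ∧
      (3 < p → frattini S ≤ center S ∧ Monoid.exponent S = p) := by
  have hp : p.Prime := Fact.out
  have ea : Φ[frattini S] = ⊥ → IsElementaryAbelian p (frattini S) := fun h => by
    have h1 := (frat_le_iff (m.pg.to_subgroup (frattini S))).1 h.le
    exact ⟨le_centralizer_iff_isMulCommutative.1 (comm_eq_bot_iff.1 (le_bot_iff.1 h1.1)), h1.2⟩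
  have ce : ∀ X : Subgroup S, ⁅X, ⊤⁆ = ⊥ → X ≤ center S := fun X h =>
    cent_top (G := S) ▸ comm_eq_bot_iff.1 h
  unfold S0 at h0
  rw [frat_top] at h0
  split_ifs at h0 with h2 h3 <;> rw [sup_eq_bot_iff] at h0
  · exact ⟨ea h0.2, fun _ => ce _ h0.1, fun h => by omega, fun h => by omega⟩
  · refine ⟨ea h0.2, fun h => absurd h h2, fun _ x hx => ?_, fun h => by omega⟩
    rw [Subgroup.mem_upperCentralSeries_succ_iff]
    intro y
    rw [Subgroup.upperCentralSeries_one]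
    exact ce _ h0.1 (commutator_mem_commutator hx (mem_top y))
  · have h4 : ∀ x : S, x ^ p = 1 := fun x =>
      mem_bot.1 (h0.2.le (subset_closure ⟨x, mem_top x, by rw [pow_one]⟩))
    refine ⟨⟨th_comm_mono inferInstance (ce _ h0.1), fun x _ => h4 x⟩, fun h => absurd h h2,
      fun h => absurd h h3, fun _ => ⟨ce _ h0.1, ?_⟩⟩
    exact (Monoid.exponent_eq_prime_iff hp).2 fun x hx => orderOf_eq_prime (h4 x) hx

end GNM

theorem exists_sol [Nontrivial S] (hS : IsPGroup p S)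
    (hexc : ¬ (¬ IsMulCommutative S ∧ GNM p S ∧ S0 p (⊤ : Subgroup S) = ⊥)) :
    ∃ S₁ S₂ : Subgroup S, Sol p S₁ S₂ ∧ maxCentralProduct S₂ = maxCentralProduct 𝐂[𝒵] := by
  by_cases hJ : ⁅𝒵, (⊤ : Subgroup S)⁆ = ⊥
  swap
  · exact ⟨_, _, sol_A hS hJ, rfl⟩
  by_cases hZ : ∀ z ∈ 𝐙[(⊤ : Subgroup S)], z ^ p = 1
  swap
  · exact ⟨_, _, sol_B hS hZ, rfl⟩
  have e : 𝐂[𝒵] = ⊤ := top_le_iff.1 (comm_eq_bot_iff'.1 hJ)
  have key : ∀ X R : Subgroup S, R ≤ X → CLin ⊤ R →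
      maxCentralProduct X = maxCentralProduct 𝐂[𝒵] := fun X R h1 h2 => by
    rw [maxCP_eq ((clin_iff_of_le le_top h2 h1).2 ⟨h1, h2⟩), e, maxCP_eq h2]
  obtain ⟨Q, hQ⟩ := exists_mclin (⊤ : Subgroup S)
  by_cases h0 : ⁅Q, Q⁆ = ⊥
  swap
  · exact ⟨_, _, sol_C hS hJ hQ h0, key _ Q (le_sSup hQ) hQ.1⟩
  by_cases hc : IsMulCommutative S
  · exact ⟨_, _, sol_D hc, key _ Q le_top hQ.1⟩
  have m := gnm_of hS hJ hZ hQ h0
  obtain ⟨S₂, h1, h2⟩ := m.sol fun h => hexc ⟨hc, m, h⟩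
  exact ⟨_, _, h1, key _ _ le_rfl h2⟩

end Cfsg.Agent.Loc.PU
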