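import Mathlib
import Cfsg.Agent.Loc.GlaubAut
import Cfsg.Agent.GT.CoprimeActThms

/-!
# Two commuting involutions acting on a group of odd order

If `a, b` are involutory automorphisms of a group `W` of odd order, commuting with a coprime operator
group `A` that fixes `C_W(a)` and `C_W(b)`, then `a b` fixes `[W, A]`.
-/

set_option autoImplicit false

namespace Cfsg.Agent.Loc.GA

open Subgroup Cfsg.Agent.GT Cfsg.Agent.GT.CopAct

universe u

theorem exists_char_comm {W : Type*} [Group W] [Nontrivial W] (h : Group.IsSolvable W) :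
    ∃ N : Subgroup W, N.Characteristic ∧ N ≠ ⊥ ∧ ∀ x ∈ N, ∀ y ∈ N, x * y = y * x := by
  classical
  have h1 : ∃ n, derivedSeries W n = ⊥ := h.solvable
  have h0 : Nat.find h1 ≠ 0 := by
    intro e
    have := Nat.find_spec h1
    rw [e, derivedSeries_zero] at this
    exact top_ne_bot this
  obtain ⟨m, hm⟩ := Nat.exists_eq_succ_of_ne_zero h0
  refine ⟨derivedSeries W m, inferInstance, Nat.find_min h1 (by omega), fun x hx y hy => ?_⟩
  have := Nat.find_spec h1
  rw [hm, derivedSeries_succ, commutator_eq_bot_iff_le_centralizer] at this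
  exact (mem_centralizer_iff.1 (this hy) x hx)

/-- A coset `g U` of an invariant subgroup of odd order that is stable under an involution contains
a fixed point. -/
theorem exists_fixed_of_odd {W : Type*} [Group W] [Finite W] {a : MulAut W} (ha : a * a = 1)
    {U : Subgroup W} (hU : Odd (Nat.card U)) {g : W} (hg : g⁻¹ * a g ∈ U) :
    ∃ c, a c = c ∧ g⁻¹ * c ∈ U := by
  obtain ⟨j, hj⟩ := exists_fixed ha (Odd.of_dvd_nat hU (orderOf_dvd_natCard U hg))
  exact ⟨_, hj, by rw [inv_mul_cancel_left]; exact pow_mem hg j⟩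

theorem mul_fix_aux {A : Type*} [Group A] [Finite A] [hA : Group.IsSolvable A] (n : ℕ) :
    ∀ (W : Type u) [Group W] [Finite W], Nat.card W = n → Odd (Nat.card W) →
      ∀ (φ : A →* MulAut W), (Nat.card A).Coprime (Nat.card W) → ∀ a b : MulAut W, a * a = 1 →
      b * b = 1 → a * b = b * a → (∀ x, a * φ x = φ x * a) → (∀ x, b * φ x = φ x * b) →
      fixOf a ≤ actFixed φ → fixOf b ≤ actFixed φ →
      ∀ x w, (a * b) (w⁻¹ * φ x w) = w⁻¹ * φ x w := by
  induction n using Nat.strong_induction_on with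
  | _ n ih =>
  intro W _ _ hn hodd φ hcop a b ha hb hab haφ hbφ hfa hfb x w
  rcases subsingleton_or_nontrivial W with h | h
  · exact Subsingleton.elim _ _
  obtain ⟨N, hNc, hN1, hNcomm⟩ := exists_char_comm (Cfsg.Agent.S0205.result hodd)
  have hNodd : Odd (Nat.card N) := Odd.of_dvd_nat hodd (card_subgroup_dvd_card N)
  have hNinv : ∀ c : MulAut W, ∀ y ∈ N, c y ∈ N := fun c =>
    actInv_of_characteristic (MonoidHom.id (MulAut W)) N c
  let q := quotHom (MonoidHom.id (MulAut W)) N (actInv_of_characteristic _ _)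
  have hq : ∀ (c : MulAut W) (y : W), q c (y : W ⧸ N) = (c y : W) := fun c y => quotHom_mk _ _ _ c y
  have hlt : Nat.card (W ⧸ N) < n := by
    rw [← hn, card_eq_card_quotient_mul_card_subgroup N]
    exact lt_mul_of_one_lt_right Nat.card_pos (one_lt_card_iff_ne_bot N |>.2 hN1)
  have hdvd : Nat.card (W ⧸ N) ∣ Nat.card W := card_quotient_dvd_card N
  have hlift : ∀ c : MulAut W, c * c = 1 → ∀ y : W, q c (y : W ⧸ N) = y →
      ∃ k, c k = k ∧ y⁻¹ * k ∈ N := by
    intro c hc y hy
    rw [hq, eq_comm, QuotientGroup.eq] at hy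
    exact exists_fixed_of_odd hc hNodd hy
  have hfix : ∀ c : MulAut W, c * c = 1 → fixOf c ≤ actFixed φ →
      fixOf (q c) ≤ actFixed (q.comp φ) := by
    intro c hc hf y hy
    obtain ⟨y, rfl⟩ := QuotientGroup.mk_surjective y
    obtain ⟨k, hk, hyk⟩ := hlift c hc y hy
    rw [QuotientGroup.eq.2 hyk, mem_actFixed]
    intro z
    rw [MonoidHom.comp_apply, hq, mem_actFixed.1 (hf hk)]
  have IH := ih _ hlt (W ⧸ N) rfl (Odd.of_dvd_nat hodd hdvd) (q.comp φ)
    (hcop.coprime_dvd_right hdvd) (q a) (q b) (by rw [← map_mul, ha, map_one])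
    (by rw [← map_mul, hb, map_one]) (by rw [← map_mul, hab, map_mul])
    (fun x => by rw [MonoidHom.comp_apply, ← map_mul, haφ, map_mul])
    (fun x => by rw [MonoidHom.comp_apply, ← map_mul, hbφ, map_mul])
    (hfix a ha hfa) (hfix b hb hfb)
  have hab2 : a * b * (a * b) = 1 := by
    rw [mul_assoc, ← mul_assoc b a b, ← hab, mul_assoc, hb, mul_one, ha]
  have habφ : ∀ x y, (a * b) (φ x y) = φ x ((a * b) y) := by
    intro x y
    rw [← MulAut.mul_apply, mul_assoc, hbφ, ← mul_assoc, haφ, mul_assoc, MulAut.mul_apply]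
  -- on `N`
  have hNinvert : ∀ c : MulAut W, c * c = 1 → (∀ x, c * φ x = φ x * c) → fixOf c ≤ actFixed φ →
      ∀ y ∈ N, c (y⁻¹ * φ x y) = (y⁻¹ * φ x y)⁻¹ := by
    intro c hc hcφ hf y hy
    have hcc : c (c y) = y := by rw [← MulAut.mul_apply, hc]; rfl
    have h1 : y * c y ∈ fixOf c := by
      rw [mem_fixOf, map_mul, hcc, hNcomm _ (hNinv c y hy) y hy]
    have h2 := mem_actFixed.1 (hf h1) x
    have h3 : c (φ x y) = φ x (c y) := by
      rw [← MulAut.mul_apply, hcφ, MulAut.mul_apply]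
    rw [map_mul] at h2
    rw [map_mul, map_inv, h3]
    have h4 : φ x (c y) = (φ x y)⁻¹ * (y * c y) := by rw [← h2]; group
    rw [h4, hNcomm _ (N.inv_mem (hNinv c y hy)) _
      (N.mul_mem (N.inv_mem (hNinv _ y hy)) (N.mul_mem hy (hNinv c y hy)))]
    group
  have hN : ∀ y ∈ N, (a * b) (y⁻¹ * φ x y) = y⁻¹ * φ x y := by
    intro y hy
    rw [MulAut.mul_apply, hNinvert b hb hbφ hfb y hy, map_inv, hNinvert a ha haφ hfa y hy, inv_inv]
  let U := (fixOf (q (a * b))).comap (QuotientGroup.mk' N)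
  have hU : ActInv φ U := by
    intro z y hy
    change q (a * b) (φ z y : W) = (φ z y : W)
    have hy' : q (a * b) (y : W) = (y : W) := hy
    rw [hq] at hy' ⊢
    rw [habφ, ← hq, hy', hq]
  obtain ⟨k, hk, hwk⟩ := act_exists_fixed_inv_mul_mem hU
    (hcop.coprime_dvd_right (card_subgroup_dvd_card U)) (Or.inl hA) (g := w) (fun z => by
      have := IH z w
      rw [← map_mul] at this
      exact this)
  obtain ⟨c, hc, hyc⟩ := hlift (a * b) hab2 (w⁻¹ * k)⁻¹ (U.inv_mem hwk)
  have hy : (c⁻¹ * (w⁻¹ * k)⁻¹) ∈ N := by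
    have := N.inv_mem hyc
    simpa [mul_assoc] using this
  set y := c⁻¹ * (w⁻¹ * k)⁻¹ with hydef
  have hw : w = k * c * y := by rw [hydef]; group
  have e : w⁻¹ * φ x w = y⁻¹ * (c⁻¹ * φ x c) * φ x y := by
    rw [hw, map_mul, map_mul, mem_actFixed.1 hk]; group
  have hcN : ∀ z : W, ∀ y ∈ N, z * y * z⁻¹ ∈ N := fun z y hy =>
    (inferInstance : N.Normal).conj_mem y hy z
  -- write `w = k y' c`
  set y' := c * y * c⁻¹ with hy'
  have e2 : w⁻¹ * φ x w = c⁻¹ * (y'⁻¹ * φ x y') * φ x c := by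
    rw [e, hy']; simp only [map_mul, map_inv]; group
  rw [e2, map_mul, map_mul, hN y' (hcN c y hy), map_inv, hc, habφ, hc]

/-- The product of two commuting involutions normalizing a subgroup `O` of odd order, whose
centralizers are fixed by the operators, centralizes `[O, A]`. -/
theorem commute_of_four {A G : Type*} [Group A] [Finite A] [Group.IsSolvable A] [Group G]
    [Finite G] {φ : A →* MulAut G} (hcop : (Nat.card A).Coprime (Nat.card G)) {O : Subgroup G}
    (hO : Odd (Nat.card O)) (hOi : ActInv φ O) {s t : G} (hs : s * s = 1) (ht : t * t = 1)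
    (hst : s * t = t * s) (hsO : s ∈ normalizer (O : Set G)) (htO : t ∈ normalizer (O : Set G))
    (hsC : centralizer {s} ≤ actFixed φ) (htC : centralizer {t} ≤ actFixed φ) (x : A) {w : G}
    (hw : w ∈ O) : s * t * (w⁻¹ * φ x w) = w⁻¹ * φ x w * (s * t) := by
  set f := O.normalizerMonoidHom
  have hfa : ∀ (g : normalizer (O : Set G)) (x : O), ((f g x : O) : G) = g * x * (g : G)⁻¹ :=
    fun _ _ => rfl
  have hcomm : ∀ {s : G} (hsO : s ∈ normalizer (O : Set G)), centralizer {s} ≤ actFixed φ →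
      ∀ x, f ⟨s, hsO⟩ * subHom φ O hOi x = subHom φ O hOi x * f ⟨s, hsO⟩ := by
    intro s hsO hsC x
    have h1 : φ x s = s := mem_actFixed.1 (hsC (mem_centralizer_singleton_iff.2 rfl)) x
    ext y
    rw [MulAut.mul_apply, MulAut.mul_apply, hfa, coe_subHom_apply, coe_subHom_apply, hfa]
    simp [h1]
  have hfix : ∀ {s : G} (hsO : s ∈ normalizer (O : Set G)), centralizer {s} ≤ actFixed φ →
      fixOf (f ⟨s, hsO⟩) ≤ actFixed (subHom φ O hOi) := by
    intro s hsO hsC y hy
    have h1 : s * y * s⁻¹ = y := congrArg Subtype.val (mem_fixOf.1 hy)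
    rw [mem_actFixed]
    intro x
    apply Subtype.ext
    rw [coe_subHom_apply]
    exact mem_actFixed.1 (hsC (mem_centralizer_singleton_iff.2
      (mul_inv_eq_iff_eq_mul.1 h1).symm)) x
  have := mul_fix_aux _ O rfl hO (subHom φ O hOi)
    (hcop.coprime_dvd_right (card_subgroup_dvd_card O)) (f ⟨s, hsO⟩) (f ⟨t, htO⟩)
    (by rw [← map_mul]; exact (congrArg f (Subtype.ext hs)).trans (map_one f))
    (by rw [← map_mul]; exact (congrArg f (Subtype.ext ht)).trans (map_one f))
    (by rw [← map_mul, ← map_mul]; exact congrArg f (Subtype.ext hst))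
    (hcomm hsO hsC) (hcomm htO htC) (hfix hsO hsC) (hfix htO htC) x ⟨w, hw⟩
  rw [← map_mul] at this
  have h2 := congrArg Subtype.val this
  rw [hfa] at h2
  exact mul_inv_eq_iff_eq_mul.1 h2

end Cfsg.Agent.Loc.GA
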