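import Mathlib
import Cfsg.Agent.Loc.GlaubFour

/-!
# Coprime operators centralizing the centralizer of an involution (Glauberman)

If a solvable group `A` of order prime to `|G|` acts on `G` and fixes `C_G(τ)` elementwise for an
involution `τ`, then `[G, A] ≤ O(G)`.
-/

set_option autoImplicit false

namespace Cfsg.Agent.Loc.GA

open Subgroup Cfsg.Agent.GT Cfsg.Agent.GT.CopAct Cfsg.Agent.Inv.Fz

universe u

section dihedral

variable {G : Type*} [Group G]

theorem exists_central_inv [Finite G] {x y : G} (hx : x * x = 1) (hy : y * y = 1)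
    (h : ¬ Odd (orderOf (x * y))) :
    ∃ z, orderOf z = 2 ∧ z * x = x * z ∧ z * y = y * z := by
  obtain ⟨m, hm⟩ := Nat.not_odd_iff_even.1 h
  have hm0 : 0 < m := by have := orderOf_pos (x * y); omega
  have h1 : (x * y) ^ m * (x * y) ^ m = 1 := by rw [← pow_add, ← hm, pow_orderOf_eq_one]
  have h2 : (x * y) ^ m ≠ 1 := pow_ne_one_of_lt_orderOf hm0.ne' (by omega)
  have h3 := Inv.iso_inverts_pow (Inv.iso_inverts_mul hx hy) m
  rw [inv_eq_of_mul_eq_one_right h1, mul_inv_eq_iff_eq_mul] at h3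
  refine ⟨_, Inv.iso_orderOf_eq_two h1 h2, h3.symm, ?_⟩
  have h4 : y = x * (x * y) := by rw [← mul_assoc, hx, one_mul]
  have h5 : (x * y) ^ m * (x * y) = (x * y) * (x * y) ^ m := (Commute.refl _).pow_left m
  generalize (x * y) ^ m = z at h3 h5
  generalize x * y = r at h4 h5
  rw [h4, ← mul_assoc, ← h3, mul_assoc, h5, mul_assoc]

theorem exists_central_four {x y : G} (hx : x * x = 1) (hy : y * y = 1) {k : ℕ}
    (h : orderOf (x * y) = 2 ^ k) (hc : x * y ≠ y * x) :
    ∃ e u, orderOf e = 2 ∧ e * x = x * e ∧ e * y = y * e ∧ u ∈ zpowers (x * y) ∧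
      e ∈ zpowers (x * y) ∧ u⁻¹ * x * u = x * e := by
  have hk : 2 ≤ k := by
    by_contra hlt
    apply hc
    have h1 : (x * y) ^ 2 = 1 := by
      apply orderOf_dvd_iff_pow_eq_one.1
      rw [h]
      have : k ≤ 1 := by omega
      interval_cases k <;> simp
    have h2 : (x * y)⁻¹ = x * y := inv_eq_of_mul_eq_one_right (by rwa [pow_two] at h1)
    rw [← h2, mul_inv_rev, inv_eq_of_mul_eq_one_right hx, inv_eq_of_mul_eq_one_right hy]
  obtain ⟨j, rfl⟩ := Nat.exists_eq_add_of_le hk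
  set m := 2 ^ j with hm
  have hm0 : 0 < m := by positivity
  have ho : orderOf (x * y) = 2 * m + 2 * m := by rw [h, pow_add]; ring
  have h1 : (x * y) ^ (2 * m) * (x * y) ^ (2 * m) = 1 := by
    rw [← pow_add, ← ho, pow_orderOf_eq_one]
  have h2 : (x * y) ^ (2 * m) ≠ 1 := pow_ne_one_of_lt_orderOf (by omega) (by omega)
  have h3 := Inv.iso_inverts_pow (Inv.iso_inverts_mul hx hy) (2 * m)
  rw [inv_eq_of_mul_eq_one_right h1, mul_inv_eq_iff_eq_mul] at h3
  refine ⟨_, (x * y) ^ m, Inv.iso_orderOf_eq_two h1 h2, h3.symm, ?_, pow_mem (mem_zpowers _) _,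
    pow_mem (mem_zpowers _) _, Inv.iso_conj_even (Inv.iso_inverts_mul hx hy) m⟩
  have h4 : y = x * (x * y) := by rw [← mul_assoc, hx, one_mul]
  have h5 : (x * y) ^ (2 * m) * (x * y) = (x * y) * (x * y) ^ (2 * m) := (Commute.refl _).pow_left _
  generalize (x * y) ^ (2 * m) = z at h3 h5
  generalize x * y = r at h4 h5
  rw [h4, ← mul_assoc, ← h3, mul_assoc, h5, mul_assoc]

theorem isPGroup_zpowers_sq {s : G} (hs : s * s = 1) : IsPGroup 2 (zpowers s) := by
  apply IsPGroup.of_card_dvd_pow (n := 1)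
  rw [Nat.card_zpowers, pow_one]
  exact orderOf_dvd_of_pow_eq_one (by rw [pow_two, hs])

theorem orderOf_conj' (g x : G) : orderOf (g * x * g⁻¹) = orderOf x :=
  (MulAut.conj g).orderOf_eq x

end dihedral

variable {A : Type*} [Group A] [Finite A] [hA : Group.IsSolvable A]
  {G : Type u} [Group G] [Finite G] {φ : A →* MulAut G}

/-- An involution whose centralizer is fixed by the operators. -/
def JJ (φ : A →* MulAut G) (t : G) : Prop := orderOf t = 2 ∧ centralizer {t} ≤ actFixed φ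

omit [Finite A] hA [Finite G] in
theorem JJ.mem {t : G} (h : JJ φ t) : t ∈ actFixed φ :=
  h.2 (mem_centralizer_singleton_iff.2 rfl)

omit [Finite A] hA [Finite G] in
theorem JJ.sq {t : G} (h : JJ φ t) : t * t = 1 := Inv.iso_mul_self_of_orderOf h.1

omit [Finite A] hA [Finite G] in
theorem JJ.mem_of_comm {t z : G} (h : JJ φ t) (hz : z * t = t * z) : z ∈ actFixed φ :=
  h.2 (mem_centralizer_singleton_iff.2 hz)

omit [Finite A] hA [Finite G] in
theorem JJ.conj {t k : G} (h : JJ φ t) (hk : k ∈ actFixed φ) : JJ φ (k * t * k⁻¹) := by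
  refine ⟨by rw [orderOf_conj', h.1], ?_⟩
  rw [← cj_centralizer_singleton, ← cj_eq_of_mem hk]
  exact cj_mono h.2

omit [Finite A] hA [Finite G] in
theorem actInv_centralizer_singleton {z : G} (hz : z ∈ actFixed φ) :
    ActInv φ (centralizer {z}) := by
  intro a h hh
  rw [mem_centralizer_singleton_iff] at hh ⊢
  rw [← mem_actFixed.1 hz a, ← map_mul, hh, map_mul]

section cop

variable (hcop : (Nat.card A).Coprime (Nat.card G))
include hcop

theorem exists_fixed_conj {x g : G} (hx : x ∈ actFixed φ) (hg : g * x * g⁻¹ ∈ actFixed φ) :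
    ∃ k ∈ actFixed φ, k * x * k⁻¹ = g * x * g⁻¹ :=
  act_exists_fixed_conj_elt hcop (Or.inl hA) hx hg (isConj_iff.2 ⟨g, rfl⟩)

theorem JJ.mem_of_conj {t g : G} (h : JJ φ t) (hg : g * t * g⁻¹ ∈ actFixed φ) :
    g ∈ actFixed φ := by
  obtain ⟨k, hk, e⟩ := exists_fixed_conj hcop h.mem hg
  have : k⁻¹ * g ∈ actFixed φ := by
    apply h.mem_of_comm
    calc k⁻¹ * g * t = k⁻¹ * (g * t * g⁻¹) * g := by group
      _ = t * (k⁻¹ * g) := by rw [← e]; group
  simpa using mul_mem hk this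

theorem JJ.of_conj {t g : G} (h : JJ φ t) (hg : g * t * g⁻¹ ∈ actFixed φ) :
    JJ φ (g * t * g⁻¹) := h.conj (h.mem_of_conj hcop hg)

/-- Invariant 2-subgroups are fixed. -/
theorem le_actFixed_of_two {τ : G} (hτ : JJ φ τ) {T : Subgroup G} (hT : IsPGroup 2 T)
    (hTi : ActInv φ T) : T ≤ actFixed φ := by
  obtain ⟨S, hS, hSi⟩ := act_exists_invariant_sylow_ge hcop (Or.inl hA) (isPGroup_zpowers_sq hτ.sq)
    (actInv_of_le_actFixed (by rw [zpowers_le]; exact hτ.mem))
  have hτS : τ ∈ (S : Subgroup G) := hS (mem_zpowers τ)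
  have hSC : (S : Subgroup G) ≤ actFixed φ := by
    have := S.isPGroup'.isNilpotent
    have h1 := act_trivial_of_isNilpotent_of_subgroup (φ := subHom φ S hSi)
      (hcop.coprime_dvd_right (card_subgroup_dvd_card _)) (U := zpowers ⟨τ, hτS⟩)
      (by
        rw [zpowers_le, mem_actFixed]
        exact fun a => Subtype.ext (mem_actFixed.1 hτ.mem a))
      (by
        intro y hy
        rw [mem_actFixed]
        intro a
        have := mem_centralizer_iff.1 hy _ (mem_zpowers _)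
        exact Subtype.ext (mem_actFixed.1 (hτ.mem_of_comm (congrArg Subtype.val this).symm) a))
    intro s hs
    rw [mem_actFixed]
    intro a
    have := coe_subHom_apply φ S hSi a ⟨s, hs⟩
    rw [h1 a] at this
    exact this.symm
  obtain ⟨P, hP, hPi⟩ := act_exists_invariant_sylow_ge hcop (Or.inl hA) hT hTi
  obtain ⟨c, hc, e⟩ := act_invariant_sylow_conj hcop (Or.inl hA) S P hSi hPi
  refine hP.trans ?_
  rw [← e, Sylow.coe_subgroup_smul]
  change cj c S ≤ _
  rw [← cj_eq_of_mem hc]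
  exact cj_mono hSC

theorem exists_conj_mem_actFixed {τ : G} (hτ : JJ φ τ) {H : Subgroup G} (hH : ActInv φ H) {s : G}
    (hs : s ∈ H) (hs2 : s * s = 1) : ∃ n ∈ H, n * s * n⁻¹ ∈ actFixed φ := by
  obtain ⟨T, hT⟩ := act_exists_invariant_sylow (subHom φ H hH)
    (hcop.coprime_dvd_right (card_subgroup_dvd_card _)) (Or.inl hA) 2
  have h1 := isSylIn_map_subtype T
  have h2 : (T : Subgroup H).map H.subtype ≤ actFixed φ := by
    refine le_actFixed_of_two hcop hτ h1.isPGroup ?_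
    rintro a _ ⟨y, hy, rfl⟩
    exact ⟨_, hT a y hy, rfl⟩
  obtain ⟨n, hn, e⟩ := h1.exists_cj_le (isPGroup_zpowers_sq hs2) (by rwa [zpowers_le])
  exact ⟨n, hn, h2 (e (conj_mem_cj.2 (mem_zpowers s)))⟩

/-- The general step: all conjugates of `σ` are fixed. -/
theorem conj_mem_of_Q {x σ : G} (hx : JJ φ x) (hσ : orderOf σ = 2) (hσC : σ ∈ actFixed φ)
    (hσJ : ¬ JJ φ σ)
    (hQ : ∀ z, orderOf z = 2 → z * x = x * z → z * σ = σ * z →
      ∀ g, g * z * g⁻¹ ∈ actFixed φ → g * σ * g⁻¹ ∈ actFixed φ) (g : G) :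
    g * σ * g⁻¹ ∈ actFixed φ := by
  set s := g * σ * g⁻¹ with hs
  have hs2 : s * s = 1 := Inv.iso_conj_mul_self (Inv.iso_mul_self_of_orderOf hσ) g
  set X := actFixed φ ⊓ centralizer {s} with hX
  have hXi : ActInv φ (centralizer (X : Set G)) :=
    (actInv_of_le_actFixed (inf_le_left : X ≤ _)).centralizer
  obtain ⟨c, hc, hcs⟩ := exists_conj_mem_actFixed hcop hx hXi (s := s)
    (mem_centralizer_iff.2 fun y hy => mem_centralizer_singleton_iff.1 hy.2) hs2
  obtain ⟨k, hk, e⟩ := exists_fixed_conj hcop hσC (g := c * g) (by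
    convert hcs using 1
    rw [hs]; group)
  have hx1 := hx.conj hk
  have hne : ¬ Odd (orderOf (k * x * k⁻¹ * s)) := by
    intro hodd
    obtain ⟨j, hj⟩ := Inv.iso_exists_pow_conj hs2 hx1.sq hodd
    apply hσJ
    generalize (k * x * k⁻¹ * s) ^ j = d at hj
    have e2 : σ = (d * g)⁻¹ * (k * x * k⁻¹) * (d * g)⁻¹⁻¹ := by rw [← hj, hs]; group
    rw [e2] at hσC ⊢
    exact hx1.of_conj hcop hσC
  obtain ⟨z, hz, hz1, hz2⟩ := exists_central_inv hx1.sq hs2 hne
  have hzC : z ∈ actFixed φ := hx1.mem_of_comm hz1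
  have hcz : z * c = c * z :=
    mem_centralizer_iff.1 hc z ⟨hzC, mem_centralizer_singleton_iff.2 hz2⟩
  have e3 : k * σ * k⁻¹ = c * s * c⁻¹ := by rw [e, hs]; group
  have h1 := hQ (k⁻¹ * z * k⁻¹⁻¹) (by rw [orderOf_conj', hz])
    (by
      calc k⁻¹ * z * k⁻¹⁻¹ * x = k⁻¹ * (z * (k * x * k⁻¹)) * k := by group
        _ = _ := by rw [hz1]; group)
    (by
      calc k⁻¹ * z * k⁻¹⁻¹ * σ = k⁻¹ * (z * (k * σ * k⁻¹)) * k := by group
        _ = k⁻¹ * (z * c * s * c⁻¹) * k := by rw [e3]; group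
        _ = k⁻¹ * (c * (z * s) * c⁻¹) * k := by rw [hcz]; group
        _ = k⁻¹ * (c * s * c⁻¹ * (c * z) * c⁻¹) * k := by rw [hz2]; group
        _ = _ := by rw [← hcz, ← e3]; group)
    (c⁻¹ * k) (by
      have : c⁻¹ * k * (k⁻¹ * z * k⁻¹⁻¹) * (c⁻¹ * k)⁻¹ = c⁻¹ * (z * c) := by group
      rw [this, hcz, inv_mul_cancel_left]
      exact hzC)
  have : c⁻¹ * k * σ * (c⁻¹ * k)⁻¹ = c⁻¹ * (k * σ * k⁻¹) * c := by group
  rw [this, e3] at h1
  convert h1 using 1
  group

/-- The strongly embedded case. -/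
theorem eq_top_of_all_JJ {τ τ' : G} (hτ : JJ φ τ) (hτ' : JJ φ τ') (hne : τ ≠ τ')
    (hc : τ * τ' = τ' * τ) (hall : ∀ t ∈ actFixed φ, orderOf t = 2 → JJ φ t) :
    actFixed φ = ⊤ := by
  by_contra hC
  obtain ⟨g₀, hg₀⟩ : ∃ g, g ∉ actFixed φ := by
    by_contra h
    push Not at h
    exact hC (eq_top_iff.2 fun x _ => h x)
  set C := actFixed φ with hCdef
  set D := C ⊓ cj g₀ C with hD
  have hDodd : ∀ t ∈ D, orderOf t ≠ 2 := by
    intro t ht ho
    have h1 := (hall t ht.1 ho).mem_of_conj hcop (g := g₀⁻¹) (by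
      rw [inv_inv]; exact mem_cj.1 ht.2)
    exact hg₀ (by simpa using h1)
  set x' := g₀ * τ * g₀⁻¹ with hx'
  have hx'2 : x' * x' = 1 := Inv.iso_conj_mul_self hτ.sq g₀
  have hj : ∀ x, JJ φ x → ∃ j, j * j = 1 ∧ j * x * j⁻¹ = x' ∧ g₀⁻¹ * j ∈ C := by
    intro x hx
    have hodd : Odd (orderOf (x' * x)) := by
      by_contra h
      obtain ⟨z, hz, hz1, hz2⟩ := exists_central_inv hx'2 hx.sq h
      refine hDodd z ⟨hx.mem_of_comm hz2, ?_⟩ hz
      have : z ∈ centralizer {x'} := mem_centralizer_singleton_iff.2 hz1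
      rw [hx', ← cj_centralizer_singleton] at this
      exact cj_mono hτ.2 this
    obtain ⟨i, hi⟩ := Inv.iso_exists_pow_conj hx.sq hx'2 hodd
    have h1 : x * (x' * x) * x⁻¹ = (x' * x)⁻¹ := by
      rw [mul_inv_rev, inv_eq_of_mul_eq_one_right hx'2, inv_eq_of_mul_eq_one_right hx.sq,
        mul_assoc, mul_assoc, hx.sq, mul_one]
    have h2 := Inv.iso_inverts_pow h1 i
    generalize (x' * x) ^ i = d at hi h2
    have h3 : d * x * x * (d * x)⁻¹ = x' := by rw [← hi]; group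
    refine ⟨d * x, ?_, h3, hx.mem_of_conj hcop ?_⟩
    · calc d * x * (d * x) = d * (x * d * x⁻¹) * (x * x) := by group
        _ = 1 := by rw [h2, hx.sq]; group
    · have : g₀⁻¹ * (d * x) * x * (g₀⁻¹ * (d * x))⁻¹ = g₀⁻¹ * (d * x * x * (d * x)⁻¹) * g₀ := by
        group
      rw [this, h3, hx']
      simpa [mul_assoc] using hτ.mem
  have hcj : ∀ j, g₀⁻¹ * j ∈ C → cj j C = cj g₀ C := by
    intro j h
    have : cj j C = cj (g₀ * (g₀⁻¹ * j)) C := by rw [mul_inv_cancel_left]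
    rw [this, ← cj_cj, cj_eq_of_mem h]
  have htr : ∀ x y, JJ φ x → JJ φ y → ∃ d ∈ D, d * x * d⁻¹ = y := by
    intro x y hx hy
    obtain ⟨j₁, h1, h2, h3⟩ := hj x hx
    obtain ⟨j₂, h4, h5, h6⟩ := hj y hy
    have i1 : j₁⁻¹ = j₁ := inv_eq_of_mul_eq_one_right h1
    have i2 : j₂⁻¹ = j₂ := inv_eq_of_mul_eq_one_right h4
    have h7 : j₂ * j₁ ∈ C := by
      have := C.mul_mem (C.inv_mem h6) h3
      simpa [mul_assoc, i2] using this
    refine ⟨j₂ * j₁, mem_inf.2 ⟨h7, ?_⟩, ?_⟩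
    · rw [← hcj j₂ h6, mem_cj]
      have := C.inv_mem h7
      rw [mul_inv_rev, i1, i2] at this
      rw [← mul_assoc, inv_mul_cancel, one_mul]
      exact this
    · calc j₂ * j₁ * x * (j₂ * j₁)⁻¹ = j₂ * (j₁ * x * j₁⁻¹) * j₂⁻¹ := by group
        _ = j₂ * j₂ * y * (j₂ * j₂)⁻¹ := by rw [h2, ← h5]; group
        _ = y := by rw [h4]; group
  obtain ⟨j, h1, h2, h3⟩ := hj τ hτ
  have hjD : j ∈ normalizer (D : Set G) := by
    rw [← cj_eq_iff, hD, cj_inf, hcj j h3, ← hcj j h3, cj_cj, h1, cj_one, inf_comm]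
  have hDi : ActInv φ D := actInv_of_le_actFixed inf_le_left
  obtain ⟨n, hn, hnj⟩ := exists_conj_mem_actFixed hcop hτ hDi.normalizer hjD h1
  set j₀ := n * j * n⁻¹ with hj₀
  have hj₀D : j₀ ∈ normalizer (D : Set G) := mul_mem (mul_mem hn hjD) (inv_mem hn)
  have hj1 : j ≠ 1 := by
    rintro rfl
    exact hg₀ (by simpa using h3)
  have hj₀J : JJ φ j₀ := hall _ hnj (by rw [hj₀, orderOf_conj', Inv.iso_orderOf_eq_two h1 hj1])
  obtain ⟨d₁, hd₁, e₁⟩ := htr τ j₀ hτ hj₀J
  have hJ' := hτ'.conj hd₁.1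
  obtain ⟨d, hd, e⟩ := htr j₀ _ hj₀J hJ'
  have hmem : d₁ * τ' * d₁⁻¹ * j₀ ∈ D := by
    have : d₁ * τ' * d₁⁻¹ * j₀ = d * (j₀ * d⁻¹ * j₀⁻¹) := by
      rw [← e, inv_eq_of_mul_eq_one_right hj₀J.sq]; group
    rw [this]
    exact D.mul_mem hd ((mem_normalizer_iff.1 hj₀D _).1 (D.inv_mem hd))
  apply hDodd _ hmem
  have : d₁ * τ' * d₁⁻¹ * j₀ = d₁ * (τ' * τ) * d₁⁻¹ := by rw [← e₁]; group
  rw [this, orderOf_conj']
  apply Inv.iso_orderOf_eq_two
  · rw [mul_assoc, ← mul_assoc τ, hc, mul_assoc, hτ.sq, mul_one, hτ'.sq]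
  · intro h
    apply hne
    rw [← mul_one τ', ← hτ.sq, ← mul_assoc, h, one_mul]

section loc

variable (hloc : ∀ z t : G, orderOf z = 2 → JJ φ t → z * t = t * z →
  ∃ O : Subgroup G, Odd (Nat.card O) ∧ ActInv φ O ∧ centralizer {z} ≤ normalizer (O : Set G) ∧
    ∀ a, ∀ h ∈ centralizer ({z} : Set G), h⁻¹ * φ a h ∈ O)
include hloc

theorem conj_mul_mem {x x' z : G} (hx : JJ φ x) (hx' : JJ φ x') (hc : x * x' = x' * x)
    (hz : orderOf z = 2) (h1 : z * x = x * z) (h2 : z * x' = x' * z) {g : G}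
    (hg : g * z * g⁻¹ ∈ actFixed φ) : g * (x * x') * g⁻¹ ∈ actFixed φ := by
  obtain ⟨O, hO, hOi, hN, hOa⟩ := hloc z x hz hx h1
  obtain ⟨k, hk, e⟩ := exists_fixed_conj hcop (hx.mem_of_comm h1) hg
  have hh : g⁻¹ * k ∈ centralizer ({z} : Set G) := by
    rw [mem_centralizer_singleton_iff]
    calc g⁻¹ * k * z = g⁻¹ * (k * z * k⁻¹) * k := by group
      _ = _ := by rw [e]; group
  obtain ⟨c, hcC, hcO⟩ := act_exists_fixed_inv_mul_mem hOi
    (hcop.coprime_dvd_right (card_subgroup_dvd_card _)) (Or.inl hA) (g := (g⁻¹ * k)⁻¹)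
    (fun a => hOa a _ (inv_mem hh))
  rw [inv_inv] at hcO
  set w := g⁻¹ * k * c with hw
  have hy : x * x' ∈ actFixed φ := mul_mem hx.mem hx'.mem
  have h3 : w⁻¹ * (x * x') * w ∈ actFixed φ := by
    rw [mem_actFixed]
    intro a
    have := commute_of_four hcop hO hOi hx.sq hx'.sq hc
      (hN (mem_centralizer_singleton_iff.2 h1.symm)) (hN (mem_centralizer_singleton_iff.2 h2.symm))
      hx.2 hx'.2 a (O.inv_mem hcO)
    rw [map_mul, map_mul, mem_actFixed.1 hy, map_inv]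
    rw [inv_inv, map_inv] at this
    calc (φ a w)⁻¹ * (x * x') * φ a w = w⁻¹ * (w * (φ a w)⁻¹ * (x * x')) * φ a w := by group
      _ = _ := by rw [← this]; group
  have : g * (x * x') * g⁻¹ = (k * c) * (w⁻¹ * (x * x') * w) * (k * c)⁻¹ := by rw [hw]; group
  rw [this]
  exact mul_mem (mul_mem (mul_mem hk hcC) h3) (inv_mem (mul_mem hk hcC))

omit hA in
theorem eq_top_of_conj_mem (hO : oddCore G = ⊥) {σ t : G} (hσ : orderOf σ = 2) (ht : JJ φ t)
    (hc : σ * t = t * σ) (h : ∀ g, g * σ * g⁻¹ ∈ actFixed φ) : actFixed φ = ⊤ := by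
  obtain ⟨O, hOo, -, -, hOa⟩ := hloc σ t hσ ht hc
  have hσC : σ ∈ actFixed φ := ht.mem_of_comm hc
  have h1 : actComm φ ⊤ ≤ centralizer {σ} := by
    rw [actComm_le_iff]
    intro g _ a
    have := mem_actFixed.1 (h g) a
    rw [map_mul, map_mul, map_inv, mem_actFixed.1 hσC] at this
    rw [mem_centralizer_singleton_iff]
    calc g⁻¹ * φ a g * σ = g⁻¹ * (φ a g * σ * (φ a g)⁻¹) * φ a g := by group
      _ = _ := by rw [this]; group
  have h2 : actComm φ ⊤ ≤ O := by
    rw [← actComm_actComm (actInv_top φ) (by rwa [card_top]), actComm_le_iff]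
    exact fun u hu a => hOa a u (h1 hu)
  have := actComm_normal φ
  have h3 : actComm φ ⊤ ≤ oddCore G := le_oddCore (Odd.of_dvd_nat hOo (card_dvd_of_le h2))
  rw [hO, le_bot_iff, actComm_eq_bot_iff, top_le_iff] at h3
  exact h3

theorem eq_top_of_mul_not_JJ (hO : oddCore G = ⊥) {x x' : G} (hx : JJ φ x) (hx' : JJ φ x')
    (hne : x ≠ x') (hc : x * x' = x' * x) (hJ : ¬ JJ φ (x * x')) : actFixed φ = ⊤ := by
  have ho : orderOf (x * x') = 2 := by
    apply Inv.iso_orderOf_eq_two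
    · rw [mul_assoc, ← mul_assoc x', ← hc, mul_assoc, hx'.sq, mul_one, hx.sq]
    · intro h
      apply hne
      rw [← mul_one x, ← hx'.sq, ← mul_assoc, h, one_mul]
  refine eq_top_of_conj_mem hcop hloc hO ho hx (by rw [mul_assoc, ← hc]) ?_
  refine conj_mem_of_Q hcop hx ho (mul_mem hx.mem hx'.mem) hJ fun z hz h1 h2 g hg => ?_
  refine conj_mul_mem hcop hloc hx hx' hc hz h1 ?_ hg
  apply mul_left_cancel (a := x)
  rw [← mul_assoc, ← h1, mul_assoc, h2, mul_assoc]

theorem eq_top_of_core (hO : oddCore G = ⊥) {τ : G} (hτ : JJ φ τ) : actFixed φ = ⊤ := by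
  by_cases hiso : IsIsolatedInvolution τ
  · rw [eq_top_iff]
    intro g _
    exact hτ.mem_of_comm (mem_center_iff.1 (hiso.mem_center hO) g)
  obtain ⟨g, hg, hne⟩ : ∃ g : G, Commute τ (g * τ * g⁻¹) ∧ g * τ * g⁻¹ ≠ τ := by
    by_contra h
    push Not at h
    exact hiso ⟨hτ.1, h⟩
  have hτ' : JJ φ (g * τ * g⁻¹) := hτ.of_conj hcop (hτ.mem_of_comm hg.eq.symm)
  generalize g * τ * g⁻¹ = τ' at hg hne hτ'
  by_cases hall : ∀ t ∈ actFixed φ, orderOf t = 2 → JJ φ t
  · exact eq_top_of_all_JJ hcop hτ hτ' hne.symm hg.eq hall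
  push Not at hall
  obtain ⟨σ₀, hσ₀C, hσ₀, hσ₀J⟩ := hall
  by_cases hy : JJ φ (τ * τ')
  swap
  · exact eq_top_of_mul_not_JJ hcop hloc hO hτ hτ' hne.symm hg.eq hy
  have hV : IsPGroup 2 ↥(zpowers τ ⊔ zpowers τ') :=
    IsPGroup.to_sup_of_normal_left' (isPGroup_zpowers_sq hτ.sq) (isPGroup_zpowers_sq hτ'.sq)
      (by
        refine le_trans ?_ (centralizer_le_normalizer _)
        rw [zpowers_le, mem_centralizer_iff]
        rintro _ ⟨n, rfl⟩
        exact (hg.zpow_left n).eq)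
  obtain ⟨S, hS, hVS⟩ := exists_isSylIn hV
    (sup_le (by rw [zpowers_le]; exact hτ.mem) (by rw [zpowers_le]; exact hτ'.mem))
  obtain ⟨k, hk, hkS⟩ := hS.exists_cj_le (isPGroup_zpowers_sq (Inv.iso_mul_self_of_orderOf hσ₀))
    (by rwa [zpowers_le])
  have hσS : k * σ₀ * k⁻¹ ∈ S := hkS (conj_mem_cj.2 (mem_zpowers _))
  have hσ : orderOf (k * σ₀ * k⁻¹) = 2 := by rw [orderOf_conj', hσ₀]
  have hσJ : ¬ JJ φ (k * σ₀ * k⁻¹) := fun h => hσ₀J (by
    have := h.conj (inv_mem hk)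
    simpa [mul_assoc] using this)
  generalize k * σ₀ * k⁻¹ = σ at hσS hσ hσJ
  have hσC : σ ∈ actFixed φ := hS.le hσS
  have key : ∀ x ∈ S, JJ φ x → x * σ ≠ σ * x → actFixed φ = ⊤ := by
    intro x hxS hx hxσ
    obtain ⟨m, hm⟩ := IsPGroup.iff_orderOf.1 hS.isPGroup ⟨x * σ, S.mul_mem hxS hσS⟩
    rw [orderOf_mk] at hm
    obtain ⟨e, u, he, hex, heσ, hu, heu, e1⟩ :=
      exists_central_four hx.sq (Inv.iso_mul_self_of_orderOf hσ) hm hxσ
    have huC : u ∈ actFixed φ := (zpowers_le.2 (mul_mem hx.mem hσC)) hu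
    have hxe : JJ φ (x * e) := by
      have := hx.conj (inv_mem huC)
      rwa [inv_inv, e1] at this
    have hxxe : x * (x * e) = e := by rw [← mul_assoc, hx.sq, one_mul]
    have hc : x * (x * e) = x * e * x := by rw [mul_assoc, hex]
    by_cases heJ : JJ φ e
    · refine eq_top_of_conj_mem hcop hloc hO hσ heJ heσ.symm ?_
      refine conj_mem_of_Q hcop hx hσ hσC hσJ fun z hz h1 h2 g hg => ?_
      have h3 : z * e = e * z := by
        obtain ⟨n, rfl⟩ := heu
        exact (Commute.zpow_right (Commute.mul_right h1 h2) n).eq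
      have h4 := conj_mul_mem hcop hloc hx hxe hc hz h1
        (by rw [← mul_assoc, h1, mul_assoc, h3, mul_assoc]) hg
      rw [hxxe] at h4
      have h5 := heJ.mem_of_conj hcop h4
      exact mul_mem (mul_mem h5 hσC) (inv_mem h5)
    · refine eq_top_of_mul_not_JJ hcop hloc hO hx hxe (fun h => ?_) hc (by rwa [hxxe])
      exact Inv.iso_ne_one_of_orderOf he (left_eq_mul.1 h)
  by_cases h1 : τ * σ = σ * τ
  swap
  · exact key τ (hVS (mem_sup_left (mem_zpowers _))) hτ h1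
  by_cases h2 : τ' * σ = σ * τ'
  swap
  · exact key τ' (hVS (mem_sup_right (mem_zpowers _))) hτ' h2
  exfalso
  refine hσJ ⟨hσ, fun g hg' => ?_⟩
  refine hy.mem_of_conj hcop (conj_mul_mem hcop hloc hτ hτ' hg.eq hσ h1.symm h2.symm ?_)
  rw [mem_centralizer_singleton_iff.1 hg', mul_inv_cancel_right]
  exact hσC

end loc

end cop

theorem commutator_mem_oddCore_aux (n : ℕ) :
    ∀ (G : Type u) [Group G] [Finite G], Nat.card G = n → ∀ (φ : A →* MulAut G),
      (Nat.card A).Coprime (Nat.card G) → ∀ τ, JJ φ τ → ∀ a g, g⁻¹ * φ a g ∈ oddCore G := by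
  induction n using Nat.strong_induction_on with
  | _ n ih =>
  intro G _ _ hn φ hcop τ hτ
  have hlt : ∀ (N : Subgroup G) [N.Normal], N ≠ ⊥ → Nat.card (G ⧸ N) < n := by
    intro N _ hN
    rw [← hn, card_eq_card_quotient_mul_card_subgroup N]
    exact lt_mul_of_one_lt_right Nat.card_pos (one_lt_card_iff_ne_bot N |>.2 hN)
  have hτq : ∀ (N : Subgroup G) [N.Normal], τ ∉ N → orderOf (τ : G ⧸ N) = 2 := by
    intro N _ hN
    apply Inv.iso_orderOf_eq_two
    · rw [← QuotientGroup.mk_mul, hτ.sq, QuotientGroup.mk_one]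
    · rwa [Ne, QuotientGroup.eq_one_iff]
  by_cases hO : oddCore G = ⊥
  swap
  · have hi : ActInv φ (oddCore G) := actInv_of_characteristic _ _
    have hτO : τ ∉ oddCore G := fun h =>
      (Nat.not_even_iff_odd.2 (odd_card_oddCore (G := G)))
        (even_iff_two_dvd.2 (hτ.1 ▸ orderOf_dvd_natCard _ h))
    have IH := ih _ (hlt _ hO) (G ⧸ oddCore G) rfl (quotHom φ _ hi)
      (hcop.coprime_dvd_right (card_quotient_dvd_card _)) τ ⟨hτq _ hτO, by
        intro g hg
        obtain ⟨g, rfl⟩ := QuotientGroup.mk_surjective g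
        rw [mem_centralizer_singleton_iff, ← QuotientGroup.mk_mul, ← QuotientGroup.mk_mul,
          QuotientGroup.eq] at hg
        obtain ⟨c, hc, hgc⟩ := exists_fixed_of_odd (a := MulAut.conj τ)
          (by rw [← map_mul, hτ.sq, map_one]) (odd_card_oddCore (G := G)) (g := g) (by
            have := (inferInstance : (oddCore G).Normal).conj_mem _ hg τ
            simpa [mul_assoc] using this)
        rw [QuotientGroup.eq.2 hgc, mem_actFixed]
        intro a
        rw [quotHom_mk, mem_actFixed.1 (hτ.mem_of_comm _)]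
        exact (mul_inv_eq_iff_eq_mul.1 hc).symm⟩
    intro a g
    have := IH a g
    rw [show oddCore (G ⧸ oddCore G) = ⊥ from pPrimeCore_quotient_pPrimeCore, mem_bot, quotHom_mk, ← QuotientGroup.mk_inv,
      ← QuotientGroup.mk_mul, QuotientGroup.eq_one_iff] at this
    exact this
  suffices h : actFixed φ = ⊤ by
    intro a g
    rw [mem_actFixed.1 (h ▸ mem_top g : g ∈ actFixed φ), inv_mul_cancel]
    exact one_mem _
  by_cases hτZ : τ ∈ center G
  · rw [eq_top_iff]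
    exact fun g _ => hτ.mem_of_comm (mem_center_iff.1 hτZ g)
  by_cases hZ : ∃ z ∈ center G, orderOf z = 2
  · obtain ⟨z, hzZ, hz⟩ := hZ
    have hNZ : zpowers z ≤ center G := zpowers_le.2 hzZ
    have : (zpowers z).Normal := ⟨fun y hy g => by
      rw [mem_center_iff.1 (hNZ hy) g, mul_inv_cancel_right]; exact hy⟩
    have hNC : zpowers z ≤ actFixed φ :=
      zpowers_le.2 (hτ.mem_of_comm (mem_center_iff.1 hzZ τ).symm)
    have hi : ActInv φ (zpowers z) := actInv_of_le_actFixed hNC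
    have IH := ih _ (hlt _ (by simpa using Inv.iso_ne_one_of_orderOf hz)) (G ⧸ zpowers z) rfl
      (quotHom φ _ hi) (hcop.coprime_dvd_right (card_quotient_dvd_card _)) τ
      ⟨hτq _ fun h => hτZ (hNZ h), by
        intro g hg
        obtain ⟨g, rfl⟩ := QuotientGroup.mk_surjective g
        rw [mem_centralizer_singleton_iff, ← QuotientGroup.mk_mul, ← QuotientGroup.mk_mul,
          QuotientGroup.eq] at hg
        have h1 : g⁻¹ ∈ actFixed φ := hτ.mem_of_conj hcop (by
          have := mul_mem hτ.mem (hNC hg)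
          simpa [mul_assoc] using this)
        rw [mem_actFixed]
        intro a
        rw [quotHom_mk, mem_actFixed.1 (by simpa using h1)]⟩
    rw [eq_top_iff]
    intro g _
    obtain ⟨c, hc, hgc⟩ := act_exists_fixed_inv_mul_mem hi
      (hcop.coprime_dvd_right (card_subgroup_dvd_card _)) (Or.inl hA) (g := g) (fun a => by
        have h1 := IH a g
        rw [quotHom_mk, ← QuotientGroup.mk_inv, ← QuotientGroup.mk_mul] at h1
        generalize g⁻¹ * φ a g = k at h1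
        have h2 : Odd (orderOf (k : G ⧸ zpowers z)) :=
          Odd.of_dvd_nat odd_card_oddCore (orderOf_dvd_natCard _ h1)
        have h3 : k ^ orderOf (k : G ⧸ zpowers z) ∈ zpowers z := by
          rw [← QuotientGroup.eq_one_iff, QuotientGroup.mk_pow, pow_orderOf_eq_one]
        have h4 : (k * k) ^ orderOf (k : G ⧸ zpowers z) = 1 := by
          rw [← pow_two, ← pow_mul, mul_comm, pow_mul]
          apply orderOf_dvd_iff_pow_eq_one.1
          have := orderOf_dvd_natCard _ h3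
          rwa [Nat.card_zpowers, hz] at this
        have h5 := Blk.ZStar.eq_one_of_mem_oddCore_quotient hO _ hNZ (odd_orderOf_of_pow h2 h4)
          (by rw [QuotientGroup.mk_mul]; exact mul_mem h1 h1)
        rw [← QuotientGroup.eq_one_iff]
        apply Inv.iso_eq_one_of_odd_of_mul_self h2
        rw [← QuotientGroup.mk_mul, h5, QuotientGroup.mk_one])
    have := mul_mem hc (inv_mem (hNC hgc))
    simpa using this
  push Not at hZ
  refine eq_top_of_core hcop (fun z t hz ht hzt => ?_) hO hτ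
  set H := centralizer ({z} : Set G) with hH
  have hi : ActInv φ H := actInv_centralizer_singleton (ht.mem_of_comm hzt)
  have hHlt : Nat.card H < n := by
    rw [← hn, ← card_top (G := G)]
    apply Inv.Fz.card_lt_of_lt
    rw [lt_top_iff_ne_top]
    intro e
    exact hZ z (mem_center_iff.2 fun g => mem_centralizer_singleton_iff.1 (e ▸ mem_top g : g ∈ H)) hz
  have htH : t ∈ H := mem_centralizer_singleton_iff.2 hzt.symm
  have IH := ih _ hHlt H rfl (subHom φ H hi) (hcop.coprime_dvd_right (card_subgroup_dvd_card _))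
    ⟨t, htH⟩ ⟨by rw [orderOf_mk, ht.1], fun y hy => mem_actFixed.2 fun a => Subtype.ext
      (mem_actFixed.1 (ht.mem_of_comm
        (congrArg Subtype.val (mem_centralizer_singleton_iff.1 hy))) a)⟩
  refine ⟨(oddCore H).map H.subtype, ?_, ?_, ?_, fun a h hh => ⟨_, IH a ⟨h, hh⟩, rfl⟩⟩
  · rw [card_map_of_injective H.subtype_injective]
    exact odd_card_oddCore
  · rintro a _ ⟨y, hy, rfl⟩
    exact ⟨_, actInv_of_characteristic (subHom φ H hi) _ a y hy, rfl⟩
  · intro h hh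
    apply mem_normalizer_of_conj_mem
    rintro _ ⟨y, hy, rfl⟩
    exact ⟨_, (inferInstance : (oddCore H).Normal).conj_mem y hy ⟨h, hh⟩, rfl⟩

/-- **Glauberman.**  A solvable coprime operator group fixing the centralizer of an involution
acts trivially modulo `O(G)`. -/
theorem commutator_mem_oddCore_of_coprime (hcop : (Nat.card A).Coprime (Nat.card G)) {τ : G}
    (hτ : orderOf τ = 2) (hC : centralizer {τ} ≤ actFixed φ) (a : A) (g : G) :
    g⁻¹ * φ a g ∈ oddCore G :=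
  commutator_mem_oddCore_aux _ G rfl φ hcop τ ⟨hτ, hC⟩ a g

end Cfsg.Agent.Loc.GA
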