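import Mathlib
import Cfsg.Agent.Cl.LinearBasic

/-! A group acting faithfully on the natural module of a subgroup `SL₂(F)` whose normalizer contains a Sylow
`p`-subgroup: the flags, the semilinear action and weak closure of the root group. -/

set_option autoImplicit false

namespace Cfsg.Agent.Loc.NatA7

open Matrix Matrix.SpecialLinearGroup
open scoped MatrixGroups Pointwise

section Stab

variable {G : Type*} [Group G] {A : Type*} [AddCommGroup A] [DistribMulAction G A]

variable (G) in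
/-- The elements fixing `Y` pointwise and acting trivially on `A / Y`. -/
def Q (Y : AddSubgroup A) : Subgroup G where
  carrier := {g | (∀ y ∈ Y, g • y = y) ∧ ∀ v, g • v - v ∈ Y}
  one_mem' := ⟨fun y _ => one_smul _ _, fun v => by simp⟩
  mul_mem' := by
    rintro g h ⟨g1, g2⟩ ⟨h1, h2⟩
    refine ⟨fun y hy => by rw [mul_smul, h1 y hy, g1 y hy], fun v => ?_⟩
    have e : (g * h) • v - v = g • (h • v - v) + (g • v - v) := by rw [mul_smul, smul_sub]; abel
    rw [e, g1 _ (h2 v)]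
    exact add_mem (h2 v) (g2 v)
  inv_mem' := by
    rintro g ⟨g1, g2⟩
    refine ⟨fun y hy => by rw [inv_smul_eq_iff, g1 y hy], fun v => ?_⟩
    have := neg_mem (g2 (g⁻¹ • v))
    rwa [smul_inv_smul, neg_sub] at this

variable (G) in
/-- The stability group of the flag `0 ≤ D ≤ Y ≤ Z ≤ A`. -/
def St {D Y Z : AddSubgroup A} (h1 : D ≤ Y) (h2 : Y ≤ Z) : Subgroup G where
  carrier := {g | (∀ d ∈ D, g • d = d) ∧ (∀ y ∈ Y, g • y - y ∈ D) ∧ (∀ z ∈ Z, g • z - z ∈ Y) ∧
    ∀ v, g • v - v ∈ Z}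
  one_mem' := ⟨fun y _ => one_smul _ _, fun v _ => by simp, fun v _ => by simp, fun v => by simp⟩
  mul_mem' := by
    rintro g h ⟨g1, g2, g3, g4⟩ ⟨k1, k2, k3, k4⟩
    have e : ∀ v : A, (g * h) • v - v = (g • (h • v - v) - (h • v - v)) + (h • v - v) + (g • v - v) :=
      fun v => by rw [mul_smul, smul_sub]; abel
    refine ⟨fun y hy => by rw [mul_smul, k1 y hy, g1 y hy], fun v hv => ?_, fun v hv => ?_, fun v => ?_⟩
    · rw [e, g1 _ (k2 v hv), sub_self, zero_add]
      exact add_mem (k2 v hv) (g2 v hv)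
    · rw [e]
      exact add_mem (add_mem (h1 (g2 _ (k3 v hv))) (k3 v hv)) (g3 v hv)
    · rw [e]
      exact add_mem (add_mem (h2 (g3 _ (k4 v))) (k4 v)) (g4 v)
  inv_mem' := by
    rintro g ⟨g1, g2, g3, g4⟩
    have i1 : ∀ d ∈ D, g⁻¹ • d = d := fun y hy => by rw [inv_smul_eq_iff, g1 y hy]
    have e : ∀ v : A, g⁻¹ • v - v = -(g⁻¹ • (g • v - v)) := fun v => by
      rw [smul_sub, inv_smul_smul, neg_sub]
    have i2 : ∀ y ∈ Y, g⁻¹ • y - y ∈ D := fun y hy => by
      rw [e, i1 _ (g2 y hy)]; exact neg_mem (g2 y hy)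
    have i3 : ∀ z ∈ Z, g⁻¹ • z - z ∈ Y := fun z hz => by
      rw [e]
      have := add_mem (h1 (i2 _ (g3 z hz))) (g3 z hz)
      rw [sub_add_cancel] at this
      exact neg_mem this
    refine ⟨i1, i2, i3, fun v => ?_⟩
    rw [e]
    have := add_mem (h2 (i3 _ (g4 v))) (g4 v)
    rw [sub_add_cancel] at this
    exact neg_mem this

theorem pow_smul_eq {h : G} {v : A} (hv : h • (h • v - v) = h • v - v) (n : ℕ) :
    h ^ n • v = v + n • (h • v - v) := by
  induction n with
  | zero => simp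
  | succ n ih =>
    rw [pow_succ', mul_smul, ih, smul_add, smul_comm h n, hv, succ_nsmul]
    abel

theorem isPGroup_St {p : ℕ} (hp : ∀ v : A, p • v = 0) (hf : ∀ g : G, (∀ v : A, g • v = v) → g = 1)
    {D Y Z : AddSubgroup A} (h1 : D ≤ Y) (h2 : Y ≤ Z) : IsPGroup p (St G h1 h2) := by
  rintro ⟨g, hg⟩
  refine ⟨3, Subtype.ext (hf _ fun v => ?_)⟩
  have a1 : ∀ y ∈ Y, g ^ p • y = y := fun y hy => by
    rw [pow_smul_eq (hg.1 _ (hg.2.1 y hy)), hp, add_zero]
  have a2 : ∀ z ∈ Z, (g ^ p) ^ p • z = z := fun z hz => by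
    rw [pow_smul_eq (a1 _ ((pow_mem hg p).2.2.1 z hz)), hp, add_zero]
  have a3 : ((g ^ p) ^ p) ^ p • v = v := by
    rw [pow_smul_eq (a2 _ ((pow_mem (pow_mem hg p) p).2.2.2 v)), hp, add_zero]
  change g ^ p ^ 3 • v = v
  rwa [← pow_mul, ← pow_mul, ← pow_two, ← pow_succ'] at a3

theorem Q_le_St {D Y Z : AddSubgroup A} (h1 : D ≤ Y) (h2 : Y ≤ Z) : Q G Y ≤ St G h1 h2 :=
  fun _ hg => ⟨fun d hd => hg.1 d (h1 hd), fun y hy => by rw [hg.1 y hy, sub_self]; exact zero_mem _,
    fun z _ => hg.2 z, fun v => h2 (hg.2 v)⟩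

theorem isPGroup_Q {p : ℕ} (hp : ∀ v : A, p • v = 0) (hf : ∀ g : G, (∀ v : A, g • v = v) → g = 1)
    (Y : AddSubgroup A) : IsPGroup p (Q G Y) :=
  (isPGroup_St hp hf (le_refl Y) (le_refl Y)).to_le (Q_le_St _ _)

theorem conj_mem_Q {Y : AddSubgroup A} {x : G} (hx : x ∈ Q G Y) (g : G) : g * x * g⁻¹ ∈ Q G (g • Y) := by
  refine ⟨fun y hy => ?_, fun v => ?_⟩
  · rw [AddSubgroup.mem_pointwise_smul_iff_inv_smul_mem] at hy
    rw [mul_smul, mul_smul, hx.1 _ hy, smul_inv_smul]
  · rw [AddSubgroup.mem_pointwise_smul_iff_inv_smul_mem, smul_sub, mul_smul, mul_smul, inv_smul_smul]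
    exact hx.2 _

theorem mem_Q_smul {Y : AddSubgroup A} {x g : G} : x ∈ Q G (g • Y) ↔ g⁻¹ * x * g ∈ Q G Y := by
  constructor
  · intro h
    have := conj_mem_Q h g⁻¹
    rwa [inv_smul_smul, inv_inv] at this
  · intro h
    have := conj_mem_Q h g
    simpa [mul_assoc] using this

theorem card_smul (g : G) (Y : AddSubgroup A) : Nat.card ↥(g • Y) = Nat.card Y :=
  (Nat.card_congr (Equiv.subtypeEquiv (MulAction.toPerm g)
    fun _ => AddSubgroup.smul_mem_pointwise_smul_iff.symm)).symm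

end Stab

section Lin

variable {F : Type*} [Field F]

/-- The upper unitriangular matrix. -/
abbrev uu (t : F) : SL(2, F) := transvection (zero_ne_one : (0 : Fin 2) ≠ 1) t

/-- The lower unitriangular matrix. -/
abbrev ll (t : F) : SL(2, F) := transvection (one_ne_zero : (1 : Fin 2) ≠ 0) t

theorem uu_mulVec (t : F) (v : Fin 2 → F) : (uu t).1 *ᵥ v = ![v 0 + t * v 1, v 1] := by
  ext i; fin_cases i <;> simp [transvection_coe, mulVec, dotProduct, Fin.sum_univ_two, Matrix.one_apply]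

theorem ll_mulVec (t : F) (v : Fin 2 → F) : (ll t).1 *ᵥ v = ![v 0, v 1 + t * v 0] := by
  ext i; fin_cases i <;>
    simp [transvection_coe, mulVec, dotProduct, Fin.sum_univ_two, Matrix.one_apply, add_comm]

theorem uu_add (s t : F) : uu (s + t) = uu s * uu t := by
  ext i j; fin_cases i <;> fin_cases j <;>
    simp [transvection_coe, Matrix.mul_apply, Fin.sum_univ_two, Matrix.one_apply, add_comm]

theorem uu_zero : uu (0 : F) = 1 := transvection_coeff_zero _

theorem uu_neg (t : F) : uu (-t) = (uu t)⁻¹ := by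
  rw [eq_inv_iff_mul_eq_one, ← uu_add, neg_add_cancel, uu_zero]

/-- The matrix interchanging the two coordinate lines. -/
def ww : SL(2, F) := ⟨!![0, -1; 1, 0], by simp [Matrix.det_fin_two]⟩

theorem ll_eq (t : F) : ll t = ww * uu (-t) * ww⁻¹ := by
  rw [eq_mul_inv_iff_mul_eq]
  apply Subtype.ext
  rw [coe_mul, coe_mul, transvection_coe, transvection_coe]
  ext i j; fin_cases i <;> fin_cases j <;>
    simp [ww, Matrix.mul_apply, Fin.sum_univ_two, Matrix.one_apply]

theorem exists_mulVec_eq {y : Fin 2 → F} (hy : y ≠ 0) : ∃ m : SL(2, F), m.1 *ᵥ ![1, 0] = y := by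
  by_cases h : y 0 = 0
  · have h1 : y 1 ≠ 0 := fun h1 => hy (by ext i; fin_cases i <;> simp [h, h1])
    refine ⟨⟨!![0, -(y 1)⁻¹; y 1, 0], by simp [Matrix.det_fin_two, h1]⟩, ?_⟩
    ext i; fin_cases i <;> simp [mulVec, dotProduct, Fin.sum_univ_two, h]
  · refine ⟨⟨!![y 0, 0; y 1, (y 0)⁻¹], by simp [Matrix.det_fin_two, h]⟩, ?_⟩
    ext i; fin_cases i <;> simp [mulVec, dotProduct, Fin.sum_univ_two]

theorem scalar_of_comm (f : (Fin 2 → F) →+ (Fin 2 → F))
    (h : ∀ (m : SL(2, F)) v, f (m.1 *ᵥ v) = m.1 *ᵥ f v) : ∃ c : F, ∀ v, f v = c • v := by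
  have a : ∀ t : F, f ![t, 0] = ![t * f ![0, 1] 1, 0] := fun t => by
    have := h (uu t) ![0, 1]
    rw [uu_mulVec, uu_mulVec] at this
    have e : (![t, 0] : Fin 2 → F) = ![(![0, 1] : Fin 2 → F) 0 + t * (![0, 1] : Fin 2 → F) 1,
        (![0, 1] : Fin 2 → F) 1] - ![0, 1] := by ext i; fin_cases i <;> simp
    rw [e, map_sub, this]
    ext i; fin_cases i <;> simp
  have b : ∀ t : F, f ![0, t] = ![0, t * f ![1, 0] 0] := fun t => by
    have := h (ll t) ![1, 0]
    rw [ll_mulVec, ll_mulVec] at this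
    have e : (![0, t] : Fin 2 → F) = ![(![1, 0] : Fin 2 → F) 0,
        (![1, 0] : Fin 2 → F) 1 + t * (![1, 0] : Fin 2 → F) 0] - ![1, 0] := by ext i; fin_cases i <;> simp
    rw [e, map_sub, this]
    ext i; fin_cases i <;> simp
  have c : f ![1, 0] 0 = f ![0, 1] 1 := by rw [a]; simp
  refine ⟨f ![0, 1] 1, fun v => ?_⟩
  have e : v = ![v 0, 0] + ![0, v 1] := by ext i; fin_cases i <;> simp
  have e2 : f v = ![v 0 * f ![0, 1] 1, 0] + ![0, v 1 * f ![0, 1] 1] := by
    rw [← a, ← c, ← b, ← map_add, ← e]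
  rw [e2]
  generalize f ![0, 1] 1 = k
  ext i; fin_cases i <;> simp [mul_comm]

variable (F) in
/-- The first coordinate line. -/
def W0 : AddSubgroup (Fin 2 → F) where
  carrier := {v | v 1 = 0}
  zero_mem' := rfl
  add_mem' := by intro a b ha hb; simp only [Set.mem_ofPred_eq, Pi.add_apply] at *; rw [ha, hb, add_zero]
  neg_mem' := by intro a ha; simp only [Set.mem_ofPred_eq, Pi.neg_apply] at *; rw [ha, neg_zero]

theorem mem_W0 {v : Fin 2 → F} : v ∈ W0 F ↔ v 1 = 0 := Iff.rfl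

theorem eq_of_mem_W0 {v : Fin 2 → F} (h : v ∈ W0 F) : v = v 0 • ![1, 0] := by
  ext i; fin_cases i <;> simp [mem_W0.1 h]

theorem card_W0 : Nat.card (W0 F) = Nat.card F :=
  Nat.card_congr ⟨fun v => v.1 0, fun t => ⟨![t, 0], by simp [mem_W0]⟩,
    fun v => by ext i; fin_cases i <;> simp [mem_W0.1 v.2], fun t => by simp⟩

theorem two_eq_zero_of_quad {φ : F →+* F} (h : ∀ x, φ (φ x - x) = φ x - x) {x : F} (hx : φ x ≠ x) :
    (2 : F) = 0 := by
  have h1 := h x
  have h2 := h (x * x)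
  simp only [map_sub, map_mul] at h1 h2
  have h3 : φ (φ x) = 2 * φ x - x := by linear_combination h1
  rw [h3] at h2
  have : 2 * (φ x - x) ^ 2 = 0 := by linear_combination h2
  simpa [sub_ne_zero.2 hx] using this

theorem eq_of_quad {φ ψ : F →+* F} (h2 : (2 : F) = 0) (h : ∀ x, ψ (φ x - x) = φ x - x) {x y : F}
    (hx : φ x ≠ x) (hy : ψ y ≠ y) : φ = ψ := by
  have k : ∀ x, ψ (φ x) = φ x + ψ x - x := fun x => by
    have := h x
    rw [map_sub] at this
    linear_combination this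
  have a : ∀ x y, (φ x - x) * (ψ y - y) = (ψ x - x) * (φ y - y) := fun x y => by
    have := k (x * y)
    simp only [map_mul, k] at this
    linear_combination this - (ψ x - x) * (φ y - y) * h2
  obtain ⟨c, hc⟩ : ∃ c, φ y - y = c * (ψ y - y) := ⟨(φ y - y) / (ψ y - y), by
    field_simp [sub_ne_zero.2 hy]⟩
  have b : ∀ z, φ z - z = c * (ψ z - z) := fun z => by
    apply mul_right_cancel₀ (sub_ne_zero.2 hy)
    rw [a, hc]; ring
  have c0 : c ≠ 0 := fun h0 => hx (by have := b x; rw [h0, zero_mul] at this; exact sub_eq_zero.1 this)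
  have c1 : c = 1 := by
    have e1 := b (y * y)
    have e2 : φ y = y + c * (ψ y - y) := by linear_combination hc
    simp only [map_mul, e2] at e1
    have : c * (c - 1) * (ψ y - y) ^ 2 = 0 := by linear_combination e1
    simpa [sub_ne_zero.2 hy, c0, sub_eq_zero] using this
  ext z
  have := b z
  rw [c1, one_mul] at this
  linear_combination this

theorem eq_of_card_four [Finite F] (hF : Nat.card F = 4) (h2 : (2 : F) = 0) {φ ψ : F →+* F} {x y : F}
    (hx : φ x ≠ x) (hy : ψ y ≠ y) : φ = ψ := by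
  have := Fintype.ofFinite F
  have h4 : ∀ z : F, z ^ 4 = z := fun z => by
    have := FiniteField.pow_card z
    rwa [← Nat.card_eq_fintype_card, hF] at this
  have x0 : x ≠ 0 := fun h => hx (by simp [h])
  have x1 : x ≠ 1 := fun h => hx (by simp [h])
  have q : x ^ 2 + x + 1 = 0 := by
    have : x * (x - 1) * (x ^ 2 + x + 1) = 0 := by linear_combination h4 x
    simpa [x0, sub_ne_zero.2 x1] using this
  have all : ∀ z : F, z = 0 ∨ z = 1 ∨ z = x ∨ z = x + 1 := fun z => by
    have : z * ((z - 1) * ((z - x) * (z - (x + 1)))) = 0 := by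
      linear_combination h4 z + z * (z - 1) * q - z * (z - 1) * (z * x + z + 1) * h2
    simpa only [mul_eq_zero, sub_eq_zero] using this
  have key : ∀ χ : F →+* F, χ x ≠ x → χ x = x + 1 := fun χ h => by
    rcases all (χ x) with e | e | e | e
    · exact absurd (χ.injective (e.trans (map_zero χ).symm)) x0
    · exact absurd (χ.injective (e.trans (map_one χ).symm)) x1
    · exact absurd e h
    · exact e
  have hψ : ψ x ≠ x := fun h => hy (by rcases all y with e | e | e | e <;> simp [e, h])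
  ext z
  rcases all z with e | e | e | e <;> simp [e, key φ hx, key ψ hψ]

end Lin

end Cfsg.Agent.Loc.NatA7
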