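import Mathlib
import Cfsg.Agent.Loc.NatA7

/-! Blocks: the conjugates of the fixed line of a root group. -/

set_option autoImplicit false

namespace Cfsg.Agent.Loc.NatA7

open Matrix Matrix.SpecialLinearGroup
open scoped MatrixGroups Pointwise

variable {p : ℕ} {G : Type*} [Group G] {F : Type*} [Field F] [DistribMulAction G (Fin 2 → F)]

/-- The setting. -/
structure Hyp (p : ℕ) (σ : SL(2, F) →* G) (S : Subgroup G) : Prop where
  faith : ∀ g : G, (∀ v : Fin 2 → F, g • v = v) → g = 1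
  act : ∀ (m : SL(2, F)) (v : Fin 2 → F), σ m • v = m.1 *ᵥ v
  pS : IsPGroup p S
  uS : ∀ t, σ (uu t) ∈ S
  nS : S ≤ Subgroup.normalizer (σ.range : Set G)
  syl : ∀ P : Subgroup G, IsPGroup p P → ∃ g : G, ∀ x ∈ P, g * x * g⁻¹ ∈ S

/-- `g` acts `φ`-semilinearly. -/
def SemiL (g : G) (φ : F →+* F) : Prop := ∀ (c : F) (v : Fin 2 → F), g • (c • v) = φ c • g • v

theorem SemiL.mul {g h : G} {φ ψ : F →+* F} (a : SemiL g φ) (b : SemiL h ψ) : SemiL (g * h) (φ.comp ψ) :=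
  fun c v => by rw [mul_smul, b, a, mul_smul]; rfl

theorem SemiL.lin_of_eq [Finite F] {g h : G} {φ : F →+* F} (a : SemiL g φ) (b : SemiL h φ) :
    SemiL (g * h⁻¹) (RingHom.id F) := fun c v => by
  obtain ⟨w, rfl⟩ : ∃ w, v = h • w := ⟨h⁻¹ • v, (smul_inv_smul _ _).symm⟩
  obtain ⟨c, rfl⟩ := Finite.surjective_of_injective φ.injective c
  rw [← b, mul_smul, mul_smul, inv_smul_smul, inv_smul_smul, a]; rfl

theorem p_smul [CharP F p] (v : Fin 2 → F) : p • v = 0 := by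
  ext i; simp

namespace Hyp

variable {σ : SL(2, F) →* G} {S : Subgroup G} (H : Hyp p σ S)
include H

theorem inj : Function.Injective σ := by
  rw [injective_iff_map_eq_one]
  intro m hm
  apply Subtype.ext
  apply Matrix.toLin'.injective
  ext1 i; ext1
  have := H.act m (Pi.single i 1)
  rw [hm, one_smul] at this
  simpa using this.symm

theorem uu_smul (t : F) (v : Fin 2 → F) : σ (uu t) • v = ![v 0 + t * v 1, v 1] := by
  rw [H.act, uu_mulVec]

theorem uu_mem_Q (t : F) : σ (uu t) ∈ Q G (W0 F) := by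
  refine ⟨fun y hy => ?_, fun v => ?_⟩
  · rw [H.uu_smul]; ext i; fin_cases i <;> simp [mem_W0.1 hy]
  · rw [H.uu_smul, mem_W0, Pi.sub_apply]; simp

theorem semil {g : G} (hg : g ∈ Subgroup.normalizer (σ.range : Set G)) : ∃ φ : F →+* F, SemiL g φ := by
  have a : ∀ c : F, ∃ d : F, ∀ v : Fin 2 → F, g • (c • v) = d • g • v := fun c => by
    let f : (Fin 2 → F) →+ (Fin 2 → F) :=
      { toFun := fun v => g • (c • (g⁻¹ • v))
        map_zero' := by simp
        map_add' := fun a b => by simp [smul_add] }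
    obtain ⟨d, hd⟩ := scalar_of_comm f fun m v => by
      obtain ⟨m', hm'⟩ : g⁻¹ * σ m * g ∈ σ.range := by
        have := (Subgroup.mem_normalizer_iff.1 (inv_mem hg) (σ m)).1 ⟨m, rfl⟩
        rwa [inv_inv] at this
      have e : σ m = g * σ m' * g⁻¹ := by rw [hm']; group
      change g • (c • (g⁻¹ • (m.1 *ᵥ v))) = m.1 *ᵥ (g • (c • (g⁻¹ • v)))
      rw [← H.act, ← H.act, e, mul_smul, mul_smul, mul_smul, mul_smul, inv_smul_smul, inv_smul_smul,
        H.act, H.act, mulVec_smul]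
    refine ⟨d, fun v => ?_⟩
    have := hd (g • v)
    change g • (c • (g⁻¹ • (g • v))) = _ at this
    rwa [inv_smul_smul] at this
  choose φ hφ using a
  have u : ∀ {a b : F}, a • g • g⁻¹ • (![1, 0] : Fin 2 → F) = b • g • g⁻¹ • (![1, 0] : Fin 2 → F) → a = b :=
    fun {a b} h => by simpa using congrFun h 0
  exact ⟨{ toFun := φ
           map_one' := u (by rw [← hφ, one_smul, one_smul])
           map_mul' := fun a b => u (by rw [← hφ, mul_smul, hφ, hφ, mul_smul])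
           map_zero' := u (by rw [← hφ, zero_smul, zero_smul, smul_zero])
           map_add' := fun a b => u (by rw [← hφ, add_smul, smul_add, hφ, hφ, add_smul]) }, hφ⟩

variable [hp : Fact p.Prime] [CharP F p]

theorem mem_U {g : G} {k : ℕ} (hk : g ^ p ^ k = 1) (hl : SemiL g (RingHom.id F))
    (hw : g • (![1, 0] : Fin 2 → F) ∈ W0 F) : ∃ t, g = σ (uu t) := by
  have one : ∀ a : F, a ^ p ^ k = 1 → a = 1 := fun a h => by
    have : (a - 1) ^ p ^ k = 0 := by rw [sub_pow_char_pow, h, one_pow, sub_self]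
    exact sub_eq_zero.1 (pow_eq_zero_iff (pow_ne_zero _ hp.out.ne_zero) |>.1 this)
  have dec : ∀ v : Fin 2 → F, g • v = v 0 • g • (![1, 0] : Fin 2 → F) + v 1 • g • (![0, 1] : Fin 2 → F) :=
    fun v => by
      have e : v = v 0 • ![1, 0] + v 1 • ![0, 1] := by ext i; fin_cases i <;> simp
      conv_lhs => rw [e, smul_add, hl, hl]
      rfl
  have a1 : (g • (![1, 0] : Fin 2 → F)) 0 = 1 := by
    apply one
    have : ∀ n : ℕ, g ^ n • (![1, 0] : Fin 2 → F) = (g • (![1, 0] : Fin 2 → F)) 0 ^ n • ![1, 0] := fun n => by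
      induction n with
      | zero => simp
      | succ n ih =>
        rw [pow_succ', mul_smul, ih, hl, pow_succ, mul_smul, ← eq_of_mem_W0 hw]; rfl
    have h := congrFun (this (p ^ k)) 0
    rw [hk, one_smul] at h
    simpa using h.symm
  have a2 : (g • (![0, 1] : Fin 2 → F)) 1 = 1 := by
    apply one
    have : ∀ n : ℕ, (g ^ n • (![0, 1] : Fin 2 → F)) 1 = (g • (![0, 1] : Fin 2 → F)) 1 ^ n := fun n => by
      induction n with
      | zero => simp
      | succ n ih =>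
        rw [pow_succ', mul_smul, dec, Pi.add_apply, Pi.smul_apply, Pi.smul_apply, mem_W0.1 hw, ih, pow_succ]
        simp
    have h := this (p ^ k)
    rw [hk, one_smul] at h
    simpa using h.symm
  refine ⟨(g • (![0, 1] : Fin 2 → F)) 0, ?_⟩
  rw [← mul_inv_eq_one]
  refine H.faith _ fun v => ?_
  obtain ⟨w, rfl⟩ : ∃ w, v = σ (uu ((g • (![0, 1] : Fin 2 → F)) 0)) • w := ⟨_, (smul_inv_smul _ _).symm⟩
  rw [mul_smul, inv_smul_smul, H.uu_smul, dec]
  ext i; fin_cases i <;> simp [a1, a2, mem_W0.1 hw, mul_comm]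

variable [Finite F]

theorem exists_fix : ∃ w : Fin 2 → F, w ≠ 0 ∧ w ∈ W0 F ∧ ∀ s ∈ S, s • w = w := by
  have hd : p ∣ Nat.card (Fin 2 → F) := by
    have := addOrderOf_dvd_natCard (![1, 0] : Fin 2 → F)
    rwa [addOrderOf_eq_prime (p_smul _) (by simp)] at this
  obtain ⟨w, hw, hw0⟩ := H.pS.exists_fixed_point_of_prime_dvd_card_of_fixed_point (Fin 2 → F) hd
    (a := 0) (fun s => smul_zero s)
  have hf : ∀ s ∈ S, s • w = w := fun s hs => hw ⟨s, hs⟩
  refine ⟨w, hw0.symm, ?_, hf⟩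
  have := congrFun (hf _ (H.uS 1)) 0
  rw [H.uu_smul] at this
  simpa [mem_W0] using this

theorem S_W0 {s : G} (hs : s ∈ S) {v : Fin 2 → F} (hv : v ∈ W0 F) : s • v ∈ W0 F := by
  obtain ⟨w, w0, hw, hf⟩ := H.exists_fix
  obtain ⟨φ, hφ⟩ := H.semil (H.nS hs)
  have h0 : w 0 ≠ 0 := fun h => w0 (by rw [eq_of_mem_W0 hw, h, zero_smul])
  have e : v = (v 0 / w 0) • w := by
    ext i; fin_cases i <;> simp [h0, mem_W0.1 hv, mem_W0.1 hw]
  rw [e, hφ, hf s hs, mem_W0, Pi.smul_apply, mem_W0.1 hw, smul_zero]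

theorem mem_U' {s : G} (hs : s ∈ S) (hl : SemiL s (RingHom.id F)) : ∃ t, s = σ (uu t) := by
  obtain ⟨k, hk⟩ := H.pS ⟨s, hs⟩
  exact H.mem_U (k := k) (congrArg Subtype.val hk) hl (H.S_W0 hs (by simp [mem_W0]))

theorem exists_ne {s : G} (hs : s ∈ S) (hU : ¬ ∃ t, s = σ (uu t)) :
    ∃ φ : F →+* F, SemiL s φ ∧ ∃ x, φ x ≠ x := by
  obtain ⟨φ, hφ⟩ := H.semil (H.nS hs)
  refine ⟨φ, hφ, ?_⟩
  by_contra h
  push Not at h
  exact hU (H.mem_U' hs (by rwa [show RingHom.id F = φ from RingHom.ext fun x => (h x).symm]))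

omit H hp [CharP F p] [Finite F] in
theorem quad {Y : AddSubgroup (Fin 2 → F)} {y : Fin 2 → F} (hy : y ∈ Y) (y0 : y ≠ 0) {s t : G}
    (hs : s ∈ Q G Y) (ht : t ∈ Q G Y) {φ ψ : F →+* F} (a : SemiL s φ) (b : SemiL t ψ) (x : F) :
    ψ (φ x - x) = φ x - x := by
  have h := ht.1 _ (hs.2 (x • y))
  rw [a, hs.1 y hy, ← sub_smul, b, ht.1 y hy] at h
  exact smul_left_injective F y0 h

/-- Two elements of `S ∩ Q Y` outside the root group are congruent modulo it. -/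
theorem small {Y : AddSubgroup (Fin 2 → F)} {y : Fin 2 → F} (hy : y ∈ Y) (y0 : y ≠ 0) {s t : G}
    (hs : s ∈ Q G Y) (ht : t ∈ Q G Y) (hsS : s ∈ S) (htS : t ∈ S) (hsU : ¬ ∃ a, s = σ (uu a))
    (htU : ¬ ∃ a, t = σ (uu a)) : ∃ a, s * t⁻¹ = σ (uu a) := by
  obtain ⟨φ, hφ, x, hx⟩ := H.exists_ne hsS hsU
  obtain ⟨ψ, hψ, z, hz⟩ := H.exists_ne htS htU
  have h2 := two_eq_zero_of_quad (quad hy y0 hs hs hφ hφ) hx
  obtain rfl := eq_of_quad h2 (quad hy y0 hs ht hφ hψ) hx hz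
  exact H.mem_U' (mul_mem hsS (inv_mem htS)) (hφ.lin_of_eq hψ)

omit hp [CharP F p] [Finite F] in
theorem fix_iff {t : F} (ht : t ≠ 0) (g : G) (v : Fin 2 → F) :
    (g * σ (uu t) * g⁻¹) • v = v ↔ v ∈ g • W0 F := by
  rw [AddSubgroup.mem_pointwise_smul_iff_inv_smul_mem, mul_smul, mul_smul, ← eq_inv_smul_iff, H.uu_smul,
    mem_W0]
  constructor
  · intro h; simpa [ht] using congrFun h 0
  · intro h; ext i; fin_cases i <;> simp [h]

omit hp [CharP F p] [Finite F] in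
theorem eq_of_conj_eq {t a : F} (ht : t ≠ 0) {g : G} (h : g * σ (uu t) * g⁻¹ = σ (uu a)) :
    g • W0 F = W0 F := by
  have a0 : a ≠ 0 := by
    rintro rfl
    rw [uu_zero, map_one, conj_eq_one_iff, map_eq_one_iff _ H.inj] at h
    have := congrArg (fun m : SL(2, F) => m.1 0 1) h
    simp [transvection_coe, ht] at this
  ext v
  rw [← H.fix_iff ht, h]
  simpa using H.fix_iff a0 1 v

/-- Weak closure of the root group. -/
theorem wc {g : G} (h : ∀ t, g * σ (uu t) * g⁻¹ ∈ S) : g • W0 F = W0 F := by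
  by_contra hne
  have n : ∀ t ≠ 0, ¬ ∃ a, g * σ (uu t) * g⁻¹ = σ (uu a) := fun t ht ⟨a, ha⟩ => hne (H.eq_of_conj_eq ht ha)
  obtain ⟨φ, -, x, hx⟩ := H.exists_ne (h 1) (n 1 one_ne_zero)
  have x0 : x ≠ 0 := fun h => hx (by simp [h])
  have x1 : 1 - x ≠ 0 := fun h => hx (by simp [← sub_eq_zero.1 h])
  have := H.small (Y := g • W0 F) (y := g • ![1, 0])
    (AddSubgroup.smul_mem_pointwise_smul_iff.2 (by simp [mem_W0])) (by rw [Ne, smul_eq_zero_iff_eq]; simp)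
    (conj_mem_Q (H.uu_mem_Q 1) g) (conj_mem_Q (H.uu_mem_Q x) g) (h 1) (h x) (n 1 one_ne_zero) (n x x0)
  refine n _ x1 ?_
  rwa [sub_eq_add_neg, uu_add, uu_neg, map_mul, map_inv,
    show g * (σ (uu 1) * (σ (uu x))⁻¹) * g⁻¹ = g * σ (uu 1) * g⁻¹ * (g * σ (uu x) * g⁻¹)⁻¹ by group]

theorem conjS {P : Subgroup G} (hP : IsPGroup p P) (hU : ∀ t, σ (uu t) ∈ P) :
    ∃ h : G, h • W0 F = W0 F ∧ ∀ x ∈ P, h * x * h⁻¹ ∈ S := by
  obtain ⟨h, hh⟩ := H.syl P hP
  exact ⟨h, H.wc fun t => hh _ (hU t), hh⟩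

theorem mem_U_of_fix {s : G} (hs : s ∈ S) (hf : ∀ v ∈ W0 F, s • v = v) : ∃ t, s = σ (uu t) := by
  by_contra hU
  obtain ⟨φ, hφ, x, hx⟩ := H.exists_ne hs hU
  have := hφ x ![1, 0]
  rw [hf _ (by simp [mem_W0]), hf _ (by simp [mem_W0])] at this
  exact hx (by simpa using (congrFun this 0).symm)

theorem mem_Q_W0 {x : G} (hx : x ∈ Q G (W0 F)) : ∃ t, x = σ (uu t) := by
  obtain ⟨h, hW, hh⟩ := H.conjS (isPGroup_Q p_smul H.faith (W0 F)) H.uu_mem_Q
  have a : ∀ x ∈ Q G (W0 F), ∃ t, h * x * h⁻¹ = σ (uu t) := fun x hx =>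
    H.mem_U_of_fix (hh x hx) (hW ▸ conj_mem_Q hx h).1
  choose f hf using fun t => a _ (H.uu_mem_Q t)
  have fi : Function.Injective f := fun s t e => by
    have : h * σ (uu s) * h⁻¹ = h * σ (uu t) * h⁻¹ := by rw [hf, hf, e]
    have := H.inj (mul_left_cancel (mul_right_cancel this))
    simpa [transvection_coe] using congrArg (fun m : SL(2, F) => m.1 0 1) this
  obtain ⟨t, ht⟩ := a x hx
  obtain ⟨s, rfl⟩ := Finite.surjective_of_injective fi t
  exact ⟨s, mul_left_cancel (mul_right_cancel (ht.trans (hf s).symm))⟩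

theorem mem_Q_iff {x g : G} : x ∈ Q G (g • W0 F) ↔ ∃ t, x = g * σ (uu t) * g⁻¹ := by
  constructor
  · intro hx
    obtain ⟨t, ht⟩ := H.mem_Q_W0 (mem_Q_smul.1 hx)
    exact ⟨t, by rw [← ht]; group⟩
  · rintro ⟨t, rfl⟩
    exact conj_mem_Q (H.uu_mem_Q t) g

theorem mem_of_fix {x g : G} (hx : x ∈ Q G (g • W0 F)) (x1 : x ≠ 1) {v : Fin 2 → F} (hv : x • v = v) :
    v ∈ g • W0 F := by
  obtain ⟨t, rfl⟩ := H.mem_Q_iff.1 hx
  exact (H.fix_iff (fun h => x1 (by simp [h])) g v).1 hv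

omit hp [CharP F p] [Finite F] in
theorem exists_comm {g : G} {v y : Fin 2 → F} (hv : v ∉ g • W0 F) (hy : y ∈ g • W0 F) :
    ∃ x ∈ Q G (g • W0 F), x • v - v = y := by
  rw [AddSubgroup.mem_pointwise_smul_iff_inv_smul_mem, mem_W0] at hv hy
  refine ⟨_, conj_mem_Q (H.uu_mem_Q ((g⁻¹ • y) 0 / (g⁻¹ • v) 1)) g, ?_⟩
  rw [mul_smul, mul_smul, H.uu_smul, ← MulAction.injective g⁻¹ |>.eq_iff, smul_sub, inv_smul_smul]
  ext i; fin_cases i <;> simp [hv, hy]

end Hyp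

end Cfsg.Agent.Loc.NatA7
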