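import Mathlib
import Cfsg.Prelude.Def_Transfer

/-! Elementwise commutator calculus for the P(G,V) theorem. -/

set_option autoImplicit false
open Subgroup

namespace Cfsg.Agent.Loc.PGV

variable {H : Type*} [Group H]

theorem nm {W : Subgroup H} {g w : H} (hg : g ∈ normalizer (W : Set H)) (hw : w ∈ W) :
    g * w * g⁻¹ ∈ W := (mem_normalizer_iff.mp hg w).mp hw

theorem nm' {W : Subgroup H} {g w : H} (hg : g ∈ normalizer (W : Set H)) (hw : w ∈ W) :
    g⁻¹ * w * g ∈ W := by simpa using nm (inv_mem hg) hw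

theorem cm_mem {W : Subgroup H} {g w : H} (hg : g ∈ normalizer (W : Set H)) (hw : w ∈ W) :
    g * w * g⁻¹ * w⁻¹ ∈ W := mul_mem (nm hg hw) (inv_mem hw)

theorem mem_norm [Finite H] {W : Subgroup H} {g : H} (h : ∀ w ∈ W, g * w * g⁻¹ ∈ W) :
    g ∈ normalizer (W : Set H) := mem_normalizer_fintype h

theorem mem_cent {W : Subgroup H} {g : H} :
    g ∈ centralizer (W : Set H) ↔ ∀ w ∈ W, Commute g w :=
  ⟨fun h w hw => (h w hw).symm, fun h w hw => (h w hw).symm⟩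

theorem mem_cent1 {x g : H} : g ∈ centralizer ({x} : Set H) ↔ Commute g x := by
  rw [mem_centralizer_singleton_iff]; rfl

theorem cent_conj {W : Subgroup H} {h y : H} (hh : h ∈ normalizer (W : Set H))
    (hy : y ∈ centralizer (W : Set H)) : h * y * h⁻¹ ∈ centralizer (W : Set H) := by
  rw [mem_cent] at hy ⊢
  intro w hw
  have := (hy _ (nm' hh hw)).conj h
  simpa [mul_assoc] using this

/-- elements normalizing `W` and acting trivially on `W` modulo `Y` -/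
def act (W Y : Subgroup H) : Subgroup H where
  carrier := {g | g ∈ normalizer (W : Set H) ∧ ∀ w ∈ W, g * w * g⁻¹ * w⁻¹ ∈ Y}
  one_mem' := ⟨one_mem _, fun w _ => by simp⟩
  mul_mem' := by
    rintro g h ⟨hg, hg'⟩ ⟨hh, hh'⟩
    refine ⟨mul_mem hg hh, fun w hw => ?_⟩
    have := Y.mul_mem (hg' _ (nm hh hw)) (hh' w hw)
    convert this using 1; group
  inv_mem' := by
    rintro g ⟨hg, hg'⟩
    refine ⟨inv_mem hg, fun w hw => ?_⟩
    have := Y.inv_mem (hg' _ (nm' hg hw))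
    convert this using 1; group

theorem mem_act {W Y : Subgroup H} {g : H} : g ∈ act W Y ↔
    g ∈ normalizer (W : Set H) ∧ ∀ w ∈ W, g * w * g⁻¹ * w⁻¹ ∈ Y := Iff.rfl

theorem act_conj {W Y : Subgroup H} {g h : H} (hh : h ∈ normalizer (W : Set H))
    (hY : ∀ y ∈ Y, h * y * h⁻¹ ∈ Y) (hg : g ∈ act W Y) : h * g * h⁻¹ ∈ act W Y := by
  refine ⟨mul_mem (mul_mem hh hg.1) (inv_mem hh), fun w hw => ?_⟩
  have := hY _ (hg.2 _ (nm' hh hw))
  convert this using 1; group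

theorem act_mono {W Y Y' : Subgroup H} (h : Y ≤ Y') : act W Y ≤ act W Y' :=
  fun _ hg => ⟨hg.1, fun w hw => h (hg.2 w hw)⟩

/-- the centralizer of all commutators of `g` with elements of `W` -/
def cen (W : Subgroup H) (g : H) : Subgroup H where
  carrier := {y | ∀ w ∈ W, Commute y (g * w * g⁻¹ * w⁻¹)}
  one_mem' := fun _ _ => Commute.one_left _
  mul_mem' := fun hx hy w hw => (hx w hw).mul_left (hy w hw)
  inv_mem' := fun hx w hw => (hx w hw).inv_left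

theorem mem_cen {W : Subgroup H} {g y : H} :
    y ∈ cen W g ↔ ∀ w ∈ W, Commute y (g * w * g⁻¹ * w⁻¹) := Iff.rfl

theorem cen_conj {W : Subgroup H} {g h y : H} (hh : h ∈ normalizer (W : Set H))
    (hc : Commute h g) (hy : y ∈ cen W g) : h * y * h⁻¹ ∈ cen W g := by
  intro w hw
  have := (hy _ (nm' hh hw)).conj h
  have e : h * (g * (h⁻¹ * w * h) * g⁻¹ * (h⁻¹ * w * h)⁻¹) * h⁻¹ = g * w * g⁻¹ * w⁻¹ := by
    have h1 : h * g * h⁻¹ = g := by rw [hc.eq]; group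
    calc _ = (h * g * h⁻¹) * w * (h * g * h⁻¹)⁻¹ * w⁻¹ := by group
      _ = _ := by rw [h1]
  rwa [e] at this

theorem mem_cen_iff_act {W : Subgroup H} {g y : H} (hg : g ∈ normalizer (W : Set H)) :
    y ∈ cen W g ↔ g ∈ act W (centralizer ({y} : Set H)) :=
  ⟨fun h => ⟨hg, fun w hw => mem_cent1.mpr (h w hw).symm⟩,
    fun h w hw => (mem_cent1.mp (h.2 w hw)).symm⟩

/-- three subgroups, elementwise -/
theorem act_of_cen {W : Subgroup H} (hW : ∀ v ∈ W, ∀ w ∈ W, Commute v w) {a d : H}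
    (ha : a ∈ normalizer (W : Set H)) (hd : d ∈ normalizer (W : Set H)) (hc : Commute d a)
    (h : d ∈ cen W a) : d ∈ act W (centralizer ({a} : Set H)) := by
  refine ⟨hd, fun w hw => mem_cent1.mpr ?_⟩
  have h1 := (h w hw).eq
  have h2 := (hW _ (cm_mem ha hw) _ (cm_mem hd hw)).eq
  have h3 : a * d * a⁻¹ = d := by rw [← hc.eq]; group
  have : a * (d * w * d⁻¹ * w⁻¹) * a⁻¹ = d * w * d⁻¹ * w⁻¹ := by
    calc _ = (a * d * a⁻¹) * (a * w * a⁻¹ * w⁻¹) * w * (a * d * a⁻¹)⁻¹ * w⁻¹ *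
          (a * w * a⁻¹ * w⁻¹)⁻¹ := by group
      _ = (d * (a * w * a⁻¹ * w⁻¹)) * w * d⁻¹ * w⁻¹ * (a * w * a⁻¹ * w⁻¹)⁻¹ := by rw [h3]
      _ = (a * w * a⁻¹ * w⁻¹) * (d * w * d⁻¹ * w⁻¹) * (a * w * a⁻¹ * w⁻¹)⁻¹ := by
          rw [h1]; group
      _ = _ := by rw [h2]; group
  show (d * w * d⁻¹ * w⁻¹) * a = a * (d * w * d⁻¹ * w⁻¹)
  conv_lhs => rw [← this]
  group

/-- quadratic action: commutators act trivially -/
theorem comm_of_quad {W : Subgroup H} (hW : ∀ v ∈ W, ∀ w ∈ W, Commute v w) {x y w : H}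
    (hx : x ∈ normalizer (W : Set H)) (hy : y ∈ normalizer (W : Set H)) (hw : w ∈ W)
    (h1 : Commute x⁻¹ (y⁻¹ * w * y⁻¹⁻¹ * w⁻¹)) (h2 : Commute y⁻¹ (x⁻¹ * w * x⁻¹⁻¹ * w⁻¹)) :
    Commute (x * y * x⁻¹ * y⁻¹) w := by
  have h3 := (hW _ (cm_mem (inv_mem hx) hw) _ (cm_mem (inv_mem hy) hw)).eq
  have e1 : x⁻¹ * y⁻¹ * w * (x⁻¹ * y⁻¹)⁻¹ =
      (y⁻¹ * w * y⁻¹⁻¹ * w⁻¹) * (x⁻¹ * w * x⁻¹⁻¹ * w⁻¹) * w := by
    calc _ = (x⁻¹ * (y⁻¹ * w * y⁻¹⁻¹ * w⁻¹)) * w * x := by group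
      _ = _ := by rw [h1.eq]; group
  have e2 : y⁻¹ * x⁻¹ * w * (y⁻¹ * x⁻¹)⁻¹ =
      (x⁻¹ * w * x⁻¹⁻¹ * w⁻¹) * (y⁻¹ * w * y⁻¹⁻¹ * w⁻¹) * w := by
    calc _ = (y⁻¹ * (x⁻¹ * w * x⁻¹⁻¹ * w⁻¹)) * w * y := by group
      _ = _ := by rw [h2.eq]; group
  have e3 : x⁻¹ * y⁻¹ * w * (x⁻¹ * y⁻¹)⁻¹ = y⁻¹ * x⁻¹ * w * (y⁻¹ * x⁻¹)⁻¹ := by
    rw [e1, e2, h3]
  show x * y * x⁻¹ * y⁻¹ * w = w * (x * y * x⁻¹ * y⁻¹)
  calc _ = x * y * (x⁻¹ * y⁻¹ * w * (x⁻¹ * y⁻¹)⁻¹) * (x⁻¹ * y⁻¹) := by group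
    _ = _ := by rw [e3]; group

/-- the subgroup of commutators of `g` with elements of the abelian group `W` -/
def img (W : Subgroup H) (hW : ∀ v ∈ W, ∀ w ∈ W, Commute v w) (g : H)
    (hg : g ∈ normalizer (W : Set H)) : Subgroup H where
  carrier := {z | ∃ w ∈ W, z = g * w * g⁻¹ * w⁻¹}
  one_mem' := ⟨1, one_mem _, by group⟩
  mul_mem' := by
    rintro _ _ ⟨v, hv, rfl⟩ ⟨w, hw, rfl⟩
    refine ⟨v * w, mul_mem hv hw, ?_⟩
    have := (hW _ (inv_mem hv) _ (cm_mem hg hw)).eq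
    calc _ = g * v * g⁻¹ * (v⁻¹ * (g * w * g⁻¹ * w⁻¹)) := by group
      _ = _ := by rw [this]; group
  inv_mem' := by
    rintro _ ⟨v, hv, rfl⟩
    refine ⟨v⁻¹, inv_mem hv, ?_⟩
    have := (hW _ hv _ (inv_mem (nm hg hv))).eq
    calc _ = v * (g * v * g⁻¹)⁻¹ := by group
      _ = _ := by rw [this]; group

theorem img_le {W : Subgroup H} (hW : ∀ v ∈ W, ∀ w ∈ W, Commute v w) {g : H}
    (hg : g ∈ normalizer (W : Set H)) : img W hW g hg ≤ W := by
  rintro _ ⟨w, hw, rfl⟩; exact cm_mem hg hw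

theorem mem_act_img {W : Subgroup H} (hW : ∀ v ∈ W, ∀ w ∈ W, Commute v w) {g : H}
    (hg : g ∈ normalizer (W : Set H)) : g ∈ act W (img W hW g hg) :=
  ⟨hg, fun w hw => ⟨w, hw, rfl⟩⟩

theorem img_conj {W : Subgroup H} (hW : ∀ v ∈ W, ∀ w ∈ W, Commute v w) {g h z : H}
    (hg : g ∈ normalizer (W : Set H)) (hh : h ∈ normalizer (W : Set H)) (hc : Commute h g)
    (hz : z ∈ img W hW g hg) : h * z * h⁻¹ ∈ img W hW g hg := by
  obtain ⟨w, hw, rfl⟩ := hz
  refine ⟨h * w * h⁻¹, nm hh hw, ?_⟩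
  have h1 : h * g * h⁻¹ = g := by rw [hc.eq]; group
  calc _ = (h * g * h⁻¹) * (h * w * h⁻¹) * (h * g * h⁻¹)⁻¹ * (h * w * h⁻¹)⁻¹ := by group
    _ = _ := by rw [h1]

theorem card_img [Finite H] {W : Subgroup H} (hW : ∀ v ∈ W, ∀ w ∈ W, Commute v w) {g : H}
    (hg : g ∈ normalizer (W : Set H)) :
    Nat.card (img W hW g hg) * Nat.card (W ⊓ centralizer ({g} : Set H) : Subgroup H) =
      Nat.card W := by
  let f : W →* H :=
    { toFun := fun w => g * w * g⁻¹ * (w : H)⁻¹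
      map_one' := by simp
      map_mul' := fun v w => by
        have := (hW _ (inv_mem v.2) _ (cm_mem hg w.2)).eq
        symm
        calc _ = g * v * g⁻¹ * ((v : H)⁻¹ * (g * w * g⁻¹ * (w : H)⁻¹)) := by group
          _ = _ := by rw [this]; simp only [coe_mul]; group }
  have h1 : f.range = img W hW g hg := by
    ext z
    exact ⟨fun ⟨w, hw⟩ => ⟨w, w.2, hw.symm⟩, fun ⟨w, hw, e⟩ => ⟨⟨w, hw⟩, e.symm⟩⟩
  have h2 : f.ker = (W ⊓ centralizer ({g} : Set H)).subgroupOf W := by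
    ext w
    rw [MonoidHom.mem_ker, mem_subgroupOf, mem_inf, mem_cent1]
    show g * w * g⁻¹ * (w : H)⁻¹ = 1 ↔ _
    constructor
    · intro h
      refine ⟨w.2, ?_⟩
      show (w : H) * g = g * w
      calc (w : H) * g = (g * w * g⁻¹ * (w : H)⁻¹)⁻¹ * (g * w) := by group
        _ = _ := by rw [h]; group
    · rintro ⟨-, h⟩
      rw [← h.eq]; group
  have h3 := card_eq_card_quotient_mul_card_subgroup f.ker
  rw [Nat.card_congr (QuotientGroup.quotientKerEquivRange f).toEquiv, h1, h2,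
    Nat.card_congr (subgroupOfEquivOfLe inf_le_left).toEquiv] at h3
  exact h3.symm

/-- an element acting on `W` with commutators in a group of order at most four -/
theorem pow_twelve [Finite H] {W J : Subgroup H} {g : H} (hg : g ∈ act W J)
    (hJ : Nat.card J ≤ 4) : g ^ 12 ∈ centralizer (W : Set H) := by
  rw [mem_cent]
  intro w hw
  let f : Fin 5 → J := fun i => ⟨g ^ (i : ℕ) * w * (g ^ (i : ℕ))⁻¹ * w⁻¹, (pow_mem hg i).2 w hw⟩
  have key : ∀ i j : ℕ, i < j → j < 5 → g ^ i * w * (g ^ i)⁻¹ * w⁻¹ = g ^ j * w * (g ^ j)⁻¹ * w⁻¹ →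
      Commute (g ^ 12) w := by
    intro i j hij hj e
    obtain ⟨m, rfl⟩ := Nat.exists_eq_add_of_lt hij
    have h1 : Commute (g ^ (m + 1)) w := by
      show g ^ (m + 1) * w = w * g ^ (m + 1)
      calc _ = (g ^ i)⁻¹ * (g ^ (i + m + 1) * w * (g ^ (i + m + 1))⁻¹ * w⁻¹) * w *
            g ^ (i + m + 1) := by group
        _ = _ := by rw [← e]; group
    have h2 : (m + 1) ∣ 12 := by
      have : m < 4 := by omega
      interval_cases m <;> norm_num
    obtain ⟨c, hc⟩ := h2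
    rw [hc, pow_mul]; exact h1.pow_left c
  have hni : ¬ Function.Injective f := fun hi => by
    have := Nat.card_le_card_of_injective f hi
    simp at this; omega
  rw [Function.not_injective_iff] at hni
  obtain ⟨i, j, e, hne⟩ := hni
  have e' := congrArg Subtype.val e
  rcases lt_or_gt_of_ne (Fin.val_ne_of_ne hne) with h | h
  · exact key i j h j.2 e'
  · exact key j i h i.2 e'.symm

/-- the product of the conjugates of `k` under the first `n` powers of `a` -/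
def P (a k : H) : ℕ → H
  | 0 => 1
  | n + 1 => P a k n * (a ^ n * k * (a ^ n)⁻¹)

theorem P_succ' (a k : H) (n : ℕ) : P a k (n + 1) = k * (a * P a k n * a⁻¹) := by
  induction n with
  | zero => simp [P]
  | succ n ih =>
    have e : P a k (n + 1) = P a k n * (a ^ n * k * (a ^ n)⁻¹) := rfl
    calc _ = P a k (n + 1) * (a ^ (n + 1) * k * (a ^ (n + 1))⁻¹) := rfl
      _ = k * (a * P a k n * a⁻¹) * (a ^ (n + 1) * k * (a ^ (n + 1))⁻¹) := by rw [ih]
      _ = _ := by rw [e]; group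

theorem P_mem {a k : H} {n : ℕ} (S : Subgroup H) (h : ∀ i < n, a ^ i * k * (a ^ i)⁻¹ ∈ S) :
    P a k n ∈ S := by
  induction n with
  | zero => exact one_mem _
  | succ n ih => exact mul_mem (ih fun i hi => h i (by omega)) (h n (by omega))

theorem P_conj {a b : H} (hb : Commute b a) (k : H) (n : ℕ) :
    b * P a k n * b⁻¹ = P a (b * k * b⁻¹) n := by
  induction n with
  | zero => simp [P]
  | succ n ih =>
    rw [P, P, ← ih]
    have h1 : b * a ^ n * b⁻¹ = a ^ n := by rw [(hb.pow_right n).eq]; group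
    calc _ = b * P a k n * b⁻¹ * ((b * a ^ n * b⁻¹) * (b * k * b⁻¹) * (b * a ^ n * b⁻¹)⁻¹) := by
          group
      _ = _ := by rw [h1]

theorem P_mul {a k k' : H} {n : ℕ} (h : ∀ i j, i < j → j < n →
    Commute (a ^ i * k' * (a ^ i)⁻¹) (a ^ j * k * (a ^ j)⁻¹)) :
    P a (k * k') n = P a k n * P a k' n := by
  induction n with
  | zero => simp [P]
  | succ n ih =>
    rw [P, P, P, ih fun i j hij hj => h i j hij (by omega)]
    have h1 : Commute (P a k' n) (a ^ n * k * (a ^ n)⁻¹) :=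
      mem_cent1.mp (P_mem _ fun i hi => mem_cent1.mpr (h i n hi (by omega)))
    calc _ = P a k n * (P a k' n * (a ^ n * k * (a ^ n)⁻¹)) * (a ^ n * k' * (a ^ n)⁻¹) := by group
      _ = _ := by rw [h1.eq]; group

theorem P_one (a : H) (n : ℕ) : P a 1 n = 1 := by
  induction n with
  | zero => rfl
  | succ n ih => rw [P, ih]; group

theorem P_split (a k : H) {n : ℕ} (hn : 0 < n) : ∃ E, P a k n = k * E ∧
    ∀ S : Subgroup H, (∀ i, 0 < i → i < n → a ^ i * k * (a ^ i)⁻¹ ∈ S) → E ∈ S := by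
  obtain ⟨m, rfl⟩ : ∃ m, n = m + 1 := ⟨n - 1, by omega⟩
  refine ⟨_, P_succ' a k m, fun S hS => ?_⟩
  have := P_mem (a := a) (k := k) (n := m) (S.comap (MulAut.conj a).toMonoidHom) fun i hi => by
    have := hS (i + 1) (by omega) (by omega)
    rw [mem_comap]
    convert this using 1
    simp only [MulEquiv.coe_toMonoidHom, MulAut.conj_apply]; group
  simpa using this

theorem P_comm {a k : H} {n : ℕ} (ha : a ^ n = 1) (h : Commute k (P a k n)) :
    Commute (P a k n) a := by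
  have h1 := P_succ' a k n
  rw [P, ha] at h1
  have h2 : a * P a k n * a⁻¹ = P a k n := by
    calc _ = k⁻¹ * (k * (a * P a k n * a⁻¹)) := by group
      _ = k⁻¹ * (P a k n * k) := by rw [← h1]; group
      _ = _ := by rw [← h.eq]; group
  show P a k n * a = a * P a k n
  conv_lhs => rw [← h2]
  group

end Cfsg.Agent.Loc.PGV
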