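import Mathlib
import Cfsg.Agent.Loc.PGVBasic
import Cfsg.Agent.GT.PGroupChain
import Cfsg.Agent.S0599

/-! The P(G,V) theorem: in a minimal counterexample diagonals centralize commutators. -/

set_option autoImplicit false
open Subgroup

namespace Cfsg.Agent.Loc.PGV

variable {H : Type*} [Group H]

/-- the hypotheses of the P(G,V) theorem inside one group -/
structure Hyp (p : ℕ) (W A K : Subgroup H) : Prop where
  hW : IsElementaryAbelian p W
  hA : IsElementaryAbelian p A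
  AW : A ≤ normalizer (W : Set H)
  KW : K ≤ normalizer (W : Set H)
  qs : ∀ k ∈ K, k ∉ centralizer (K : Set H) → ∀ C : Subgroup H,
    (∀ x ∈ K, x * k * x⁻¹ * k⁻¹ ∈ C) → K ≤ C
  cm : ∀ a ∈ A, a ∉ normalizer (K : Set H) → ∀ x ∈ K, ∀ y ∈ K, Commute (a * x * a⁻¹) y
  ex : ∃ k ∈ K, k ^ 12 ∉ centralizer (K : Set H)
  nt : ¬ K ≤ centralizer (W : Set H)
  best : ∀ B ≤ A, Nat.card B * Nat.card (W ⊓ centralizer (B : Set H) : Subgroup H) ≤
    Nat.card A * Nat.card (W ⊓ centralizer (A : Set H) : Subgroup H)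

variable {p : ℕ} {W A K : Subgroup H}

theorem cyc_comm {z d e : H} (hd : d ∈ normalizer (zpowers z : Set H))
    (he : e ∈ normalizer (zpowers z : Set H)) : Commute (d * e * d⁻¹ * e⁻¹) z := by
  obtain ⟨i, hi⟩ := mem_zpowers_iff.mp (nm (inv_mem hd) (mem_zpowers z))
  obtain ⟨j, hj⟩ := mem_zpowers_iff.mp (nm (inv_mem he) (mem_zpowers z))
  have e1 : d⁻¹ * (e⁻¹ * z * e⁻¹⁻¹) * d⁻¹⁻¹ = z ^ (i * j) := by
    rw [← hj, ← conj_zpow, ← hi, zpow_mul]
  have e2 : e⁻¹ * (d⁻¹ * z * d⁻¹⁻¹) * e⁻¹⁻¹ = z ^ (i * j) := by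
    rw [← hi, ← conj_zpow, ← hj, mul_comm i j, zpow_mul]
  show d * e * d⁻¹ * e⁻¹ * z = z * (d * e * d⁻¹ * e⁻¹)
  calc _ = d * e * (d⁻¹ * (e⁻¹ * z * e⁻¹⁻¹) * d⁻¹⁻¹) * (d⁻¹ * e⁻¹) := by group
    _ = _ := by rw [e1, ← e2]; group

namespace Hyp

theorem Wc (h : Hyp p W A K) : ∀ v ∈ W, ∀ w ∈ W, Commute v w := fun v hv w hw =>
  congrArg Subtype.val (h.hW.1.is_comm.comm ⟨v, hv⟩ ⟨w, hw⟩)

theorem Ac (h : Hyp p W A K) : ∀ v ∈ A, ∀ w ∈ A, Commute v w := fun v hv w hw =>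
  congrArg Subtype.val (h.hA.1.is_comm.comm ⟨v, hv⟩ ⟨w, hw⟩)

theorem ex' (h : Hyp p W A K) : ∃ k ∈ K, k ∉ centralizer (K : Set H) := by
  obtain ⟨k, hk, h1⟩ := h.ex
  exact ⟨_, pow_mem hk 12, h1⟩

theorem perf (h : Hyp p W A K) (C : Subgroup H)
    (hC : ∀ x ∈ K, ∀ y ∈ K, x * y * x⁻¹ * y⁻¹ ∈ C) : K ≤ C := by
  obtain ⟨k, hk, h1⟩ := h.ex'
  exact h.qs k hk h1 C fun x hx => hC x hx k hk

theorem g1 (h : Hyp p W A K) {c g k : H} {C : Subgroup H} (hk : k ∈ K)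
    (hk' : k ∉ centralizer (K : Set H)) (hg : g ∈ C)
    (h1 : ∀ x ∈ K, (c * x * c⁻¹) * g * (c * x * c⁻¹)⁻¹ ∈ C)
    (h2 : ∀ x ∈ K, g * (c * x * c⁻¹) * g⁻¹ = c * (k * x * k⁻¹) * c⁻¹) :
    ∀ x ∈ K, c * x * c⁻¹ ∈ C := by
  have := h.qs k hk hk' (C.comap (MulAut.conj c).toMonoidHom) fun x hx => by
    rw [mem_comap]
    have h3 := mul_mem (h1 x hx) (inv_mem hg)
    have h4 := h2 _ (inv_mem hx)
    convert h3 using 1
    simp only [MulEquiv.coe_toMonoidHom, MulAut.conj_apply]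
    calc _ = (c * x * c⁻¹) * (c * (k * x⁻¹ * k⁻¹) * c⁻¹) := by group
      _ = _ := by rw [← h4]; group
  intro x hx
  simpa using this hx

theorem g1' (h : Hyp p W A K) {g k : H} {C : Subgroup H} (hk : k ∈ K)
    (hk' : k ∉ centralizer (K : Set H)) (hg : g ∈ C) (h1 : ∀ x ∈ K, x * g * x⁻¹ ∈ C)
    (h2 : ∀ x ∈ K, g * x * g⁻¹ = k * x * k⁻¹) : K ≤ C := by
  intro x hx
  simpa using h.g1 (c := 1) hk hk' hg (by simpa using h1) (by simpa using h2) x hx

theorem quad (h : Hyp p W A K) {w : H} (hw : w ∈ W)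
    (hq : ∀ x ∈ K, ∀ y ∈ K, Commute y (x * w * x⁻¹ * w⁻¹)) : ∀ x ∈ K, Commute x w := by
  intro x hx
  refine mem_cent1.mp (h.perf _ (fun x hx y hy => mem_cent1.mpr ?_) hx)
  exact comm_of_quad h.Wc (h.KW hx) (h.KW hy) hw (hq _ (inv_mem hy) _ (inv_mem hx))
    (hq _ (inv_mem hx) _ (inv_mem hy))

theorem cent3 (h : Hyp p W A K) {n : H} (hn : n ∈ normalizer (K : Set H))
    (hn' : n ∉ centralizer (K : Set H)) :
    ∃ x ∈ K, x * n * x⁻¹ * n⁻¹ ∉ centralizer (K : Set H) := by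
  by_contra hc
  push Not at hc
  apply hn'
  rw [mem_cent]
  intro x hx
  refine (mem_cent1.mp (h.perf _ (fun x hx y hy => mem_cent1.mpr ?_) hx)).symm
  have hu := mem_cent.mp (inv_mem (hc x hx))
  have hv := mem_cent.mp (inv_mem (hc y hy))
  have e1 := (hu _ (mul_mem (mul_mem hx (nm hn hy)) (inv_mem hx))).eq
  have e2 := (hv _ (mul_mem hy (inv_mem hx))).eq
  have e3 := (hv _ hx).eq
  have e4 := (hv _ (inv_mem hy)).eq
  generalize hu' : (x * n * x⁻¹ * n⁻¹)⁻¹ = u at e1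
  generalize hv' : (y * n * y⁻¹ * n⁻¹)⁻¹ = v at e2 e3 e4
  have f1 : n * x * n⁻¹ = u * x := by rw [← hu']; group
  have f2 : n * y * n⁻¹ = v * y := by rw [← hv']; group
  have : n * (x * y * x⁻¹ * y⁻¹) * n⁻¹ = x * y * x⁻¹ * y⁻¹ := by
    calc _ = (n * x * n⁻¹) * (n * y * n⁻¹) * (n * x * n⁻¹)⁻¹ * (n * y * n⁻¹)⁻¹ := by group
      _ = (u * (x * (n * y * n⁻¹) * x⁻¹)) * u⁻¹ * (n * y * n⁻¹)⁻¹ := by rw [f1]; group
      _ = x * (v * (y * x⁻¹)) * y⁻¹ * v⁻¹ := by rw [e1, f2]; group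
      _ = x * y * x⁻¹ * (v * y⁻¹) * v⁻¹ := by rw [e2]; group
      _ = _ := by rw [e4]; group
  show _ * n = n * _
  conv_lhs => rw [← this]
  group

theorem cm2 (h : Hyp p W A K) {a b : H} (ha : a ∈ A) (hb : b ∈ A)
    (hn : b⁻¹ * a ∉ normalizer (K : Set H)) {x y : H} (hx : x ∈ K) (hy : y ∈ K) :
    Commute (a * x * a⁻¹) (b * y * b⁻¹) := by
  have := (h.cm _ (mul_mem (inv_mem hb) ha) hn x hx y hy).conj b
  convert this using 1; group

theorem f2 (h : Hyp p W A K) {a : H} (ha : a ∈ A) (hc : a ∈ centralizer (W : Set H)) :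
    a ∈ normalizer (K : Set H) := by
  by_contra hn
  obtain ⟨k, hk, hk'⟩ := h.ex'
  have hg : a * (k⁻¹ * a⁻¹ * k⁻¹⁻¹) ∈ centralizer (W : Set H) :=
    mul_mem hc (cent_conj (h.KW (inv_mem hk)) (inv_mem hc))
  refine h.nt (h.g1' hk hk' hg (fun x hx => cent_conj (h.KW hx) hg) fun x hx => ?_)
  have := (h.cm a ha hn _ (inv_mem hk) _ (mul_mem (mul_mem hk hx) (inv_mem hk))).eq
  calc _ = (a * k⁻¹ * a⁻¹ * (k * x * k⁻¹)) * (a * k⁻¹ * a⁻¹)⁻¹ := by group
    _ = _ := by rw [this]; group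

variable [hp : Fact p.Prime]

theorem pow_not (h : Hyp p W A K) {a : H} (ha : a ∈ A) (hn : a ∉ normalizer (K : Set H))
    {i : ℕ} (h0 : 0 < i) (hi : i < p) : a ^ i ∉ normalizer (K : Set H) := by
  intro hc
  have h1 : i.Coprime (orderOf a) :=
    ((Nat.coprime_of_lt_prime (by omega) hi hp.out).symm).coprime_dvd_right
      (orderOf_dvd_of_pow_eq_one (h.hA.2 a ha))
  obtain ⟨m, hm⟩ := exists_pow_eq_self_of_coprime h1
  exact hn (hm ▸ pow_mem hc m)

theorem d_mul (h : Hyp p W A K) {a : H} (ha : a ∈ A) (hn : a ∉ normalizer (K : Set H))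
    {x y : H} (hx : x ∈ K) (hy : y ∈ K) : P a (x * y) p = P a x p * P a y p := by
  refine P_mul fun i j hij hj => h.cm2 (pow_mem ha i) (pow_mem ha j) ?_ hy hx
  obtain ⟨m, rfl⟩ := Nat.exists_eq_add_of_lt hij
  intro hc
  refine h.pow_not ha hn (i := m + 1) (by omega) (by omega) ?_
  convert inv_mem hc using 1; group

theorem d_inv (h : Hyp p W A K) {a : H} (ha : a ∈ A) (hn : a ∉ normalizer (K : Set H))
    {x : H} (hx : x ∈ K) : P a x⁻¹ p = (P a x p)⁻¹ := by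
  have := h.d_mul ha hn hx (inv_mem hx)
  rw [mul_inv_cancel, P_one] at this
  exact (eq_inv_of_mul_eq_one_right this.symm)

theorem d_cm (h : Hyp p W A K) {a : H} (ha : a ∈ A) (hn : a ∉ normalizer (K : Set H))
    {x y : H} (hx : x ∈ K) (hy : y ∈ K) :
    P a (x * y * x⁻¹ * y⁻¹) p = P a x p * P a y p * (P a x p)⁻¹ * (P a y p)⁻¹ := by
  rw [h.d_mul ha hn (mul_mem (mul_mem hx hy) (inv_mem hx)) (inv_mem hy),
    h.d_mul ha hn (mul_mem hx hy) (inv_mem hx), h.d_mul ha hn hx hy, h.d_inv ha hn hx,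
    h.d_inv ha hn hy]

theorem d_act (h : Hyp p W A K) {a : H} (ha : a ∈ A) (hn : a ∉ normalizer (K : Set H))
    {x y : H} (hx : x ∈ K) (hy : y ∈ K) : P a x p * y * (P a x p)⁻¹ = x * y * x⁻¹ := by
  obtain ⟨E, e, hE⟩ := P_split a x hp.out.pos
  have := mem_cent1.mp (hE (centralizer {y}) fun i h0 hi =>
    mem_cent1.mpr (h.cm _ (pow_mem ha i) (h.pow_not ha hn h0 hi) x hx y hy))
  rw [e]
  calc _ = x * (E * y) * E⁻¹ * x⁻¹ := by group
    _ = _ := by rw [this.eq]; group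

theorem d_self (h : Hyp p W A K) {a : H} (ha : a ∈ A) (hn : a ∉ normalizer (K : Set H))
    {x : H} (hx : x ∈ K) : Commute (P a x p) x := by
  have := h.d_act ha hn hx hx
  show _ * x = x * _
  calc _ = (P a x p * x * (P a x p)⁻¹) * P a x p := by group
    _ = _ := by rw [this]; group

theorem d_comm (h : Hyp p W A K) {a : H} (ha : a ∈ A) (hn : a ∉ normalizer (K : Set H))
    {x : H} (hx : x ∈ K) : Commute (P a x p) a :=
  P_comm (h.hA.2 a ha) (h.d_self ha hn hx).symm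

omit hp in
theorem d_norm (h : Hyp p W A K) {a : H} (ha : a ∈ A) {x : H} (hx : x ∈ K) :
    P a x p ∈ normalizer (W : Set H) :=
  P_mem _ fun i _ => mul_mem (mul_mem (h.AW (pow_mem ha i)) (h.KW hx))
    (inv_mem (h.AW (pow_mem ha i)))

/-- the elements of `K` whose diagonal centralizes the commutators with `a` -/
def dsub (h : Hyp p W A K) {a : H} (ha : a ∈ A) (hn : a ∉ normalizer (K : Set H)) :
    Subgroup H where
  carrier := {x | x ∈ K ∧ P a x p ∈ cen W a}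
  one_mem' := ⟨one_mem _, by rw [P_one]; exact one_mem _⟩
  mul_mem' := fun hx hy => ⟨mul_mem hx.1 hy.1, by
    rw [h.d_mul ha hn hx.1 hy.1]; exact mul_mem hx.2 hy.2⟩
  inv_mem' := fun hx => ⟨inv_mem hx.1, by rw [h.d_inv ha hn hx.1]; exact inv_mem hx.2⟩

theorem star_a (h : Hyp p W A K) {a : H} (ha : a ∈ A) (hn : a ∉ normalizer (K : Set H))
    {n : H} (h1 : n ∈ A) (h2 : n ∈ normalizer (K : Set H)) (h3 : n ∉ centralizer (K : Set H))
    (h4 : n ∈ cen W a) : K ≤ h.dsub ha hn := by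
  obtain ⟨x, hx, hx'⟩ := h.cent3 h2 h3
  have hy : n * x⁻¹ * n⁻¹ ∈ K := nm h2 (inv_mem hx)
  have e : x * n * x⁻¹ * n⁻¹ = x * (n * x⁻¹ * n⁻¹) := by group
  have hk : x * n * x⁻¹ * n⁻¹ ∈ K := e ▸ mul_mem hx hy
  have hd : P a (x * n * x⁻¹ * n⁻¹) p ∈ cen W a := by
    rw [e, h.d_mul ha hn hx hy, ← P_conj (h.Ac _ h1 _ ha), h.d_inv ha hn hx]
    have := mul_mem (cen_conj (h.d_norm ha hx) (h.d_comm ha hn hx) h4) (inv_mem h4)
    convert this using 1; group
  refine h.qs _ hk hx' _ fun y hy => ⟨mul_mem (mul_mem (mul_mem hy hk) (inv_mem hy))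
    (inv_mem hk), ?_⟩
  rw [h.d_cm ha hn hy hk]
  exact mul_mem (cen_conj (h.d_norm ha hy) (h.d_comm ha hn hy) hd) (inv_mem hd)

theorem star_b (h : Hyp p W A K) {a : H} (ha : a ∈ A) (hn : a ∉ normalizer (K : Set H))
    {b : H} (h1 : b ∈ A) (h2 : ∀ c ∈ zpowers a, c * b ∉ normalizer (K : Set H))
    (h4 : b ∈ cen W a) : K ≤ h.dsub ha hn := by
  refine h.perf _ fun y hy x hx => ⟨mul_mem (mul_mem (mul_mem hy hx) (inv_mem hy))
    (inv_mem hx), ?_⟩
  rw [h.d_cm ha hn hy hx]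
  have hu := mul_mem (cen_conj (h.d_norm ha hx) (h.d_comm ha hn hx) h4) (inv_mem h4)
  have hv := mul_mem (cen_conj (h.d_norm ha hy) (h.d_comm ha hn hy) hu) (inv_mem hu)
  have hc : Commute (b * P a x p * b⁻¹) (P a y p) := by
    rw [P_conj (h.Ac _ h1 _ ha)]
    refine mem_cent1.mp (P_mem _ fun i _ => mem_cent1.mpr (mem_cent1.mp
      (P_mem _ fun j _ => mem_cent1.mpr ?_)).symm)
    have := h.cm2 (mul_mem (pow_mem ha i) h1) (pow_mem ha j) (by
      rw [← mul_assoc]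
      exact h2 _ (mul_mem (inv_mem (pow_mem (mem_zpowers a) j)) (pow_mem (mem_zpowers a) i)))
      hx hy
    convert this.symm using 1; group
  convert hv using 1
  have := hc.inv_left.inv_right.eq
  calc _ = P a y p * P a x p * ((P a y p)⁻¹ * (b * P a x p * b⁻¹)⁻¹) * (b * P a x p * b⁻¹) *
        (P a x p)⁻¹ := by group
    _ = _ := by rw [← this]; group

theorem star_c [Finite H] (h : Hyp p W A K) {a : H} (ha : a ∈ A)
    (hn : a ∉ normalizer (K : Set H)) (hc : Nat.card (img W h.Wc a (h.AW ha)) ≤ p) :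
    K ≤ h.dsub ha hn := by
  refine h.perf _ fun x hx y hy => ⟨mul_mem (mul_mem (mul_mem hx hy) (inv_mem hx))
    (inv_mem hy), ?_⟩
  rw [h.d_cm ha hn hx hy]
  intro w hw
  by_cases hz : a * w * a⁻¹ * w⁻¹ = 1
  · rw [hz]; exact Commute.one_right _
  have hm : a * w * a⁻¹ * w⁻¹ ∈ img W h.Wc a (h.AW ha) := ⟨w, hw, rfl⟩
  have e : zpowers (a * w * a⁻¹ * w⁻¹) = img W h.Wc a (h.AW ha) := by
    refine eq_of_le_of_card_ge (zpowers_le.mpr hm) ?_
    rw [Nat.card_zpowers, orderOf_eq_prime (h.hW.2 _ (img_le _ _ hm)) hz]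
    exact hc
  have hN : ∀ x ∈ K, P a x p ∈ normalizer (zpowers (a * w * a⁻¹ * w⁻¹) : Set H) := by
    intro x hx
    rw [e]
    exact mem_norm fun z hz => img_conj _ _ (h.d_norm ha hx) (h.d_comm ha hn hx) hz
  exact cyc_comm (hN x hx) (hN y hy)

end Hyp

/-- a minimal counterexample -/
structure Min (p : ℕ) (W A K : Subgroup H) : Prop extends Hyp p W A K where
  minW : ∀ W' ≤ W, W' ≠ W → A ≤ normalizer (W' : Set H) → K ≤ normalizer (W' : Set H) →
    K ≤ centralizer (W' : Set H)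
  minA : ∀ B ≤ A, B ≠ A → (∀ B' ≤ B, Nat.card B' *
    Nat.card (W ⊓ centralizer (B' : Set H) : Subgroup H) ≤
    Nat.card B * Nat.card (W ⊓ centralizer (B : Set H) : Subgroup H)) →
    B ≤ normalizer (K : Set H)
  nn : ¬ A ≤ normalizer (K : Set H)

namespace Min

variable [Finite H]

theorem w1 (h : Min p W A K) (S : Subgroup H)
    (hS : ∀ b ∈ A, ∀ x ∈ K, b * x * b⁻¹ ∈ act W S) : W ≤ S := by
  let W1 : Subgroup H :=
    { carrier := {w | w ∈ W ∧ ∀ b ∈ A, b * w * b⁻¹ ∈ S}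
      one_mem' := ⟨one_mem _, fun b _ => by simp⟩
      mul_mem' := fun hv hw => ⟨mul_mem hv.1 hw.1, fun b hb => by
        convert mul_mem (hv.2 b hb) (hw.2 b hb) using 1; group⟩
      inv_mem' := fun hv => ⟨inv_mem hv.1, fun b hb => by
        convert inv_mem (hv.2 b hb) using 1; group⟩ }
  have h1 : ∀ x ∈ K, ∀ w ∈ W, x * w * x⁻¹ * w⁻¹ ∈ W1 := fun x hx w hw =>
    ⟨cm_mem (h.KW hx) hw, fun b hb => by
      convert (hS b hb x hx).2 _ (nm (h.AW hb) hw) using 1; group⟩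
  have h2 : W1 = W := by
    by_contra hne
    have := h.minW W1 (fun w hw => hw.1) hne (fun a ha => mem_norm fun w hw =>
      ⟨nm (h.AW ha) hw.1, fun b hb => by
        convert hw.2 _ (mul_mem hb ha) using 1; group⟩)
      (fun x hx => mem_norm fun w hw => by
        convert mul_mem (h1 x hx w hw.1) hw using 1; group)
    refine h.nt fun x hx => mem_cent.mpr fun w hw => h.quad hw (fun x hx y hy => ?_) x hx
    exact mem_cent.mp (this hy) _ (h1 x hx w hw)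
  intro w hw
  rw [← h2] at hw
  simpa using hw.2 1 (one_mem _)

variable [hp : Fact p.Prime]

theorem cK (h : Min p W A K) {n : H} (hn : n ∈ A) (hc : n ∈ centralizer (K : Set H)) :
    n ∈ centralizer (W : Set H) := by
  have hne : img W h.Wc n (h.AW hn) ≠ W := by
    intro e
    have hW0 : W ≠ ⊥ := fun h0 => h.nt fun x _ => mem_cent.mpr fun w hw => by
      rw [h0, mem_bot] at hw; rw [hw]; exact Commute.one_right _
    have hWp : IsPGroup p W := fun w => ⟨1, Subtype.ext (by simpa using h.hW.2 w w.2)⟩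
    have hAp : IsPGroup p A := fun w => ⟨1, Subtype.ext (by simpa using h.hA.2 w w.2)⟩
    have := GT.PG.commutator_lt_of_isPGroup hWp hAp h.AW hW0
    refine this.not_ge fun w hw => ?_
    rw [← e] at hw
    obtain ⟨v, hv, rfl⟩ := hw
    rw [commutator_comm]
    exact commutator_mem_commutator hn hv
  have h1 := h.minW _ (img_le _ _) hne
    (fun a ha => mem_norm fun z hz => img_conj _ _ (h.AW ha) (h.Ac _ ha _ hn) hz)
    (fun x hx => mem_norm fun z hz => img_conj _ _ (h.KW hx) (mem_cent.mp hc x hx).symm hz)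
  have h2 := h.w1 (centralizer {n}) fun b hb x hx => by
    refine act_conj (h.AW hb) (fun y hy => mem_cent1.mpr ?_)
      (act_of_cen h.Wc (h.AW hn) (h.KW hx) (mem_cent.mp hc x hx).symm
        fun w hw => mem_cent.mp (h1 hx) _ ⟨w, hw, rfl⟩)
    exact ((h.Ac _ hb _ hn).mul_left (mem_cent1.mp hy)).mul_left (h.Ac _ hb _ hn).inv_left
  exact mem_cent.mpr fun w hw => (mem_cent1.mp (h2 hw)).symm

omit [Finite H] hp in
theorem card_le (h : Min p W A K) : Nat.card (A ⊓ centralizer (W : Set H) : Subgroup H) *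
    Nat.card W ≤ Nat.card A * Nat.card (W ⊓ centralizer (A : Set H) : Subgroup H) := by
  have := h.best (A ⊓ centralizer (W : Set H)) inf_le_left
  rwa [inf_eq_left.mpr (le_centralizer_iff.mp inf_le_right)] at this

theorem star (h : Min p W A K) {a : H} (ha : a ∈ A) (hn : a ∉ normalizer (K : Set H))
    {k : H} (hk : k ∈ K) : P a k p ∈ cen W a := by
  refine (?_ : K ≤ h.dsub ha hn) hk |>.2
  have hb : IsBestOffenderOn p W A := ⟨h.best, commutator_le.mpr fun x hx y hy => by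
    rw [(h.Ac x hx y hy).commutator_eq]; exact one_mem _, fun x hx => by
    rw [h.hA.2 x hx]; exact one_mem _⟩
  obtain ⟨hB, -, hB'⟩ := S0599.result W A h.hW h.AW hb W le_rfl
  have hB1 := hB' fun e => h.nn fun x hx => h.f2 hx
    (le_centralizer_iff.mp (commutator_eq_bot_iff_le_centralizer.mp e) hx)
  set B := A ⊓ centralizer ((⁅W, A⁆ : Subgroup H) : Set H) with hBd
  have hc : ∀ b ∈ B, b ∈ cen W a := fun b hb w hw => mem_cent.mp hb.2 _ (by
    rw [commutator_comm]; exact commutator_mem_commutator ha hw)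
  by_cases h1 : ∃ n ∈ B, n ∈ normalizer (K : Set H) ∧ n ∉ centralizer (W : Set H)
  · obtain ⟨n, h1, h2, h3⟩ := h1
    exact h.star_a ha hn h1.1 h2 (fun h4 => h3 (h.cK h1.1 h4)) (hc n h1)
  push Not at h1
  have e : B = A := by
    by_contra hne
    have := h.minA B inf_le_left hne hB.1
    exact hB1 (commutator_eq_bot_iff_le_centralizer.mpr
      (le_centralizer_iff.mp fun x hx => h1 x hx (this hx)))
  rw [e] at h1 hc
  by_cases h2 : ∃ b ∈ A, ∀ c ∈ zpowers a, c * b ∉ normalizer (K : Set H)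
  · obtain ⟨b, h2, h3⟩ := h2
    exact h.star_b ha hn h2 h3 (hc b h2)
  push Not at h2
  refine h.star_c ha hn ?_
  choose f hf hf' using h2
  let g : A → zpowers a × (A ⊓ centralizer (W : Set H) : Subgroup H) := fun b =>
    (⟨f b b.2, hf b b.2⟩, ⟨f b b.2 * b, mul_mem (zpowers_le.mpr ha (hf b b.2)) b.2,
      h1 _ (mul_mem (zpowers_le.mpr ha (hf b b.2)) b.2) (hf' b b.2)⟩)
  have hg : Function.Injective g := fun b b' e => by
    have e1 : f b b.2 = f b' b'.2 := congrArg (fun z => (z.1 : H)) e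
    have e2 : f b b.2 * b = f b' b'.2 * b' := congrArg (fun z => (z.2 : H)) e
    rw [e1] at e2
    exact Subtype.ext (mul_left_cancel e2)
  have c1 := Nat.card_le_card_of_injective g hg
  rw [Nat.card_prod, Nat.card_zpowers] at c1
  have c2 : orderOf a ≤ p := Nat.le_of_dvd hp.out.pos (orderOf_dvd_of_pow_eq_one (h.hA.2 a ha))
  have c3 := h.card_le
  have c4 : Nat.card (W ⊓ centralizer (A : Set H) : Subgroup H) ≤
      Nat.card (W ⊓ centralizer ({a} : Set H) : Subgroup H) :=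
    card_le_of_le (inf_le_inf_left _ (centralizer_le (by simpa using ha)))
  rw [← card_img h.Wc (h.AW ha)] at c3
  have p1 : 0 < Nat.card (A ⊓ centralizer (W : Set H) : Subgroup H) := Nat.card_pos
  have p2 : 0 < Nat.card (W ⊓ centralizer ({a} : Set H) : Subgroup H) := Nat.card_pos
  have c5 := c3.trans (Nat.mul_le_mul (c1.trans (Nat.mul_le_mul_right _ c2)) c4)
  rw [mul_comm p, mul_assoc] at c5
  exact Nat.le_of_mul_le_mul_right (Nat.le_of_mul_le_mul_left c5 p1) p2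

end Min

end Cfsg.Agent.Loc.PGV
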