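import Mathlib
import Cfsg.Agent.Loc.PGVStar
import Cfsg.Agent.GT.CoprimeProd

/-! The P(G,V) theorem inside one group. -/

set_option autoImplicit false
open Subgroup

namespace Cfsg.Agent.Loc.PGV

variable {H : Type*} [Group H] {p : ℕ} {W A K : Subgroup H}

/-- double counting of characters: a family of subgroups, any two generating the group unless
the indices lie in one coset -/
theorem spread {U : Type*} [CommGroup U] [Finite U] {ι : Type*} [Finite ι] (S : ι → Subgroup U)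
    (Z : Subgroup U) (hZ : ∀ i, Z ≤ S i) (h3 : ∀ i, 3 ≤ (S i).index) (m : ℕ) (hm0 : 0 < m)
    (hm : ∀ i, Nat.card {j // S i ⊔ S j ≠ ⊤} ≤ m) : Nat.card ι * 2 < Z.index * m := by
  classical
  have : Fintype ι := Fintype.ofFinite ι
  have : Fintype (U →* ℂˣ) := Fintype.ofFinite _
  have : NeZero ((Monoid.exponent U : ℕ) : ℂ) :=
    ⟨Nat.cast_ne_zero.mpr Monoid.exponent_ne_zero_of_finite⟩
  have hc : ∀ T : Subgroup U, (Finset.univ.filter fun χ : U →* ℂˣ => χ ≠ 1 ∧ T ≤ χ.ker).card + 1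
      = T.index := by
    intro T
    have h1 := CommGroup.card_domRestrictHom_ker ℂ T
    rw [← index_eq_card] at h1
    rw [← h1, Nat.card_eq_fintype_card, Fintype.card_subtype]
    have : (Finset.univ.filter fun χ : U →* ℂˣ => χ ∈ (MonoidHom.domRestrictHom T ℂˣ).ker) =
        insert 1 (Finset.univ.filter fun χ : U →* ℂˣ => χ ≠ 1 ∧ T ≤ χ.ker) := by
      ext χ
      simp only [Finset.mem_filter, Finset.mem_univ, true_and, Finset.mem_insert,
        MonoidHom.mem_ker, MonoidHom.domRestrictHom_apply, MonoidHom.domRestrict_eq_one_iff]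
      constructor
      · intro h
        by_cases h1 : χ = 1
        · exact Or.inl h1
        · exact Or.inr ⟨h1, h⟩
      · rintro (rfl | h)
        · intro x _; rfl
        · exact h.2
    rw [this, Finset.card_insert_of_notMem (by simp)]
  have key := Finset.card_mul_le_card_mul (s := (Finset.univ : Finset ι))
    (t := Finset.univ.filter fun χ : U →* ℂˣ => χ ≠ 1 ∧ Z ≤ χ.ker) (m := 2) (n := m)
    (fun i χ => S i ≤ χ.ker) (fun i _ => by
      have h1 := hc (S i)
      have h2 := h3 i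
      refine le_trans (by omega : 2 ≤ (Finset.univ.filter
        fun χ : U →* ℂˣ => χ ≠ 1 ∧ S i ≤ χ.ker).card) (Finset.card_le_card fun χ hχ => ?_)
      simp only [Finset.mem_filter, Finset.mem_univ, true_and, Finset.mem_bipartiteAbove] at hχ ⊢
      exact ⟨⟨hχ.1, (hZ i).trans hχ.2⟩, hχ.2⟩)
    (fun χ hχ => by
      simp only [Finset.mem_filter, Finset.mem_univ, true_and] at hχ
      rcases (Finset.univ.bipartiteBelow (fun i χ => S i ≤ χ.ker) χ).eq_empty_or_nonempty with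
        h0 | ⟨i, hi⟩
      · rw [h0]; simp
      refine le_trans ?_ (hm i)
      rw [Nat.card_eq_fintype_card, Fintype.card_subtype]
      refine Finset.card_le_card fun j hj => ?_
      simp only [Finset.mem_filter, Finset.mem_univ, true_and, Finset.mem_bipartiteBelow]
        at hi hj ⊢
      intro e
      apply hχ.1
      ext u
      have : u ∈ χ.ker := (sup_le hi hj) (e ▸ mem_top u)
      simpa using this)
  rw [Finset.card_univ, ← Nat.card_eq_fintype_card] at key
  rw [← hc Z]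
  nlinarith

namespace Min

variable [Finite H] [hp : Fact p.Prime]

theorem claim0 (h : Min p W A K) {a c k : H} (ha : a ∈ A) (hn : a ∉ normalizer (K : Set H))
    (hc : c ∈ A) (h1 : c ∉ normalizer (K : Set H)) (h2 : a⁻¹ * c ∉ normalizer (K : Set H))
    (hk : k ∈ K) (hk' : k ∉ centralizer (K : Set H)) (hd : Commute (c * P a k p * c⁻¹) k)
    {y : H} (hy : y ∈ K) : K ≤ act W (centralizer {c * y * c⁻¹}) := by
  have hd1 : c * P a k p * c⁻¹ ∈ cen W a := cen_conj (h.AW hc) (h.Ac _ hc _ ha) (h.star ha hn hk)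
  rw [mem_cen_iff_act (h.AW ha)] at hd1
  have hg : a * (k⁻¹ * a⁻¹ * k⁻¹⁻¹) ∈ act W (centralizer {c * P a k p * c⁻¹}) :=
    mul_mem hd1 (act_conj (h.KW (inv_mem hk)) (fun y hy => mem_cent1.mpr
      ((hd.symm.inv_left.mul_left (mem_cent1.mp hy)).mul_left hd.symm.inv_left.inv_left))
      (inv_mem hd1))
  have hgN := hg.1
  rw [← mem_cen_iff_act hgN] at hg
  have e : a * (k⁻¹ * a⁻¹ * k⁻¹⁻¹) = (a * k⁻¹ * a⁻¹) * k := by group
  have h3 := h.g1 (c := c) hk hk' hg (fun x hx => cen_conj (mul_mem (mul_mem (h.AW hc) (h.KW hx))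
    (inv_mem (h.AW hc))) (by
      rw [e]
      exact (h.cm2 hc ha h2 hx (inv_mem hk)).mul_right (h.cm c hc h1 x hx k hk)) hg)
    (fun x hx => by rw [← h.d_act ha hn hk hx]; group) y hy
  rw [mem_cen_iff_act hgN] at h3
  refine h.g1' hk hk' h3 (fun x hx => act_conj (h.KW hx) (fun z hz => mem_cent1.mpr ?_) h3)
    fun x hx => ?_
  · have := (h.cm c hc h1 y hy x hx).symm
    exact (this.mul_left (mem_cent1.mp hz)).mul_left this.inv_left
  · have := (h.cm a ha hn _ (inv_mem hk) _ (mul_mem (mul_mem hk hx) (inv_mem hk))).eq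
    calc _ = (a * k⁻¹ * a⁻¹ * (k * x * k⁻¹)) * (a * k⁻¹ * a⁻¹)⁻¹ := by group
      _ = _ := by rw [this]; group

theorem claim (h : Min p W A K) {a b : H} (ha : a ∈ A) (hn : a ∉ normalizer (K : Set H))
    (hb : b ∈ A) (h1 : b ∉ normalizer (K : Set H)) (h2 : a⁻¹ * b ∉ normalizer (K : Set H))
    {y : H} (hy : y ∈ K) : K ≤ act W (centralizer {b * y * b⁻¹}) := by
  obtain ⟨k, hk, hk'⟩ := h.ex'
  by_cases h3 : ∃ c ∈ zpowers a, c⁻¹ * b ∈ normalizer (K : Set H)
  · obtain ⟨c, hc, h3⟩ := h3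
    have e : b * y * b⁻¹ = c * ((c⁻¹ * b) * y * (c⁻¹ * b)⁻¹) * c⁻¹ := by group
    rw [e]
    refine h.claim0 ha hn (zpowers_le.mpr ha hc) (fun h4 => h1 ?_) (fun h4 => h2 ?_) hk hk' ?_
      (nm h3 hy)
    · convert mul_mem h4 h3 using 1; group
    · convert mul_mem h4 h3 using 1; group
    · obtain ⟨i, rfl⟩ := mem_zpowers_iff.mp hc
      rw [← ((h.d_comm ha hn hk).zpow_right i).eq, mul_inv_cancel_right]
      exact h.d_self ha hn hk
  · push Not at h3
    refine h.claim0 ha hn hb h1 h2 hk hk' ?_ hy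
    rw [P_conj (h.Ac _ hb _ ha)]
    refine mem_cent1.mp (P_mem _ fun i _ => mem_cent1.mpr ?_)
    have := h.cm _ (mul_mem (pow_mem ha i) hb) (by
      simpa using h3 _ (inv_mem (pow_mem (mem_zpowers a) i))) k hk k hk
    convert this using 1; group

theorem r3 (h : Min p W A K) {a₁ a₂ : H} (h1 : a₁ ∈ A) (h1' : a₁ ∉ normalizer (K : Set H))
    (h2 : a₂ ∈ A) (h2' : a₂ ∉ normalizer (K : Set H))
    (h3 : a₁⁻¹ * a₂ ∉ normalizer (K : Set H)) : False := by
  have key : ∀ b ∈ A, b ∉ normalizer (K : Set H) → ∀ y ∈ K, ∀ x ∈ K, ∀ w ∈ W,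
      Commute (x * w * x⁻¹ * w⁻¹) (b * y * b⁻¹) := by
    intro b hb hb' y hy x hx w hw
    by_cases h4 : a₁⁻¹ * b ∈ normalizer (K : Set H)
    · refine mem_cent1.mp ((h.claim h2 h2' hb hb' (fun h5 => h3 ?_) hy hx).2 w hw)
      convert mul_mem h4 (inv_mem h5) using 1; group
    · exact mem_cent1.mp ((h.claim h1 h1' hb hb' h4 hy hx).2 w hw)
  refine h.nt fun x hx => mem_cent.mpr fun w hw => h.quad hw (fun x hx y hy => ?_) x hx
  refine h.quad (cm_mem (h.KW hx) hw) (fun k hk y hy => ?_) y hy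
  have hv := cm_mem (h.KW hx) hw
  have hE : ∀ b ∈ A, b ∉ normalizer (K : Set H) → ∀ y ∈ K,
      Commute (x * w * x⁻¹ * w⁻¹) (b * y * b⁻¹) := fun b hb hb' y hy => key b hb hb' y hy x hx w hw
  generalize x * w * x⁻¹ * w⁻¹ = v at hv hE
  obtain ⟨E, e, hE'⟩ := P_split a₁ k hp.out.pos
  have c1 := mem_cent1.mp (hE' (centralizer {v}) fun i h0 hi =>
    mem_cent1.mpr (hE _ (pow_mem h1 i) (h.pow_not h1 h1' h0 hi) k hk).symm)
  have c2 : P a₁ k p * v * (P a₁ k p)⁻¹ = k * v * k⁻¹ := by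
    rw [e]
    calc _ = k * (E * v) * E⁻¹ * k⁻¹ := by group
      _ = _ := by rw [c1.eq]; group
  have c3 := mem_cent1.mp ((act_of_cen h.Wc (h.AW h1) (h.d_norm h1 hk) (h.d_comm h1 h1' hk)
    (h.star h1 h1' hk)).2 v hv)
  rw [c2] at c3
  have c4 := (key _ (inv_mem h1) (fun h5 => h1' (by simpa using inv_mem h5)) y hy k hk v hv).conj a₁
  rw [← c3.eq] at c4
  convert c4.symm using 1 <;> group

theorem gen (h : Min p W A K) (h2 : p = 2)
    (hr : ∀ a ∈ A, a ∉ normalizer (K : Set H) → ∀ b ∈ A, b ∉ normalizer (K : Set H) →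
      a⁻¹ * b ∈ normalizer (K : Set H)) {a b : H} (ha : a ∈ A) (hn : a ∉ normalizer (K : Set H))
    (hb : b ∈ A) (hb' : b ∉ normalizer (K : Set H)) (hab : a⁻¹ * b ∉ centralizer (W : Set H)) :
    W ≤ (W ⊓ centralizer {a}) ⊔ (W ⊓ centralizer {b}) := by
  set M := act W ((W ⊓ centralizer {a}) ⊔ (W ⊓ centralizer {b})) with hM
  have hd : ∀ c ∈ A, c ∉ normalizer (K : Set H) → ∀ x ∈ K,
      x * (c * x * c⁻¹) ∈ act W (W ⊓ centralizer {c}) := by
    intro c hc hc' x hx
    have h1 := act_of_cen h.Wc (h.AW hc) (h.d_norm hc hx) (h.d_comm hc hc' hx) (h.star hc hc' hx)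
    have e : P c x p = x * (c * x * c⁻¹) := by rw [h2]; simp [P]
    rw [e] at h1
    exact ⟨h1.1, fun w hw => ⟨cm_mem h1.1 hw, h1.2 w hw⟩⟩
  have da : ∀ x ∈ K, x * (a * x * a⁻¹) ∈ M := fun x hx => act_mono le_sup_left (hd a ha hn x hx)
  have db : ∀ x ∈ K, x * (b * x * b⁻¹) ∈ M := fun x hx => act_mono le_sup_right (hd b hb hb' x hx)
  have hN := hr a ha hn b hb hb'
  obtain ⟨x, hx, hx'⟩ := h.cent3 hN fun hc => hab (h.cK (mul_mem (inv_mem ha) hb) hc)
  have hk : x * (a⁻¹ * b) * x⁻¹ * (a⁻¹ * b)⁻¹ ∈ K := by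
    convert mul_mem hx (nm hN (inv_mem hx)) using 1; group
  have hk1 : a * (x * (a⁻¹ * b) * x⁻¹ * (a⁻¹ * b)⁻¹) * a⁻¹ ∈ M := by
    convert mul_mem (inv_mem (da _ (inv_mem hx))) (db _ (inv_mem hx)) using 1; group
  generalize x * (a⁻¹ * b) * x⁻¹ * (a⁻¹ * b)⁻¹ = k at hx' hk hk1
  have h3 : ∀ y ∈ K, a * y * a⁻¹ ∈ M := by
    have := h.qs k hk hx' (M.comap (MulAut.conj a).toMonoidHom) fun y hy => by
      rw [mem_comap]
      have h4 := mul_mem (mul_mem (mul_mem (da y hy) hk1) (inv_mem (da y hy))) (inv_mem hk1)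
      have h5 := (h.cm a ha hn _ (mul_mem (mul_mem hy hk) (inv_mem hy)) y hy).eq
      convert h4 using 1
      simp only [MulEquiv.coe_toMonoidHom, MulAut.conj_apply]
      calc _ = (a * (y * k * y⁻¹) * a⁻¹ * y) * y⁻¹ * (a * k * a⁻¹)⁻¹ := by group
        _ = _ := by rw [h5]; group
    intro y hy
    simpa using this hy
  have h4 : ∀ y ∈ K, y ∈ M := fun y hy => by
    convert mul_mem (da y hy) (inv_mem (h3 y hy)) using 1; group
  refine h.w1 _ fun c hc y hy => ?_
  by_cases hc' : c ∈ normalizer (K : Set H)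
  · exact h4 _ (nm hc' hy)
  · convert h3 _ (nm (hr a ha hn c hc hc') hy) using 1; group

omit hp in
theorem three_le (h : Min p W A K) {a : H} (ha : a ∈ A) (hn : a ∉ normalizer (K : Set H)) :
    3 ≤ Nat.card (img W h.Wc a (h.AW ha)) := by
  by_contra hc
  obtain ⟨k, hk, hk'⟩ := h.ex
  set I := img W h.Wc a (h.AW ha) with hI
  let I' := I.map (MulAut.conj k⁻¹).toMonoidHom
  have h1 : a ∈ act W I := mem_act_img _ _
  have h2 : k⁻¹ * a⁻¹ * k⁻¹⁻¹ ∈ act W I' := by
    refine ⟨mul_mem (mul_mem (h.KW (inv_mem hk)) (h.AW (inv_mem ha)))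
      (inv_mem (h.KW (inv_mem hk))), fun w hw => ⟨_, (inv_mem h1).2 _ (nm (h.KW hk) hw), ?_⟩⟩
    simp only [MulEquiv.coe_toMonoidHom, MulAut.conj_apply]; group
  have hI' : I' ≤ W := by
    rintro _ ⟨z, hz, rfl⟩
    exact nm (h.KW (inv_mem hk)) (img_le _ _ hz)
  have h3 : Nat.card (I ⊔ I' : Subgroup H) ≤ 4 := by
    have hcI : Nat.card I' = Nat.card I :=
      (Nat.card_congr (I.equivMapOfInjective _ (MulAut.conj k⁻¹).injective).toEquiv).symm
    have hN : I ≤ normalizer (I' : Set H) := fun z hz => mem_norm fun u hu => by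
      rw [(h.Wc _ (img_le _ _ hz) _ (hI' hu)).eq]; simpa using hu
    let f : I × I' → (I ⊔ I' : Subgroup H) := fun z => ⟨z.1 * z.2, mul_mem_sup z.1.2 z.2.2⟩
    have hf : Function.Surjective f := by
      rintro ⟨z, hz⟩
      have : z ∈ ((I ⊔ I' : Subgroup H) : Set H) := hz
      rw [coe_mul_of_left_le_normalizer_right _ _ hN] at this
      obtain ⟨u, hu, v, hv, rfl⟩ := this
      exact ⟨(⟨u, hu⟩, ⟨v, hv⟩), rfl⟩
    have := Nat.card_le_card_of_surjective f hf
    rw [Nat.card_prod, hcI] at this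
    nlinarith
  have h4 := pow_twelve (mul_mem (act_mono le_sup_left h1) (act_mono le_sup_right h2)) h3
  have e : a * (k⁻¹ * a⁻¹ * k⁻¹⁻¹) = (a * k⁻¹ * a⁻¹) * k := by group
  rw [e, (h.cm a ha hn _ (inv_mem hk) k hk).mul_pow, conj_pow] at h4
  refine h.nt (h.g1' (pow_mem hk 12) hk' h4 (fun x hx => cent_conj (h.KW hx) h4) fun x hx => ?_)
  have := (h.cm a ha hn _ (pow_mem (inv_mem hk) 12) _
    (mul_mem (mul_mem (pow_mem hk 12) hx) (inv_mem (pow_mem hk 12)))).eq
  calc _ = (a * k⁻¹ ^ 12 * a⁻¹ * (k ^ 12 * x * (k ^ 12)⁻¹)) * (a * k⁻¹ ^ 12 * a⁻¹)⁻¹ := by group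
    _ = _ := by rw [this]; group

open scoped IsMulCommutative in
theorem false (h : Min p W A K) : False := by
  by_cases hr : ∀ a ∈ A, a ∉ normalizer (K : Set H) → ∀ b ∈ A, b ∉ normalizer (K : Set H) →
      a⁻¹ * b ∈ normalizer (K : Set H)
  swap
  · push Not at hr
    obtain ⟨a, ha, ha', b, hb, hb', h3⟩ := hr
    exact h.r3 ha ha' hb hb' h3
  obtain ⟨a, ha, hn⟩ := SetLike.not_le_iff_exists.mp h.nn
  have h2 : p = 2 := by
    by_contra hne
    have := hr _ (inv_mem ha) (fun h5 => hn (by simpa using inv_mem h5)) a ha hn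
    refine h.pow_not ha hn (i := 2) (by omega) (lt_of_le_of_ne hp.out.two_le (Ne.symm hne)) ?_
    rw [inv_inv, ← sq] at this; exact this
  have := h.hW.1
  let ι := {b : H // b ∈ A ∧ b ∉ normalizer (K : Set H)}
  have p0 : 0 < Nat.card (A ⊓ centralizer (W : Set H) : Subgroup H) := Nat.card_pos
  have key := spread (U := W) (ι := ι) (fun b => (W ⊓ centralizer {b.1}).subgroupOf W)
    ((W ⊓ centralizer (A : Set H)).subgroupOf W)
    (fun b => comap_mono (inf_le_inf_left _ (centralizer_le (by simpa using b.2.1))))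
    (fun b => by
      have c1 := h.three_le b.2.1 b.2.2
      have c2 := card_img h.Wc (h.AW b.2.1)
      have c3 := ((W ⊓ centralizer {b.1}).subgroupOf W).index_mul_card
      rw [Nat.card_congr (subgroupOfEquivOfLe inf_le_left).toEquiv, ← c2] at c3
      rwa [Nat.eq_of_mul_eq_mul_right Nat.card_pos c3])
    _ p0 (fun b => by
      have hm : ∀ c : {j : ι // (W ⊓ centralizer {b.1}).subgroupOf W ⊔
          (W ⊓ centralizer {j.1}).subgroupOf W ≠ ⊤}, b.1⁻¹ * c.1.1 ∈ centralizer (W : Set H) := by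
        intro c
        by_contra hc
        apply c.2
        rw [← subgroupOf_sup inf_le_left inf_le_left, subgroupOf_eq_top]
        exact h.gen h2 hr b.2.1 b.2.2 c.1.2.1 c.1.2.2 hc
      refine Nat.card_le_card_of_injective (fun c => (⟨b.1⁻¹ * c.1.1,
        A.mul_mem (A.inv_mem b.2.1) c.1.2.1, hm c⟩ : (A ⊓ centralizer (W : Set H) : Subgroup H)))
        fun c c' e => ?_
      exact Subtype.ext (Subtype.ext (mul_left_cancel (congrArg Subtype.val e))))
  have c1 : Nat.card A ≤ Nat.card ι * 2 := by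
    classical
    let f : A → ι × Bool := fun b => if hb : (b : H) ∈ normalizer (K : Set H) then
      (⟨a * b, mul_mem ha b.2, fun h5 => hn (by simpa using mul_mem h5 (inv_mem hb))⟩, true)
      else (⟨b, b.2, hb⟩, Bool.false)
    have hf : Function.Injective f := by
      intro b c e
      by_cases hb : (b : H) ∈ normalizer (K : Set H) <;>
        by_cases hc : (c : H) ∈ normalizer (K : Set H) <;>
        simp only [f, hb, hc, dif_pos, dif_neg, not_false_eq_true, Prod.mk.injEq, ι,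
          Subtype.mk.injEq, mul_right_inj, and_true, Bool.true_eq_false, Bool.false_eq_true,
          and_false] at e
      · exact Subtype.ext e
      · exact Subtype.ext e
    have := Nat.card_le_card_of_injective f hf
    simpa using this
  have c2 := h.card_le
  have c3 := ((W ⊓ centralizer (A : Set H)).subgroupOf W).index_mul_card
  rw [Nat.card_congr (subgroupOfEquivOfLe inf_le_left).toEquiv] at c3
  rw [← c3, ← mul_assoc] at c2
  have c4 := Nat.le_of_mul_le_mul_right c2 Nat.card_pos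
  rw [mul_comm] at c4
  omega

end Min

theorem Hyp.main [Finite H] [Fact p.Prime] (h : Hyp p W A K) : A ≤ normalizer (K : Set H) := by
  induction hn : Nat.card W + Nat.card A using Nat.strong_induction_on generalizing W A with
  | _ n ih =>
  by_contra nn
  refine Min.false (p := p) (W := W) (A := A) (K := K) ⟨h, fun W' h1 h2 h3 h4 => ?_,
    fun B h1 h2 h3 => ?_, nn⟩
  · by_contra nt
    have hlt : Nat.card W' < Nat.card W := lt_of_le_of_ne (card_le_of_le h1)
      fun e => h2 (eq_of_le_of_card_ge h1 e.ge)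
    refine nn (ih _ (by omega) (W := W') (A := A) ⟨⟨⟨⟨fun x y => Subtype.ext
      (h.Wc _ (h1 x.2) _ (h1 y.2)).eq⟩⟩, fun w hw => h.hW.2 w (h1 hw)⟩, h.hA, h3, h4, h.qs, h.cm,
      h.ex, nt, fun B hB => ?_⟩ rfl)
    have c1 := h.best B hB
    have c2 := GT.CopAct.card_mul_card_le_of_le (X := W' ⊓ centralizer (B : Set H))
      (Y := W ⊓ centralizer (A : Set H)) (K := W ⊓ centralizer (B : Set H))
      (inf_le_inf_right _ h1) (inf_le_inf_left _ (centralizer_le hB))
    have c3 : Nat.card (W' ⊓ centralizer (B : Set H) ⊓ (W ⊓ centralizer (A : Set H)) : Subgroup H)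
        ≤ Nat.card (W' ⊓ centralizer (A : Set H) : Subgroup H) :=
      card_le_of_le (inf_le_inf inf_le_left inf_le_right)
    have p0 : 0 < Nat.card (W ⊓ centralizer (A : Set H) : Subgroup H) := Nat.card_pos
    refine Nat.le_of_mul_le_mul_right ?_ p0
    calc _ = Nat.card B * (Nat.card (W' ⊓ centralizer (B : Set H) : Subgroup H) *
          Nat.card (W ⊓ centralizer (A : Set H) : Subgroup H)) := by ring
      _ ≤ Nat.card B * (Nat.card (W ⊓ centralizer (B : Set H) : Subgroup H) *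
          Nat.card (W' ⊓ centralizer (A : Set H) : Subgroup H)) :=
        Nat.mul_le_mul_left _ (c2.trans (Nat.mul_le_mul_left _ c3))
      _ = (Nat.card B * Nat.card (W ⊓ centralizer (B : Set H) : Subgroup H)) *
          Nat.card (W' ⊓ centralizer (A : Set H) : Subgroup H) := by ring
      _ ≤ _ := by
        refine (Nat.mul_le_mul_right _ c1).trans (le_of_eq ?_); ring
  · have hlt : Nat.card B < Nat.card A := lt_of_le_of_ne (card_le_of_le h1)
      fun e => h2 (eq_of_le_of_card_ge h1 e.ge)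
    exact ih _ (by omega) (W := W) (A := B) ⟨h.hW, ⟨⟨⟨fun x y => Subtype.ext
      (h.Ac _ (h1 x.2) _ (h1 y.2)).eq⟩⟩, fun w hw => h.hA.2 w (h1 hw)⟩, h1.trans h.AW, h.KW, h.qs,
      fun a ha => h.cm a (h1 ha), h.ex, h.nt, h3⟩ rfl

end Cfsg.Agent.Loc.PGV
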