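import Mathlib
import Cfsg.Agent.Cl.MaxSLCore
import Cfsg.Agent.Cl.RegU3

/-! Generation of `SL_n` by regular unipotent elements: producing the first transvection. -/

set_option autoImplicit false
set_option linter.unusedSimpArgs false

namespace Cfsg.Agent.Loc.RSL

open Module Polynomial Cfsg.Agent.Cl.MSL

variable {F V : Type*} [Field F] [AddCommGroup V] [Module F V] {M : Subgroup (V ≃ₗ[F] V)}

theorem has_div {f f' t : V → V} (h : Has M f) (h' : Has M f') (e : ∀ x, t (f' x) = f x) :
    Has M t := by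
  obtain ⟨g, hg, H⟩ := h'
  refine (h.comp (has_symm hg)).congr fun x => ?_
  rw [← e, ← H, g.apply_symm_apply]

theorem tv_of_nsmul [Finite F] {v : V} {φ : Dual F V} {m : ℕ} (hm : (m : F) ≠ 0)
    (h : TV M v ((m : F) • φ)) : TV M v φ := by
  have := Fintype.ofFinite F
  have h1 := h.nsmul_right (m ^ (Fintype.card F - 2))
  have h2 := Fintype.one_lt_card (α := F)
  rwa [smul_smul, Nat.cast_pow, ← pow_succ, show Fintype.card F - 2 + 1 = Fintype.card F - 1 by
    omega, FiniteField.pow_card_sub_one_eq_one _ hm, one_smul] at h1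

theorem exists_pow_eq_one [Finite F] {ρ : End F V} {P : F[X]} (hP : P.Separable)
    (h : aeval ρ P = 0) {k : ℕ} (hk : k ≠ 0) (e : ρ ^ k = 1) :
    ∃ m : ℕ, (m : F) ≠ 0 ∧ ρ ^ m = 1 := by
  obtain ⟨p, _⟩ := CharP.exists F
  have hp : Fact p.Prime := ⟨CharP.char_is_prime F p⟩
  obtain ⟨a, m, hm, rfl⟩ := Nat.exists_eq_pow_mul_and_not_dvd hk p hp.out.ne_one
  refine ⟨m, fun e' => hm ((CharP.cast_eq_zero_iff F p m).1 e'), ?_⟩
  have h1 : minpoly F ρ ∣ (X ^ m - 1) ^ p ^ a := minpoly.dvd F ρ (by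
    rw [sub_pow_char_pow, ← pow_mul, mul_comm, one_pow, map_sub, map_pow, aeval_X, e, map_one,
      sub_self])
  obtain ⟨Q, hQ⟩ := (hP.squarefree.squarefree_of_dvd (minpoly.dvd F ρ h)).isRadical _ _ h1
  have := congrArg (aeval ρ) hQ
  rwa [map_mul, minpoly.aeval, zero_mul, map_sub, map_pow, aeval_X, map_one, sub_eq_zero] at this

/-- The unipotent part of an element whose semisimple part satisfies a separable polynomial. -/
theorem tv_of_sep [Finite F] [Finite V] {ρ : End F V} {v : V} {φ : Dual F V} {μ : F}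
    (hg : Has M fun x => ρ (x + φ x • v)) (h0 : φ v = 0) (h1 : ρ v = μ • v)
    (h2 : ∀ x, φ (ρ x) = μ * φ x) {P : F[X]} (hP : P.Separable) (h : aeval ρ P = 0) :
    TV M v φ := by
  obtain ⟨g, hg, H⟩ := hg
  have k1 : ∀ k : ℕ, (ρ ^ k) v = μ ^ k • v := fun k => by
    induction k with
    | zero => simp
    | succ k ih => rw [pow_succ', End.mul_apply, ih, map_smul, h1, smul_smul, pow_succ]
  have k2 : ∀ (k : ℕ) x, φ ((ρ ^ k) x) = μ ^ k * φ x := fun k x => by
    induction k with
    | zero => simp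
    | succ k ih => rw [pow_succ', End.mul_apply, h2, ih, pow_succ', mul_assoc]
  have k3 : ∀ (k : ℕ) x, (g ^ k) x = (ρ ^ k) (x + (k * φ x) • v) := fun k x => by
    induction k with
    | zero => simp
    | succ k ih =>
      rw [pow_succ', LinearEquiv.mul_apply, ih, H, pow_succ' ρ, End.mul_apply]
      simp only [map_add, map_smul, h0, k1, k2, h1, smul_eq_mul, Nat.cast_succ]
      module
  obtain ⟨p, _⟩ := CharP.exists F
  have : Finite (V ≃ₗ[F] V) := DFunLike.finite _
  obtain ⟨m, hm, e⟩ := exists_pow_eq_one hP h (mul_ne_zero (orderOf_pos g).ne'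
    (CharP.char_is_prime F p).ne_zero) (LinearMap.ext fun x => by
      have := k3 (orderOf g * p) x
      rw [pow_mul, pow_orderOf_eq_one, one_pow, Nat.cast_mul, CharP.cast_eq_zero F p] at this
      simpa using this.symm)
  exact tv_of_nsmul hm ⟨by simp [h0], g ^ m, pow_mem hg m, fun x => by rw [k3, e]; rfl⟩

theorem sep_quad {a b : F} (h : a ^ 2 - 4 * b ≠ 0) : (X ^ 2 + C a * X + C b : F[X]).Separable := by
  refine ⟨C (-4 / (a ^ 2 - 4 * b)), C (1 / (a ^ 2 - 4 * b)) * (2 * X + C a), ?_⟩
  have e : (C (a ^ 2 - 4 * b)⁻¹ : F[X]) * (C a ^ 2 - 4 * C b) = 1 := by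
    rw [← C_pow, show (4 : F[X]) = C 4 from rfl, ← C_mul, ← C_sub, ← C_mul, inv_mul_cancel₀ h, C_1]
  simp only [derivative_add, derivative_X_pow, derivative_mul, derivative_C, derivative_X,
    div_eq_mul_inv, map_mul, map_neg, one_mul, Nat.cast_ofNat, map_ofNat]
  linear_combination e

theorem sep_cubic {σ : F} (h0 : σ ≠ 0) (h4 : σ ≠ 4) :
    ((X - 1) * (X ^ 2 + C (σ - 2) * X + C 1) : F[X]).Separable := by
  refine Separable.mul separable_X_sub_C (sep_quad fun e => mul_ne_zero h0 (sub_ne_zero.2 h4)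
    (by linear_combination e)) ⟨-C σ⁻¹ * (X + C σ - 1), C σ⁻¹, ?_⟩
  have e : (C σ⁻¹ : F[X]) * C σ = 1 := by rw [← C_mul, inv_mul_cancel₀ h0, C_1]
  simp only [map_sub, map_ofNat, map_one]
  linear_combination e

section Words

variable {A B C : Dual F V} {e f₀ f₁ : V} {σ : F} (Ae : A e = 1) (Be : B e = 1) (Ce : C e = 1)
  (A0 : A f₀ = 0) (B0 : B f₀ = 0) (C0 : C f₀ = σ) (A1 : A f₁ = 0) (B1 : B f₁ = 0) (C1 : C f₁ = 0)
  (ha : Has M fun x => x - A x • f₀ + (A x - B x) • e)
  (hb : Has M fun x => x - (B x - C x) • e + C x • f₁)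
include Ae Be A0 B0 ha

theorem tv_two (h2 : (2 : F) = 0) : TV M f₀ (A - B) :=
  ⟨by simp [A0, B0], (ha.comp ha).congr fun x => by
    simp only [map_add, map_sub, map_smul, Ae, Be, A0, B0, smul_eq_mul, LinearMap.sub_apply]
    match_scalars
    · rfl
    · linear_combination (B x - 2 * A x) * h2
    · linear_combination (A x - B x) * h2⟩

include Ce C0 A1 B1 C1 hb

theorem tv_semi [Finite F] [Finite V] (h0 : σ ≠ 0) (h4 : σ ≠ 4) : TV M f₁ (A - B) := by
  let E : End F V := (A - B - (B - C)).smulRight e + (C + (A - B)).smulRight (f₁ - f₀)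
  have hE : ∀ x, E x = (A x - B x - (B x - C x)) • e + (C x + (A x - B x)) • (f₁ - f₀) :=
    fun _ => rfl
  have := tv_of_sep (ρ := 1 + E) (v := f₁) (φ := -(A - B)) (μ := 1) ((ha.comp hb).congr fun x => by
      simp only [LinearMap.add_apply, End.one_apply, hE, map_add, map_sub, map_smul, Ae, Be, Ce,
        A0, B0, C0, A1, B1, C1, smul_eq_mul, LinearMap.sub_apply, LinearMap.neg_apply]
      module) (by simp [A1, B1]) (by simp [hE, A1, B1, C1])
    (fun x => by simp [hE, Ae, Be, A0, B0, A1, B1]) (sep_cubic h0 h4) (by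
      simp only [map_mul, map_sub, map_add, map_pow, aeval_X, map_one, aeval_C, pow_two]
      ext x
      simp only [End.mul_apply, LinearMap.add_apply, End.one_apply, hE, map_add, map_sub, map_smul,
        Ae, Be, Ce, A0, B0, C0, A1, B1, C1, smul_eq_mul, LinearMap.sub_apply, LinearMap.zero_apply,
        Module.algebraMap_end_apply]
      module)
  simpa using this.neg_right

theorem tv_one (h1 : σ = 1) : TV M ((2 : F) • f₀) (A - B) := by
  subst h1
  have hb' : Has M fun x => x - B x • f₁ + (B x - C x) • e := hb.inv fun x => by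
    simp only [map_add, map_sub, map_smul, Be, Ce, B1, C1, smul_eq_mul]
    module
  have r1 : Has M fun x => x + (A x - 2 * B x + C x) • e + (-A x + B x - C x) • f₀ + C x • f₁ :=
    (ha.comp hb).congr fun x => by
      simp only [map_add, map_sub, map_smul, Ae, Be, A1, B1, smul_eq_mul]
      module
  have r2 : Has M fun x => x + (2 * A x - 2 * B x + C x) • e + (-A x + B x - C x) • f₀ +
      (-A x + B x) • f₁ := (hb'.comp r1).congr fun x => by
    simp only [map_add, map_smul, Be, Ce, B0, C0, B1, C1, smul_eq_mul]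
    module
  have r3 : Has M fun x => x + (3 * A x - 3 * B x + C x) • e +
      (-4 * A x + 3 * B x - 2 * C x) • f₀ + (-A x + B x) • f₁ := (ha.comp r2).congr fun x => by
    simp only [map_add, map_smul, Ae, Be, A0, B0, A1, B1, smul_eq_mul]
    module
  have r : Has M fun x => x + (-A x - B x) • e + (-4 * A x + 3 * B x - 2 * C x) • f₀ +
      (-2 * A x + B x) • f₁ := (hb.comp r3).congr fun x => by
    simp only [map_add, map_smul, Be, Ce, B0, C0, B1, C1, smul_eq_mul]
    module
  have t : TV M ((2 : F) • e + (2 : F) • f₀ + f₁) (B - A) :=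
    ⟨by simp [Ae, Be, A0, B0, A1, B1], has_div (r.comp ha) (ha.comp r) fun x => by
      simp only [map_add, map_sub, map_smul, Ae, Be, Ce, A0, B0, C0, A1, B1, smul_eq_mul,
        LinearMap.sub_apply]
      module⟩
  have t' := (t.conj ha (ψ := B - A) fun x => by simp [Ae, Be, A0, B0]).sub_left t
  have := t'.neg_left.neg_right
  simp only [map_add, map_smul, Ae, Be, A0, B0, A1, B1, smul_eq_mul, neg_sub] at this
  convert this using 1
  module

end Words

end Cfsg.Agent.Loc.RSL
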