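import Mathlib
import Cfsg.Agent.Loc.RegSL1

/-! Generation of `SL_n`, `n ≥ 4`, by regular unipotent elements: the transvection calculus. -/

set_option autoImplicit false
set_option linter.unusedSimpArgs false

namespace Cfsg.Agent.Loc.RSL

open Module Cfsg.Agent.Cl.MSL Cfsg.Agent.Cl

variable {F V : Type*} [Field F] [AddCommGroup V] [Module F V] {M : Subgroup (V ≃ₗ[F] V)}

/-- The vectors `U ^ k x`. -/
def fk (U : V ≃ₗ[F] V) (x : V) (k : ℤ) : V := (U ^ k) x

/-- The functionals `η U ^ (-j)`. -/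
def hj (U : V ≃ₗ[F] V) (η : Dual F V) (j : ℤ) : Dual F V :=
  η ∘ₗ ((U ^ (-j) : V ≃ₗ[F] V) : V →ₗ[F] V)

/-- The hypotheses on the regular unipotent element `U` and the second generator. -/
structure RC (M : Subgroup (V ≃ₗ[F] V)) (n : ℕ) (σ τ : F) (U : V ≃ₗ[F] V) (e x : V)
    (η : Dual F V) : Prop where
  mem : U ∈ M
  four : 4 ≤ n
  fix : U e = e
  one : η e = 1
  zero : ∀ k : ℤ, 0 ≤ k → k + 2 ≤ n → η (fk U x k) = 0
  top : η (fk U x (n - 1)) = τ
  bot : η (fk U x (-1)) = σ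
  y : Has M fun z => z - (η (U z) - η z) • e + η z • x

variable {n : ℕ} {σ τ : F} {U : V ≃ₗ[F] V} {e x : V} {η : Dual F V}

theorem hj_apply (j : ℤ) (z : V) : hj U η j z = η ((U ^ (-j)) z) := rfl

theorem zpow_fk (a k : ℤ) : (U ^ k) (fk U x a) = fk U x (a + k) := by
  rw [fk, fk, add_comm, zpow_add, LinearEquiv.mul_apply]

theorem hj_zpow (j k : ℤ) (z : V) : hj U η (j + k) ((U ^ k) z) = hj U η j z := by
  rw [hj_apply, hj_apply, ← LinearEquiv.mul_apply, ← zpow_add, neg_add, neg_add_cancel_right]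

theorem pair (j k : ℤ) : hj U η j (fk U x k) = η (fk U x (k - j)) := by
  rw [hj_apply, zpow_fk, sub_eq_add_neg]

/-- `T(f_a, c θ_j) ∈ M`. -/
def S (M : Subgroup (V ≃ₗ[F] V)) (U : V ≃ₗ[F] V) (x : V) (η : Dual F V) (a j : ℤ) (c : F) : Prop :=
  TV M (fk U x a) (c • (hj U η (j - 1) - hj U η j))

/-- `T(f_a, c η_j) ∈ M`. -/
def R (M : Subgroup (V ≃ₗ[F] V)) (U : V ≃ₗ[F] V) (x : V) (η : Dual F V) (a j : ℤ) (c : F) : Prop :=
  TV M (fk U x a) (c • hj U η j)

namespace RC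

variable (h : RC M n σ τ U e x η)
include h

theorem zpow_e (k : ℤ) : (U ^ k) e = e :=
  (MulAction.stabilizer (V ≃ₗ[F] V) e).zpow_mem h.fix k

theorem hj_e (j : ℤ) : hj U η j e = 1 := by rw [hj_apply, h.zpow_e, h.one]

theorem p0 {j k : ℤ} (h1 : j ≤ k) (h2 : k + 2 ≤ n + j) : hj U η j (fk U x k) = 0 := by
  rw [pair, h.zero _ (by omega) (by omega)]

theorem pb {j k : ℤ} (h1 : j = k + 1) : hj U η j (fk U x k) = σ := by
  rw [pair, ← h.bot, show k - j = -1 by omega]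

theorem pt {j k : ℤ} (h1 : k + 1 = n + j) : hj U η j (fk U x k) = τ := by
  rw [pair, ← h.top, show k - j = n - 1 by omega]

theorem has_zpow (k : ℤ) : Has M (U ^ k : V ≃ₗ[F] V) := has_of_mem (zpow_mem h.mem k)

theorem yi (k : ℤ) :
    Has M fun z => z - (hj U η (k - 1) z - hj U η k z) • e + hj U η k z • fk U x k :=
  (((h.has_zpow k).comp h.y).comp (h.has_zpow (-k))).congr fun z => by
    rw [map_add, map_sub, map_smul, map_smul, h.zpow_e, ← LinearEquiv.mul_apply, ← zpow_add,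
      add_neg_cancel, zpow_zero, hj_apply, hj_apply, ← LinearEquiv.mul_apply U, ← zpow_one_add,
      show 1 + -k = -(k - 1) by ring]
    rfl

theorem yy (k : ℤ) :
    Has M fun z => z - hj U η (k - 1) z • fk U x k + (hj U η (k - 1) z - hj U η k z) • e :=
  (h.yi k).inv fun z => by
    have := h.four
    simp only [map_add, map_sub, map_smul, h.hj_e, smul_eq_mul, h.p0 (le_refl k) (by omega),
      h.p0 (show k - 1 ≤ k by omega) (by omega)]
    module

theorem shS {a j b k : ℤ} {c : F} (h1 : S M U x η a j c) (e' : b - k = a - j) : S M U x η b k c := by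
  obtain ⟨d, rfl⟩ : ∃ d, k = j + d := ⟨k - j, by ring⟩
  rw [S, show b = a + d by omega, ← zpow_fk, show j + d - 1 = j - 1 + d by ring]
  exact TV.conj h1 (h.has_zpow d) fun z => by simp [hj_zpow]

theorem shR {a j b k : ℤ} {c : F} (h1 : R M U x η a j c) (e' : b - k = a - j) : R M U x η b k c := by
  obtain ⟨d, rfl⟩ : ∃ d, k = j + d := ⟨k - j, by ring⟩
  rw [R, show b = a + d by omega, ← zpow_fk]
  exact TV.conj h1 (h.has_zpow d) fun z => by simp [hj_zpow]

theorem r_of_s {a j : ℤ} {c : F} (h1 : S M U x η a j c) (l1 : j ≤ a) (l2 : a + 4 ≤ n + j) :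
    R M U x η a (j - 1) (c * σ) ∧ R M U x η a (j - 2) (c * σ) := by
  have e1 := h.p0 (show j - 1 - 1 ≤ a by omega) (by omega)
  have e2 := h.p0 (show j - 1 ≤ a by omega) (by omega)
  have e3 := h.p0 (le_refl (j - 1)) (by omega)
  have e4 := h.pb (show j = j - 1 + 1 by ring)
  constructor
  · have := h1.sub_right (h1.conj_fix (h.yy (j - 1)) (by simp [e1, e2])
      (ψ := c • (hj U η (j - 1) - hj U η j) - (c * σ) • hj U η (j - 1)) fun z => by
        simp only [map_add, map_sub, map_smul, h.hj_e, e3, e4, smul_eq_mul, LinearMap.sub_apply,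
          LinearMap.smul_apply]
        ring)
    rwa [sub_sub_cancel] at this
  · have := (h1.conj_fix (h.yi (j - 1)) (by simp [e1, e2])
      (ψ := c • (hj U η (j - 1) - hj U η j) + (c * σ) • hj U η (j - 1 - 1)) fun z => by
        simp only [map_add, map_sub, map_smul, h.hj_e, e3, e4, smul_eq_mul, LinearMap.sub_apply,
          LinearMap.smul_apply, LinearMap.add_apply,
          h.p0 (show j - 1 - 1 ≤ j - 1 by omega) (by omega)]
        ring).sub_right h1
    rwa [add_sub_cancel_left, show j - 1 - 1 = j - 2 by ring] at this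

theorem s_of_r {a j k : ℤ} {c : F} (h1 : R M U x η a j c) (l1 : j ≤ k) (l2 : k + 2 ≤ n + j)
    (l3 : k ≤ a) (l4 : a + 3 ≤ n + k) : S M U x η a k c := by
  have := (h1.conj_fix (h.yi k) (by
      simp [h.p0 l3 (by omega), h.p0 (show k - 1 ≤ a by omega) (by omega)])
    (ψ := c • hj U η j + c • (hj U η (k - 1) - hj U η k)) fun z => by
      simp only [map_add, map_sub, map_smul, h.hj_e, smul_eq_mul, LinearMap.sub_apply,
        LinearMap.smul_apply, LinearMap.add_apply, h.p0 l1 l2, h.p0 (le_refl k) (by omega),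
        h.p0 (show k - 1 ≤ k by omega) (by omega)]
      ring).sub_right h1
  rwa [add_sub_cancel_left] at this

theorem r_comm {a j b k : ℤ} {c c' : F} (h1 : R M U x η a j c) (h2 : R M U x η b k c')
    (l1 : k ≤ a) (l2 : a + 2 ≤ n + k) : R M U x η a k (c * hj U η j (fk U x b) * c') := by
  have := TV.comm h1 h2 (by simp [h.p0 l1 l2])
  rwa [smul_smul] at this

theorem s_mul {c : F} (h1 : S M U x η 0 0 c) : S M U x η 0 0 (c * σ) :=
  have := h.four
  h.s_of_r (h.r_of_s h1 le_rfl (by omega)).1 (by omega) (by omega) le_rfl (by omega)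

theorem s_one (hσ : σ ≠ 0) (hτ : τ ≠ 0) (h1 : S M U x η 1 0 1) : ∃ c ≠ 0, S M U x η 0 0 c := by
  rcases h.four.eq_or_lt with l | l
  · have := TV.comm h1 (h.shS h1 (show (2 : ℤ) - 1 = 1 - 0 by ring)) (by
      simp [h.p0 (j := 0) (k := 1) (by omega) (by omega), h.p0 (le_refl 1) (by omega)])
    rw [smul_smul] at this
    refine ⟨_, ?_, h.shS (c := _) this (show (0 : ℤ) - 0 = 1 - 1 by ring)⟩
    simpa [h.pt (j := -1) (k := 2) (by omega), h.p0 (j := 0) (k := 2) (by omega) (by omega)]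
  · exact ⟨_, by simpa, h.shS (h.s_of_r (k := 1) (h.r_of_s h1 (by omega) (by omega)).1 (by omega)
      (by omega) le_rfl (by omega)) (by ring)⟩

theorem s_third {ω : Dual F V} {l c c' : F} (hω : TV M e ω) (e' : ω x = l) (h1 : S M U x η 0 0 c)
    (h2 : S M U x η 0 0 c') : S M U x η 0 0 (c * σ * l * c') := by
  have := h.four
  have t := TV.comm (h.r_of_s h1 le_rfl (by omega)).1 (TV.comm hω h2 (by simp [h.hj_e])) (by
    simp [h.p0 (j := -1) (k := 0) (by omega) (by omega), h.p0 (le_refl 0) (by omega)])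
  rwa [smul_smul, smul_smul, LinearMap.smul_apply, h.hj_e, smul_eq_mul, mul_one, fk, zpow_zero,
    LinearEquiv.coe_one, id, e'] at t

theorem r_all (hσ : σ ≠ 0) (hτ : τ ≠ 0) (h1 : ∀ c, S M U x η 0 0 c) (d : ℕ) (l : d + 2 ≤ n) (c : F) :
    R M U x η 0 (-d) c := by
  have := h.four
  have k1 : ∀ c, R M U x η 0 (-1) c ∧ R M U x η 0 (-2) c := fun c => by
    simpa [hσ] using h.r_of_s (h1 (c * σ⁻¹)) le_rfl (by omega)
  have k2 : ∀ d : ℕ, d + 3 ≤ n → ∀ c, R M U x η 0 (-(d + 1)) c := fun d => by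
    induction d using Nat.twoStepInduction with
    | zero => exact fun _ c => (k1 c).1
    | one => exact fun _ c => (k1 c).2
    | more d ih _ =>
      intro l c
      have := h.r_comm (ih (by omega) c) (h.shR (b := -(d + 2)) (k := -(d + 3)) (k1 σ⁻¹).1
        (by ring)) (by omega) (by omega)
      rw [h.pb (by ring), mul_inv_cancel_right₀ hσ] at this
      exact h.shR this (by push_cast; ring)
  rcases d with _ | d
  · obtain ⟨m, rfl⟩ : ∃ m, n = m + 3 := ⟨n - 3, by omega⟩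
    have := h.r_comm (k1 c).1 (h.shR (b := m + 1) (k := 0) (k2 m le_rfl τ⁻¹) (by ring)) le_rfl
      (by omega)
    rwa [h.pt (by push_cast; ring), mul_inv_cancel_right₀ hτ] at this
  · exact k2 d l c

/-- The coefficients of the transvections `T(x, c θ_0)`. -/
def coef (M : Subgroup (V ≃ₗ[F] V)) (v : V) (φ : Dual F V) : AddSubgroup F where
  carrier := {c | TV M v (c • φ)}
  add_mem' ha hb := (TV.add_right ha hb).congr_right fun _ => by simp [add_mul]
  zero_mem' := by simpa using tv_zero_right v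
  neg_mem' ha := (TV.neg_right ha).congr_right fun _ => by simp

theorem words : hj U η (-1) e = 1 ∧ hj U η 0 e = 1 ∧ hj U η 1 e = 1 ∧
    hj U η (-1) (fk U x 0) = 0 ∧ hj U η 0 (fk U x 0) = 0 ∧ hj U η 1 (fk U x 0) = σ ∧
    hj U η (-1) (fk U x 1) = 0 ∧ hj U η 0 (fk U x 1) = 0 ∧ hj U η 1 (fk U x 1) = 0 :=
  have := h.four
  ⟨h.hj_e _, h.hj_e _, h.hj_e _, h.p0 (by omega) (by omega), h.p0 (by omega) (by omega),
    h.pb rfl, h.p0 (by omega) (by omega), h.p0 (by omega) (by omega), h.p0 (by omega) (by omega)⟩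

theorem s_of_one [Finite F] (h1 : σ = 1) : S M U x η 0 0 1 := by
  obtain ⟨a1, a2, a3, a4, a5, a6, a7, a8, a9⟩ := h.words
  rw [S, one_smul]
  by_cases h2 : (2 : F) = 0
  · exact tv_two a1 a2 a4 a5 (h.yy 0) h2
  · exact tv_of_nsmul (m := 2) (by simpa)
      (tv_one a1 a2 a3 a4 a5 a6 a7 a8 a9 (h.yy 0) (h.yi 1) h1).smul_right

theorem s_of_semi [Finite F] [Finite V] (h0 : σ ≠ 0) (h4 : σ ≠ 4) : S M U x η 1 0 1 := by
  obtain ⟨a1, a2, a3, a4, a5, a6, a7, a8, a9⟩ := h.words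
  rw [S, one_smul]
  exact tv_semi a1 a2 a3 a4 a5 a6 a7 a8 a9 (h.yy 0) (h.yi 1) h0 h4

theorem all_of_gen [Finite F] [Finite V] (h0 : σ ≠ 0) (hτ : τ ≠ 0) (h4 : σ = 1 ∨ σ ≠ 4)
    (hg : ∀ k m : ℕ, 2 ≤ k → 2 ≤ m → Nat.card F = k ^ m → σ ^ k ≠ σ ∨ (4 : F) ^ k ≠ 4) (c : F) :
    S M U x η 0 0 c := by
  obtain ⟨z, hz, h1⟩ : ∃ c ≠ 0, S M U x η 0 0 c := h4.elim
    (fun e' => ⟨1, one_ne_zero, h.s_of_one e'⟩) fun e' => h.s_one h0 hτ (h.s_of_semi h0 e')
  exact Reg.mem_of_mults (C := coef M _ _) h1 hz (fun k m a b e' => (hg k m a b e').elim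
    (fun l => ⟨σ, fun c hc => mul_comm c σ ▸ h.s_mul hc, l⟩) fun l => ⟨4, ofNat_mem _ 4, l⟩) c

theorem all_of_third [Finite F] (h1 : σ = 1) {ω : Dual F V} (hω : TV M e ω)
    (hg : ∀ k m : ℕ, 2 ≤ k → 2 ≤ m → Nat.card F = k ^ m → ω x ^ k ≠ ω x) (c : F) :
    S M U x η 0 0 c :=
  Reg.mem_of_mults (C := coef M _ _) (h.s_of_one h1) one_ne_zero (fun k m a b e' =>
    ⟨ω x, fun c hc => by
      have := h.s_third hω rfl (h.s_of_one h1) hc
      rwa [h1, one_mul, one_mul] at this, hg k m a b e'⟩) c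

theorem mem_cen [FiniteDimensional F V] (hσ : σ ≠ 0) (hτ : τ ≠ 0) (h1 : ∀ c, S M U x η 0 0 c)
    (h2 : ∀ z, (∀ d : ℕ, d + 2 ≤ n → η ((U ^ d) z) = 0) → ∃ c : F, z = c • x) : x ∈ cen M :=
  mem_cen_of_axes fun z hz => h2 z fun d l => by
    simpa [hj_apply] using hz (hj U η (-d)) (mem_axes.2 (h.r_all hσ hτ h1 d l))

end RC

end Cfsg.Agent.Loc.RSL
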