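import Mathlib
import Cfsg.Agent.Loc.RegSL2
import Cfsg.Agent.Cl.LinearTransv
import Cfsg.Agent.Cl.LinearSylow

/-! Generation of `SL_n`, `n ≥ 4`, by regular unipotent elements: the matrices. -/

set_option autoImplicit false
set_option linter.unusedSimpArgs false

namespace Cfsg.Agent.Loc.RSL

open Module Matrix Cfsg.Agent.Cl.MSL Cfsg.Agent.Cl
open scoped MatrixGroups

variable {F : Type*} [Field F]

theorem closure_eq_top {ι : Type} [Fintype ι] [DecidableEq ι] (S : Set (SpecialLinearGroup ι F))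
    (h : ∀ M : Subgroup ((ι → F) ≃ₗ[F] (ι → F)),
      (∀ s ∈ S, SpecialLinearGroup.toLin' s ∈ M) → cen M = ⊤) : Subgroup.closure S = ⊤ := by
  have h1 := specialLinear_le_of_cen (LinearEquiv.refl F (ι → F))
    (N := (Subgroup.closure S).map SpecialLinearGroup.toGL)
    (h _ fun s hs => ⟨_, ⟨s, Subgroup.subset_closure hs, rfl⟩, LinearEquiv.ext fun _ => rfl⟩)
  refine top_le_iff.1 fun g _ => ?_
  obtain ⟨k, hk, e⟩ := h1 (show SpecialLinearGroup.toGL g ∈ _ from
    MonoidHom.mem_ker.2 (Units.ext g.det_coe))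
  rwa [← SpecialLinearGroup.toGL_injective e]

theorem reg_of_conj {ι : Type*} [Fintype ι] [DecidableEq ι] {G u v : Matrix ι ι F} (hG : G.det ≠ 0)
    (h : G * u = v * G) {k : ℕ} (hu : IsNilpotent (u - 1) ∧ (u - 1) ^ k ≠ 0) :
    IsNilpotent (v - 1) ∧ (v - 1) ^ k ≠ 0 := by
  have h1 : SemiconjBy G (u - 1) (v - 1) := SemiconjBy.sub_right h (SemiconjBy.one_right G)
  have h2 : IsUnit G := (isUnit_iff_isUnit_det G).2 hG.isUnit
  obtain ⟨⟨j, hj⟩, h3⟩ := hu
  exact ⟨⟨j, h2.mul_left_eq_zero.1 ((h1.pow_right j).eq.symm.trans (by rw [hj, mul_zero]))⟩,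
    fun e => h3 (h2.mul_right_eq_zero.1 ((h1.pow_right k).eq.trans (by rw [e, zero_mul])))⟩

variable {n : ℕ}

/-- The coordinate functionals, zero out of range. -/
def ep (F : Type*) [Field F] (n k : ℕ) : Dual F (Fin n → F) :=
  if h : k < n then LinearMap.proj ⟨k, h⟩ else 0

/-- The standard basis vectors, zero out of range. -/
def bs (F : Type*) [Field F] (n k : ℕ) : Fin n → F := fun i => if (i : ℕ) = k then 1 else 0

theorem ep_of_lt {k : ℕ} (h : k < n) (z : Fin n → F) : ep F n k z = z ⟨k, h⟩ := by simp [ep, h]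

theorem ep_of_le {k : ℕ} (h : n ≤ k) (z : Fin n → F) : ep F n k z = 0 := by
  simp [ep, h.not_gt]

theorem ep_ext {z w : Fin n → F} (h : ∀ k < n, ep F n k z = ep F n k w) : z = w :=
  funext fun i => by simpa only [ep_of_lt i.2] using h i i.2

theorem ep_bs_ne {j k : ℕ} (h : j ≠ k) : ep F n j (bs F n k) = 0 := by
  rcases lt_or_ge j n with l | l
  · simp [ep_of_lt l, bs, h]
  · exact ep_of_le l _

theorem ep_bs {k : ℕ} (h : k < n) : ep F n k (bs F n k) = 1 := by simp [ep_of_lt h, bs]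

theorem bs_dot (k : ℕ) (z : Fin n → F) : bs F n k ⬝ᵥ z = ep F n k z := by
  rcases lt_or_ge k n with l | l
  · rw [ep_of_lt l, dotProduct, Finset.sum_eq_single ⟨k, l⟩] <;> simp +contextual [bs, Fin.ext_iff]
  · rw [ep_of_le l]
    exact Finset.sum_eq_zero fun i _ => by rw [bs, if_neg (by omega), zero_mul]

/-- The Jordan block. -/
def uJ (F : Type*) [Field F] (n : ℕ) : SL(n, F) := ⟨1 + shiftN F n, by
  rw [det_of_isUpperTriangular fun i j h => by
    have : (j : ℕ) < i := h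
    rw [Matrix.add_apply, one_apply_ne (show i ≠ j from ne_of_gt h), shiftN, of_apply, if_neg (by omega), add_zero]]
  simp [shiftN]⟩

theorem uJ_reg (hn : 1 ≤ n) :
    IsNilpotent ((uJ F n).1 - 1) ∧ ((uJ F n).1 - 1) ^ (n - 1) ≠ 0 := by
  rw [uJ, add_sub_cancel_left]
  refine ⟨shiftN_isNilpotent n, fun e => ?_⟩
  have := shiftN_pow (F := F) n (n - 1) ⟨0, hn⟩ ⟨n - 1, by omega⟩
  simp [e] at this

theorem ep_uJ (k : ℕ) (z : Fin n → F) :
    ep F n k ((uJ F n).1 *ᵥ z) = ep F n k z + ep F n (k + 1) z := by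
  rcases lt_or_ge k n with l | l
  · rw [uJ, add_mulVec, one_mulVec, map_add, ← bs_dot (k + 1), ep_of_lt l (_ *ᵥ _)]
    simp [mulVec, shiftN, bs, eq_comm, dotProduct]
  · rw [ep_of_le l, ep_of_le l, ep_of_le (l.trans (Nat.le_succ k)), add_zero]

/-- The Jordan block as a linear automorphism. -/
abbrev UJ (F : Type*) [Field F] (n : ℕ) : (Fin n → F) ≃ₗ[F] (Fin n → F) :=
  SpecialLinearGroup.toLin' (uJ F n)

theorem ep_UJ (k : ℕ) (z : Fin n → F) : ep F n k (UJ F n z) = ep F n k z + ep F n (k + 1) z :=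
  ep_uJ k z

theorem UJ_bs (k : ℕ) (hk : k + 1 < n) : UJ F n (bs F n (k + 1)) = bs F n (k + 1) + bs F n k :=
  ep_ext fun j _ => by
    rw [ep_UJ, map_add, add_right_inj]
    rcases eq_or_ne j k with rfl | l
    · rw [ep_bs hk, ep_bs (by omega)]
    · rw [ep_bs_ne l, ep_bs_ne (by omega)]

theorem UJ_zero : UJ F n (bs F n 0) = bs F n 0 :=
  ep_ext fun j _ => by rw [ep_UJ, ep_bs_ne (Nat.succ_ne_zero j), add_zero]

theorem ep_pow_bs {m : ℕ} (k : ℕ) : ∀ i, i + k ≤ m →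
    ep F (m + 1) i ((UJ F (m + 1) ^ k) (bs F (m + 1) m)) = if i + k = m then 1 else 0 := by
  induction k with
  | zero =>
    intro i _
    split_ifs with l
    · exact l ▸ ep_bs (by omega)
    · exact ep_bs_ne l
  | succ k ih =>
    intro i l
    rw [pow_succ', LinearEquiv.mul_apply, ep_UJ, ih i (by omega), ih (i + 1) (by omega),
      if_neg (by omega), zero_add, add_right_comm, add_assoc]

theorem ep_inv_bs {m : ℕ} : ep F (m + 1) 0 ((UJ F (m + 1))⁻¹ (bs F (m + 1) m)) = (-1) ^ m := by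
  have : UJ F (m + 1) (fun i => (-1) ^ (m - i)) = bs F (m + 1) m := ep_ext fun k hk => by
    rw [ep_UJ, ep_of_lt hk]
    rcases eq_or_ne k m with rfl | l
    · simp [ep_of_le, ep_bs]
    · rw [ep_bs_ne l, ep_of_lt (show k + 1 < m + 1 by omega),
        show m - k = m - (k + 1) + 1 by omega, pow_succ]
      simp
  rw [← this]
  exact (congrArg _ ((UJ F (m + 1)).symm_apply_apply _)).trans (ep_of_lt (Nat.succ_pos m) _)

theorem ep_eq_zero (i : ℕ) : ∀ z : Fin n → F,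
    (∀ d ≤ i, ep F n 0 ((UJ F n ^ d) z) = 0) → ep F n i z = 0 := by
  induction i with
  | zero => exact fun z h => h 0 le_rfl
  | succ i ih =>
    intro z h
    have := ih (UJ F n z - z) fun d l => by
      rw [map_sub, map_sub, ← LinearEquiv.mul_apply, ← pow_succ, h _ (by omega), h _ (by omega),
        sub_zero]
    rwa [map_sub, ep_UJ, add_sub_cancel_left] at this

theorem eq_top_of_bs {m : ℕ} {W : Submodule F (Fin (m + 1) → F)} (h1 : bs F (m + 1) m ∈ W)
    (h2 : ∀ w ∈ W, UJ F (m + 1) w ∈ W) : W = ⊤ := by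
  have h3 : ∀ k ≤ m, bs F (m + 1) k ∈ W := fun k hk => by
    induction hk using Nat.decreasingInduction with
    | self => exact h1
    | of_succ k l ih => simpa [UJ_bs k (Nat.succ_lt_succ l)] using sub_mem (h2 _ ih) ih
  refine top_le_iff.1 fun z _ => ?_
  rw [pi_eq_sum_univ z]
  refine W.sum_mem fun i _ => W.smul_mem _ ?_
  convert h3 i (by omega) using 1
  ext j
  simp [bs, Fin.ext_iff, eq_comm]

/-- The second generator. -/
noncomputable def vJ (m : ℕ) (s : F) : SL(m + 1, F) :=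
  uJ F (m + 1) * (tv (bs F (m + 1) 0) (-bs F (m + 1) 1) * tv (s • bs F (m + 1) m) (bs F (m + 1) 0))

/-- The monomial part of the conjugating matrix. -/
def pM (m : ℕ) (s : F) : Matrix (Fin (m + 1)) (Fin (m + 1)) F :=
  diagonal (Fin.cons 1 fun _ => s) * Equiv.Perm.permMatrix F (finRotate (m + 1)).symm

/-- The conjugating matrix. -/
noncomputable def gM (m : ℕ) (s : F) : Matrix (Fin (m + 1)) (Fin (m + 1)) F :=
  (uJ F (m + 1) * tv (bs F (m + 1) 0) (-bs F (m + 1) 1)).1 * pM m s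

variable {m : ℕ} {s : F}

theorem det_gM : (gM m s).det = (-s) ^ m := by
  rw [gM, det_mul, Matrix.SpecialLinearGroup.det_coe, one_mul, pM, det_mul, det_diagonal, det_permutation,
    Equiv.Perm.sign_symm, sign_finRotate, Fin.prod_univ_succ, neg_pow s]
  simp [mul_comm]

theorem ep_pM_zero (z : Fin (m + 1) → F) : ep F (m + 1) 0 (pM m s *ᵥ z) = ep F (m + 1) m z := by
  rw [ep_of_lt (Nat.succ_pos m), ep_of_lt (Nat.lt_succ_self m), pM, ← mulVec_mulVec,
    mulVec_diagonal, permMatrix_mulVec, Function.comp_apply,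
    (Equiv.symm_apply_eq _).2 finRotate_last'.symm]
  exact one_mul _

theorem ep_pM_succ {k : ℕ} (hk : k < m) (z : Fin (m + 1) → F) :
    ep F (m + 1) (k + 1) (pM m s *ᵥ z) = s * ep F (m + 1) k z := by
  rw [ep_of_lt (Nat.succ_lt_succ hk), ep_of_lt (Nat.lt_succ_of_lt hk), pM, ← mulVec_mulVec,
    mulVec_diagonal, permMatrix_mulVec, Function.comp_apply,
    (Equiv.symm_apply_eq _).2 (finRotate_of_lt hk).symm]
  rfl

theorem t1_mulVec (z : Fin n → F) :
    (tv (bs F n 0) (-bs F n 1)).1 *ᵥ z = z - ep F n 1 z • bs F n 0 := by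
  rw [tv_mulVec (by rw [neg_dotProduct, bs_dot, ep_bs_ne one_ne_zero, neg_zero]), neg_dotProduct,
    bs_dot, neg_smul, sub_eq_add_neg]

theorem t2_mulVec (hm : m ≠ 0) (z : Fin n → F) :
    (tv (s • bs F n m) (bs F n 0)).1 *ᵥ z = z + ep F n 0 z • s • bs F n m := by
  rw [tv_mulVec (by rw [bs_dot, map_smul, ep_bs_ne hm.symm, smul_zero]), bs_dot]

theorem gM_mul (hm : 2 ≤ m) : gM m s * (uJ F (m + 1)).1 = (vJ m s).1 * gM m s := by
  simp only [gM, vJ, Matrix.SpecialLinearGroup.coe_mul, mul_assoc]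
  congr 2
  refine toLin'.injective (LinearMap.ext fun z => ep_ext fun k hk => ?_)
  simp only [toLin'_apply, ← mulVec_mulVec, t1_mulVec, t2_mulVec (show m ≠ 0 by omega), map_add,
    map_sub, map_smul, ep_uJ, smul_eq_mul, ep_bs (F := F) (Nat.succ_pos m),
    ep_bs_ne (F := F) (Nat.succ_ne_zero _), ep_pM_zero]
  rcases k with _ | k
  · rw [ep_pM_zero, ep_pM_zero, ep_uJ, ep_of_le le_rfl, ep_bs hk, ep_bs_ne (show 0 ≠ m by omega)]
    ring
  rw [ep_pM_succ (by omega), ep_pM_succ (by omega), ep_uJ, ep_bs_ne (Nat.succ_ne_zero k)]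
  rcases eq_or_ne (k + 1) m with rfl | l
  · rw [ep_of_le le_rfl, ep_bs hk]
    ring
  · rw [ep_pM_succ (k := k + 1) (by omega), ep_bs_ne l]
    ring

theorem rc_vJ (hm : 3 ≤ m) {M : Subgroup ((Fin (m + 1) → F) ≃ₗ[F] (Fin (m + 1) → F))}
    (hu : UJ F (m + 1) ∈ M) (hv : SpecialLinearGroup.toLin' (vJ m s) ∈ M) :
    RC M (m + 1) (s * (-1) ^ m) s (UJ F (m + 1)) (bs F (m + 1) 0) (s • bs F (m + 1) m)
      (ep F (m + 1) 0) where
  mem := hu
  four := by omega
  fix := UJ_zero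
  one := ep_bs (Nat.succ_pos m)
  zero := fun k a b => by
    obtain ⟨k, rfl⟩ := Int.eq_ofNat_of_zero_le a
    rw [fk, zpow_natCast, map_smul, map_smul, ep_pow_bs k 0 (by omega), if_neg (by omega),
      smul_zero]
  top := by
    rw [fk, Nat.cast_succ, add_sub_cancel_right, zpow_natCast, map_smul, map_smul,
      ep_pow_bs m 0 (by omega), if_pos (zero_add m), smul_eq_mul, mul_one]
  bot := by rw [fk, _root_.zpow_neg_one, map_smul, map_smul, ep_inv_bs, smul_eq_mul]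
  y := ((has_symm hu).comp (has_of_mem hv)).congr fun z => by
    rw [vJ, map_mul, LinearEquiv.mul_apply, LinearEquiv.symm_apply_apply,
      SpecialLinearGroup.toLin'_apply, toLin'_apply, Matrix.SpecialLinearGroup.coe_mul, ← mulVec_mulVec,
      t1_mulVec, t2_mulVec (by omega), ep_UJ]
    simp only [map_add, map_smul, ep_bs_ne (show 1 ≠ m by omega), smul_zero]
    module

theorem cen_top (hs : s ≠ 0) {M : Subgroup ((Fin (m + 1) → F) ≃ₗ[F] (Fin (m + 1) → F))}
    (h : RC M (m + 1) (s * (-1) ^ m) s (UJ F (m + 1)) (bs F (m + 1) 0) (s • bs F (m + 1) m)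
      (ep F (m + 1) 0))
    (h1 : ∀ c, S M (UJ F (m + 1)) (s • bs F (m + 1) m) (ep F (m + 1) 0) 0 0 c) : cen M = ⊤ := by
  have := h.mem_cen (by simpa) hs h1 fun z hz => ⟨ep F (m + 1) m z * s⁻¹, ep_ext fun k hk => by
    rw [smul_smul, inv_mul_cancel_right₀ hs, map_smul, smul_eq_mul]
    rcases eq_or_ne k m with rfl | l
    · rw [ep_bs hk, mul_one]
    · rw [ep_bs_ne l, mul_zero, ep_eq_zero k z fun d _ => hz d (by omega)]⟩
  exact eq_top_of_bs ((Submodule.smul_mem_iff _ hs).1 this) fun w => (has_of_mem h.mem).mem_cen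

theorem gen_two [Finite F] (hm : 3 ≤ m) (hs : s ≠ 0) (h4 : s * (-1) ^ m = 1 ∨ s * (-1) ^ m ≠ 4)
    (hg : ∀ k j : ℕ, 2 ≤ k → 2 ≤ j → Nat.card F = k ^ j →
      (s * (-1) ^ m) ^ k ≠ s * (-1) ^ m ∨ (4 : F) ^ k ≠ 4) :
    Subgroup.closure {uJ F (m + 1), vJ m s} = ⊤ :=
  closure_eq_top _ fun _ hM => by
    have h := rc_vJ (s := s) hm (hM _ (by simp)) (hM _ (by simp))
    exact cen_top hs h (h.all_of_gen (by simpa) hs h4 hg)

theorem neg_one_pow_sq : ((-1 : F) ^ m) * (-1) ^ m = 1 := by rw [← mul_pow]; simp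

theorem exists_conj (hm : 2 ≤ m) :
    ∃ g : SL(m + 1, F), g * uJ F (m + 1) * g⁻¹ = vJ m ((-1) ^ m) :=
  ⟨⟨gM m ((-1) ^ m), by
    rw [det_gM, ← neg_one_mul, ← pow_succ', ← pow_mul, mul_comm]
    exact (Nat.even_mul_succ_self m).neg_one_pow⟩,
    mul_inv_eq_iff_eq_mul.2 (Subtype.ext (gM_mul hm))⟩

theorem gen_three [Finite F] (hm : 3 ≤ m) : ∃ k : SL(m + 1, F),
    Subgroup.closure {uJ F (m + 1), vJ m ((-1) ^ m), k * uJ F (m + 1) * k⁻¹} = ⊤ := by
  obtain ⟨ξ, -, hξ⟩ := Reg.exists_gen (F := F)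
  obtain ⟨j, rfl⟩ : ∃ j, m = j + 1 := ⟨m - 1, by omega⟩
  set s : F := (-1) ^ (j + 1)
  have hs : s * s = 1 := neg_one_pow_sq
  refine ⟨tv (bs F (j + 2) 0) ((ξ * s) • bs F (j + 2) j), closure_eq_top _ fun M hM => ?_⟩
  have h := rc_vJ (s := s) hm (hM _ (by simp)) (hM _ (by simp))
  have e0 : ep F (j + 2) j (bs F (j + 2) 0) = 0 := ep_bs_ne (by omega)
  have e1 : ep F (j + 2) (j + 1) (bs F (j + 2) 0) = 0 := ep_bs_ne (by omega)
  refine cen_top (left_ne_zero_of_mul_eq_one hs) h (h.all_of_third hs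
    (ω := (ξ * s) • ep F (j + 2) (j + 1)) ⟨by simp [e1], has_div (has_of_mem (hM _
      (Or.inr (Or.inr rfl)))) (has_of_mem h.mem) fun z => ?_⟩ ?_)
  · rw [map_mul, map_mul, tv_inv, LinearEquiv.mul_apply, LinearEquiv.mul_apply]
    simp only [SpecialLinearGroup.toLin'_apply _ (UJ F _ _), SpecialLinearGroup.toLin'_apply (tv _ _),
      toLin'_apply]
    rw [tv_mulVec (by simp [bs_dot, e0]), tv_mulVec (by simp [bs_dot, e0])]
    simp only [smul_dotProduct, bs_dot, map_add, map_smul, map_neg, UJ_zero, ep_UJ, e0, e1,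
      LinearMap.smul_apply, ep_of_le (le_refl (j + 2)), smul_eq_mul]
    module
  · simpa [ep_bs, mul_left_comm s, hs] using hξ

end Cfsg.Agent.Loc.RSL
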