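import Mathlib
import Cfsg.Agent.Loc.RegSL3

/-! Generation of `SL₃(q)` by two conjugate regular unipotent elements. -/

set_option autoImplicit false
set_option linter.unusedSimpArgs false
set_option linter.unusedSectionVars false

namespace Cfsg.Agent.Loc.RSL

open Module Matrix Polynomial Cfsg.Agent.Cl.MSL Cfsg.Agent.Cl
open scoped MatrixGroups

section Abstract

variable {F V : Type*} [Field F] [AddCommGroup V] [Module F V] {M : Subgroup (V ≃ₗ[F] V)}
  [Finite F] [Finite V]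

theorem tv_of_quad {z : End F V} (hz : Has M z) {v : V} {φ : Dual F V} {μ ν : F} (h0 : φ v = 0)
    (h1 : z v = μ • v) (h2 : ∀ x, φ (z x) = μ * φ x)
    (h3 : ∀ x, z (z x - ν • x) - μ • (z x - ν • x) = φ x • v) (hμ : μ ≠ 0) (hν : μ ≠ ν) :
    TV M v ((μ * (μ - ν))⁻¹ • φ) := by
  have hc := inv_mul_cancel₀ (mul_ne_zero hμ (sub_ne_zero.2 hν))
  set c := (μ * (μ - ν))⁻¹
  refine tv_of_sep (ρ := z - (μ * c) • φ.smulRight v) (μ := μ) (hz.congr fun x => ?_) (by simp [h0])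
    (by simp [h0, h1]) (fun x => by simp [h0, h2, mul_left_comm]) (P := (X - C μ) * (X - C ν))
    (separable_X_sub_C.mul separable_X_sub_C
      (isCoprime_X_sub_C_of_isUnit_sub (sub_ne_zero.2 hν).isUnit)) ?_
  · simp only [LinearMap.sub_apply, LinearMap.smul_apply, LinearMap.smulRight_apply, map_add,
      map_smul, h0, h1, smul_eq_mul]
    module
  · simp only [map_mul, map_sub, aeval_X, aeval_C]
    ext x
    have := h3 x
    simp only [End.mul_apply, LinearMap.sub_apply, LinearMap.smul_apply, LinearMap.smulRight_apply,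
      map_sub, map_smul, h0, h1, h2, smul_eq_mul, Module.algebraMap_end_apply,
      LinearMap.zero_apply] at this ⊢
    linear_combination (norm := module) this - (φ x * hc) • v

theorem cen_odd [FiniteDimensional F V] {u : V ≃ₗ[F] V} (hu : u ∈ M) {z : End F V} (hz : Has M z)
    {A A₀ : V} {ψ : Dual F V} {μ ν α : F} (t : TV M A ψ) (e0 : u A₀ = A) (e1 : ψ (u A) = 0)
    (e2 : ψ A₀ ≠ 0) (e3 : ψ (u (u A)) ≠ 0) (h1 : z A = μ • A) (h2 : ∀ x, ψ (z x) = μ * ψ x)
    (h3 : z (u A) = α • A + ν • u A) (hμ : μ ≠ 0) (hν : μ ≠ ν)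
    (hg : ∀ k m : ℕ, 2 ≤ k → 2 ≤ m → Nat.card F = k ^ m → (ν * μ⁻¹) ^ k ≠ ν * μ⁻¹)
    (h4 : ∀ x, ψ x = 0 → ψ (u x) = 0 → ∃ c : F, x = c • A) : u A ∈ cen M := by
  set ψ' : Dual F V := ψ ∘ₗ (u.symm : V →ₗ[F] V) with hψ
  have p1 : ∀ x, ψ' (u x) = ψ x := fun x => by simp [hψ]
  have t1 : TV M (u A) ψ' := t.conj (has_of_mem hu) p1
  have p2 : ψ' A = ψ A₀ := by rw [← e0, p1]
  have mv : ∀ {w : V} {c : F}, TV M w (c • ψ) → TV M (z w) ((c * μ⁻¹) • ψ) := fun h =>
    h.conj hz fun x => by simp [h2, mul_assoc, hμ]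
  have t2 := t1.comm t e1
  have t3 := (mv t2).sub_left (TV.smul_left (c := μ) (t2.congr_right fun x => by
    simp only [LinearMap.smul_apply, smul_eq_mul]
    field_simp))
  have t4 : ∀ c : F, TV M (z (u A) - μ • u A) (c • ψ) := fun c =>
    Reg.mem_of_mults (C := RC.coef M _ ψ) t3 (mul_ne_zero (p2 ▸ e2) (inv_ne_zero hμ))
      (fun k m a b e => ⟨_, fun c hc => by
        have := mv hc
        rw [show z (z (u A) - μ • u A) = ν • (z (u A) - μ • u A) by
          simp only [h3, map_add, map_sub, map_smul, h1]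
          module] at this
        exact this.smul_right.congr_right fun x => by
          simp only [LinearMap.smul_apply, smul_eq_mul]
          ring, hg k m a b e⟩) c
  have t5 : ∀ c : F, TV M (u A) (c • ψ) := fun c => by
    by_cases hα : α = 0
    · have := t4 (c * (ν - μ)⁻¹)
      rw [h3, hα, zero_smul, zero_add, ← sub_smul] at this
      have := this.smul_right
      rwa [smul_smul, mul_comm, inv_mul_cancel_right₀ (sub_ne_zero.2 hν.symm)] at this
    · have := t1.comm (t4 (c * (α * ψ A₀)⁻¹)) (by simp [e1])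
      rwa [h3, map_sub, map_add, map_smul, map_smul, map_smul, p1, t.1, p2, smul_zero, smul_zero,
        add_zero, sub_zero, smul_smul, smul_eq_mul, mul_comm,
        inv_mul_cancel_right₀ (mul_ne_zero hα e2)] at this
  refine mem_cen_of_axes fun x hx => ?_
  obtain ⟨x, rfl⟩ := u.surjective x
  obtain ⟨c, rfl⟩ := h4 x (p1 x ▸ hx ψ' (mem_axes.2 fun c => by
    have := (t5 1).comm ((t5 (c * (ψ (u (u A)))⁻¹)).conj (has_of_mem hu)
      (ψ := (c * (ψ (u (u A)))⁻¹) • ψ') fun x => by simp [p1]) (by simp [p1, t.1])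
    rwa [one_smul, smul_smul, mul_comm, inv_mul_cancel_right₀ e3] at this))
    (hx ψ (mem_axes.2 t5))
  exact ⟨c, map_smul u c A⟩

end Abstract

variable {F : Type*} [Field F]

theorem uJ_three : (uJ F 3).1 = !![1, 1, 0; 0, 1, 1; 0, 0, 1] := by
  ext i j
  fin_cases i <;> fin_cases j <;> simp [uJ, shiftN]

theorem UJ_three (x : Fin 3 → F) : UJ F 3 x = ![x 0 + x 1, x 1 + x 2, x 2] := by
  rw [SpecialLinearGroup.toLin'_apply, uJ_three]
  ext i
  fin_cases i <;> simp [mulVec, dotProduct, Fin.sum_univ_three]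

theorem eq_top_three {W : Submodule F (Fin 3 → F)} {w : Fin 3 → F} (hw : w ∈ W) (h0 : w 2 ≠ 0)
    (h : ∀ w ∈ W, UJ F 3 w ∈ W) : W = ⊤ := by
  have h1 := sub_mem (h w hw) hw
  have h2 := sub_mem (h _ h1) h1
  refine top_le_iff.1 fun z _ => ?_
  convert add_mem (add_mem (W.smul_mem (z 2 / w 2) hw)
    (W.smul_mem ((z 1 - z 2 / w 2 * w 1) / w 2) h1)) (W.smul_mem
      ((z 0 - z 2 / w 2 * w 0 - (z 1 - z 2 / w 2 * w 1) / w 2 * w 1) / w 2) h2) using 1
  ext i
  fin_cases i <;> simp [UJ_three, vecHead, vecTail] <;> field_simp <;> ring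

theorem three_of {g : SL(3, F)} {v : Matrix (Fin 3) (Fin 3) F} (h : g.1 * (uJ F 3).1 = v * g.1)
    (H : ∀ M : Subgroup ((Fin 3 → F) ≃ₗ[F] (Fin 3 → F)), UJ F 3 ∈ M → Has M (toLin' v) →
      cen M = ⊤) : Subgroup.closure {uJ F 3, g * uJ F 3 * g⁻¹} = ⊤ :=
  closure_eq_top _ fun M hM => H M (hM _ (by simp)) ((has_of_mem (hM _ (Or.inr rfl))).congr
    fun x => by
      rw [SpecialLinearGroup.toLin'_apply, Matrix.SpecialLinearGroup.coe_mul,
        Matrix.SpecialLinearGroup.coe_mul, h, mul_assoc, ← Matrix.SpecialLinearGroup.coe_mul,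
        mul_inv_cancel, Matrix.SpecialLinearGroup.coe_one, mul_one])

theorem three_two [Finite F] (h2 : (2 : F) = 0) :
    ∃ g : SL(3, F), Subgroup.closure {uJ F 3, g * uJ F 3 * g⁻¹} = ⊤ := by
  obtain ⟨ξ, h0, hξ⟩ := Reg.exists_gen (F := F)
  refine ⟨⟨!![0, 0, ξ⁻¹; ξ, ξ, 0; 0, 1, 0], by simp [det_fin_three, h0]⟩,
    three_of (v := !![1, 0, 0; ξ ^ 2, 1, ξ; ξ, 0, 1]) ?_ fun M hu hv => ?_⟩
  · rw [uJ_three]
    ext i j
    fin_cases i <;> fin_cases j <;> simp [Matrix.mul_apply, Fin.sum_univ_three, h0, pow_two]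
  have hv' : ∀ x : Fin 3 → F, toLin' !![1, 0, 0; ξ ^ 2, 1, ξ; ξ, 0, 1] x =
      ![x 0, ξ ^ 2 * x 0 + x 1 + ξ * x 2, ξ * x 0 + x 2] := fun x => by
    ext i
    fin_cases i <;> simp [mulVec, dotProduct, Fin.sum_univ_three]
  have a : TV M ![1, 0, 0] (LinearMap.proj 2) :=
    ⟨by simp, ((has_of_mem hu).comp (has_of_mem hu)).congr fun x => by
      ext i
      fin_cases i <;> simp [UJ_three]
      · linear_combination x 1 * h2
      · linear_combination x 2 * h2⟩
  have b : TV M ![0, 1, 0] (ξ ^ 2 • LinearMap.proj 0) := ⟨by simp, (hv.comp hv).congr fun x => by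
    ext i
    fin_cases i <;> simp [hv']
    · linear_combination (ξ ^ 2 * x 0 + ξ * x 2) * h2
    · linear_combination ξ * x 0 * h2⟩
  have c : ∀ c : F, TV M ![0, 1, 0] (c • LinearMap.proj 2) →
      TV M ![0, 1, 0] ((ξ * c) • LinearMap.proj 0) := fun c hc => by
    have := hc.sub_right (hc.conj_fix hv (ψ := c • LinearMap.proj 2 - (ξ * c) • LinearMap.proj 0)
      (by simp [hv']) fun x => by simp [hv']; ring)
    rwa [sub_sub_cancel] at this
  have d : ∀ c : F, TV M ![0, 1, 0] (c • LinearMap.proj 0) →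
      TV M ![0, 1, 0] (c • LinearMap.proj 2) := fun c hc => by
    simpa using hc.comm a (by simp)
  have e : ∀ c : F, TV M ![0, 1, 0] (c • LinearMap.proj 2) :=
    Reg.mem_of_mults (C := RC.coef M _ _) (d _ b) (pow_ne_zero 2 h0)
      fun k m l l' e => ⟨ξ, fun x hx => d _ (c x hx), hξ k m l l' e⟩
  have f : ![0, 1, 0] ∈ cen M := mem_cen_of_axes fun x hx => ⟨x 1, by
    have h1 : x 2 = 0 := hx _ (mem_axes.2 e)
    have h3 : x 0 = 0 := hx (LinearMap.proj 0) (mem_axes.2 fun y => by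
      simpa [h0] using c _ (e (ξ⁻¹ * y)))
    ext i
    fin_cases i <;> simp [h1, h3]⟩
  exact eq_top_three (hv.mem_cen ((has_of_mem hu).mem_cen f)) (by simpa [hv', UJ_three])
    fun w => (has_of_mem hu).mem_cen

theorem three_odd [Finite F] {m : F} (h0 : m ≠ 0) (h3 : m ^ 3 ≠ 1)
    (hg : ∀ k j : ℕ, 2 ≤ k → 2 ≤ j → Nat.card F = k ^ j → (m ^ 3)⁻¹ ^ k ≠ (m ^ 3)⁻¹) :
    ∃ g : SL(3, F), Subgroup.closure {uJ F 3, g * uJ F 3 * g⁻¹} = ⊤ := by
  have h1 : m - 1 ≠ 0 := fun e => h3 (by rw [sub_eq_zero.1 e, one_pow])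
  refine ⟨⟨!![0, -m / (m - 1), 0; 0, 0, -1 / (m - 1);
      (m - 1) ^ 2 / m, -((m - 1) * (2 * m + 1)) / m ^ 2, 0], by
        simp [det_fin_three]; field_simp⟩,
    three_of (v := !![1, m, 0; 0, 1, 0; -(m - 1) ^ 3 / m ^ 2, (m - 1) ^ 2 * (2 * m + 1) / m ^ 2, 1])
      ?_ fun M hu hv => ?_⟩
  · rw [uJ_three]
    ext i j
    fin_cases i <;> fin_cases j <;> simp [Matrix.mul_apply, Fin.sum_univ_three] <;> field_simp <;>
      ring
  set z : End F (Fin 3 → F) := (UJ F 3 : End F (Fin 3 → F)) * toLin'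
    !![1, m, 0; 0, 1, 0; -(m - 1) ^ 3 / m ^ 2, (m - 1) ^ 2 * (2 * m + 1) / m ^ 2, 1] with hz
  have hz' : ∀ x, z x = ![x 0 + (m + 1) * x 1,
      -(m - 1) ^ 3 / m ^ 2 * x 0 + (1 + (m - 1) ^ 2 * (2 * m + 1) / m ^ 2) * x 1 + x 2,
      -(m - 1) ^ 3 / m ^ 2 * x 0 + (m - 1) ^ 2 * (2 * m + 1) / m ^ 2 * x 1 + x 2] := fun x => by
    ext i
    fin_cases i <;> simp [hz, UJ_three, mulVec, dotProduct, Fin.sum_univ_three] <;> ring
  have Hz : Has M z := (has_of_mem hu).comp hv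
  clear_value z
  set φ : Dual F (Fin 3 → F) := (-(m - 1) ^ 2 / m ^ 2) • LinearMap.proj 0 +
    ((m - 1) / m) • LinearMap.proj 1 + m⁻¹ • LinearMap.proj 2 with hφ
  have hφ' : ∀ x, φ x = -(m - 1) ^ 2 / m ^ 2 * x 0 + (m - 1) / m * x 1 + m⁻¹ * x 2 := fun _ => rfl
  clear_value φ
  have hν : m ≠ (m ^ 2)⁻¹ := fun e => h3 (by rw [pow_succ, e, ← e, mul_comm]; field_simp; exact
    (by field_simp at e; linear_combination e))
  have hc : (m * (m - (m ^ 2)⁻¹))⁻¹ ≠ 0 := inv_ne_zero (mul_ne_zero h0 (sub_ne_zero.2 hν))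
  have e1 : z ![m * (m + 1), m * (m - 1), (m - 1) ^ 2] =
      m • ![m * (m + 1), m * (m - 1), (m - 1) ^ 2] := by
    ext i
    fin_cases i <;> simp [hz'] <;> field_simp <;> ring
  have e2 : ∀ x, φ (z x) = m * φ x := fun x => by simp [hz', hφ']; field_simp; ring
  have t := tv_of_quad Hz (ν := (m ^ 2)⁻¹) (by simp [hφ']; field_simp; ring) e1 e2 (fun x => by
    ext i
    fin_cases i <;> simp [hz', hφ', vecHead, vecTail] <;> field_simp <;> ring) h0 hν
  refine eq_top_three (cen_odd hu Hz t (A₀ := ![m ^ 2 + 1, m - 1, (m - 1) ^ 2])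
    (α := (m - 1) * (2 * m + 1) / m) ?_ ?_ ?_ ?_ e1 (fun x => by simp [e2, mul_left_comm]) ?_ h0 hν
    ?_ ?_) (by simpa [UJ_three]) fun w => (has_of_mem hu).mem_cen
  · ext i
    fin_cases i <;> simp [UJ_three] <;> ring
  · refine mul_eq_zero_of_right _ ?_
    simp [UJ_three, hφ']
    field_simp
    ring
  · refine mul_ne_zero hc fun e => h1 ((pow_eq_zero_iff four_ne_zero).1 ?_)
    simp [hφ'] at e
    field_simp at e
    linear_combination -e
  · refine mul_ne_zero hc fun e => h1 ((pow_eq_zero_iff four_ne_zero).1 ?_)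
    simp [hφ', UJ_three] at e
    field_simp at e
    linear_combination -e
  · ext i
    fin_cases i <;> simp [UJ_three, hz'] <;> field_simp <;> ring
  · rwa [← mul_inv, ← pow_succ]
  · intro x a b
    replace a := (mul_eq_zero.1 a).resolve_left hc
    replace b := (mul_eq_zero.1 b).resolve_left hc
    simp [hφ', UJ_three] at a b
    field_simp at a b
    have c : (m - 1) * x 1 = m * x 2 := mul_left_cancel₀ h1 (by linear_combination a - b)
    refine ⟨x 2 / (m - 1) ^ 2, ?_⟩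
    ext i
    fin_cases i <;> simp <;> field_simp
    · linear_combination m * c - a
    · linear_combination c

theorem three [Finite F] : ∃ g : SL(3, F), Subgroup.closure {uJ F 3, g * uJ F 3 * g⁻¹} = ⊤ := by
  by_cases h2 : (2 : F) = 0
  · exact three_two h2
  have := Fintype.ofFinite F
  have h3 : Nat.card F % 2 = 1 := by
    rw [Nat.card_eq_fintype_card]
    exact FiniteField.odd_card_of_char_ne_two fun e => h2 (by
      simpa [e] using (ringChar.spec F 2).2 (e ▸ dvd_rfl))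
  have h4 : 1 < Nat.card F := Finite.one_lt_card
  obtain ⟨m, h0, hm⟩ := Reg.exists_orderOf_eq (F := F) dvd_rfl
  refine three_odd h0 (fun e => ?_) fun k j a b e e' => ?_
  · have := (Nat.dvd_prime Nat.prime_three).1 (hm ▸ orderOf_dvd_of_pow_eq_one e)
    omega
  · rw [inv_pow, _root_.inv_inj, ← pow_mul] at e'
    obtain ⟨k, rfl⟩ : ∃ i, k = i + 1 := ⟨k - 1, by omega⟩
    rw [mul_add, pow_add, mul_one, mul_eq_right₀ (pow_ne_zero 3 h0)] at e'
    have h5 := Nat.le_of_dvd (by omega) (hm ▸ orderOf_dvd_of_pow_eq_one e')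
    have h6 : (k + 1) ^ 2 ≤ (k + 1) ^ j := Nat.pow_le_pow_right (by omega) b
    have h7 : k ≠ 1 := by
      rintro rfl
      obtain ⟨j, rfl⟩ : ∃ i, j = i + 1 := ⟨j - 1, by omega⟩
      rw [pow_succ] at e
      omega
    have : 2 ≤ k := by omega
    have : Nat.card F ≤ 3 * k + 1 := by omega
    nlinarith

end Cfsg.Agent.Loc.RSL
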