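import Mathlib

/-! Limits of subspaces of an algebra under a one-parameter group of quadratic elements. -/

set_option autoImplicit false

namespace Cfsg.Agent.Loc.SubQ

open Polynomial

variable {k R : Type*} [Field k] [Ring R] [Algebra k R]

/-- Conjugation by `1 + x X`. -/
noncomputable def pc (x : R) (f : R[X]) : R[X] := (1 + C x * X) * f * (1 + C (-x) * X)

theorem pc_coeff_zero (x : R) (f : R[X]) : (pc x f).coeff 0 = f.coeff 0 := by
  simp [pc, mul_add, add_mul, ← mul_assoc]

theorem pc_eq (x : R) (f : R[X]) :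
    pc x f = f + (C x * f - f * C x) * X - C x * f * C x * X * X := by
  have h : ∀ g : R[X], X * g = g * X := fun g => X_mul
  simp only [pc, mul_add, add_mul, mul_one, one_mul, C_neg, neg_mul, mul_neg, sub_mul, mul_assoc, h]
  abel

theorem pc_coeff_one (x : R) (f : R[X]) :
    (pc x f).coeff 1 = f.coeff 1 + (x * f.coeff 0 - f.coeff 0 * x) := by
  rw [pc_eq, coeff_sub, coeff_add, coeff_mul_X, coeff_mul_X, mul_coeff_zero _ X]; simp

theorem pc_coeff (x : R) (f : R[X]) (n : ℕ) : (pc x f).coeff (n + 2) =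
    f.coeff (n + 2) + (x * f.coeff (n + 1) - f.coeff (n + 1) * x) - x * f.coeff n * x := by
  rw [pc_eq, coeff_sub, coeff_add, coeff_mul_X, coeff_mul_X, coeff_mul_X]; simp

theorem pc_unit {x : R} (hx : x * x = 0) : (1 + C (-x) * X) * (1 + C x * X) = (1 : R[X]) := by
  have h : ∀ g : R[X], X * g = g * X := fun g => X_mul
  have : C x * (C x * (X * X)) = (0 : R[X]) := by rw [← mul_assoc, ← C_mul, hx, C_0, zero_mul]
  simp only [mul_add, add_mul, mul_one, one_mul, C_neg, neg_mul, mul_assoc, h, this]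
  abel

theorem pc_mul {x : R} (hx : x * x = 0) (f g : R[X]) : pc x (f * g) = pc x f * pc x g := by
  have := pc_unit hx
  rw [pc, pc, pc, mul_assoc _ _ (_ * g * _), ← mul_assoc (1 + C (-x) * X), ← mul_assoc (1 + C (-x) * X),
    this]
  simp only [one_mul, mul_assoc]

theorem pc_neg {x : R} (hx : x * x = 0) (f : R[X]) : pc (-x) (pc x f) = f := by
  have := pc_unit hx
  rw [pc, pc, neg_neg, mul_assoc, mul_assoc, this, mul_one, ← mul_assoc, this, one_mul]

theorem pc_neg' {x : R} (hx : x * x = 0) (f : R[X]) : pc x (pc (-x) f) = f := by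
  have := pc_neg (x := -x) (by rwa [neg_mul_neg]) f
  rwa [neg_neg] at this

theorem pc_X (x : R) (f : R[X]) : pc x (f * X) = pc x f * X := by
  rw [pc, pc, mul_assoc, mul_assoc, X_mul]; simp only [mul_assoc]

theorem pc_coeff_mem {x : R} {U W : Submodule k R} (h0 : U ≤ W)
    (h1 : ∀ a ∈ U, x * a - a * x ∈ W) (h2 : ∀ a ∈ U, x * a * x ∈ W) {f : R[X]}
    (hf : ∀ i, f.coeff i ∈ U) (n : ℕ) : (pc x f).coeff n ∈ W := by
  rcases n with _ | _ | n
  · rw [pc_coeff_zero]; exact h0 (hf 0)
  · rw [zero_add, pc_coeff_one]; exact add_mem (h0 (hf 1)) (h1 _ (hf 0))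
  · rw [add_assoc, pc_coeff]
    exact sub_mem (add_mem (h0 (hf _)) (h1 _ (hf _))) (h2 _ (hf _))

/-- The polynomial family of the conjugates of `U`. -/
def fam (x : R) (U : Submodule k R) : Submodule k R[X] where
  carrier := {F | ∀ i, (pc (-x) F).coeff i ∈ U}
  zero_mem' i := by simp [pc]
  add_mem' {a b} ha hb i := by
    rw [pc, mul_add _ a, add_mul _ _ (_ + _), coeff_add]; exact add_mem (ha i) (hb i)
  smul_mem' c a ha i := by
    rw [pc, mul_smul_comm, smul_mul_assoc, coeff_smul]; exact U.smul_mem c (ha i)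

theorem fam_X {x : R} {U : Submodule k R} {F : R[X]} (h : F ∈ fam x U) (n : ℕ) :
    F * X ^ n ∈ fam x U := by
  induction n with
  | zero => simpa using h
  | succ n ih =>
    intro i
    rw [pow_succ, ← mul_assoc, pc_X]
    rcases i with _ | i
    · simp
    · rw [coeff_mul_X]; exact ih i

theorem pc_mem_fam {x : R} (hx : x * x = 0) {U : Submodule k R} {f : R[X]}
    (h : ∀ i, f.coeff i ∈ U) : pc x f ∈ fam x U := fun i => by rw [pc_neg hx]; exact h i

/-- The limit of the conjugates of `U`. -/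
def lead (x : R) (U : Submodule k R) : Submodule k R where
  carrier := {c | ∃ n, ∃ F ∈ fam x U, F.natDegree ≤ n ∧ F.coeff n = c}
  zero_mem' := ⟨0, 0, zero_mem _, by simp, by simp⟩
  add_mem' := by
    rintro _ _ ⟨n, F, hF, dF, rfl⟩ ⟨m, G, hG, dG, rfl⟩
    refine ⟨n + m, F * X ^ m + G * X ^ n, add_mem (fam_X hF m) (fam_X hG n),
      natDegree_add_le_of_degree_le ?_ ?_, ?_⟩
    · exact natDegree_mul_le_of_le dF (natDegree_X_pow_le m)
    · exact add_comm m n ▸ natDegree_mul_le_of_le dG (natDegree_X_pow_le n)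
    · rw [coeff_add, coeff_mul_X_pow, add_comm n, coeff_mul_X_pow]
  smul_mem' := by
    rintro c _ ⟨n, F, hF, dF, rfl⟩
    exact ⟨n, c • F, (fam x U).smul_mem c hF, (natDegree_smul_le c F).trans dF, by simp⟩

theorem lead_mono {x : R} {U W : Submodule k R} (h : U ≤ W) : lead x U ≤ lead x W := by
  rintro _ ⟨n, F, hF, dF, rfl⟩
  exact ⟨n, F, fun i => h (hF i), dF, rfl⟩

theorem lead_le {x : R} (hx : x * x = 0) {U W : Submodule k R} (h0 : U ≤ W)
    (h1 : ∀ a ∈ U, x * a - a * x ∈ W) (h2 : ∀ a ∈ U, x * a * x ∈ W) : lead x U ≤ W := by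
  rintro _ ⟨n, F, hF, -, rfl⟩
  rw [← pc_neg' hx F]
  exact pc_coeff_mem h0 h1 h2 hF n

theorem lead_mul {x : R} (hx : x * x = 0) {U W : Submodule k R} (h : ∀ a ∈ U, ∀ b ∈ W, a * b = 0)
    {a b : R} (ha : a ∈ lead x U) (hb : b ∈ lead x W) : a * b = 0 := by
  obtain ⟨n, F, hF, dF, rfl⟩ := ha
  obtain ⟨m, G, hG, dG, rfl⟩ := hb
  have : pc (-x) F * pc (-x) G = 0 := Polynomial.ext fun i => by
    rw [coeff_mul, coeff_zero]; exact Finset.sum_eq_zero fun c _ => h _ (hF _) _ (hG _)
  rw [← coeff_mul_add_eq_of_natDegree_le dF dG, ← pc_neg' hx F, ← pc_neg' hx G, ← pc_mul hx, this]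
  simp [pc]

theorem natDegree_pc (x : R) (f : R[X]) : (pc x f).natDegree ≤ f.natDegree + 2 := by
  have h : ∀ y : R, (1 + C y * X : R[X]).natDegree ≤ 1 := fun y => by compute_degree
  exact (natDegree_mul_le_of_le (natDegree_mul_le_of_le (h x) le_rfl) (h _)).trans (by omega)

theorem card_le_lead [Finite R] {x : R} (hx : x * x = 0) (U : Submodule k R) :
    Nat.card U ≤ Nat.card (lead x U) := by
  classical
  let T : ℕ → AddSubgroup R[X] := fun n => (fam x U).toAddSubgroup ⊓ (degreeLT R n).toAddSubgroup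
  have fin : ∀ n, Finite (T n) := fun n =>
    have : Finite (degreeLT R n) := Finite.of_equiv _ (degreeLTEquiv R n).symm.toEquiv
    Finite.of_injective (AddSubgroup.inclusion (inf_le_right : T n ≤ _))
      (AddSubgroup.inclusion_injective _)
  have up : ∀ n, Nat.card (T n) ≤ Nat.card (lead x U) ^ n := fun n => by
    induction n with
    | zero =>
      rw [pow_zero, Finite.card_le_one_iff_subsingleton]
      refine ⟨fun a b => Subtype.ext ?_⟩
      have k : ∀ a : T 0, a.1 = 0 := fun a => degree_eq_bot.1 (by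
        have := mem_degreeLT.1 a.2.2
        exact Nat.WithBot.lt_zero_iff.1 this)
      rw [k a, k b]
    | succ n ih =>
      let h : T (n + 1) →+ lead x U :=
        { toFun := fun F => ⟨F.1.coeff n, n, F.1, F.2.1,
            natDegree_le_iff_degree_le.2 (Order.le_of_lt_succ (mem_degreeLT.1 F.2.2)), rfl⟩
          map_zero' := rfl
          map_add' := fun F G => Subtype.ext (coeff_add _ _ _) }
      have h1 : Nat.card h.ker ≤ Nat.card (T n) := Nat.card_le_card_of_injective
        (fun F => ⟨F.1.1, F.1.2.1, mem_degreeLT.2 ((degree_lt_iff_coeff_zero _ _).2 fun m hm => by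
          rcases hm.eq_or_lt with rfl | hm
          · exact congrArg Subtype.val F.2
          · exact (degree_lt_iff_coeff_zero _ _).1 (mem_degreeLT.1 F.1.2.2) m hm)⟩)
        fun F G e => Subtype.ext (Subtype.ext (congrArg (fun H : T n => H.1) e))
      rw [← h.ker.card_mul_index, AddSubgroup.index_ker, pow_succ]
      exact Nat.mul_le_mul (h1.trans ih) (Finite.card_subtype_le _)
  have lo : ∀ n, Nat.card U ^ n ≤ Nat.card (T (n + 3)) := fun n => by
    have : Nat.card U ^ n = Nat.card (Fin n → U) := by simp [Nat.card_fun]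
    rw [this]
    refine Nat.card_le_card_of_injective (fun v => ⟨pc x (ofFn n fun i => (v i).1),
      pc_mem_fam hx fun i => ?_, mem_degreeLT.2 (degree_le_natDegree.trans_lt ?_)⟩) fun v w e => ?_
    · by_cases h : i < n
      · rw [ofFn_coeff_eq_val_of_lt _ h]; exact (v _).2
      · rw [ofFn_coeff_eq_zero_of_ge _ (not_lt.1 h)]; exact zero_mem _
    · have := natDegree_pc x (ofFn n fun i => (v i).1)
      have h2 := natDegree_le_iff_degree_le.2 (ofFn_degree_lt (n := n) fun i => (v i).1).le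
      exact_mod_cast (by omega)
    · have := congrArg (fun F => pc (-x) F.1) e
      simp only [pc_neg hx] at this
      exact funext fun i => Subtype.ext (congrFun (injective_ofFn n this) i)
  by_contra hh
  obtain ⟨l, hl⟩ : ∃ l, Nat.card (lead x U) = l + 1 := Nat.exists_eq_succ_of_ne_zero Nat.card_pos.ne'
  have h1 := ((Nat.pow_le_pow_left (not_le.1 hh) ((l + 1) ^ 4)).trans (lo _)).trans (up _)
  rw [hl] at h1
  have h2 := add_one_pow_ge_aux (l + 1) ((l + 1) ^ 4)
  have h3 : 0 < (l + 1) ^ (l + 1) ^ 4 := by positivity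
  have h4 := (h2.trans (Nat.mul_le_mul_left _ h1))
  rw [pow_add] at h4
  nlinarith
where add_one_pow_ge_aux (a n : ℕ) : a ^ n * (a + n) ≤ a * (a + 1) ^ n := by
        induction n with
        | zero => simp
        | succ n ih =>
          have : 0 ≤ a ^ n * n := Nat.zero_le _
          rw [pow_succ, pow_succ]; nlinarith

/-- If the limit has the same position as `A` in a central series, `A` is invariant. -/
theorem inv_of_card [Finite R] {x : R} (hx : x * x = 0) {A : Submodule k R} {U : ℕ → Submodule k R}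
    (h0 : U 0 = ⊥) (hm : ∀ i, U i ≤ U (i + 1)) (h1 : ∀ i, ∀ a ∈ U (i + 1), x * a - a * x ∈ U i)
    (h2 : ∀ i, ∀ a ∈ U (i + 1), x * a * x ∈ U i)
    (hc : ∀ i, Nat.card ↥(lead x A ⊓ U i) ≤ Nat.card ↥(A ⊓ U i)) (i : ℕ) :
    ∀ a ∈ A ⊓ U i, x * a - a * x ∈ A ⊓ U i ∧ x * a * x ∈ A ⊓ U i := by
  induction i with
  | zero => intro a ha; rw [h0, inf_bot_eq] at *; rw [(Submodule.mem_bot k).1 ha]; simp
  | succ i ih =>
    have k1 : ∀ c ∈ A ⊓ U i, C c ∈ fam x A := fun c hc n => (pc_coeff_mem (x := -x) (f := C c)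
      (U := A ⊓ U i) le_rfl (fun a ha => by
        rw [neg_mul, mul_neg, sub_neg_eq_add, neg_add_eq_sub, ← neg_sub]; exact neg_mem (ih a ha).1)
      (fun a ha => by rw [neg_mul, neg_mul_neg]; exact (ih a ha).2)
      (fun j => by rw [coeff_C]; split_ifs; exacts [hc, zero_mem _]) n).1
    have k2 : A ⊓ U i = lead x A ⊓ U i := SetLike.coe_injective (Set.eq_of_subset_of_ncard_le
      (show A ⊓ U i ≤ lead x A ⊓ U i from
        fun c hc => ⟨⟨0, C c, k1 c hc, by simp, by simp⟩, hc.2⟩) (hc i))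
    intro a ha
    have k3 : pc x (C a) ∈ fam x A := pc_mem_fam hx fun j => by
      rw [coeff_C]; split_ifs; exacts [ha.1, zero_mem _]
    have d2 := natDegree_pc x (C a)
    rw [natDegree_C] at d2
    have k4 : x * a * x ∈ A ⊓ U i := k2 ▸ ⟨⟨2, -pc x (C a), neg_mem k3, by rwa [natDegree_neg], by
      rw [coeff_neg, pc_coeff x _ 0]; simp⟩, h2 i a ha.2⟩
    have k5 : x * a - a * x ∈ A ⊓ U i := k2 ▸ ⟨⟨1, _, add_mem k3 (fam_X (k1 _ k4) 2), by
      rw [pc_eq, ← C_mul, ← C_mul, ← C_mul, ← C_sub, sq, ← mul_assoc, sub_add_cancel]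
      compute_degree, by simp [pc_coeff_one, coeff_mul_X_pow']⟩, h1 i a ha.2⟩
    exact ⟨⟨k5.1, hm i k5.2⟩, k4.1, hm i k4.2⟩

end Cfsg.Agent.Loc.SubQ
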