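import Mathlib
import Cfsg.Agent.Loc.SubQLead

/-! Families of mutually normalizing square-zero subspaces: the exponential map. -/

set_option autoImplicit false

namespace Cfsg.Agent.Loc.SubQ

variable {k R : Type*} [Field k] [Ring R] [Algebra k R]

/-- The upper annihilator series. -/
def ann (W : Submodule k R) : ℕ → Submodule k R
  | 0 => ⊥
  | i + 1 =>
    { carrier := {r | ∀ w ∈ W, w * r ∈ ann W i ∧ r * w ∈ ann W i}
      zero_mem' := fun w _ => by simp
      add_mem' := fun ha hb w hw => by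
        rw [mul_add, add_mul]
        exact ⟨add_mem (ha w hw).1 (hb w hw).1, add_mem (ha w hw).2 (hb w hw).2⟩
      smul_mem' := fun c a ha w hw => by
        rw [mul_smul_comm, smul_mul_assoc]
        exact ⟨Submodule.smul_mem _ c (ha w hw).1, Submodule.smul_mem _ c (ha w hw).2⟩ }

theorem ann_mono (W : Submodule k R) : ∀ i, ann W i ≤ ann W (i + 1)
  | 0 => bot_le
  | i + 1 => fun _ h w hw => ⟨ann_mono W i (h w hw).1, ann_mono W i (h w hw).2⟩

variable (k) in
/-- The truncated exponential. -/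
def ex (w : R) : R := 1 + w + (2⁻¹ : k) • (w * w) + (6⁻¹ : k) • (w * w * w)

theorem ex_mul (h2 : (2 : k) ≠ 0) (h3 : (3 : k) ≠ 0) {W : Submodule k R}
    (h4 : ∀ a ∈ W, ∀ b ∈ W, ∀ c ∈ W, ∀ d ∈ W, a * (b * (c * d)) = 0) {x a : R} (hx : x ∈ W)
    (ha : a ∈ W) (aa : a * a = 0) : ex k x * (1 + a) = ex k (x + a + ((2⁻¹ : k) • (x * a - a * x) +
      (12⁻¹ : k) • (x * (x * a - a * x) - (x * a - a * x) * x) -
      (12⁻¹ : k) • (a * (x * a - a * x) - (x * a - a * x) * a))) := by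
  have h5 : ∀ {a b c d : R}, a ∈ W → b ∈ W → c ∈ W → d ∈ W → a * (b * (c * d)) = 0 :=
    fun ha hb hc hd => h4 _ ha _ hb _ hc _ hd
  have aa' : ∀ y, a * (a * y) = 0 := fun y => by rw [← mul_assoc, aa, zero_mul]
  have e6 : (6 : k) ≠ 0 := by rw [show (6 : k) = 2 * 3 by norm_num]; exact mul_ne_zero h2 h3
  have e12 : (12 : k) ≠ 0 := by rw [show (12 : k) = 2 * 6 by norm_num]; exact mul_ne_zero h2 e6
  simp (disch := assumption) only [ex, mul_add, add_mul, mul_sub, sub_mul, smul_mul_assoc,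
    mul_smul_comm, mul_assoc, mul_one, one_mul, aa, aa', h5, mul_zero, smul_zero,
    sub_zero, zero_sub, add_zero, mul_neg, neg_mul, neg_zero]
  match_scalars <;> field_simp <;> ring

theorem ex_mem (h2 : (2 : k) ≠ 0) (h3 : (3 : k) ≠ 0) {ι : Type*} {A : ι → Submodule k R}
    (hb : ∀ s t, ∀ a ∈ A s, ∀ b ∈ A t, a * b - b * a ∈ A t) (aa : ∀ s, ∀ a ∈ A s, a * a = 0)
    (h4 : ∀ a ∈ ⨆ s, A s, ∀ b ∈ ⨆ s, A s, ∀ c ∈ ⨆ s, A s, ∀ d ∈ ⨆ s, A s, a * (b * (c * d)) = 0)
    {N : Submonoid R} (hN : ∀ s, ∀ a ∈ A s, 1 + a ∈ N) {w : R} (hw : w ∈ ⨆ s, A s) :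
    ex k w ∈ N := by
  set W := ⨆ s, A s
  let L : ℕ → Submodule k R := fun i => ⨆ s, A s ⊓ ann W i
  have LW : ∀ i, L i ≤ W := fun i => iSup_mono fun s => inf_le_left
  have mono : ∀ i, L i ≤ L (i + 1) := fun i => iSup_mono fun s => inf_le_inf_left _ (ann_mono W i)
  have gen : ∀ {P Q : Submodule k R}, (∀ s t, ∀ a ∈ A s, ∀ b ∈ A t ⊓ P, a * b - b * a ∈ Q) →
      ∀ a ∈ W, ∀ b ∈ ⨆ s, A s ⊓ P, a * b - b * a ∈ Q := fun {P Q} h a ha b hb => by
    induction ha using Submodule.iSup_induction' with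
    | zero => simp
    | add a a' _ _ h1 h2 => convert add_mem h1 h2 using 1; noncomm_ring
    | mem s a ha =>
      induction hb using Submodule.iSup_induction' with
      | zero => simp
      | add b b' _ _ h1 h2 => convert add_mem h1 h2 using 1; noncomm_ring
      | mem t b hb => exact h s t a ha b hb
  have br : ∀ i, ∀ a ∈ W, ∀ b ∈ L (i + 1), a * b - b * a ∈ L i := fun i =>
    gen fun s t a ha b hb' => Submodule.mem_iSup_of_mem t ⟨hb s t a ha b hb'.1,
      sub_mem (hb'.2 a (Submodule.mem_iSup_of_mem s ha)).1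
        (hb'.2 a (Submodule.mem_iSup_of_mem s ha)).2⟩
  have br' : ∀ i, ∀ a ∈ W, ∀ b ∈ L i, a * b - b * a ∈ L i := fun i a ha b hb =>
    br i a ha b (mono i hb)
  have Q : ∀ i, ∀ c ∈ L i, ∀ x ∈ W, (ex k (x + c) ∈ N ↔ ex k x ∈ N) := fun i => by
    induction i with
    | zero =>
      intro c hc x _
      have : c = 0 := (iSup_le fun s => inf_le_right : L 0 ≤ ⊥) hc
      rw [this, add_zero]
    | succ i ih =>
      intro c hc
      induction hc using Submodule.iSup_induction' with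
      | zero => simp
      | add c c' hc _ h1 h2 =>
        intro x hx
        rw [← add_assoc, h2 _ (add_mem hx (LW _ hc)), h1 x hx]
      | mem s a ha =>
        intro x hx
        have aW : a ∈ W := Submodule.mem_iSup_of_mem s ha.1
        have k1 := br i x hx a (Submodule.mem_iSup_of_mem s ha)
        rw [← ih _ (sub_mem (add_mem ((L i).smul_mem (2⁻¹ : k) k1) ((L i).smul_mem (12⁻¹ : k)
          (br' i x hx _ k1))) ((L i).smul_mem (12⁻¹ : k) (br' i a aW _ k1))) _ (add_mem hx aW),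
          ← ex_mul h2 h3 h4 hx aW (aa s a ha.1)]
        refine ⟨fun h => ?_, fun h => mul_mem h (hN s a ha.1)⟩
        have := mul_mem h (hN s _ (neg_mem ha.1))
        rwa [mul_assoc, show (1 + a) * (1 + -a) = 1 by simp [mul_add, add_mul, aa s a ha.1],
          mul_one] at this
  have : w ∈ L 3 := (iSup_mono fun s => le_inf le_rfl fun a ha b hb => by
    have ha : a ∈ W := Submodule.mem_iSup_of_mem s ha
    refine ⟨fun c hc => ⟨fun d hd => ⟨?_, ?_⟩, fun d hd => ⟨?_, ?_⟩⟩,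
      fun c hc => ⟨fun d hd => ⟨?_, ?_⟩, fun d hd => ⟨?_, ?_⟩⟩⟩ <;>
    simp only [mul_assoc] <;> exact h4 _ ‹_› _ ‹_› _ ‹_› _ ‹_› : W ≤ L 3) hw
  have := (Q 3 w this 0 (zero_mem _)).2 (by simp [ex])
  rwa [zero_add] at this

/-- Conjugation by `1 + t x`. -/
def cj {x : R} (hx : x * x = 0) (t : k) : R →ₐ[k] R where
  toFun y := (1 + t • x) * y * (1 - t • x)
  map_one' := by simp [mul_sub, add_mul, hx]
  map_mul' a b := by
    have : (1 - t • x) * (1 + t • x) = 1 := by simp [mul_add, sub_mul, hx]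
    rw [mul_assoc _ _ (_ * b * _), ← mul_assoc (1 - t • x), ← mul_assoc (1 - t • x), this]
    simp only [one_mul, mul_assoc]
  map_zero' := by simp
  map_add' a b := by rw [mul_add, add_mul]
  commutes' c := by
    rw [← Algebra.commutes, mul_assoc]; simp [mul_sub, add_mul, hx]

theorem cj_eq {x : R} (hx : x * x = 0) (t : k) (y : R) :
    cj hx t y = y + t • (x * y - y * x) - t ^ 2 • (x * y * x) := by
  change (1 + t • x) * y * (1 - t • x) = _
  simp only [add_mul, mul_sub, one_mul, mul_one, smul_mul_assoc, mul_smul_comm]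
  module

theorem cj_cj {x : R} (hx : x * x = 0) (s t : k) (y : R) : cj hx s (cj hx t y) = cj hx (s + t) y := by
  have h1 : (1 + s • x) * (1 + t • x) = 1 + (s + t) • x := by
    simp only [mul_add, add_mul, one_mul, mul_one, smul_mul_assoc, mul_smul_comm, hx]; module
  have h2 : (1 - t • x) * (1 - s • x) = 1 - (s + t) • x := by
    simp only [mul_sub, sub_mul, one_mul, mul_one, smul_mul_assoc, mul_smul_comm, hx]; module
  change (1 + s • x) * ((1 + t • x) * y * (1 - t • x)) * (1 - s • x) =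
    (1 + (s + t) • x) * y * (1 - (s + t) • x)
  rw [← h1, ← h2]; simp only [mul_assoc]

theorem lead_one_add (h2 : (2 : k) ≠ 0) (h3 : (3 : k) ≠ 0) {x : R} (hx : x * x = 0)
    {A : Submodule k R} (aa : ∀ a ∈ A, ∀ b ∈ A, a * b = 0)
    (hn : ∀ t : k, ∀ a ∈ A, ∀ b ∈ A, (1 + cj hx t b) * a * (1 - cj hx t b) ∈ A)
    {N : Submonoid R} (hN : ∀ t : k, ∀ a ∈ A, 1 + cj hx t a ∈ N) {w : R} (hw : w ∈ lead x A) :
    1 + w ∈ N := by
  let B : k → Submodule k R := fun t => A.map (cj hx t).toLinearMap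
  have bb : ∀ s, ∀ a ∈ B s, ∀ b ∈ B s, a * b = 0 := by
    rintro s _ ⟨a, ha, rfl⟩ _ ⟨b, hb, rfl⟩
    exact (map_mul (cj hx s) a b).symm.trans (by rw [aa a ha b hb, map_zero])
  have hb : ∀ s t, ∀ a ∈ B s, ∀ b ∈ B t, a * b - b * a ∈ B t := by
    rintro s t _ ⟨a, ha, rfl⟩ _ ⟨b, hb, rfl⟩
    refine ⟨_, A.smul_mem (2⁻¹ : k) (sub_mem (hn (s - t) b hb a ha) (hn (s - t) b hb _ (neg_mem ha))),
      ?_⟩
    have : cj hx s a = cj hx t (cj hx (s - t) a) := by rw [cj_cj, add_sub_cancel]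
    simp only [AlgHom.toLinearMap_apply, this, ← map_mul, ← map_sub, map_neg]
    congr 1
    simp only [add_mul, mul_sub, one_mul, mul_one, mul_neg, neg_mul]
    match_scalars <;> field_simp <;> ring
  have b3 : ∀ s t, ∀ a ∈ B s, ∀ b ∈ B t, ∀ c ∈ B s, a * (b * c) = 0 := fun s t a ha b hb' c hc => by
    have := bb s a ha _ (hb t s b hb' c hc)
    rwa [mul_sub, ← mul_assoc a c, bb s a ha c hc, zero_mul, sub_zero] at this
  have b4 : ∀ r s t u, ∀ a ∈ B r, ∀ b ∈ B s, ∀ c ∈ B t, ∀ d ∈ B u, a * (b * (c * d)) = 0 := by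
    rintro r s t u _ ⟨a, ha, rfl⟩ b hb' c hc d hd
    by_cases st : s = t
    · rw [← mul_assoc b, bb s b hb' c (st ▸ hc), zero_mul, mul_zero]
    by_cases tu : t = u
    · rw [bb t c hc d (tu ▸ hd), mul_zero, mul_zero]
    by_cases su : s = u
    · rw [b3 s t b hb' c hc d (su ▸ hd), mul_zero]
    have m : ∀ r, cj hx r a ∈ B r := fun r => ⟨a, ha, rfl⟩
    have e1 : cj hx s a * (b * (c * d)) = 0 := by rw [← mul_assoc, bb s _ (m s) b hb', zero_mul]
    have e2 : cj hx t a * (b * (c * d)) = 0 := by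
      rw [← mul_assoc b, ← mul_assoc, b3 t s _ (m t) b hb' c hc, zero_mul]
    have e3 : cj hx u a * (b * (c * d)) = 0 := by
      have := b3 u t _ (hb s u b hb' _ (m u)) c hc d hd
      rwa [sub_mul, mul_assoc, mul_assoc, b3 u t _ (m u) c hc d hd, mul_zero, zero_sub,
        neg_eq_zero] at this
    refine smul_right_injective R (mul_ne_zero (mul_ne_zero (sub_ne_zero.2 st) (sub_ne_zero.2 tu))
      (sub_ne_zero.2 su)) ?_
    simp only [AlgHom.toLinearMap_apply, cj_eq, add_mul, sub_mul, smul_mul_assoc] at e1 e2 e3 ⊢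
    linear_combination (norm := module) ((r - t) * (r - u) * (t - u)) • e1 -
      ((r - s) * (r - u) * (s - u)) • e2 + ((r - s) * (r - t) * (s - t)) • e3
  have ind : ∀ {P : R → Prop}, P 0 → (∀ a b, P a → P b → P (a + b)) → (∀ s, ∀ a ∈ B s, P a) →
      ∀ a ∈ ⨆ s, B s, P a := fun {P} h0 h1 h a ha =>
    Submodule.iSup_induction B (motive := P) ha h h0 h1
  have h4 : ∀ a ∈ ⨆ s, B s, ∀ b ∈ ⨆ s, B s, ∀ c ∈ ⨆ s, B s, ∀ d ∈ ⨆ s, B s,
      a * (b * (c * d)) = 0 :=
    ind (by simp) (fun _ _ h h' b hb c hc d hd => by rw [add_mul, h b hb c hc d hd,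
      h' b hb c hc d hd, add_zero]) fun r a ha => ind (by simp) (fun _ _ h h' c hc d hd => by
        rw [add_mul, mul_add, h c hc d hd, h' c hc d hd, add_zero]) fun s b hb =>
      ind (by simp) (fun _ _ h h' d hd => by
        rw [add_mul, mul_add, mul_add, h d hd, h' d hd, add_zero]) fun t c hc =>
      ind (by simp) (fun _ _ h h' => by rw [mul_add, mul_add, mul_add, h, h', add_zero])
        fun u d hd => b4 r s t u a ha b hb c hc d hd
  have m : ∀ (t : k), ∀ a ∈ A, cj hx t a ∈ ⨆ s, B s := fun t a ha =>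
    Submodule.mem_iSup_of_mem t ⟨a, ha, rfl⟩
  have := ex_mem h2 h3 hb (fun s a ha => bb s a ha a ha) h4 (N := N)
    (by rintro s _ ⟨a, ha, rfl⟩; exact hN s a ha) (lead_le hx (fun a ha => ?_) (fun a ha => ?_)
      (fun a ha => ?_) hw)
  · simpa [ex, lead_mul hx aa hw hw] using this
  · simpa [cj_eq] using m 0 a ha
  · convert Submodule.smul_mem _ (2⁻¹ : k) (sub_mem (m 1 a ha) (m (-1) a ha)) using 1
    simp only [cj_eq]; match_scalars <;> field_simp <;> ring
  · convert Submodule.smul_mem _ (2⁻¹ : k) (sub_mem (add_mem (m 0 a ha) (m 0 a ha))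
      (add_mem (m 1 a ha) (m (-1) a ha))) using 1
    simp only [cj_eq]; match_scalars <;> field_simp <;> ring

end Cfsg.Agent.Loc.SubQ
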