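import Mathlib
import Cfsg.Agent.Loc.SubQExp
import Cfsg.Agent.Loc.BHBasic
import Cfsg.Agent.GT.PGroupChain

/-! Replacement of a quadratic subgroup of a `p`-group by a `2`-subnormal one, `p ≥ 5`. -/

set_option autoImplicit false

namespace Cfsg.Agent.Loc.SubQ

open Subgroup

variable {p : ℕ} [hp : Fact p.Prime] {G : Type*} [Group G]

/-- The upper central series of a representation. -/
def ser {k M : Type*} [Field k] [AddCommGroup M] [Module k M] (σ : Representation k G M) :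
    ℕ → Submodule k M
  | 0 => ⊥
  | i + 1 =>
    { carrier := {v | ∀ g, σ g v - v ∈ ser σ i}
      zero_mem' := fun g => by simp
      add_mem' := fun ha hb g => by
        rw [map_add, add_sub_add_comm]; exact add_mem (ha g) (hb g)
      smul_mem' := fun c a ha g => by
        rw [map_smul, ← smul_sub]; exact Submodule.smul_mem _ c (ha g) }

theorem ser_mono {k M : Type*} [Field k] [AddCommGroup M] [Module k M] (σ : Representation k G M) :
    ∀ i, ser σ i ≤ ser σ (i + 1)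
  | 0 => bot_le
  | i + 1 => fun _ h g => ser_mono σ i (h g)

theorem ser_top (hG : IsPGroup p G) {M : Type*} [AddCommGroup M] [Module (ZMod p) M] [Finite M]
    (σ : Representation (ZMod p) G M) : ∃ N, ser σ N = ⊤ := by
  obtain ⟨N, hN⟩ := WellFoundedGT.monotone_chain_condition
    ⟨ser σ, monotone_nat_of_le_succ (ser_mono σ)⟩
  refine ⟨N + 1, by_contra fun h => ?_⟩
  have e : ser σ (N + 1) = ser σ (N + 2) := 
    (hN (N + 1) (by omega)).symm.trans (hN (N + 2) (by omega))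
  have : Nontrivial (M ⧸ ser σ (N + 1)) := Submodule.Quotient.nontrivial_iff.2 h
  have : Finite (M ⧸ ser σ (N + 1)) := Finite.of_surjective _ (Submodule.mkQ_surjective _)
  obtain ⟨v, hv0, hv⟩ := BH.exists_fixed_ne_zero hG (σ.quotient (ser σ (N + 1)) fun g v hv => by
    have := add_mem (ser_mono σ N (hv g)) hv
    rwa [sub_add_cancel] at this)
  obtain ⟨u, rfl⟩ := Submodule.Quotient.mk_surjective _ v
  refine hv0 ((Submodule.Quotient.mk_eq_zero _).2 (e ▸ fun g => ?_))
  exact (Submodule.Quotient.eq _).1 (hv g)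

theorem exists_pair [Finite G] (hG : IsPGroup p G) {A : Subgroup G}
    (h : ∃ g, ∃ a ∈ A, g * a * g⁻¹ ∉ normalizer (A : Set G)) :
    ∃ b, (∃ g, ∃ a ∈ A, b = g * a * g⁻¹) ∧ b ∉ normalizer (A : Set G) ∧
      ∀ s ∈ zpowers b, ∀ a ∈ A, s * a * s⁻¹ ∈ normalizer (A : Set G) := by
  obtain ⟨g, a, ha, hn⟩ := h
  obtain ⟨b, ⟨hb, hb'⟩, hmin⟩ := Set.exists_min_image
    {b | (∃ g, ∃ a ∈ A, b = g * a * g⁻¹) ∧ b ∉ normalizer (A : Set G)}
    (fun b => Nat.card ↥(A ⊔ zpowers b)) (Set.toFinite _) ⟨_, ⟨g, a, ha, rfl⟩, hn⟩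
  refine ⟨b, hb, hb', fun s hs a ha => by_contra fun hh => ?_⟩
  obtain ⟨M, hM, hle⟩ := (eq_top_or_exists_le_coatom (A.subgroupOf (A ⊔ zpowers b))).resolve_left
    fun e => hb' (le_normalizer (subgroupOf_eq_top.1 e (mem_sup_right (mem_zpowers b))))
  have := GT.PG.normal_of_isCoatom (hG.to_subgroup _) hM
  have h1 : A ⊔ zpowers (s * a * s⁻¹) ≤ M.map (A ⊔ zpowers b).subtype :=
    sup_le (fun x hx => ⟨⟨x, mem_sup_left hx⟩, hle hx, rfl⟩) (zpowers_le.2
      ⟨_, this.conj_mem ⟨a, mem_sup_left ha⟩ (hle ha) ⟨s, mem_sup_right hs⟩, rfl⟩)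
  have h2 := (hmin _ ⟨⟨s, a, ha, rfl⟩, hh⟩).trans (card_le_of_le h1)
  rw [card_subtype] at h2
  exact hM.1 (eq_top_of_le_card _ h2)

variable {k R : Type*} [Field k] [Ring R] [Algebra k R]

/-- The right annihilator. -/
def rann (A : Submodule k R) : Submodule k R where
  carrier := {r | ∀ a ∈ A, a * r = 0}
  zero_mem' a _ := mul_zero a
  add_mem' ha hb a h := by rw [mul_add, ha a h, hb a h, add_zero]
  smul_mem' c r hr a h := by rw [mul_smul_comm, hr a h, smul_zero]

/-- A square-zero subspace coming from the group. -/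
structure Quad (ρ : G →* R) (A : Submodule k R) : Prop where
  sq : ∀ a ∈ A, ∀ b ∈ A, a * b = 0
  mem : ∀ a ∈ A, 1 + a ∈ MonoidHom.mrange ρ

theorem map_inv_eq {ρ : G →* R} {g : G} {y : R} (h : ρ g = 1 + y) (hy : y * y = 0) :
    ρ g⁻¹ = 1 - y := by
  have : (1 + y) * (1 - y) = 1 := by simp [mul_sub, add_mul, hy]
  rw [← h] at this
  exact left_inv_eq_right_inv (by rw [← map_mul, inv_mul_cancel, map_one]) this

/-- The subgroup of a square-zero subspace. -/
def Quad.grp {ρ : G →* R} {A : Submodule k R} (h : Quad ρ A) : Subgroup G where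
  carrier := {g | ρ g - 1 ∈ A}
  one_mem' := by simp
  mul_mem' {a b} ha hb := by
    have : ρ (a * b) - 1 = (ρ a - 1) + (ρ b - 1) + (ρ a - 1) * (ρ b - 1) := by
      rw [map_mul]; noncomm_ring
    change _ ∈ A
    rw [this, h.sq _ ha _ hb, add_zero]; exact add_mem ha hb
  inv_mem' {a} ha := by
    change _ ∈ A
    rw [map_inv_eq (add_sub_cancel 1 (ρ a)).symm (h.sq _ ha _ ha), sub_sub_cancel_left]
    exact neg_mem ha

theorem conj_sub_one (ρ : G →* R) (g a : G) :
    ρ (g * a * g⁻¹) - 1 = ρ g * (ρ a - 1) * ρ g⁻¹ := by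
  rw [mul_sub, sub_mul, mul_one, ← map_mul ρ g g⁻¹, mul_inv_cancel, map_one, map_mul, map_mul]

theorem Quad.norm_iff [Finite G] {ρ : G →* R} {A : Submodule k R} (h : Quad ρ A) {g : G} :
    g ∈ normalizer (h.grp : Set G) ↔ ∀ a ∈ A, ρ g * a * ρ g⁻¹ ∈ A := by
  refine ⟨fun hg a ha => ?_, fun hg => mem_normalizer_fintype fun a ha => ?_⟩
  · obtain ⟨c, hc⟩ := h.mem a ha
    have e : ρ c - 1 = a := by rw [hc, add_sub_cancel_left]
    rw [← e, ← conj_sub_one]
    exact (mem_normalizer_iff.1 hg c).1 (show ρ c - 1 ∈ A from e ▸ ha)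
  · change _ ∈ A
    rw [conj_sub_one]; exact hg _ ha

variable (k) in
/-- The conjugation representation. -/
def cjRep (ρ : G →* R) : Representation k G R where
  toFun g := LinearMap.mulLeft k (ρ g) ∘ₗ LinearMap.mulRight k (ρ g⁻¹)
  map_one' := by ext; simp
  map_mul' g h := by ext; simp [mul_assoc]

theorem exists_subnormal (h5 : 5 ≤ p) [Finite G] (hG : IsPGroup p G) [Algebra (ZMod p) R]
    [Finite R] (ρ : G →* R) {A₀ : Submodule (ZMod p) R} (h₀ : Quad ρ A₀) :
    ∃ (A : Submodule (ZMod p) R) (h : Quad ρ A), Nat.card A₀ ≤ Nat.card A ∧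
      Nat.card (rann A₀) ≤ Nat.card (rann A) ∧
      ∀ g, ∀ a ∈ h.grp, g * a * g⁻¹ ∈ normalizer (h.grp : Set G) := by
  have ne : ∀ n : ℕ, 0 < n → n < 5 → (n : ZMod p) ≠ 0 := fun n h0 h e =>
    absurd (Nat.le_of_dvd h0 ((ZMod.natCast_eq_zero_iff n p).1 e)) (by omega)
  have h2 : (2 : ZMod p) ≠ 0 := by exact_mod_cast ne 2 (by omega) (by omega)
  have h3 : (3 : ZMod p) ≠ 0 := by exact_mod_cast ne 3 (by omega) (by omega)
  set U := ser (cjRep (ZMod p) ρ)
  obtain ⟨N, hN⟩ : ∃ N, U N = ⊤ := ser_top hG _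
  obtain ⟨A, ⟨h, c1, c2⟩, hmax⟩ := Set.exists_max_image
    {A | Quad ρ A ∧ Nat.card A₀ ≤ Nat.card A ∧ Nat.card (rann A₀) ≤ Nat.card (rann A)}
    (fun A => ∑ i ∈ Finset.range (N + 1), Nat.card ↥(A ⊓ U i)) (Set.toFinite _)
    ⟨A₀, h₀, le_rfl, le_rfl⟩
  refine ⟨A, h, c1, c2, by_contra fun hh => ?_⟩
  push Not at hh
  obtain ⟨b, ⟨g, a, ha, hb⟩, hb', hn⟩ := exists_pair hG hh
  obtain ⟨x, hx⟩ : ∃ x, ρ b = 1 + x := ⟨_, (add_sub_cancel 1 (ρ b)).symm⟩
  have xx : x * x = 0 := by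
    have := conj_sub_one ρ g a
    rw [← hb, hx, add_sub_cancel_left] at this
    rw [this, mul_assoc, mul_assoc, ← mul_assoc (ρ g⁻¹), ← mul_assoc (ρ g⁻¹), ← map_mul,
      inv_mul_cancel, map_one, one_mul, ← mul_assoc (ρ a - 1), h.sq _ ha _ ha, zero_mul, mul_zero]
  have pw : ∀ t : ZMod p, ∃ s ∈ zpowers b, ∀ y, cj xx t y = ρ s * y * ρ s⁻¹ := fun t => by
    have e : ∀ n : ℕ, ρ (b ^ n) = 1 + (n : ZMod p) • x := fun n => by
      induction n with
      | zero => simp
      | succ n ih => rw [pow_succ, map_mul, ih, hx]; simp [mul_add, add_mul, xx, add_smul, add_assoc]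
    have e1 := e t.val
    rw [ZMod.natCast_zmod_val] at e1
    exact ⟨b ^ t.val, pow_mem (mem_zpowers b) _, fun y => by
      rw [map_inv_eq e1 (by simp [xx]), e1]; rfl⟩
  have pw' : ∀ t : ZMod p, ∀ c ∈ A, ∃ d ∈ normalizer (h.grp : Set G), ρ d = 1 + cj xx t c :=
    fun t c hc => by
      obtain ⟨s, hs, e⟩ := pw t
      obtain ⟨d, hd⟩ := h.mem c hc
      have e' : ρ d - 1 = c := by rw [hd, add_sub_cancel_left]
      refine ⟨_, hn s hs d (show ρ d - 1 ∈ A from e' ▸ hc), ?_⟩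
      rw [e, ← e', ← conj_sub_one, add_sub_cancel]
  have Q : Quad ρ (lead x A) := ⟨fun _ ha _ hb => lead_mul xx h.sq ha hb, fun _ =>
    lead_one_add (N := MonoidHom.mrange ρ) h2 h3 xx h.sq (fun t c hc d hd => by
      obtain ⟨s, hs, e⟩ := pw' t d hd
      rw [← map_inv_eq e (by rw [← map_mul, h.sq d hd d hd, map_zero]), ← e]
      exact h.norm_iff.1 hs c hc) fun t c hc => ⟨_, (pw' t c hc).choose_spec.2⟩⟩
  have u : ∀ i, ∀ a ∈ U (i + 1), x * a - a * x ∈ U i ∧ x * a * x ∈ U i := fun i a ha => by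
    have e1 : ρ b * (a * ρ b⁻¹) - a ∈ U i := ha b
    have e2 : ρ b⁻¹ * (a * ρ b⁻¹⁻¹) - a ∈ U i := ha b⁻¹
    rw [inv_inv] at e2
    rw [map_inv_eq hx xx, hx] at e1 e2
    constructor
    · convert (U i).smul_mem (2⁻¹ : ZMod p) (sub_mem e1 e2) using 1
      simp only [mul_add, add_mul, mul_sub, sub_mul, one_mul, mul_one]
      match_scalars <;> field_simp <;> ring
    · convert (U i).smul_mem (-2⁻¹ : ZMod p) (add_mem e1 e2) using 1
      simp only [mul_add, add_mul, mul_sub, sub_mul, one_mul, mul_one, mul_assoc]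
      match_scalars <;> field_simp <;> ring
  have le : ∀ i, Nat.card ↥(A ⊓ U i) ≤ Nat.card ↥(lead x A ⊓ U i) := fun i =>
    (card_le_lead xx _).trans (Submodule.card_le_of_le_aux (le_inf (lead_mono inf_le_left)
      (lead_le xx inf_le_right (fun a ha => by
        rcases i with _ | i
        · rw [(Submodule.mem_bot _).1 ha.2]; simp
        · exact ser_mono _ i (u i a ha.2).1) fun a ha => by
        rcases i with _ | i
        · rw [(Submodule.mem_bot _).1 ha.2]; simp
        · exact ser_mono _ i (u i a ha.2).2)))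
  have eq := (Finset.sum_eq_sum_iff_of_le fun i _ => le i).1 (le_antisymm
    (Finset.sum_le_sum fun i _ => le i) (hmax _ ⟨Q, c1.trans (card_le_lead xx A), c2.trans
      ((card_le_lead xx _).trans (Submodule.card_le_of_le_aux fun r hr a ha =>
        lead_mul xx (W := rann A) (fun a ha r hr => hr a ha) ha hr))⟩))
  have inv := inv_of_card xx (A := A) (U := U) rfl (ser_mono _) (fun i a ha => (u i a ha).1)
    (fun i a ha => (u i a ha).2) (fun i => by
      rcases le_or_gt i N with hi | hi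
      · exact (eq i (Finset.mem_range.2 (by omega))).ge
      · have e : U i = U N := by
          rw [hN, eq_top_iff, ← hN]; exact monotone_nat_of_le_succ (ser_mono _) hi.le
        rw [e]; exact (eq N (Finset.mem_range.2 (by omega))).ge) N
  rw [hN, inf_top_eq] at inv
  refine hb' (h.norm_iff.2 fun c hc => ?_)
  convert sub_mem (add_mem hc (inv c hc).1) (inv c hc).2 using 1
  rw [map_inv_eq hx xx, hx]; noncomm_ring
where Submodule.card_le_of_le_aux {U W : Submodule (ZMod p) R} (h : U ≤ W) :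
    Nat.card U ≤ Nat.card W :=
  Nat.card_le_card_of_injective _ (Submodule.inclusion_injective h)

theorem card_rann {V : Type*} [AddCommGroup V] [Module k V] [Finite k] [Finite V]
    (A : Submodule k (Module.End k V)) {C : Submodule k V} (hC : ∀ v, v ∈ C ↔ ∀ a ∈ A, a v = 0) :
    Nat.card (rann A) = Nat.card C ^ Module.finrank k V := by
  have : Nat.card (rann A) = Nat.card (V →ₗ[k] C) := Nat.card_congr
    ⟨fun r => r.1.codRestrict C fun v => (hC _).2 fun a ha => LinearMap.congr_fun (r.2 a ha) v,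
      fun f => ⟨C.subtype ∘ₗ f, fun a ha => LinearMap.ext fun v => (hC _).1 (f v).2 a ha⟩,
      fun _ => rfl, fun _ => rfl⟩
  rw [this, Module.natCard_eq_pow_finrank (K := k), Module.finrank_linearMap,
    Module.natCard_eq_pow_finrank (K := k) (V := C), ← pow_mul, mul_comm]

end Cfsg.Agent.Loc.SubQ
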