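import Mathlib
import Cfsg.Agent.Perm.ZassElem

/-!
# Bender's involution count for a TI-subgroup: basic facts

`TIH M z`: `M` is a nontrivial TI-subgroup with `N(M) = M C_{N(M)}(z)` and no involution centralising
a nontrivial element of `M`.  `Star M`: every coset `g M` outside `N(M)` contains an involution.
-/

set_option autoImplicit false

namespace Cfsg.Agent.Loc.H78

open Cfsg.Agent.Perm.Zass

variable {G : Type*} [Group G]

/-- The hypotheses of the involution count. -/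
structure TIH (M : Subgroup G) (z : G) : Prop where
  ne : M ≠ ⊥
  ti : ∀ g x : G, x ∈ M → x ≠ 1 → g * x * g⁻¹ ∈ M → g ∈ Subgroup.normalizer (M : Set G)
  zz : z * z = 1
  z1 : z ≠ 1
  zN : z ∈ Subgroup.normalizer (M : Set G)
  fac : ∀ n ∈ Subgroup.normalizer (M : Set G), ∃ x ∈ M, ∃ k ∈ Subgroup.normalizer (M : Set G),
    k * z = z * k ∧ n = x * k
  odd : ∀ x ∈ M, ∀ t : G, t * t = 1 → t * x = x * t → x = 1 ∨ t = 1

/-- Every coset of `M` outside the normaliser contains an involution. -/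
def Star (M : Subgroup G) : Prop :=
  ∀ g : G, g ∉ Subgroup.normalizer (M : Set G) → ∃ x ∈ M, g * x * (g * x) = 1

theorem ti_conj_mem {M : Subgroup G} {n x : G} (hn : n ∈ Subgroup.normalizer (M : Set G))
    (hx : x ∈ M) : n * x * n⁻¹ ∈ M := (Subgroup.mem_normalizer_iff.1 hn x).1 hx

theorem ti_conj_mem' {M : Subgroup G} {n x : G} (hn : n ∈ Subgroup.normalizer (M : Set G))
    (hx : x ∈ M) : n⁻¹ * x * n ∈ M := by
  simpa using ti_conj_mem (inv_mem hn) hx

namespace TIH

variable {M : Subgroup G} {z : G} (h : TIH M z)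
include h

theorem exists_ne_one : ∃ x ∈ M, x ≠ 1 := by
  by_contra hc
  push Not at hc
  exact h.ne ((Subgroup.eq_bot_iff_forall _).2 hc)

theorem eq_one_of_sq {x : G} (hx : x ∈ M) (h2 : x * x = 1) : x = 1 := by
  rcases h.odd x hx x h2 rfl with e | e <;> exact e

theorem eq_one_of_comm {x t : G} (hx : x ∈ M) (ht : t * t = 1) (ht1 : t ≠ 1) (hc : t * x = x * t) :
    x = 1 := (h.odd x hx t ht hc).resolve_right ht1

theorem z_not_mem : z ∉ M := fun hz => h.z1 (h.eq_one_of_sq hz h.zz)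

theorem zinv : z⁻¹ = z := inv_eq_self_of_mul_self h.zz

variable [Finite G]

theorem inverts {t x : G} (ht : t * t = 1) (ht1 : t ≠ 1) (htN : t ∈ Subgroup.normalizer (M : Set G))
    (hx : x ∈ M) : t * x * t⁻¹ = x⁻¹ :=
  conj_eq_inv_of_fpf ht (fun _ hy => ti_conj_mem htN hy) (fun _ hy hc => h.eq_one_of_comm hy ht ht1 hc) hx

theorem zx {x : G} (hx : x ∈ M) : z * x = x⁻¹ * z := by
  rw [← h.inverts h.zz h.z1 h.zN hx]; group

theorem xz {x : G} (hx : x ∈ M) : x * z = z * x⁻¹ := by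
  rw [h.zx (inv_mem hx), inv_inv]

theorem comm {x y : G} (hx : x ∈ M) (hy : y ∈ M) : x * y = y * x :=
  mul_comm_of_conj_eq_inv (fun _ hu => h.inverts h.zz h.z1 h.zN hu) hx hy

theorem sq_inj {x y : G} (hx : x ∈ M) (hy : y ∈ M) (e : x * x = y * y) : x = y := by
  have h1 : x * y⁻¹ * (x * y⁻¹) = 1 := by
    have := h.comm (inv_mem hy) hx
    calc x * y⁻¹ * (x * y⁻¹) = x * (y⁻¹ * x) * y⁻¹ := by group
      _ = x * x * (y * y)⁻¹ := by rw [this]; group
      _ = 1 := by rw [e]; group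
  have := h.eq_one_of_sq (mul_mem hx (inv_mem hy)) h1
  exact mul_inv_eq_one.1 this

theorem exists_sq {x : G} (hx : x ∈ M) : ∃ y ∈ M, y * y = x := by
  have hinj : Function.Injective (fun y : M => y * y) := fun a b e =>
    Subtype.ext (h.sq_inj a.2 b.2 (congrArg Subtype.val e))
  obtain ⟨y, hy⟩ := (Finite.injective_iff_surjective.1 hinj) ⟨x, hx⟩
  exact ⟨y, y.2, congrArg Subtype.val hy⟩

theorem odd_card : Odd (Nat.card M) := by
  rw [← Nat.not_even_iff_odd]
  intro he
  haveI : Fact (Nat.Prime 2) := ⟨Nat.prime_two⟩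
  obtain ⟨x, hx⟩ := exists_prime_orderOf_dvd_card' 2 (even_iff_two_dvd.1 he)
  rw [orderOf_eq_two_iff'] at hx
  exact hx.2 (Subtype.ext (h.eq_one_of_sq x.2 (congrArg Subtype.val hx.1)))

theorem three_le_card : 3 ≤ Nat.card M := by
  have h1 := h.odd_card
  have h2 : 1 < Nat.card M := (Subgroup.one_lt_card_iff_ne_bot _).2 h.ne
  obtain ⟨k, hk⟩ := h1
  omega

/-- An involution of `N(M)` lies in `M z`. -/
theorem mul_z_mem {t : G} (ht : t * t = 1) (ht1 : t ≠ 1) (htN : t ∈ Subgroup.normalizer (M : Set G)) :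
    t * z ∈ M := by
  obtain ⟨x, hx, k, hk, hkz, rfl⟩ := h.fac t htN
  have hkk : k * k ∈ M := by
    have e : k * k = (k * x⁻¹ * k⁻¹) * x⁻¹ := by
      have : k * x * k = x⁻¹ := by
        calc k * x * k = x⁻¹ * (x * k * (x * k)) := by group
          _ = x⁻¹ := by rw [ht, mul_one]
      calc k * k = k * x⁻¹ * k⁻¹ * (k * x * k) := by group
        _ = _ := by rw [this]
    rw [e]
    exact mul_mem (ti_conj_mem hk (inv_mem hx)) (inv_mem hx)
  have hk2 : k * k = 1 := h.eq_one_of_comm hkk h.zz h.z1 (by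
    calc z * (k * k) = (z * k) * k := by group
      _ = k * (k * z) := by rw [← hkz, mul_assoc, ← hkz]
      _ = k * k * z := by group)
  have hu : k * z * (k * z) = 1 := by
    calc k * z * (k * z) = k * (z * k) * z := by group
      _ = k * k * (z * z) := by rw [← hkz]; group
      _ = 1 := by rw [hk2, h.zz, one_mul]
  obtain ⟨y, hy, hy1⟩ := h.exists_ne_one
  have h1 := h.inverts ht ht1 htN (inv_mem hy)
  have h2 : k * z * y = y * (k * z) := by
    have h3 : k * y⁻¹ * k⁻¹ = y := by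
      have h4 := h.comm (inv_mem hx) hy
      calc k * y⁻¹ * k⁻¹ = x⁻¹ * (x * k * y⁻¹ * (x * k)⁻¹) * x := by group
        _ = x⁻¹ * y * x := by rw [h1, inv_inv]
        _ = y := by rw [h4]; group
    calc k * z * y = k * (z * y) := by group
      _ = k * y⁻¹ * k⁻¹ * (k * z) := by rw [h.zx hy]; group
      _ = y * (k * z) := by rw [h3]
  rcases h.odd y hy _ hu h2 with e | e
  · exact absurd e hy1
  · rw [mul_assoc, e, mul_one]; exact hx

theorem xz_sq {x : G} (hx : x ∈ M) : x * z * (x * z) = 1 := by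
  calc x * z * (x * z) = x * (z * x) * z := by group
    _ = z * z := by rw [h.zx hx]; group
    _ = 1 := h.zz

theorem xz_ne {x : G} (hx : x ∈ M) : x * z ≠ 1 := fun e =>
  h.z_not_mem (by rw [eq_inv_of_mul_eq_one_right e]; exact inv_mem hx)

theorem conj_z {y : G} (hy : y ∈ M) : y * z * y⁻¹ = y * y * z := by
  rw [mul_assoc, ← h.xz hy]; group

theorem exists_conj_xz {x : G} (hx : x ∈ M) : ∃ y ∈ M, y * z * y⁻¹ = x * z := by
  obtain ⟨y, hy, rfl⟩ := h.exists_sq hx
  exact ⟨y, hy, h.conj_z hy⟩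

/-- An involution of `N(M)` is conjugate to `z` under `M`. -/
theorem exists_conj {t : G} (ht : t * t = 1) (ht1 : t ≠ 1)
    (htN : t ∈ Subgroup.normalizer (M : Set G)) : ∃ y ∈ M, y * z * y⁻¹ = t := by
  obtain ⟨y, hy, e⟩ := h.exists_conj_xz (h.mul_z_mem ht ht1 htN)
  exact ⟨y, hy, by rw [e, mul_assoc, h.zz, mul_one]⟩

omit [Finite G] in
/-- A coset outside the normaliser contains at most one involution. -/
theorem coset_unique {g x y : G} (hg : g ∉ Subgroup.normalizer (M : Set G)) (hx : x ∈ M) (hy : y ∈ M)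
    (h1 : g * x * (g * x) = 1) (h2 : g * y * (g * y) = 1) : x = y := by
  by_contra hne
  have hw : x⁻¹ * y ∈ M := mul_mem (inv_mem hx) hy
  have hw1 : x⁻¹ * y ≠ 1 := fun e => hne (inv_mul_eq_one.1 e)
  have e : g * x * (x⁻¹ * y) * (g * x)⁻¹ = (x⁻¹ * y)⁻¹ := by
    rw [inv_eq_self_of_mul_self h1]
    calc g * x * (x⁻¹ * y) * (g * x) = g * y * (g * y) * (x⁻¹ * y)⁻¹ := by group
      _ = _ := by rw [h2, one_mul]
  have := h.ti _ _ hw hw1 (e ▸ inv_mem hw)
  exact hg (by simpa using mul_mem this (inv_mem (Subgroup.le_normalizer hx)))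

theorem card_invol_norm :
    Nat.card {t : G // (t * t = 1 ∧ t ≠ 1) ∧ t ∈ Subgroup.normalizer (M : Set G)} = Nat.card M := by
  symm
  refine Nat.card_congr (Equiv.ofBijective (fun x : M => ⟨x * z, ⟨h.xz_sq x.2, h.xz_ne x.2⟩,
    mul_mem (Subgroup.le_normalizer x.2) h.zN⟩) ⟨fun a b e => ?_, fun t => ?_⟩)
  · exact Subtype.ext (mul_right_cancel (congrArg Subtype.val e))
  · exact ⟨⟨t * z, h.mul_z_mem t.2.1.1 t.2.1.2 t.2.2⟩, Subtype.ext (by
      simp only [mul_assoc, h.zz, mul_one])⟩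

/-- Bender's count: if there are more involutions than cosets, each coset outside `N(M)` has one. -/
theorem star (hi : M.index < Nat.card {g : G // orderOf g = 2}) : Star M := by
  intro g hg
  by_contra hc
  push Not at hc
  refine absurd hi (not_lt.2 ?_)
  classical
  let f : {g : G // orderOf g = 2} → G ⧸ M := fun t =>
    if (t : G) ∈ Subgroup.normalizer (M : Set G) then ((t * z * g : G) : G ⧸ M) else ((t : G) : G ⧸ M)
  have key : ∀ s t : {g : G // orderOf g = 2}, (s : G) ∈ Subgroup.normalizer (M : Set G) →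
      (t : G) ∉ Subgroup.normalizer (M : Set G) → ((s * z * g : G) : G ⧸ M) ≠ ((t : G) : G ⧸ M) := by
    intro s t hs ht e
    have hs2 := orderOf_eq_two_iff'.1 s.2
    have ht2 := orderOf_eq_two_iff'.1 t.2
    have hx := h.mul_z_mem hs2.1 hs2.2 hs
    rw [QuotientGroup.eq] at e
    refine hc _ (mul_mem e hx) ?_
    have : g * ((↑s * z * g)⁻¹ * ↑t * (↑s * z)) = (s * z)⁻¹ * t * (s * z)⁻¹⁻¹ := by group
    rw [this]
    exact conj_mul_self ht2.1
  have hinj : Function.Injective f := by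
    intro s t e
    have hs2 := orderOf_eq_two_iff'.1 s.2
    have ht2 := orderOf_eq_two_iff'.1 t.2
    by_cases hs : (s : G) ∈ Subgroup.normalizer (M : Set G) <;>
      by_cases ht : (t : G) ∈ Subgroup.normalizer (M : Set G) <;> simp only [f, hs, ht, if_true, if_false] at e
    · rw [QuotientGroup.eq] at e
      have hx := h.mul_z_mem hs2.1 hs2.2 hs
      have hy := h.mul_z_mem ht2.1 ht2.2 ht
      by_contra hne
      have h1 : ((s : G) * z)⁻¹ * (t * z) ≠ 1 := fun e' =>
        hne (Subtype.ext (mul_right_cancel (inv_mul_eq_one.1 e')))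
      have := h.ti g⁻¹ _ (mul_mem (inv_mem hx) hy) h1 (by
        have e2 : g⁻¹ * (((s : G) * z)⁻¹ * (t * z)) * g⁻¹⁻¹ = ((s : G) * z * g)⁻¹ * (t * z * g) := by group
        rw [e2]; exact e)
      exact hg (by simpa using inv_mem this)
    · exact absurd e (key s t hs ht)
    · exact absurd e.symm (key t s ht hs)
    · rw [QuotientGroup.eq] at e
      have := h.coset_unique hs (one_mem M) e (by simpa using hs2.1) (by simpa using ht2.1)
      exact Subtype.ext (inv_mul_eq_one.1 this.symm)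
  exact Nat.card_le_card_of_injective f hinj

section Star

variable (hs : Star M)
include hs

omit [Finite G] in
theorem card_eq_out : Nat.card {g : G // g ∉ Subgroup.normalizer (M : Set G)} =
    Nat.card {t : G // t * t = 1 ∧ t ∉ Subgroup.normalizer (M : Set G)} * Nat.card M := by
  rw [← Nat.card_prod]
  symm
  refine Nat.card_congr (Equiv.ofBijective (fun p => ⟨p.1.1 * p.2.1, fun e => p.1.2.2 (by
    simpa using mul_mem e (inv_mem (Subgroup.le_normalizer p.2.2)))⟩) ⟨?_, ?_⟩)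
  · rintro ⟨⟨s, hs1, hs2⟩, ⟨x, hx⟩⟩ ⟨⟨t, ht1, ht2⟩, ⟨y, hy⟩⟩ e
    have e : s * x = t * y := congrArg Subtype.val e
    have e2 : s * (x * y⁻¹) = t := by rw [← mul_assoc, e]; group
    have := h.coset_unique hs2 (one_mem M) (mul_mem hx (inv_mem hy)) (by simpa using hs1)
      (by rw [e2]; exact ht1)
    have e3 : x = y := mul_inv_eq_one.1 this.symm
    subst e3
    have e4 : s = t := mul_right_cancel e
    subst e4
    rfl
  · rintro ⟨g, hg⟩
    obtain ⟨x, hx, e⟩ := hs g hg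
    exact ⟨⟨⟨g * x, e, fun e' => hg (by
      simpa using mul_mem e' (inv_mem (Subgroup.le_normalizer hx)))⟩, ⟨x⁻¹, inv_mem hx⟩⟩,
      Subtype.ext (by simp)⟩

/-- Every element of `C(z)` outside `N(M)` is an involution. -/
theorem sq_of_comm {g : G} (hg : g ∉ Subgroup.normalizer (M : Set G)) (hc : g * z = z * g) :
    g * g = 1 := by
  obtain ⟨x, hx, e⟩ := hs g hg
  have e2 : z * (g * x) * z⁻¹ = g * x⁻¹ := by
    calc z * (g * x) * z⁻¹ = (z * g) * x * z⁻¹ := by group
      _ = g * (z * x) * z⁻¹ := by rw [← hc]; group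
      _ = _ := by rw [h.zx hx]; group
  have := h.coset_unique hg hx (inv_mem hx) e (e2 ▸ conj_mul_self e)
  have h1 : x = 1 := h.eq_one_of_sq hx (by nth_rewrite 2 [this]; group)
  simpa [h1] using e

/-- An involution outside `N(M)` is conjugate under `M` into `C(z)`. -/
theorem exists_conj_comm {t : G} (ht : t * t = 1) (htN : t ∉ Subgroup.normalizer (M : Set G)) :
    ∃ y ∈ M, y⁻¹ * t * y * z = z * (y⁻¹ * t * y) := by
  have h1 : t * z ∉ Subgroup.normalizer (M : Set G) := fun e => htN (by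
    simpa using mul_mem e (inv_mem h.zN))
  obtain ⟨x, hx, e⟩ := hs _ h1
  obtain ⟨y, hy, e2⟩ := h.exists_conj_xz (inv_mem hx)
  rw [← h.zx hx] at e2
  refine ⟨y, hy, ?_⟩
  have e3 : z * x * (z * x) = 1 := by rw [h.zx hx]; exact h.xz_sq (inv_mem hx)
  have e4 : t * (z * x) = z * x * t := by
    calc t * (z * x) = (t * (z * x))⁻¹ := (inv_eq_self_of_mul_self (by simpa [mul_assoc] using e)).symm
      _ = (z * x)⁻¹ * t⁻¹ := mul_inv_rev _ _
      _ = _ := by rw [inv_eq_self_of_mul_self e3, inv_eq_self_of_mul_self ht]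
  rw [← e2] at e4
  calc y⁻¹ * t * y * z = y⁻¹ * (t * (y * z * y⁻¹)) * y := by group
    _ = _ := by rw [e4]; group

omit hs in
theorem conj_comm_unique {s t x y : G} (hs1 : s * s = 1) (hsN : s ∉ Subgroup.normalizer (M : Set G))
    (hsz : s * z = z * s) (htz : t * z = z * t) (hx : x ∈ M) (hy : y ∈ M)
    (e : x * s * x⁻¹ = y * t * y⁻¹) : x = y := by
  -- `s` commutes with `z` and with `w z w⁻¹`, `w = x⁻¹ y`
  set w := x⁻¹ * y with hw
  have hwM : w ∈ M := mul_mem (inv_mem hx) hy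
  have e1 : s = w * t * w⁻¹ := by
    calc s = x⁻¹ * (x * s * x⁻¹) * x := by group
      _ = _ := by rw [e, hw]; group
  have e2 : s * (w * w * z) = w * w * z * s := by
    rw [← h.conj_z hwM, e1]
    calc w * t * w⁻¹ * (w * z * w⁻¹) = w * (t * z) * w⁻¹ := by group
      _ = _ := by rw [htz]; group
  have e3 : s * (w * w) = w * w * s := by
    calc s * (w * w) = s * (w * w * z) * z⁻¹ := by group
      _ = w * w * (z * s) * z⁻¹ := by rw [e2]; group
      _ = _ := by rw [← hsz]; group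
  have hs0 : s ≠ 1 := fun e' => hsN (e' ▸ one_mem _)
  have := h.eq_one_of_sq hwM (h.eq_one_of_comm (mul_mem hwM hwM) hs1 hs0 e3)
  exact inv_mul_eq_one.1 this

/-- Involutions outside `N(M)` with an `M`-invariant property are counted inside `C(z)`. -/
theorem card_out (P : G → Prop) (hP : ∀ x ∈ M, ∀ g, P g → P (x * g * x⁻¹)) :
    Nat.card {t : G // (t * t = 1 ∧ t ∉ Subgroup.normalizer (M : Set G)) ∧ P t} =
      Nat.card M * Nat.card {t : G // (t * z = z * t ∧ t ∉ Subgroup.normalizer (M : Set G)) ∧ P t} := by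
  rw [← Nat.card_prod]
  symm
  have hN : ∀ x ∈ M, ∀ t, t ∉ Subgroup.normalizer (M : Set G) →
      x * t * x⁻¹ ∉ Subgroup.normalizer (M : Set G) := fun x hx t ht e => ht (by
    have h1 := Subgroup.le_normalizer hx
    simpa [mul_assoc] using mul_mem (mul_mem (inv_mem h1) e) h1)
  refine Nat.card_congr (Equiv.ofBijective (fun p => ⟨p.1.1 * p.2.1 * p.1.1⁻¹,
    ⟨conj_mul_self (h.sq_of_comm hs p.2.2.1.2 p.2.2.1.1), hN _ p.1.2 _ p.2.2.1.2⟩,
    hP _ p.1.2 _ p.2.2.2⟩) ⟨?_, ?_⟩)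
  · rintro ⟨⟨x, hx⟩, ⟨s, ⟨hs1, hs2⟩, hs3⟩⟩ ⟨⟨y, hy⟩, ⟨t, ⟨ht1, ht2⟩, ht3⟩⟩ e
    have e : x * s * x⁻¹ = y * t * y⁻¹ := congrArg Subtype.val e
    have e2 := h.conj_comm_unique (h.sq_of_comm hs hs2 hs1) hs2 hs1 ht1 hx hy e
    subst e2
    have e3 : s = t := mul_left_cancel (mul_right_cancel e)
    subst e3
    rfl
  · rintro ⟨t, ⟨ht1, ht2⟩, ht3⟩
    obtain ⟨y, hy, e⟩ := h.exists_conj_comm hs ht1 ht2
    refine ⟨⟨⟨y, hy⟩, ⟨y⁻¹ * t * y, ⟨e, ?_⟩, ?_⟩⟩, Subtype.ext (by simp [mul_assoc])⟩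
    · simpa using hN _ (inv_mem hy) _ ht2
    · simpa using hP _ (inv_mem hy) _ ht3

theorem exists_out (hn : ¬ M.Normal) :
    ∃ t : G, t * z = z * t ∧ t ∉ Subgroup.normalizer (M : Set G) := by
  have : ∃ g, g ∉ Subgroup.normalizer (M : Set G) := by
    by_contra hc
    push Not at hc
    exact hn (Subgroup.normalizer_eq_top_iff.1 (eq_top_iff.2 fun g _ => hc g))
  obtain ⟨g, hg⟩ := this
  obtain ⟨x, hx, e⟩ := hs g hg
  have h1 : g * x ∉ Subgroup.normalizer (M : Set G) := fun e' => hg (by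
    simpa using mul_mem e' (inv_mem (Subgroup.le_normalizer hx)))
  obtain ⟨y, hy, e2⟩ := h.exists_conj_comm hs e h1
  refine ⟨_, e2, fun e' => h1 ?_⟩
  have h2 := Subgroup.le_normalizer hy
  simpa [mul_assoc] using mul_mem (mul_mem h2 e') (inv_mem h2)

/-- An element of `C(z)` outside `N(M)` inverts `C_{N(M)}(z)`. -/
theorem inverts_K {t k : G} (htz : t * z = z * t) (htN : t ∉ Subgroup.normalizer (M : Set G))
    (hkz : k * z = z * k) (hkN : k ∈ Subgroup.normalizer (M : Set G)) : t * k * t⁻¹ = k⁻¹ := by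
  have h1 := h.sq_of_comm hs htN htz
  have h2 := h.sq_of_comm hs (g := t * k) (fun e => htN (by simpa using mul_mem e (inv_mem hkN))) (by
    rw [mul_assoc, hkz, ← mul_assoc, htz, mul_assoc])
  rw [inv_eq_self_of_mul_self h1]
  calc t * k * t = t * k * (t * k) * k⁻¹ := by group
    _ = _ := by rw [h2, one_mul]

end Star

end TIH

end Cfsg.Agent.Loc.H78
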