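import Mathlib
import Cfsg.Agent.Loc.TICountA
import Cfsg.Agent.Ch.Orthogonality
import Cfsg.Agent.Cl.PSL2Struct
import Cfsg.Agent.S1230

/-!
# Bender's involution count: the case `C_{N(M)}(z) = ⟨z⟩`; counting and the `L₂(2^e)` case
-/

set_option autoImplicit false

namespace Cfsg.Agent.Loc.H78

open Cfsg.Agent.Perm.Zass
open scoped MatrixGroups

variable {G : Type*} [Group G]

theorem ti_card_split {α : Type*} [Finite α] (P Q : α → Prop) :
    Nat.card {x // P x} = Nat.card {x // P x ∧ Q x} + Nat.card {x // P x ∧ ¬ Q x} := by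
  classical
  rw [← Nat.card_sum]
  exact Nat.card_congr ((Equiv.sumCompl (fun x : {x // P x} => Q x)).symm.trans
    (Equiv.sumCongr (Equiv.subtypeSubtypeEquivSubtypeInter P Q)
      (Equiv.subtypeSubtypeEquivSubtypeInter P (fun x => ¬ Q x))))

theorem ti_card_congr {α : Type*} {P Q : α → Prop} (h : ∀ x, P x ↔ Q x) :
    Nat.card {x // P x} = Nat.card {x // Q x} := Nat.card_congr (Equiv.subtypeEquivRight h)

theorem ti_comm_of_sq {u v : G} (hu : u * u = 1) (hv : v * v = 1) (huv : u * v * (u * v) = 1) :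
    u * v = v * u := by
  calc u * v = (u * v)⁻¹ := (inv_eq_self_of_mul_self huv).symm
    _ = v⁻¹ * u⁻¹ := mul_inv_rev _ _
    _ = _ := by rw [inv_eq_self_of_mul_self hu, inv_eq_self_of_mul_self hv]

/-- The case `C_{N(M)}(z) = ⟨z⟩`. -/
def SmallK (M : Subgroup G) (z : G) : Prop :=
  ∀ k : G, k * z = z * k → k ∈ Subgroup.normalizer (M : Set G) → k = 1 ∨ k = z

/-- Number of elements of `C(z)` outside `N(M)`. -/
noncomputable def nOut (M : Subgroup G) (z : G) : ℕ :=
  Nat.card {t : G // t * z = z * t ∧ t ∉ Subgroup.normalizer (M : Set G)}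

/-- Number of conjugates of `z` in `C(z)` outside `N(M)`. -/
noncomputable def nConj (M : Subgroup G) (z : G) : ℕ :=
  Nat.card {t : G // (t * z = z * t ∧ t ∉ Subgroup.normalizer (M : Set G)) ∧ IsConj z t}

/-- Number of non-conjugates of `z` in `C(z)` outside `N(M)`. -/
noncomputable def nNon (M : Subgroup G) (z : G) : ℕ :=
  Nat.card {t : G // (t * z = z * t ∧ t ∉ Subgroup.normalizer (M : Set G)) ∧ ¬ IsConj z t}

theorem nOut_eq [Finite G] (M : Subgroup G) (z : G) : nOut M z = nConj M z + nNon M z :=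
  ti_card_split _ _

namespace TIH

variable {M : Subgroup G} {z : G} (h : TIH M z) [Finite G]
include h

theorem smallK (hs : Star M) {s t : G} (htz : t * z = z * t)
    (htN : t ∉ Subgroup.normalizer (M : Set G)) (hsz : s * z = z * s)
    (hsN : s ∉ Subgroup.normalizer (M : Set G)) (hts : t * s ∉ Subgroup.normalizer (M : Set G)) :
    SmallK M z := by
  intro k hkz hkN
  have h1 := h.inverts_K hs htz htN hkz hkN
  have h2 := h.inverts_K hs hsz hsN hkz hkN
  have h3 := h.inverts_K hs (t := t * s) (by rw [mul_assoc, hsz, ← mul_assoc, htz, mul_assoc]) hts hkz hkN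
  have h4 : k = k⁻¹ := by
    calc k = (t * k * t⁻¹)⁻¹⁻¹⁻¹ := by rw [h1]; group
      _ = t * (s * k * s⁻¹) * t⁻¹ := by rw [h2]; group
      _ = _ := by rw [← h3]; group
  have h5 : k * k = 1 := by nth_rewrite 2 [h4]; group
  by_cases hk : k = 1
  · exact Or.inl hk
  · right
    have h6 := h.mul_z_mem h5 hk hkN
    have h7 := h.eq_one_of_comm h6 h.zz h.z1 (by rw [← mul_assoc, hkz])
    rw [← h.zinv]
    exact eq_inv_of_mul_eq_one_left h7

omit [Finite G] in
theorem conj_sq {w : G} (hw : IsConj z w) : w * w = 1 ∧ w ≠ 1 := by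
  obtain ⟨g, rfl⟩ := isConj_iff.1 hw
  exact ⟨conj_mul_self h.zz, conj_ne_one h.z1⟩

theorem isConj_of_mem {t : G} (ht : t * t = 1) (ht1 : t ≠ 1)
    (htN : t ∈ Subgroup.normalizer (M : Set G)) : IsConj z t := by
  obtain ⟨y, -, e⟩ := h.exists_conj ht ht1 htN
  exact isConj_iff.2 ⟨y, e⟩

variable (hs : Star M) (hK : SmallK M z)
include hs hK

theorem sq_C {g : G} (hg : g * z = z * g) : g * g = 1 := by
  by_cases hN : g ∈ Subgroup.normalizer (M : Set G)
  · rcases hK g hg hN with rfl | rfl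
    · simp
    · exact h.zz
  · exact h.sq_of_comm hs hN hg

theorem sq_conj {w u : G} (hw : IsConj z w) (hu : u * w = w * u) : u * u = 1 := by
  obtain ⟨g, rfl⟩ := isConj_iff.1 hw
  have := h.sq_C hs hK (g := g⁻¹ * u * g) (by
    calc g⁻¹ * u * g * z = g⁻¹ * (u * (g * z * g⁻¹)) * g := by group
      _ = _ := by rw [hu]; group)
  calc u * u = g * (g⁻¹ * u * g * (g⁻¹ * u * g)) * g⁻¹ := by group
    _ = 1 := by rw [this]; group

theorem comm_conj {w u v : G} (hw : IsConj z w) (hu : u * w = w * u) (hv : v * w = w * v) :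
    u * v = v * u :=
  ti_comm_of_sq (h.sq_conj hs hK hw hu) (h.sq_conj hs hK hw hv) (h.sq_conj hs hK hw (by
    rw [mul_assoc, hv, ← mul_assoc, hu, mul_assoc]))

omit hs in
theorem card_N : Nat.card (Subgroup.normalizer (M : Set G)) = 2 * Nat.card M := by
  rw [two_mul, ← Nat.card_sum]
  symm
  refine Nat.card_congr (Equiv.ofBijective (Sum.elim
    (fun x : M => (⟨x, Subgroup.le_normalizer x.2⟩ : Subgroup.normalizer (M : Set G)))
    (fun x : M => ⟨x * z, mul_mem (Subgroup.le_normalizer x.2) h.zN⟩)) ⟨?_, ?_⟩)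
  · have key : ∀ x y : M, (x : G) ≠ y * z := fun x y e => h.z_not_mem (by
      have : z = (y : G)⁻¹ * x := by rw [e]; group
      rw [this]; exact mul_mem (inv_mem y.2) x.2)
    rintro (x | x) (y | y) e
    · have e' : (x : G) = y := congrArg (fun n : Subgroup.normalizer (M : Set G) => (n : G)) e
      exact congrArg _ (Subtype.ext e')
    · exact absurd (congrArg Subtype.val e) (key x y)
    · exact absurd (congrArg Subtype.val e).symm (key y x)
    · have e' : (x : G) * z = y * z := congrArg Subtype.val e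
      exact congrArg _ (Subtype.ext (mul_right_cancel e'))
  · rintro ⟨n, hn⟩
    obtain ⟨x, hx, k, hk, hkz, rfl⟩ := h.fac n hn
    rcases hK k hkz hk with rfl | rfl
    · exact ⟨Sum.inl ⟨x, hx⟩, Subtype.ext (by simp)⟩
    · exact ⟨Sum.inr ⟨x, hx⟩, rfl⟩

omit hs in
theorem card_C : Nat.card (Subgroup.centralizer ({z} : Set G)) = nOut M z + 2 := by
  have e1 : Nat.card (Subgroup.centralizer ({z} : Set G)) = Nat.card {t : G // t * z = z * t} :=
    ti_card_congr (fun _ => Subgroup.mem_centralizer_singleton_iff)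
  rw [e1, ti_card_split _ (fun t => t ∈ Subgroup.normalizer (M : Set G)), add_comm]
  congr 1
  rw [ti_card_congr (Q := fun t => t ∈ ({1, z} : Set G)) (fun t => ⟨fun ht => hK t ht.1 ht.2, ?_⟩)]
  · exact Set.ncard_pair h.z1.symm
  · rintro (rfl | rfl)
    · exact ⟨by simp, one_mem _⟩
    · exact ⟨rfl, h.zN⟩

theorem card_G : Nat.card G = 2 * Nat.card M + Nat.card M * nOut M z * Nat.card M := by
  have e1 := ti_card_split (fun _ : G => True) (fun t => t ∈ Subgroup.normalizer (M : Set G))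
  have e2 := h.card_out hs (fun _ => True) (fun _ _ _ _ => trivial)
  simp only [true_and, and_true] at e1 e2
  rw [h.card_eq_out hs, e2, Nat.card_congr (Equiv.subtypeUnivEquiv (fun _ => trivial))] at e1
  rw [e1, ← h.card_N hK]
  rfl

omit hK in
theorem card_class : Nat.card {t : G // IsConj z t} = Nat.card M * (nConj M z + 1) := by
  rw [ti_card_split _ (fun t => t ∈ Subgroup.normalizer (M : Set G)), mul_add, mul_one, add_comm]
  congr 1
  · rw [nConj, ← h.card_out hs (fun t => IsConj z t) (fun x _ g hg => hg.trans (isConj_iff.2 ⟨x, rfl⟩))]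
    exact ti_card_congr (fun t => ⟨fun ht => ⟨⟨(h.conj_sq ht.1).1, ht.2⟩, ht.1⟩, fun ht => ⟨ht.2, ht.1.2⟩⟩)
  · rw [← h.card_invol_norm]
    exact ti_card_congr (fun t => ⟨fun ht => ⟨h.conj_sq ht.1, ht.2⟩,
      fun ht => ⟨h.isConj_of_mem ht.1.1 ht.1.2 ht.2, ht.2⟩⟩)

omit hK in
theorem nOut_pos (hn : ¬ M.Normal) : 0 < nOut M z := by
  obtain ⟨t, ht⟩ := h.exists_out hs hn
  have : Nonempty {t : G // t * z = z * t ∧ t ∉ Subgroup.normalizer (M : Set G)} := ⟨⟨t, ht⟩⟩
  exact Nat.card_pos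

theorem count_cases (hn : ¬ M.Normal) :
    (nNon M z = 0 ∧ Nat.card M = nOut M z + 3) ∨
      (nNon M z = nConj M z ∧ Nat.card M = nConj M z + 2) := by
  have e1 := Ch.card_isConj_mul_card_centralizer z
  rw [h.card_class hs, h.card_C hK, h.card_G hs hK] at e1
  have hb := h.nOut_pos hs hn
  have e2 := nOut_eq M z
  have h3 := h.three_le_card
  generalize Nat.card M = m at *
  generalize nOut M z = b at *
  generalize nConj M z = a at *
  generalize nNon M z = c at *
  have e3 : (a + 1) * (b + 2) = 2 + b * m := by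
    refine Nat.eq_of_mul_eq_mul_left (show 0 < m by omega) ?_
    rw [← mul_assoc, e1]; ring
  have e4 : b * (a + 1) + 2 * a = b * m := by nlinarith
  have e5 : b ∣ 2 * a := by
    have : b ∣ b * (a + 1) + 2 * a := e4 ▸ dvd_mul_right b m
    exact (Nat.dvd_add_right (dvd_mul_right b _)).1 this
  obtain ⟨j, hj⟩ := e5
  have e6 : a + 1 + j = m := by
    refine Nat.eq_of_mul_eq_mul_left hb ?_
    rw [← e4, hj]; ring
  have hj2 : j ≤ 2 := by
    by_contra hc
    have : b * 3 ≤ b * j := Nat.mul_le_mul_left b (by omega)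
    omega
  interval_cases j <;> omega

theorem isPGroup_C : IsPGroup 2 (Subgroup.centralizer ({z} : Set G)) := fun g =>
  ⟨1, Subtype.ext (by
    rw [pow_one, Subgroup.coe_pow, pow_two]
    exact h.sq_C hs hK (Subgroup.mem_centralizer_singleton_iff.1 g.2))⟩

omit hK in
theorem isConj_of_nNon (h0 : nNon M z = 0) {t : G} (ht : t * t = 1) (ht1 : t ≠ 1) : IsConj z t := by
  by_cases hN : t ∈ Subgroup.normalizer (M : Set G)
  · exact h.isConj_of_mem ht ht1 hN
  obtain ⟨y, hy, e⟩ := h.exists_conj_comm hs ht hN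
  have h2 := Subgroup.le_normalizer hy
  have h3 : y⁻¹ * t * y ∉ Subgroup.normalizer (M : Set G) := fun e' => hN (by
    simpa [mul_assoc] using mul_mem (mul_mem h2 e') (inv_mem h2))
  by_contra hc
  have : Nonempty {t : G // (t * z = z * t ∧ t ∉ Subgroup.normalizer (M : Set G)) ∧ ¬ IsConj z t} :=
    ⟨⟨_, ⟨e, h3⟩, fun h4 => hc (h4.trans (isConj_iff.2 ⟨y, by group⟩))⟩⟩
  exact absurd h0 (Nat.card_pos (α := {t : G // (t * z = z * t ∧
    t ∉ Subgroup.normalizer (M : Set G)) ∧ ¬ IsConj z t})).ne'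

theorem caseB1 (hn : ¬ M.Normal) (h0 : nNon M z = 0) (hm : Nat.card M = nOut M z + 3) :
    ∃ (F : Type) (_ : Field F) (_ : Fintype F) (e : ℕ), 1 < e ∧ Fintype.card F = 2 ^ e ∧ IsCyclic M ∧
      Nat.card M = 2 ^ e + 1 ∧ Nonempty (G ≃* PSL(2, F)) := by
  haveI : Fact (Nat.Prime 2) := ⟨Nat.prime_two⟩
  have hP := h.isPGroup_C hs hK
  obtain ⟨e, he⟩ := IsPGroup.iff_card.1 hP
  have hC := h.card_C hK
  have hb := h.nOut_pos hs hn
  have he1 : 1 < e := by
    by_contra hc
    have : e = 0 ∨ e = 1 := by omega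
    rcases this with rfl | rfl <;> omega
  have hidx : ¬ 2 ∣ (Subgroup.centralizer ({z} : Set G)).index := by
    have e1 := Ch.card_isConj_mul_card_centralizer z
    rw [← Subgroup.index_mul_card (Subgroup.centralizer ({z} : Set G))] at e1
    rw [← Nat.eq_of_mul_eq_mul_right Nat.card_pos e1, h.card_class hs]
    have e2 := nOut_eq M z
    have e3 : 2 ∣ 2 ^ e := dvd_pow_self 2 (by omega)
    intro hd
    rcases (Nat.Prime.dvd_mul Nat.prime_two).1 hd with h1 | h1 <;> omega
  obtain ⟨F, i1, i2, hF, ⟨φ⟩⟩ := Cfsg.Agent.S1230.result (hP.toSylow hidx) (by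
      intro hc
      obtain ⟨g, hg⟩ := hc.exists_ofOrder_eq_natCard
      have h1 : g ^ 2 = 1 := Subtype.ext (by
        rw [Subgroup.coe_pow, pow_two]
        exact h.sq_C hs hK (Subgroup.mem_centralizer_singleton_iff.1 g.2))
      have h2 := Nat.le_of_dvd (by norm_num) (orderOf_dvd_of_pow_eq_one h1)
      rw [hg] at h2
      have : Nat.card (Subgroup.centralizer ({z} : Set G)) ≤ 2 := h2
      omega)
    (by
      intro hc
      obtain ⟨x, hx, hx1⟩ := h.exists_ne_one
      have h1 := hc.conj_mem z (Subgroup.mem_centralizer_singleton_iff.2 rfl) x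
      have h2 : x * z * x⁻¹ * z = z * (x * z * x⁻¹) := Subgroup.mem_centralizer_singleton_iff.1 h1
      rw [h.conj_z hx] at h2
      exact hx1 (h.eq_one_of_sq hx (h.eq_one_of_comm (mul_mem hx hx) h.zz h.z1 (by
        have := mul_right_cancel (show x * x * z * z = z * (x * x) * z by rw [h2]; group)
        exact this.symm))))
    (fun t ht => by
      have ht' := orderOf_eq_two_iff'.1 ht
      have hc := h.isConj_of_nNon hs h0 ht'.1 ht'.2
      refine ⟨⟨⟨fun a b => Subtype.ext (h.comm_conj hs hK hc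
        (Subgroup.mem_centralizer_singleton_iff.1 a.2) (Subgroup.mem_centralizer_singleton_iff.1 b.2))⟩⟩,
        fun c hc' => ?_⟩
      rw [pow_two]
      exact h.sq_conj hs hK hc (Subgroup.mem_centralizer_singleton_iff.1 hc'))
  have hF' : Fintype.card F = 2 ^ e := hF.trans he
  refine ⟨F, i1, i2, e, he1, hF', ?_, by omega, ⟨φ⟩⟩
  have hchar : CharP F 2 := by
    obtain ⟨r, hr, n, hr', hn⟩ := FiniteField.card' F
    have : 2 ∣ r ^ (n : ℕ) := by
      rw [← hn, hF']; exact dvd_pow_self 2 (by omega)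
    have : 2 = r := (Nat.prime_dvd_prime_iff_eq Nat.prime_two hr').1 (Nat.prime_two.dvd_of_dvd_pow this)
    exact this ▸ hr
  have h2 : (2 : F) = 0 := by exact_mod_cast CharP.cast_eq_zero F 2
  obtain ⟨x, hx, hx1⟩ := h.exists_ne_one
  have ht : Cl.L2.tau (Cl.L2.emb (φ x)) ≠ 4 := by
    intro h4
    obtain ⟨p, hp⟩ := Cl.L2.exists_mem_uniS h4
    have := Cl.L2.orderOf_of_mem_uniS 2 hp (by simpa using hx1)
    rw [MulEquiv.orderOf_eq] at this
    exact hx1 (h.eq_one_of_sq hx (orderOf_eq_two_iff'.1 this).1)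
  have hle : M.map φ.toMonoidHom ≤ Cl.L2.torS (φ x) := by
    rintro _ ⟨y, hy, rfl⟩
    rw [← Cl.L2.centralizer_eq_torS_of_char_two h2, Subgroup.mem_centralizer_singleton_iff]
    simp only [MulEquiv.toMonoidHom_eq_coe, MonoidHom.coe_coe, ← map_mul, h.comm hy hx]
  have : IsCyclic (M.map (φ : G →* PSL(2, F))) := Cl.L2.isCyclic_of_le_torS ht hle
  exact isCyclic_of_surjective _ (φ.subgroupMap M).symm.surjective

end TIH

end Cfsg.Agent.Loc.H78
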