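import Mathlib
import Cfsg.Agent.GT.PGroupBasic
import Cfsg.Agent.GT.PiGroups
import Cfsg.Agent.GT.Frattini
import Cfsg.Agent.GT.CoprimeFixed
import Cfsg.Agent.GT.PGroupFrattini

/-!
# Groups of order 320 with derived group of order 64 whose centre is a four-group are isomorphic
-/

set_option autoImplicit false

namespace Cfsg.Agent.Loc.U34

open Subgroup Cfsg Cfsg.Agent.GT
open scoped commutatorElement

variable {G : Type*} [Group G]

/-- The defining relations. -/
structure Rel (x y0 y1 y2 y3 a b : G) : Prop where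
  x5 : x ^ 5 = 1
  c0 : x * y0 * x⁻¹ = y1
  c1 : x * y1 * x⁻¹ = y2
  c2 : x * y2 * x⁻¹ = y3
  c3 : x * y3 * x⁻¹ = (y0 * y1 * y2 * y3)⁻¹
  a2 : a * a = 1
  b2 : b * b = 1
  ab : a * b = b * a
  ax : a * x = x * a
  bx : b * x = x * b
  a0 : a * y0 = y0 * a
  b0 : b * y0 = y0 * b
  s0 : y0 * y0 = a * b
  r01 : ⁅y0, y1⁆ = a
  r02 : ⁅y0, y2⁆ = b
  r03 : ⁅y0, y3⁆ = b

theorem Rel.prod {G' : Type*} [Group G'] {x y0 y1 y2 y3 a b : G} {x' y0' y1' y2' y3' a' b' : G'}
    (h : Rel x y0 y1 y2 y3 a b) (h' : Rel x' y0' y1' y2' y3' a' b') :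
    Rel (x, x') (y0, y0') (y1, y1') (y2, y2') (y3, y3') (a, a') (b, b') :=
  ⟨Prod.ext h.x5 h'.x5, Prod.ext h.c0 h'.c0, Prod.ext h.c1 h'.c1, Prod.ext h.c2 h'.c2,
    Prod.ext h.c3 h'.c3, Prod.ext h.a2 h'.a2, Prod.ext h.b2 h'.b2, Prod.ext h.ab h'.ab,
    Prod.ext h.ax h'.ax, Prod.ext h.bx h'.bx, Prod.ext h.a0 h'.a0, Prod.ext h.b0 h'.b0,
    Prod.ext h.s0 h'.s0, Prod.ext h.r01 h'.r01, Prod.ext h.r02 h'.r02, Prod.ext h.r03 h'.r03⟩

theorem card_sup_zpowers_le [Finite G] {p : ℕ} (hp : p.Prime) {N : Subgroup G} {x : G}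
    (hx : x ∈ normalizer (N : Set G)) (hxp : x ^ p ∈ N) :
    Nat.card ↥(N ⊔ zpowers x) ≤ p * Nat.card N := by
  by_cases h : x ∈ N
  · rw [sup_eq_left.2 (zpowers_le.2 h)]
    exact Nat.le_mul_of_pos_left _ hp.pos
  · exact (PG.card_sup_zpowers hp hx h hxp).le

theorem mem_normalizer_of_gen [Finite G] {N : Subgroup G} {s : Set G} (hN : N ≤ closure s) {x : G}
    (h : ∀ y ∈ s, x * y * x⁻¹ ∈ N) : x ∈ normalizer (N : Set G) := by
  refine mem_normalizer_of_map_conj_le ((map_mono hN).trans ?_)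
  rw [MonoidHom.map_closure, closure_le]
  rintro _ ⟨y, hy, rfl⟩
  exact h y hy

theorem conj_comm {x z y : G} (hx : z * x = x * z) (hy : z * y = y * z) :
    z * (x * y * x⁻¹) = x * y * x⁻¹ * z :=
  ((show Commute z x from hx).mul_right hy).mul_right (show Commute z x from hx).inv_right

theorem conj_fix {x z : G} (hx : z * x = x * z) : x * z * x⁻¹ = z := by
  rw [← hx, mul_inv_cancel_right]

theorem conj_eq_of_comm {u v c : G} (h : ⁅u, v⁆ = c) : v * u * v⁻¹ = c⁻¹ * u := by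
  rw [← h, commutatorElement_def]; group

theorem Rel.card_le [Finite G] {x y0 y1 y2 y3 a b : G} (h : Rel x y0 y1 y2 y3 a b) :
    Nat.card (closure ({x, y0} : Set G)) ≤ 320 := by
  have a1 : a * y1 = y1 * a := h.c0 ▸ conj_comm h.ax h.a0
  have a2 : a * y2 = y2 * a := h.c1 ▸ conj_comm h.ax a1
  have a3 : a * y3 = y3 * a := h.c2 ▸ conj_comm h.ax a2
  have b1 : b * y1 = y1 * b := h.c0 ▸ conj_comm h.bx h.b0
  have b2 : b * y2 = y2 * b := h.c1 ▸ conj_comm h.bx b1
  have b3 : b * y3 = y3 * b := h.c2 ▸ conj_comm h.bx b2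
  have hsq : ∀ {u v : G}, x * u * x⁻¹ = v → u * u = a * b → v * v = a * b := fun {u v} h1 h2 => by
    calc v * v = x * (u * u) * x⁻¹ := by rw [← h1]; group
      _ = (x * a * x⁻¹) * (x * b * x⁻¹) := by rw [h2]; group
      _ = _ := by rw [conj_fix h.ax, conj_fix h.bx]
  have s1 := hsq h.c0 h.s0
  have s2 := hsq h.c1 s1
  have s3 := hsq h.c2 s2
  have r12 : ⁅y1, y2⁆ = a := by
    rw [← h.c1, ← h.c0, ← conjugate_commutatorElement, h.c0, h.r01, conj_fix h.ax]
  have r23 : ⁅y2, y3⁆ = a := by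
    rw [← h.c2, ← h.c1, ← conjugate_commutatorElement, h.c1, r12, conj_fix h.ax]
  have r13 : ⁅y1, y3⁆ = b := by
    rw [← h.c2, ← h.c0, ← conjugate_commutatorElement, h.r02, conj_fix h.bx]
  have step : ∀ (s : Set G) (y : G) (p n : ℕ), p.Prime → Nat.card (closure s) ≤ n →
      (∀ u ∈ s, y * u * y⁻¹ ∈ closure s) → y ^ p ∈ closure s →
      Nat.card (closure (insert y s)) ≤ p * n := fun s y p n hp hn h1 h2 => by
    rw [Set.insert_eq, Subgroup.closure_union, sup_comm, ← zpowers_eq_closure]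
    exact (card_sup_zpowers_le hp (mem_normalizer_of_gen le_rfl h1) h2).trans
      (Nat.mul_le_mul_left _ hn)
  have p2 := Nat.prime_two
  have m : ∀ {s : Set G} {u : G}, u ∈ s → u ∈ closure s := fun hu => subset_closure hu
  have k0 : Nat.card (closure (∅ : Set G)) ≤ 1 := by simp
  have k1 := step _ a 2 _ p2 k0 (by simp) (by rw [sq, h.a2]; exact one_mem _)
  have k2 := step _ b 2 _ p2 k1 (by
    simp only [insert_empty_eq, Set.mem_singleton_iff, forall_eq]
    rw [conj_fix h.ab]; exact m (by simp)) (by rw [sq, h.b2]; exact one_mem _)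
  have k3 := step _ y0 2 _ p2 k2 (by
    simp only [insert_empty_eq, Set.mem_insert_iff, Set.mem_singleton_iff, forall_eq_or_imp,
      forall_eq]
    rw [conj_fix h.a0, conj_fix h.b0]; exact ⟨m (by simp), m (by simp)⟩)
    (by rw [sq, h.s0]; exact mul_mem (m (by simp)) (m (by simp)))
  have k4 := step _ y1 2 _ p2 k3 (by
    simp only [insert_empty_eq, Set.mem_insert_iff, Set.mem_singleton_iff, forall_eq_or_imp,
      forall_eq]
    rw [conj_fix a1, conj_fix b1, conj_eq_of_comm h.r01]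
    exact ⟨mul_mem (inv_mem (m (by simp))) (m (by simp)), m (by simp), m (by simp)⟩)
    (by rw [sq, s1]; exact mul_mem (m (by simp)) (m (by simp)))
  have k5 := step _ y2 2 _ p2 k4 (by
    simp only [insert_empty_eq, Set.mem_insert_iff, Set.mem_singleton_iff, forall_eq_or_imp,
      forall_eq]
    rw [conj_fix a2, conj_fix b2, conj_eq_of_comm h.r02, conj_eq_of_comm r12]
    exact ⟨mul_mem (inv_mem (m (by simp))) (m (by simp)),
      mul_mem (inv_mem (m (by simp))) (m (by simp)), m (by simp), m (by simp)⟩)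
    (by rw [sq, s2]; exact mul_mem (m (by simp)) (m (by simp)))
  have k6 := step _ y3 2 _ p2 k5 (by
    simp only [insert_empty_eq, Set.mem_insert_iff, Set.mem_singleton_iff, forall_eq_or_imp,
      forall_eq]
    rw [conj_fix a3, conj_fix b3, conj_eq_of_comm h.r03, conj_eq_of_comm r13, conj_eq_of_comm r23]
    exact ⟨mul_mem (inv_mem (m (by simp))) (m (by simp)),
      mul_mem (inv_mem (m (by simp))) (m (by simp)),
      mul_mem (inv_mem (m (by simp))) (m (by simp)), m (by simp), m (by simp)⟩)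
    (by rw [sq, s3]; exact mul_mem (m (by simp)) (m (by simp)))
  have k7 := step _ x 5 _ Nat.prime_five k6 (by
    simp only [insert_empty_eq, Set.mem_insert_iff, Set.mem_singleton_iff, forall_eq_or_imp,
      forall_eq]
    rw [conj_fix h.ax, conj_fix h.bx, h.c0, h.c1, h.c2, h.c3]
    exact ⟨inv_mem (mul_mem (mul_mem (mul_mem (m (by simp)) (m (by simp))) (m (by simp)))
      (m (by simp))), m (by simp), m (by simp), m (by simp), m (by simp), m (by simp)⟩)
    (by rw [h.x5]; exact one_mem _)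
  refine (card_le_of_le (closure_mono ?_)).trans k7
  intro u hu
  rcases hu with rfl | rfl <;> simp

theorem nonempty_equiv_of_rel {G' : Type*} [Group G'] [Finite G] [Finite G']
    {x y0 y1 y2 y3 a b : G} {x' y0' y1' y2' y3' a' b' : G'}
    (h : Rel x y0 y1 y2 y3 a b) (h' : Rel x' y0' y1' y2' y3' a' b') (hG : Nat.card G = 320)
    (hG' : Nat.card G' = 320) (hg : closure ({x, y0} : Set G) = ⊤)
    (hg' : closure ({x', y0'} : Set G') = ⊤) : Nonempty (G ≃* G') := by
  have hc := (h.prod h').card_le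
  set Γ := closure ({(x, x'), (y0, y0')} : Set (G × G')) with hΓ
  have h1 : Function.Surjective ((MonoidHom.fst G G').comp Γ.subtype) := by
    rw [← MonoidHom.range_eq_top, MonoidHom.range_comp, range_subtype, hΓ, MonoidHom.map_closure,
      Set.image_pair]
    exact hg
  have h2 : Function.Surjective ((MonoidHom.snd G G').comp Γ.subtype) := by
    rw [← MonoidHom.range_eq_top, MonoidHom.range_comp, range_subtype, hΓ, MonoidHom.map_closure,
      Set.image_pair]
    exact hg'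
  exact ⟨(MulEquiv.ofBijective _ (h1.bijective_of_nat_card_le (hG ▸ hc))).symm.trans
    (MulEquiv.ofBijective _ (h2.bijective_of_nat_card_le (hG' ▸ hc)))⟩

section
variable [Finite G] {D : Subgroup G} [D.Normal] {x : G}

theorem bound (hD : Nat.card D = 64) (hx : orderOf x = 5)
    (hK : ∀ W : Subgroup G, W.Normal → W ≤ D → ⁅D, zpowers x⁆ ≤ W → W = D)
    (W : Subgroup G) [W.Normal] (hW : W ≤ D) (hne : W ≠ D) :
    16 * Nat.card (D.map (QuotientGroup.mk' W) ⊓
      centralizer ((zpowers x).map (QuotientGroup.mk' W) : Set (G ⧸ W)) : Subgroup _) *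
        Nat.card W ≤ 64 := by
  have : Fact (Nat.Prime 5) := ⟨Nat.prime_five⟩
  have hX : IsPGroup 5 (zpowers x) := IsPGroup.of_card (n := 1) (by rw [Nat.card_zpowers, hx]; rfl)
  have hn : (D.map (QuotientGroup.mk' W)).Normal := Normal.map inferInstance _
    (QuotientGroup.mk'_surjective W)
  have h1 := card_modEq_card_inf_centralizer (L := D.map (QuotientGroup.mk' W))
    (hX.map (QuotientGroup.mk' W)) le_normalizer_of_normal
  have h2 := card_map_mk'_mul_card_inf D W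
  rw [inf_eq_right.2 hW, hD] at h2
  have h3 : Nat.card (D.map (QuotientGroup.mk' W) ⊓
      centralizer ((zpowers x).map (QuotientGroup.mk' W) : Set (G ⧸ W)) : Subgroup _) ≠
      Nat.card (D.map (QuotientGroup.mk' W)) := fun h => by
    have h4 := inf_eq_left.1 (eq_of_le_of_card_ge inf_le_left h.ge)
    rw [← commutator_eq_bot_iff_le_centralizer, ← map_commutator, map_mk'_eq_bot_iff] at h4
    exact hne (hK W inferInstance hW h4)
  have h4 : Nat.card (D.map (QuotientGroup.mk' W) ⊓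
      centralizer ((zpowers x).map (QuotientGroup.mk' W) : Set (G ⧸ W)) : Subgroup _) ∣
      Nat.card (D.map (QuotientGroup.mk' W)) := card_dvd_of_le inf_le_left
  generalize Nat.card (D.map (QuotientGroup.mk' W) ⊓
      centralizer ((zpowers x).map (QuotientGroup.mk' W) : Set (G ⧸ W)) : Subgroup _) = m at *
  generalize Nat.card (D.map (QuotientGroup.mk' W)) = l at *
  obtain ⟨k, hk, rfl⟩ := (Nat.dvd_prime_pow Nat.prime_two (m := 6)).1 (Dvd.intro _ h2)
  obtain ⟨j, hj, rfl⟩ := (Nat.dvd_prime_pow Nat.prime_two).1 h4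
  rw [← h2]
  refine Nat.mul_le_mul_right _ ?_
  interval_cases k <;> interval_cases j <;> simp_all [Nat.ModEq]

end

theorem sq_aux {y0 y1 y2 y3 a b z : G} (ha : ∀ g, a * g = g * a) (hb : ∀ g, b * g = g * b)
    (hz : ∀ g, z * g = g * z) (a2 : a * a = 1) (b2 : b * b = 1) (z2 : z * z = 1)
    (s0 : y0 * y0 = z) (s1 : y1 * y1 = z) (s2 : y2 * y2 = z) (s3 : y3 * y3 = z)
    (r01 : ⁅y0, y1⁆ = a) (r02 : ⁅y0, y2⁆ = b) (r03 : ⁅y0, y3⁆ = b) (r12 : ⁅y1, y2⁆ = a)
    (r13 : ⁅y1, y3⁆ = b) (r23 : ⁅y2, y3⁆ = a) :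
    (y0 * y1 * y2 * y3) * (y0 * y1 * y2 * y3) = a * b := by
  have sw : ∀ {u v c : G}, ⁅u, v⁆ = c → c * c = 1 → ∀ g, v * (u * g) = c * (u * (v * g)) :=
    fun {u v c} h hc g => by
      have h1 := conj_eq_of_comm h
      rw [inv_eq_of_mul_eq_one_right hc] at h1
      rw [← mul_assoc c, ← h1]; group
  have ma : ∀ u g : G, u * (a * g) = a * (u * g) := fun u g => by
    rw [← mul_assoc, ← ha, mul_assoc]
  have mb : ∀ u g : G, u * (b * g) = b * (u * g) := fun u g => by
    rw [← mul_assoc, ← hb, mul_assoc]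
  have mz : ∀ u g : G, u * (z * g) = z * (u * g) := fun u g => by
    rw [← mul_assoc, ← hz, mul_assoc]
  have q : ∀ {u c : G}, u * u = c → ∀ g, u * (u * g) = c * g := fun h g => by rw [← mul_assoc, h]
  calc _ = y0 * (y1 * (y2 * (y3 * (y0 * (y1 * (y2 * (y3 * 1))))))) := by simp only [mul_assoc, mul_one]
    _ = b * (b * (a * (y0 * (y0 * (y1 * (y2 * (y3 * (y1 * (y2 * (y3 * 1)))))))))) := by
      rw [sw r03 b2, mb y2, sw r02 b2, mb y1, mb y1, sw r01 a2, mb y0, mb y0, ma y0]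
    _ = b * (b * (a * (z * (b * (a * (y1 * (y1 * (y2 * (y3 * (y2 * (y3 * 1))))))))))) := by
      rw [q s0, sw r13 b2, mb y2, sw r12 a2, mb y1, ma y1]
    _ = b * (b * (a * (z * (b * (a * (z * (a * (z * z)))))))) := by
      rw [q s1, sw r23 a2, ma y2, q s2, q s3, mul_one]
    _ = a * b := by
      rw [z2, q b2, one_mul, mul_one, ← ha z, q a2, one_mul, ← hz b, q z2, one_mul]

theorem exists_rel [Finite G] (hG : Nat.card G = 320) (hD : Nat.card (commutator G) = 64)
    (hZ : IsKleinFour (center (commutator G))) :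
    ∃ x y0 y1 y2 y3 a b : G, Rel x y0 y1 y2 y3 a b ∧ closure ({x, y0} : Set G) = ⊤ := by
  have : Fact (Nat.Prime 5) := ⟨Nat.prime_five⟩
  have : Fact (Nat.Prime 2) := ⟨Nat.prime_two⟩
  obtain ⟨x, hx⟩ := exists_prime_orderOf_dvd_card' (G := G) 5 (by rw [hG]; norm_num)
  set D := commutator G with hDdef
  have hD2 : IsPGroup 2 D := IsPGroup.of_card (n := 6) hD
  have := hD2.isNilpotent
  have hX : IsPGroup 5 (zpowers x) := IsPGroup.of_card (n := 1) (by rw [Nat.card_zpowers, hx]; rfl)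
  have htop : D ⊔ zpowers x = ⊤ := by
    rw [← card_eq_iff_eq_top, hG, CopAct.card_sup_of_coprime le_normalizer_of_normal
      (by rw [Nat.card_zpowers, hx, hD]; norm_num), Nat.card_zpowers, hx, hD]
  set Z : Subgroup G := (center D).map D.subtype with hZdef
  have hZ4 : Nat.card Z = 4 := by rw [card_map_of_injective D.subtype_injective, hZ.card_four]
  have hZD : Z ≤ D := map_subtype_le _
  have hZ2 : ∀ z ∈ Z, z * z = 1 := by
    rintro _ ⟨z, hz, rfl⟩
    exact congrArg (fun w : center D => ((w : D) : G)) (IsKleinFour.mul_self (⟨z, hz⟩ : center D))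
  have hZc : ∀ z ∈ Z, ∀ g, z * g = g * z := by
    have h1 := card_modEq_card_inf_centralizer (L := Z) hX le_normalizer_of_normal
    have h2 : Nat.card (Z ⊓ centralizer ((zpowers x : Subgroup G) : Set G) : Subgroup G) ≤ 4 :=
      hZ4 ▸ card_le_of_le inf_le_left
    have h3 := inf_eq_left.1 (eq_of_le_of_card_ge (inf_le_left (a := Z)
      (b := centralizer ((zpowers x : Subgroup G) : Set G))) (by
        rw [hZ4] at h1 ⊢; unfold Nat.ModEq at h1; omega))
    have h4 : Z ≤ centralizer (D : Set G) := by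
      rintro _ ⟨z, hz, rfl⟩ g hg
      exact congrArg Subtype.val (mem_center_iff.1 hz ⟨g, hg⟩)
    have h5 := sup_le (le_centralizer_iff.1 h4) (le_centralizer_iff.1 h3)
    rw [htop] at h5
    exact fun z hz g => h5 (mem_top g) z hz
  set Φ : Subgroup G := (frattini D).map D.subtype with hΦ
  have hK : ∀ W : Subgroup G, W.Normal → W ≤ D → ⁅D, zpowers x⁆ ≤ W → W = D := fun W _ hW h => by
    refine eq_of_sup_of_le_map_frattini hW (le_refl Φ) ?_
    have h1 : ⁅D, D ⊔ zpowers x⁆ ≤ W ⊔ Φ := by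
      rw [commutator_comm]
      exact commutator_sup_le le_normalizer_of_normal
        ((commutator_self_le_map_frattini D).trans le_sup_right)
        (by rw [commutator_comm]; exact h.trans le_sup_left)
    have h2 : ⁅zpowers x, D ⊔ zpowers x⁆ ≤ W ⊔ Φ := by
      rw [commutator_comm]
      exact commutator_sup_le le_normalizer_of_normal (h.trans le_sup_left)
        ((commutator_eq_bot_iff_le_centralizer.2 (le_centralizer _)).le.trans bot_le)
    have h3 := commutator_sup_le le_normalizer_of_normal h1 h2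
    rwa [htop] at h3
  have hW : ∀ W : Subgroup G, W.Normal → W ≤ D → W ≠ D → Nat.card W ≤ 4 := fun W _ h1 h2 => by
    have h3 := bound hD hx hK W h1 h2
    have h4 : 0 < Nat.card (D.map (QuotientGroup.mk' W) ⊓
      centralizer ((zpowers x).map (QuotientGroup.mk' W) : Set (G ⧸ W)) : Subgroup _) :=
      Nat.card_pos
    nlinarith
  have hZne : Z ≠ D := fun h => by rw [h, hD] at hZ4; omega
  have hΦZ : Φ ≤ Z := by
    have h1 := hW (Z ⊔ Φ) inferInstance (sup_le hZD (map_subtype_le _)) fun h =>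
      hZne (eq_of_sup_of_le_map_frattini hZD (le_refl Φ) h.ge)
    exact sup_eq_left.1 (eq_of_le_of_card_ge le_sup_left (hZ4 ▸ h1)).symm
  have hcomm : ∀ u ∈ D, ∀ v ∈ D, ⁅u, v⁆ ∈ Z := fun u hu v hv =>
    hΦZ (commutator_self_le_map_frattini D (commutator_mem_commutator hu hv))
  have hsq : ∀ u ∈ D, u * u ∈ Z := fun u hu =>
    hΦZ ⟨_, PG.pow_mem_frattini hD2 ⟨u, hu⟩, sq u⟩
  have hfix : ∀ d ∈ D, x * d * x⁻¹ * d⁻¹ ∈ Z → d ∈ Z := fun d hd h => by
    have h1 := bound hD hx hK Z hZD hZne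
    have h2 : (D.map (QuotientGroup.mk' Z) ⊓
      centralizer ((zpowers x).map (QuotientGroup.mk' Z) : Set (G ⧸ Z)) : Subgroup _) = ⊥ := by
      rw [← card_le_one_iff_eq_bot]; rw [hZ4] at h1; omega
    have h3 : QuotientGroup.mk' Z d ∈ (D.map (QuotientGroup.mk' Z) ⊓
      centralizer ((zpowers x).map (QuotientGroup.mk' Z) : Set (G ⧸ Z)) : Subgroup _) := by
      refine ⟨mem_map_of_mem _ hd, ?_⟩
      rw [MonoidHom.map_zpowers]
      have h4 : Commute (QuotientGroup.mk' Z x) (QuotientGroup.mk' Z d) := by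
        rw [← commutatorElement_eq_one_iff_commute, ← map_commutatorElement]
        exact (QuotientGroup.eq_one_iff _).2 h
      rintro _ ⟨k, rfl⟩
      exact (h4.zpow_left k).eq
    rw [h2, mem_bot] at h3
    exact (QuotientGroup.eq_one_iff d).1 h3
  obtain ⟨y, hy, hyZ⟩ := SetLike.exists_of_lt (lt_of_le_of_ne hZD hZne)
  have cD : ∀ u ∈ D, x * u * x⁻¹ ∈ D := fun u hu => (inferInstance : D.Normal).conj_mem u hu x
  have x5 : x ^ 5 = 1 := by rw [← hx, pow_orderOf_eq_one]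
  -- normalise the product of the conjugates
  obtain ⟨y0, hy0, hy0Z, hprod⟩ : ∃ y0 ∈ D, y0 ∉ Z ∧ (y0 * x) ^ 5 = 1 := by
    have h1 : (y * x) ^ 5 ∈ D := by
      rw [← QuotientGroup.eq_one_iff, QuotientGroup.mk_pow, QuotientGroup.mk_mul,
        (QuotientGroup.eq_one_iff y).2 hy, one_mul, ← QuotientGroup.mk_pow, x5, QuotientGroup.mk_one]
    have h2 : (y * x) ^ 5 ∈ Z := hfix _ h1 (by
      have h3 : x * (y * x) ^ 5 * x⁻¹ = y⁻¹ * (y * x) ^ 5 * y := by
        simp only [pow_succ, pow_zero]; group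
      rw [h3]
      simpa [commutatorElement_def] using hcomm _ (D.inv_mem hy) _ h1)
    refine ⟨(y * x) ^ 5 * y, D.mul_mem h1 hy, fun h => hyZ ((Z.mul_mem_cancel_left h2).1 h), ?_⟩
    rw [mul_assoc, Commute.mul_pow (hZc _ h2 _)]
    generalize (y * x) ^ 5 = w at h2
    have := hZ2 w h2
    rw [show w ^ 5 * w = (w * w) ^ 3 by simp only [pow_succ, pow_zero]; group, this, one_pow]
  set y1 := x * y0 * x⁻¹ with e1
  set y2 := x * y1 * x⁻¹ with e2
  set y3 := x * y2 * x⁻¹ with e3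
  have hy1 : y1 ∈ D := cD _ hy0
  have hy2 : y2 ∈ D := cD _ hy1
  have hy3 : y3 ∈ D := cD _ hy2
  have e4 : x * y3 * x⁻¹ = (y0 * y1 * y2 * y3)⁻¹ := by
    refine eq_inv_of_mul_eq_one_right ?_
    rw [← hprod, ← mul_one (y0 * y1 * y2 * y3 * _), ← x5, e3, e2, e1]
    simp only [pow_succ, pow_zero]; group
  have e5 : x * (x * y3 * x⁻¹) * x⁻¹ = y0 := by
    rw [e3, e2, e1]
    calc _ = x ^ 5 * y0 * (x ^ 5)⁻¹ := by simp only [pow_succ, pow_zero]; group
      _ = y0 := by rw [x5]; group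
  have fx : ∀ z ∈ Z, x * z * x⁻¹ = z := fun z hz => conj_fix (hZc z hz x)
  have ha := hcomm _ hy0 _ hy1
  have hb := hcomm _ hy0 _ hy2
  have hz := hsq _ hy0
  have r12 : ⁅y1, y2⁆ = ⁅y0, y1⁆ := by rw [← fx _ ha, conjugate_commutatorElement]
  have r23 : ⁅y2, y3⁆ = ⁅y0, y1⁆ := by rw [← fx _ ha, ← r12, conjugate_commutatorElement]
  have r13 : ⁅y1, y3⁆ = ⁅y0, y2⁆ := by rw [← fx _ hb, conjugate_commutatorElement]
  have r03 : ⁅y0, y3⁆ = ⁅y0, y2⁆ := by
    have h1 : ⁅y3, y0⁆ = ⁅y0, y2⁆ := by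
      rw [← fx _ hb, ← fx _ hb, ← r13, conjugate_commutatorElement, conjugate_commutatorElement, e5]
    rw [← commutatorElement_inv, h1, inv_eq_of_mul_eq_one_right (hZ2 _ hb)]
  have hs : ∀ u, u * u = y0 * y0 → x * u * x⁻¹ * (x * u * x⁻¹) = y0 * y0 := fun u hu => by
    rw [← fx _ hz, ← hu]; group
  have s1 : y1 * y1 = y0 * y0 := hs _ rfl
  have s2 : y2 * y2 = y0 * y0 := hs _ s1
  have s3 : y3 * y3 = y0 * y0 := hs _ s2
  have s4 := hs _ s3
  have s5 := sq_aux (hZc _ ha) (hZc _ hb) (hZc _ hz) (hZ2 _ ha) (hZ2 _ hb) (hZ2 _ hz) rfl s1 s2 s3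
    rfl rfl r03 r12 r13 r23
  have s0 : y0 * y0 = ⁅y0, y1⁆ * ⁅y0, y2⁆ := by
    rw [← s5, ← inv_eq_of_mul_eq_one_right (hZ2 _ hz), ← s4, e4, mul_inv_rev _ (_)⁻¹, inv_inv]
  refine ⟨x, y0, y1, y2, y3, _, _, ⟨x5, rfl, rfl, rfl, e4, hZ2 _ ha, hZ2 _ hb, hZc _ ha _,
    hZc _ ha _, hZc _ hb _, hZc _ ha _, hZc _ hb _, s0, rfl, rfl, r03⟩, ?_⟩
  set M := closure ({x, y0} : Set G) with hM
  have hxM : x ∈ M := subset_closure (by simp)
  have hyM : y0 ∈ M := subset_closure (by simp)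
  have hxn : zpowers x ≤ normalizer ((M ⊓ D : Subgroup G) : Set G) :=
    PG.le_normalizer_inf ((zpowers_le.2 hxM).trans le_normalizer) le_normalizer_of_normal
  have hZn : ∀ N : Subgroup G, Z ≤ normalizer (N : Set G) := fun N z hz =>
    centralizer_le_normalizer _ fun g _ => (hZc z hz g).symm
  have h1 : M ⊓ D ⊔ Z = D := by
    by_contra h
    have hn : (M ⊓ D ⊔ Z).Normal := by
      rw [← normalizer_eq_top_iff, eq_top_iff, ← htop]
      refine sup_le (fun d hd => PG.mem_normalizer_of_commutator_mem fun g hg => mem_sup_right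
        (hcomm d hd g ((sup_le inf_le_right hZD : M ⊓ D ⊔ Z ≤ D) hg))) ?_
      exact CopAct.le_normalizer_sup hxn le_normalizer_of_normal
    have h2 := hW _ hn (sup_le inf_le_right hZD) h
    have h3 := sup_eq_right.1 (eq_of_le_of_card_ge le_sup_right (hZ4 ▸ h2)).symm
    exact hy0Z (h3 ⟨hyM, hy0⟩)
  have h2 : M ⊓ D = D := by
    by_contra h
    have hn : (M ⊓ D).Normal := by
      rw [← normalizer_eq_top_iff, eq_top_iff, ← htop]
      exact sup_le (h1.ge.trans (sup_le le_normalizer (hZn _))) hxn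
    have h2 := hW _ hn inf_le_right h
    have h3 := card_sup_dvd (M ⊓ D) Z
    rw [h1, hD, hZ4] at h3
    have := Nat.le_of_dvd (Nat.mul_pos Nat.card_pos (by norm_num)) h3
    omega
  rw [eq_top_iff, ← htop]
  exact sup_le (h2.ge.trans inf_le_left) (zpowers_le.2 hxM)

theorem nonempty_equiv {G' : Type*} [Group G'] [Finite G] [Finite G'] (hG : Nat.card G = 320)
    (hD : Nat.card (commutator G) = 64) (hZ : IsKleinFour (center (commutator G)))
    (hG' : Nat.card G' = 320) (hD' : Nat.card (commutator G') = 64)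
    (hZ' : IsKleinFour (center (commutator G'))) : Nonempty (G ≃* G') := by
  obtain ⟨_, _, _, _, _, _, _, h, hg⟩ := exists_rel hG hD hZ
  obtain ⟨_, _, _, _, _, _, _, h', hg'⟩ := exists_rel hG' hD' hZ'
  exact nonempty_equiv_of_rel h h' hG hG' hg hg'

end Cfsg.Agent.Loc.U34
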