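import Mathlib
import Cfsg.Agent.Loc.Isolated
import Cfsg.Agent.GT.MinNormal

/-!
# A transfer evaluation with a single contributing orbit

If only the trivial coset contributes to the transfer `G → A` built from `φ : M → A`, the
transfer of `x ∈ M` is `φ x`.  Application: a normal subgroup `H` of prime index in `M`.
-/

set_option autoImplicit false

namespace Cfsg.Agent.Loc

open Subgroup MulAction Cfsg.Agent.Loc.Am

variable {G : Type*} [Group G]

theorem transfer_eq_of_single [Finite G] {M : Subgroup G} {A : Type*} [CommGroup A]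
    (φ : M →* A) (x : M)
    (h : ∀ (t : G) (k : ℕ) (hk : t⁻¹ * (x : G) ^ k * t ∈ M), t ∉ M → 0 < k → k ∣ orderOf (x : G) →
      φ ⟨_, hk⟩ = 1) : MonoidHom.transfer φ (x : G) = φ x := by
  classical
  have := Fintype.ofFinite (Quotient (orbitRel (zpowers (x : G)) (G ⧸ M)))
  rw [MonoidHom.transfer_eq_prod_quotient_orbitRel_zpowers_quot]
  have hfix : ∀ y : zpowers (x : G), y • ((1 : G) : G ⧸ M) = ((1 : G) : G ⧸ M) := by
    rintro ⟨y, hy⟩
    change (((y * 1 : G)) : G ⧸ M) = _
    rw [QuotientGroup.eq, mul_one, mul_one]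
    exact M.inv_mem (zpowers_le.2 x.2 hy)
  rw [Fintype.prod_eq_single (Quotient.mk _ ((1 : G) : G ⧸ M))]
  · set q : Quotient (orbitRel (zpowers (x : G)) (G ⧸ M)) := Quotient.mk _ ((1 : G) : G ⧸ M)
      with hq
    have h1 : q.out = ((1 : G) : G ⧸ M) := by
      have h2 : (orbitRel (zpowers (x : G)) (G ⧸ M)) q.out ((1 : G) : G ⧸ M) :=
        Quotient.exact (by rw [Quotient.out_eq])
      obtain ⟨y, hy⟩ := h2
      exact hy.symm.trans (hfix y)
    have h2 : Function.minimalPeriod ((x : G) • ·) q.out = 1 := by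
      rw [h1, Function.minimalPeriod_eq_one_iff_isFixedPt]
      exact hfix ⟨x, mem_zpowers _⟩
    have h3 : q.out.out ∈ M := by
      have : ((q.out.out : G) : G ⧸ M) = ((1 : G) : G ⧸ M) := by rw [QuotientGroup.out_eq', h1]
      have := QuotientGroup.eq.1 this
      rwa [mul_one, inv_mem_iff] at this
    have h4 : (⟨q.out.out⁻¹ * (x : G) ^ Function.minimalPeriod ((x : G) • ·) q.out * q.out.out,
        QuotientGroup.out_conj_pow_minimalPeriod_mem M x q.out⟩ : M) =
        (⟨_, h3⟩ : M)⁻¹ * x * ⟨_, h3⟩ := by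
      apply Subtype.ext
      simp [h2]
    rw [h4, map_mul, map_mul, map_inv, mul_right_comm, inv_mul_cancel, one_mul]
  · intro q hq
    refine h _ _ _ (fun hm => hq ?_) ?_ ?_
    · rw [← q.out_eq]
      congr 1
      rw [← QuotientGroup.out_eq' q.out, QuotientGroup.eq, mul_one]
      exact M.inv_mem hm
    · exact Function.minimalPeriod_pos_of_mem_periodicPts
        (Function.Injective.mem_periodicPts (MulAction.injective _) _)
    · exact MulAction.period_dvd_orderOf _ _

/-- If `H` has prime index in `M` and is normal in `M`, and `x ∈ M \ H` is such that the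
conjugates of its powers by elements outside `M` that fall into `M` fall into `H`, then `G`
has a normal subgroup `N ≥ G'` not containing `x`; it contains `H` when all of `H` behaves
in the same way. -/
theorem exists_hom_of_single [Finite G] {H M : Subgroup G} (hn : (H.subgroupOf M).Normal)
    (hc : IsMulCommutative (M ⧸ H.subgroupOf M)) :
    ∃ N : Subgroup G, N.Normal ∧ _root_.commutator G ≤ N ∧ ∀ x ∈ M,
      (∀ (t : G) (k : ℕ), t⁻¹ * x ^ k * t ∈ M → t ∉ M → 0 < k → k ∣ orderOf x →
        t⁻¹ * x ^ k * t ∈ H) → (x ∈ N ↔ x ∈ H) := by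
  letI : CommGroup (M ⧸ H.subgroupOf M) := IsMulCommutative.instCommGroup
  refine ⟨(MonoidHom.transfer (QuotientGroup.mk' (H.subgroupOf M))).ker, inferInstance,
    Abelianization.commutator_subset_ker _, fun x hx h => ?_⟩
  have := transfer_eq_of_single (QuotientGroup.mk' (H.subgroupOf M)) ⟨x, hx⟩
    (fun t k hk ht h0 hd => (QuotientGroup.eq_one_iff _).2 (h t k hk ht h0 hd))
  rw [MonoidHom.mem_ker, this]
  exact QuotientGroup.eq_one_iff _

theorem sup_zpowers_eq_of_isCoatom {H M : Subgroup G} (hHM : H ≤ M)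
    (hmax : IsCoatom (H.subgroupOf M)) {x : G} (hxM : x ∈ M) (hxH : x ∉ H) :
    H ⊔ zpowers x = M := by
  have h1 : H.subgroupOf M < (H ⊔ zpowers x).subgroupOf M := by
    refine lt_of_le_of_ne (subgroupOf_mono M le_sup_left) fun h => hxH ?_
    have : (⟨x, hxM⟩ : M) ∈ (H ⊔ zpowers x).subgroupOf M := mem_sup_right (mem_zpowers x)
    rw [← h] at this
    exact this
  have h2 := hmax.2 _ h1
  rw [subgroupOf_eq_top] at h2
  exact le_antisymm (sup_le hHM (zpowers_le.2 hxM)) h2

theorem isMulCommutative_quotient_of_isCoatom {M : Type*} [Group M] {H : Subgroup M} [H.Normal]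
    (hmax : IsCoatom H) : IsMulCommutative (M ⧸ H) := by
  obtain ⟨x, hx⟩ : ∃ x, x ∉ H := by
    by_contra h
    push Not at h
    exact hmax.1 (eq_top_iff.2 fun y _ => h y)
  have h1 : H ⊔ zpowers x = ⊤ := hmax.2 _ (lt_of_le_of_ne le_sup_left fun h =>
    hx (h ▸ mem_sup_right (mem_zpowers x)))
  have : IsCyclic (M ⧸ H) := by
    refine ⟨⟨QuotientGroup.mk x, fun k => ?_⟩⟩
    obtain ⟨g, rfl⟩ := QuotientGroup.mk_surjective k
    have hg : g ∈ H ⊔ zpowers x := h1 ▸ mem_top g
    obtain ⟨m, hm, y, hy, rfl⟩ := mem_sup_of_normal_left.1 hg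
    obtain ⟨j, rfl⟩ := mem_zpowers_iff.1 hy
    refine ⟨j, ?_⟩
    simp [(QuotientGroup.eq_one_iff m).2 hm]
  infer_instance

end Cfsg.Agent.Loc
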